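import Cfsg.Agent.Lib.helper24.CharKer
import Cfsg.Agent.Lib.helper24.CharGallagher2
import Cfsg.Agent.Lib.helper24.CharMisc
import Cfsg.Agent.Lib.helper24.CharComplete
import Cfsg.Agent.Lib.helper24.CharNormal
import Cfsg.Agent.Lib.helper24.UniqueNL
import Cfsg.Agent.Lib.helper1.Fitting
import Cfsg.Agent.Lib.helper1.Solv

/-! Isaacs 12.19 / 12.20: characters of larger degree and smaller kernel, via a maximal
subgroup containing the normalizer of a Sylow subgroup. -/

namespace Cfsg.Agent.Lib.helper24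

open Cfsg
open scoped ComplexConjugate
open scoped Pointwise

universe u

set_option autoImplicit false

section GarrisonChar

variable {G : Type u} [Group G] [Finite G]

/-- If `G = K H` with `K` in the kernel of `χ`, the restriction of `χ` to `H` is irreducible. -/
theorem restrict_irr_of_sup_top (χ : IrrCharacter G) (K : Subgroup G) [K.Normal]
    (hK : K ≤ irrKer χ) (H : Subgroup G) (hKH : K ⊔ H = ⊤) :
    IsIrrCharacter H (fun h : H => χ.1 h) := by
  obtain ⟨ψ, hψ⟩ := (irrInfl_range' K χ).mpr hK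
  have hsurj : Function.Surjective ((QuotientGroup.mk' K).comp H.subtype) := by
    intro q
    obtain ⟨g, rfl⟩ := QuotientGroup.mk_surjective q
    have hg : g ∈ ((K ⊔ H : Subgroup G) : Set G) := by rw [hKH]; trivial
    rw [Subgroup.normal_mul, Set.mem_mul] at hg
    obtain ⟨k, hk, h, hh, rfl⟩ := hg
    refine ⟨⟨h, hh⟩, ?_⟩
    show (QuotientGroup.mk' K) h = (QuotientGroup.mk' K) (k * h)
    have hk1 : (QuotientGroup.mk' K) k = 1 := (QuotientGroup.eq_one_iff k).mpr hk
    rw [map_mul, hk1, one_mul]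
  have h1 := isIrrCharacter_comp_surjective ((QuotientGroup.mk' K).comp H.subtype) hsurj ψ.2
  have h2 : (fun h : H => χ.1 h) = ψ.1 ∘ ((QuotientGroup.mk' K).comp H.subtype) := by
    funext h
    rw [← hψ, irrInfl_apply]
    rfl
  rw [h2]
  exact h1

open ComplexOrder in
/-- A kernel element of a character lies in the kernel of each irreducible constituent. -/
theorem constituent_ker_of_character [Fintype G] {F : G → ℂ} (hF : IsCharacter G F)
    (θ : IrrCharacter G) (h : classInner F θ.1 ≠ 0) (u : G) (hu : F u = F 1) :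
    θ.1 u = θ.1 1 := by
  classical
  haveI := Fintype.ofFinite (IrrCharacter G)
  have hFc : IsClassFunction G F := isCharacter_conj_class hF
  choose n hn using fun ψ : IrrCharacter G => isCharacter_inner_irr_nat hF ψ
  have hexp := classFunction_expansion_apply hFc
  have h1 := hexp u
  have h2 := hexp 1
  have h3 : ∑ ψ : IrrCharacter G, (n ψ : ℝ) * ((ψ.1 1).re - (ψ.1 u).re) = 0 := by
    have h4 : F 1 - F u = 0 := by rw [hu]; simp
    rw [h1, h2, ← Finset.sum_sub_distrib] at h4
    have h5 := congrArg Complex.re h4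
    rw [Complex.re_sum, Complex.zero_re] at h5
    rw [← h5]
    apply Finset.sum_congr rfl
    intro ψ _
    rw [hn ψ]
    simp
    ring
  have hnonneg : ∀ ψ ∈ (Finset.univ : Finset (IrrCharacter G)),
      0 ≤ (n ψ : ℝ) * ((ψ.1 1).re - (ψ.1 u).re) := by
    intro ψ _
    apply mul_nonneg (Nat.cast_nonneg _)
    have h6 := isCharacter_norm_le (isCharacter_of_isIrrCharacter ψ.2) u
    have h7 := Complex.re_le_norm (ψ.1 u)
    linarith
  have h8 := (Finset.sum_eq_zero_iff_of_nonneg hnonneg).mp h3 θ (Finset.mem_univ _)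
  have hnθ : (n θ : ℝ) ≠ 0 := by
    intro h0
    apply h
    rw [hn θ]
    have : n θ = 0 := by exact_mod_cast h0
    rw [this]
    simp
  have h9 : (θ.1 1).re = (θ.1 u).re := by
    rcases mul_eq_zero.mp h8 with h0 | h0
    · exact absurd h0 hnθ
    · linarith
  have h10 := isCharacter_norm_le (isCharacter_of_isIrrCharacter θ.2) u
  rw [h9] at h10
  have h11 : (θ.1 u).re = ‖θ.1 u‖ := le_antisymm (Complex.re_le_norm _) h10
  have h12 : (0 : ℂ) ≤ θ.1 u := Complex.re_eq_norm.mp h11
  have h13 : (θ.1 u).im = 0 := (Complex.nonneg_iff.mp h12).2.symm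
  have h14 : (θ.1 1).im = 0 := by
    rw [(irr_degree_facts3 θ).2.2]
    simp
  exact Complex.ext h9.symm (by rw [h13, h14])

/-- Degree of a character is at least multiplicity times degree of a constituent. -/
theorem mult_mul_degree_le [Fintype G] {F : G → ℂ} (hF : IsCharacter G F) (θ : IrrCharacter G)
    (a d : ℕ) (ha : classInner F θ.1 = a) (hd : F 1 = d) : a * charDegree θ.1 ≤ d := by
  classical
  haveI := Fintype.ofFinite (IrrCharacter G)
  have hFc : IsClassFunction G F := isCharacter_conj_class hF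
  choose n hn using fun ψ : IrrCharacter G => isCharacter_inner_irr_nat hF ψ
  have h2 := classFunction_expansion_apply hFc 1
  have h3 : (d : ℂ) = ((∑ ψ : IrrCharacter G, n ψ * charDegree ψ.1 : ℕ) : ℂ) := by
    rw [← hd, h2]
    push_cast
    apply Finset.sum_congr rfl
    intro ψ _
    rw [hn ψ, (irr_degree_facts3 ψ).2.2]
  have h4 : d = ∑ ψ : IrrCharacter G, n ψ * charDegree ψ.1 := by exact_mod_cast h3
  have h5 : n θ = a := by
    have := (hn θ).symm.trans ha
    exact_mod_cast this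
  rw [h4, ← h5]
  exact Finset.single_le_sum (f := fun ψ : IrrCharacter G => n ψ * charDegree ψ.1)
    (fun _ _ => Nat.zero_le _) (Finset.mem_univ θ)

/-- The character core: a maximal subgroup `H` with `G = K H` and a non-vanishing element of
`H` outside the core of `H` give a character of larger degree and smaller kernel. -/
theorem exists_larger_degree_of_coatom (χ : IrrCharacter G) (K : Subgroup G) [K.Normal]
    (hK : ∀ g, g ∈ K ↔ χ.1 g = χ.1 1) (H : Subgroup G) (hH : IsCoatom H) (hKH : K ⊔ H = ⊤)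
    (h₀ : G) (hh₀ : h₀ ∈ H) (hχ0 : χ.1 h₀ ≠ 0) (g₀ : G) (hg₀ : g₀⁻¹ * h₀ * g₀ ∉ H) :
    ∃ ψ : IrrCharacter G, charDegree χ.1 < charDegree ψ.1 ∧ irrKer ψ < K := by
  classical
  haveI : Fintype G := Fintype.ofFinite G
  haveI : Fintype H := Fintype.ofFinite H
  haveI : Fintype (IrrCharacter G) := Fintype.ofFinite _
  have hKker : K ≤ irrKer χ := fun g hg => (mem_irrKer χ g).mpr ((hK g).mp hg)
  set χH : IrrCharacter H := ⟨fun h : H => χ.1 h, restrict_irr_of_sup_top χ K hKker H hKH⟩
    with hχH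
  obtain ⟨-, hd0, hd⟩ := irr_degree_facts3 χ
  set d := charDegree χ.1 with hd_def
  have hdH : charDegree χH.1 = d := by
    have h1 := (irr_degree_facts3 χH).2.2
    have h2 : χH.1 1 = χ.1 1 := rfl
    rw [h2, hd] at h1
    exact_mod_cast h1.symm
  set Ξ : G → ℂ := indFun H χH.1 with hΞ
  have hΞchar : IsCharacter G Ξ := isCharacter_indFun H (isCharacter_of_isIrrCharacter χH.2)
  have hΞcl : IsClassFunction G Ξ := indFun_isClassFunction H χH.1
  choose a ha using fun ψ : IrrCharacter G => isCharacter_inner_irr_nat hΞchar ψ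
  have hfrob : ∀ ψ : IrrCharacter G, classInner (fun h : H => ψ.1 h) χH.1 = a ψ := by
    intro ψ
    have h1 := frobenius_reciprocity H χH.1 (isClassFunction_irr ψ)
    rw [classInner_conj_symm, ← h1]
    show conj (classInner Ξ ψ.1) = _
    rw [ha ψ]
    simp
  have hstep3 : ∀ ψ : IrrCharacter G, a ψ * d ≤ charDegree ψ.1 := by
    intro ψ
    have h1 := mult_mul_degree_le (isCharacter_restrict H (isCharacter_of_isIrrCharacter ψ.2))
      χH (a ψ) (charDegree ψ.1) (hfrob ψ) ((irr_degree_facts3 ψ).2.2)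
    rwa [hdH] at h1
  have hex : ∃ ψ : IrrCharacter G, a ψ ≠ 0 ∧ d < charDegree ψ.1 := by
    by_contra hcon
    push Not at hcon
    have h01 : ∀ ψ : IrrCharacter G, a ψ ≠ 0 → a ψ = 1 ∧ charDegree ψ.1 = d := by
      intro ψ hψ
      have h1 := hstep3 ψ
      have h2 := hcon ψ hψ
      have h3 : a ψ * d ≤ d := h1.trans h2
      have hdpos : 0 < d := Nat.pos_of_ne_zero hd0
      have h4 : a ψ ≤ 1 := by
        by_contra h5
        push Not at h5
        have : 2 * d ≤ a ψ * d := Nat.mul_le_mul_right d h5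
        omega
      have h5 : a ψ = 1 := by omega
      refine ⟨h5, le_antisymm h2 ?_⟩
      rw [h5, one_mul] at h1
      exact h1
    have hexp := classFunction_expansion hΞcl
    have hsum1 : (H.index : ℂ) * d = ∑ ψ : IrrCharacter G, (a ψ : ℂ) * d := by
      have h1 := classFunction_expansion_apply hΞcl 1
      have h2 : Ξ 1 = (H.index : ℂ) * d := by
        rw [hΞ, indFun_one]
        congr 1
      rw [← h2, h1]
      apply Finset.sum_congr rfl
      intro ψ _
      rw [ha ψ]
      by_cases hψ : a ψ = 0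
      · rw [hψ]; simp
      · rw [(irr_degree_facts3 ψ).2.2, (h01 ψ hψ).2]
    have hsumA : (H.index : ℂ) = ∑ ψ : IrrCharacter G, (a ψ : ℂ) := by
      rw [← Finset.sum_mul] at hsum1
      have hd0' : (d : ℂ) ≠ 0 := Nat.cast_ne_zero.mpr hd0
      exact mul_right_cancel₀ hd0' hsum1
    have hnorm : classInner Ξ Ξ = (H.index : ℂ) := by
      have h0 : classInner Ξ Ξ
          = classInner Ξ (∑ ψ : IrrCharacter G, classInner Ξ ψ.1 • ψ.1) := congrArg _ hexp
      rw [h0, classInner_sum_right, hsumA]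
      apply Finset.sum_congr rfl
      intro ψ _
      rw [classInner_smul_right, ha ψ]
      by_cases hψ : a ψ = 0
      · rw [hψ]; simp
      · rw [(h01 ψ hψ).1]; simp
    -- the second computation
    let c : G → ℕ := fun g => (Finset.univ.filter (fun x : G => x⁻¹ * g * x ∈ H)).card
    have hπ : ∀ g : G, indFun H (fun _ : H => (1 : ℂ)) g = (Nat.card H : ℂ)⁻¹ * (c g : ℂ) := by
      intro g
      unfold indFun
      congr 1
      show _ = (((Finset.univ.filter (fun x : G => x⁻¹ * g * x ∈ H)).card : ℕ) : ℂ)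
      rw [Finset.card_filter]
      push_cast
      apply Finset.sum_congr rfl
      intro x _
      by_cases hx : x⁻¹ * g * x ∈ H
      · rw [extendByZero_apply_mem H _ hx, if_pos hx]
      · rw [extendByZero_apply_not_mem H _ hx, if_neg hx]
    have hΞπ : Ξ = indFun H (fun _ : H => (1 : ℂ)) * χ.1 := by
      have h0 : ((fun _ : H => (1 : ℂ)) * fun h : H => χ.1 h) = χH.1 := by
        funext h
        show (1 : ℂ) * χ.1 h = χ.1 h
        rw [one_mul]
      rw [← indFun_mul_restrict H (fun _ => 1) (isClassFunction_irr χ), h0]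
    have hterm : ∀ h : H, χH.1 h * conj (Ξ h)
        = (Nat.card H : ℂ)⁻¹ * (((c h : ℝ) * Complex.normSq (χ.1 h) : ℝ) : ℂ) := by
      intro h
      rw [hΞπ]
      show χ.1 h * conj (indFun H (fun _ : H => (1 : ℂ)) h * χ.1 h) = _
      rw [hπ, map_mul, map_mul, map_inv₀, Complex.conj_natCast, Complex.conj_natCast]
      push_cast
      rw [← Complex.mul_conj]
      ring
    have hS : (∑ h : H, Complex.normSq (χ.1 h) : ℝ) = (Nat.card H : ℝ) := by
      have h1 := irr_inner_self χH
      unfold classInner at h1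
      have h2 : ∑ h : H, χH.1 h * conj (χH.1 h)
          = ((∑ h : H, Complex.normSq (χ.1 h) : ℝ) : ℂ) := by
        push_cast
        apply Finset.sum_congr rfl
        intro h _
        exact Complex.mul_conj _
      rw [h2] at h1
      have hH0 : (Nat.card H : ℂ) ≠ 0 := Nat.cast_ne_zero.mpr Nat.card_pos.ne'
      have h3 : ((∑ h : H, Complex.normSq (χ.1 h) : ℝ) : ℂ) = (Nat.card H : ℂ) := by
        field_simp at h1
        exact h1
      exact_mod_cast h3
    have hT : (∑ h : H, (c h : ℝ) * Complex.normSq (χ.1 h) : ℝ)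
        = (Nat.card G : ℝ) * (Nat.card H : ℝ) := by
      have h1 := hnorm
      rw [frobenius_reciprocity H χH.1 hΞcl] at h1
      unfold classInner at h1
      rw [Finset.sum_congr rfl (fun h _ => hterm h), ← Finset.mul_sum] at h1
      have hH0 : (Nat.card H : ℂ) ≠ 0 := Nat.cast_ne_zero.mpr Nat.card_pos.ne'
      have h3 : ((∑ h : H, (c h : ℝ) * Complex.normSq (χ.1 h) : ℝ) : ℂ)
          = (Nat.card G : ℂ) * (Nat.card H : ℂ) := by
        rw [← H.card_mul_index]
        push_cast
        push_cast at h1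
        field_simp at h1
        rw [h1]
        ring
      exact_mod_cast h3
    have hcle : ∀ g : G, c g ≤ Nat.card G := by
      intro g
      rw [Nat.card_eq_fintype_card]
      exact Finset.card_le_univ _
    have hzero : ∑ h : H, ((Nat.card G : ℝ) - (c h : ℝ)) * Complex.normSq (χ.1 h) = 0 := by
      have h1 : ∑ h : H, ((Nat.card G : ℝ) - (c h : ℝ)) * Complex.normSq (χ.1 h)
          = (Nat.card G : ℝ) * ∑ h : H, Complex.normSq (χ.1 h)
            - ∑ h : H, (c h : ℝ) * Complex.normSq (χ.1 h) := by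
        rw [Finset.mul_sum, ← Finset.sum_sub_distrib]
        apply Finset.sum_congr rfl
        intro h _
        ring
      rw [h1, hS, hT]
      ring
    have hnn : ∀ h ∈ (Finset.univ : Finset H),
        0 ≤ ((Nat.card G : ℝ) - (c h : ℝ)) * Complex.normSq (χ.1 h) := by
      intro h _
      apply mul_nonneg _ (Complex.normSq_nonneg _)
      have := hcle (h : G)
      have h2 : (c (h : G) : ℝ) ≤ (Nat.card G : ℝ) := by exact_mod_cast this
      linarith
    have h0 := (Finset.sum_eq_zero_iff_of_nonneg hnn).mp hzero ⟨h₀, hh₀⟩ (Finset.mem_univ _)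
    have hns : Complex.normSq (χ.1 h₀) ≠ 0 := fun h => hχ0 (Complex.normSq_eq_zero.mp h)
    have hc0 : (c h₀ : ℝ) = (Nat.card G : ℝ) := by
      rcases mul_eq_zero.mp h0 with h1 | h1
      · have h2 : (Nat.card G : ℝ) - (c h₀ : ℝ) = 0 := h1
        linarith
      · exact absurd h1 hns
    have hc1 : c h₀ = Fintype.card G := by
      rw [← Nat.card_eq_fintype_card]
      exact_mod_cast hc0
    have huniv : Finset.univ.filter (fun x : G => x⁻¹ * h₀ * x ∈ H) = Finset.univ :=
      Finset.eq_univ_of_card _ hc1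
    have hmem : g₀ ∈ Finset.univ.filter (fun x : G => x⁻¹ * h₀ * x ∈ H) := by
      rw [huniv]; exact Finset.mem_univ _
    exact hg₀ (Finset.mem_filter.mp hmem).2
  obtain ⟨ψ, hψa, hψd⟩ := hex
  refine ⟨ψ, hψd, ?_⟩
  have hcon : classInner (fun h : H => ψ.1 h) χH.1 ≠ 0 := by
    rw [hfrob]; exact_mod_cast hψa
  have hZH : irrKer ψ ≤ H := by
    by_contra hnot
    have hlt : H < irrKer ψ ⊔ H :=
      lt_of_le_of_ne le_sup_right (fun heq => hnot (heq ▸ le_sup_left))
    have htop : irrKer ψ ⊔ H = ⊤ := hH.2 _ hlt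
    have hirr := restrict_irr_of_sup_top ψ (irrKer ψ) le_rfl H htop
    have h1 := classInner_irr_fun hirr χH.2
    rw [h1] at hcon
    have heq : (fun h : H => ψ.1 h) = χH.1 := by
      by_contra hne
      rw [if_neg hne] at hcon
      exact hcon rfl
    have h2 := congrFun heq 1
    have h3 : ψ.1 ((1 : H) : G) = χ.1 ((1 : H) : G) := h2
    rw [Subgroup.coe_one, (irr_degree_facts3 ψ).2.2, hd] at h3
    have h4 : charDegree ψ.1 = d := by exact_mod_cast h3
    omega
  have hZK : irrKer ψ ≤ K := by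
    intro z hz
    have hzH := hZH hz
    have h1 := constituent_ker_of_character
      (isCharacter_restrict H (isCharacter_of_isIrrCharacter ψ.2)) χH hcon ⟨z, hzH⟩ (by
        show ψ.1 z = ψ.1 ((1 : H) : G)
        rw [Subgroup.coe_one]
        exact (mem_irrKer ψ z).mp hz)
    exact (hK z).mpr h1
  refine lt_of_le_of_ne hZK (fun heq => ?_)
  have h1 : K ≤ H := heq ▸ hZH
  have h2 : K ⊔ H = H := sup_eq_right.mpr h1
  exact hH.1 (h2 ▸ hKH)

end GarrisonChar

section GarrisonGroup

variable {G : Type u} [Group G] [Finite G]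

/-- Frattini-type lemma: a subgroup `H` containing the normalizer of a Sylow subgroup `P` of
`X`, and containing a normal subgroup `D ≥ P` of `G`, contains `X`. -/
theorem le_of_normalizer_sylow_le (X : Subgroup G) (p : ℕ) [Fact p.Prime] (P : Sylow p ↥X)
    (H : Subgroup G)
    (hNH : Subgroup.normalizer (((P : Subgroup X).map X.subtype : Subgroup G) : Set G) ≤ H)
    (D : Subgroup G) [hD : D.Normal] (hPD : (P : Subgroup X).map X.subtype ≤ D) (hDH : D ≤ H) :
    X ≤ H := by
  haveI : (D.subgroupOf X).Normal := hD.subgroupOf X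
  have hPC : (P : Subgroup X) ≤ D.subgroupOf X := by
    intro y hy
    rw [Subgroup.mem_subgroupOf]
    exact hPD (Subgroup.mem_map_of_mem _ hy)
  let P' : Sylow p ↥(D.subgroupOf X) := P.subtype hPC
  have hfr := Sylow.normalizer_sup_eq_top P'
  have hmap : ((P' : Subgroup (D.subgroupOf X)).map (D.subgroupOf X).subtype)
      = (P : Subgroup X) := by
    rw [Sylow.coe_subtype]
    exact Subgroup.map_subgroupOf_eq_of_le hPC
  rw [hmap] at hfr
  have h1 : Subgroup.normalizer ((P : Subgroup X) : Set X) ≤ H.subgroupOf X := by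
    intro y hy
    rw [Subgroup.mem_subgroupOf]
    apply hNH
    exact Subgroup.le_normalizer_map X.subtype (Subgroup.mem_map_of_mem X.subtype hy)
  have h2 : D.subgroupOf X ≤ H.subgroupOf X := fun y hy => hDH hy
  have h3 : H.subgroupOf X = ⊤ := top_le_iff.mp (hfr ▸ sup_le h1 h2)
  exact Subgroup.subgroupOf_eq_top.mp h3

/-- Case 1: the kernel is not nilpotent. -/
theorem exists_larger_of_not_nilpotent (χ : IrrCharacter G) (K : Subgroup G) [hKn : K.Normal]
    (hK : ∀ g, g ∈ K ↔ χ.1 g = χ.1 1) (hnil : ¬ Group.IsNilpotent K) :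
    ∃ ψ : IrrCharacter G, charDegree χ.1 < charDegree ψ.1 ∧ irrKer ψ < K := by
  classical
  have h1 : ¬ ∀ (p : ℕ) (_hp : Fact p.Prime) (P : Sylow p K), (P : Subgroup K).Normal :=
    fun h => hnil (((Group.isNilpotent_of_finite_tfae (G := K)).out 0 3).mpr h)
  push Not at h1
  obtain ⟨p, hp, P, hPn⟩ := h1
  set PG : Subgroup G := (P : Subgroup K).map K.subtype with hPG
  have hne : Subgroup.normalizer (PG : Set G) ≠ ⊤ := by
    intro h
    have hn : PG.Normal := Subgroup.normalizer_eq_top_iff.mp h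
    apply hPn
    have h2 : (P : Subgroup K) = PG.subgroupOf K := by
      rw [hPG]
      ext y
      rw [Subgroup.mem_subgroupOf]
      constructor
      · intro hy
        exact Subgroup.mem_map_of_mem _ hy
      · intro hy
        obtain ⟨x, hx, hxy⟩ := Subgroup.mem_map.mp hy
        have : x = y := Subtype.ext hxy
        rw [← this]
        exact hx
    rw [h2]
    exact hn.subgroupOf K
  obtain ⟨H, hH, hNH⟩ := (eq_top_or_exists_le_coatom _).resolve_left hne
  have hKH : K ⊔ H = ⊤ := by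
    have hfr := Sylow.normalizer_sup_eq_top P
    rw [eq_top_iff, ← hfr]
    exact sup_le (hNH.trans le_sup_right) le_sup_left
  have hex : ∃ h₀ ∈ K ⊓ H, ∃ g₀ : G, g₀⁻¹ * h₀ * g₀ ∉ H := by
    by_contra hcon
    push Not at hcon
    have hPD : PG ≤ K ⊓ H.normalCore := by
      intro y hy
      have hyK : y ∈ K := by
        rw [hPG] at hy
        obtain ⟨x, _, rfl⟩ := Subgroup.mem_map.mp hy
        exact x.2
      have hyH : y ∈ H := hNH (Subgroup.le_normalizer hy)
      refine ⟨hyK, fun b => ?_⟩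
      have := hcon y ⟨hyK, hyH⟩ b⁻¹
      simpa using this
    have hXH := le_of_normalizer_sylow_le K p P H hNH (K ⊓ H.normalCore) hPD
      (inf_le_right.trans H.normalCore_le)
    have h2 : K ⊔ H = H := sup_eq_right.mpr hXH
    exact hH.1 (h2 ▸ hKH)
  obtain ⟨h₀, hh₀, g₀, hg₀⟩ := hex
  have hχ0 : χ.1 h₀ ≠ 0 := by
    rw [(hK h₀).mp hh₀.1, (irr_degree_facts3 χ).2.2]
    exact Nat.cast_ne_zero.mpr (irr_degree_facts3 χ).2.1
  exact exists_larger_degree_of_coatom χ K hK H hH hKH h₀ hh₀.2 hχ0 g₀ hg₀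

/-- A nontrivial solvable finite group has a nontrivial normal `q`-subgroup. -/
theorem exists_normal_pgroup_of_solvable (Q : Type u) [Group Q] [Finite Q]
    [Group.IsSolvable Q] [Nontrivial Q] :
    ∃ (q : ℕ) (_ : q.Prime) (A : Subgroup Q), A.Normal ∧ A ≠ ⊥ ∧ IsPGroup q A := by
  have hF : fittingSubgroup Q ≠ ⊥ := by
    intro h
    have h1 := Cfsg.Agent.Lib.helper1.centralizer_fitting_le Q
    rw [h] at h1
    obtain ⟨x, hx⟩ := exists_ne (1 : Q)
    apply hx
    apply Subgroup.mem_bot.mp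
    apply h1
    rw [Subgroup.mem_centralizer_iff]
    intro y hy
    have hy1 : y = 1 := Subgroup.mem_bot.mp hy
    rw [hy1]
    simp
  rw [Cfsg.Agent.Lib.helper1.fitting_eq_iSup_pCore] at hF
  have hex : ∃ p : Nat.Primes, pCore (p : ℕ) Q ≠ ⊥ := by
    by_contra hcon
    push Not at hcon
    apply hF
    simp [hcon]
  obtain ⟨p, hp⟩ := hex
  exact ⟨p, p.2, pCore p Q, Cfsg.Agent.Lib.helper1.pCore_normal p Q, hp,
    Cfsg.Agent.Lib.helper1.pCore_isPGroup p Q⟩

theorem exists_minimal_pgroup_over (K : Subgroup G) [K.Normal]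
    (hsolv : Group.IsSolvable (G ⧸ K)) (hK : K ≠ ⊤) :
    ∃ (q : ℕ) (_ : q.Prime) (M : Subgroup G), M.Normal ∧ K < M ∧
      (∀ x ∈ M, ∃ j : ℕ, x ^ (q ^ j) ∈ K) ∧
      ∀ M' : Subgroup G, M'.Normal → K < M' → M' ≤ M → M' = M := by
  haveI : Nontrivial (G ⧸ K) := by
    obtain ⟨g, hg⟩ : ∃ g, g ∉ K := by
      by_contra h
      push Not at h
      exact hK (eq_top_iff.mpr (fun x _ => h x))
    exact ⟨⟨(g : G ⧸ K), 1, fun h => hg ((QuotientGroup.eq_one_iff g).mp h)⟩⟩
  obtain ⟨q, hq, A, hAn, hA, hAq⟩ := exists_normal_pgroup_of_solvable (G ⧸ K)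
  let 𝒮 : Set (Subgroup G) := {M | M.Normal ∧ K < M ∧ ∀ x ∈ M, ∃ j : ℕ, x ^ (q ^ j) ∈ K}
  have hne : 𝒮.Nonempty := by
    refine ⟨A.comap (QuotientGroup.mk' K), hAn.comap _, ?_, ?_⟩
    · refine lt_of_le_of_ne ?_ ?_
      · intro k hk
        rw [Subgroup.mem_comap]
        have hk1 : (QuotientGroup.mk' K) k = 1 := (QuotientGroup.eq_one_iff k).mpr hk
        rw [hk1]
        exact A.one_mem
      · intro heq
        apply hA
        rw [eq_bot_iff]
        intro a ha
        obtain ⟨g, rfl⟩ := QuotientGroup.mk_surjective a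
        have hg : g ∈ A.comap (QuotientGroup.mk' K) := ha
        rw [← heq] at hg
        exact Subgroup.mem_bot.mpr ((QuotientGroup.eq_one_iff g).mpr hg)
    · intro x hx
      obtain ⟨j, hj⟩ := hAq ⟨(QuotientGroup.mk' K) x, hx⟩
      refine ⟨j, ?_⟩
      have h1 : ((QuotientGroup.mk' K) x) ^ (q ^ j) = 1 := by
        have := congrArg Subtype.val hj
        simpa using this
      rw [← map_pow] at h1
      exact (QuotientGroup.eq_one_iff _).mp h1
  obtain ⟨M, hM, hmin⟩ := WellFounded.has_min (wellFounded_lt (α := Subgroup G)) 𝒮 hne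
  refine ⟨q, hq, M, hM.1, hM.2.1, hM.2.2, fun M' hM'n hKM' hM'M => ?_⟩
  by_contra hne'
  exact hmin M' ⟨hM'n, hKM', fun x hx => hM.2.2 x (hM'M hx)⟩ (lt_of_le_of_ne hM'M hne')

theorem exists_nonvanishing_off_kernel (χ : IrrCharacter G) (K M : Subgroup G) [M.Normal]
    (hK : ∀ g, g ∈ K ↔ χ.1 g = χ.1 1) (hKM : K < M) : ∃ x ∈ M, x ∉ K ∧ χ.1 x ≠ 0 := by
  classical
  haveI : Fintype G := Fintype.ofFinite G
  haveI : Fintype M := Fintype.ofFinite M
  by_contra hcon
  push Not at hcon
  have hsum : ∑ m : M, χ.1 m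
      = ((Finset.univ.filter (fun m : M => (m : G) ∈ K)).card : ℂ) * χ.1 1 := by
    rw [← Finset.sum_filter_add_sum_filter_not Finset.univ (fun m : M => (m : G) ∈ K)]
    have e1 : ∑ m ∈ Finset.univ.filter (fun m : M => (m : G) ∈ K), χ.1 (m : G)
        = ((Finset.univ.filter (fun m : M => (m : G) ∈ K)).card : ℂ) * χ.1 1 := by
      have e0 : ∀ m ∈ Finset.univ.filter (fun m : M => (m : G) ∈ K),
          χ.1 (m : G) = χ.1 1 := fun m hm => (hK m).mp (Finset.mem_filter.mp hm).2
      rw [Finset.sum_congr rfl e0, Finset.sum_const, nsmul_eq_mul]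
    have e2 : ∑ m ∈ Finset.univ.filter (fun m : M => ¬ (m : G) ∈ K), χ.1 (m : G) = 0 :=
      Finset.sum_eq_zero (fun m hm => hcon m m.2 (Finset.mem_filter.mp hm).2)
    rw [e1, e2, add_zero]
  have hpos : ((Finset.univ.filter (fun m : M => (m : G) ∈ K)).card : ℂ) ≠ 0 := by
    apply Nat.cast_ne_zero.mpr
    apply Finset.card_ne_zero.mpr
    exact ⟨1, Finset.mem_filter.mpr ⟨Finset.mem_univ _, K.one_mem⟩⟩
  have hχ1 : χ.1 1 ≠ 0 := by
    rw [(irr_degree_facts3 χ).2.2]
    exact Nat.cast_ne_zero.mpr (irr_degree_facts3 χ).2.1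
  have hne : classInner (indFun M (fun _ : M => (1 : ℂ))) χ.1 ≠ 0 := by
    rw [frobenius_reciprocity M _ (isClassFunction_irr χ)]
    unfold classInner
    simp only [one_mul]
    rw [← map_sum, hsum]
    apply mul_ne_zero (inv_ne_zero (Nat.cast_ne_zero.mpr Nat.card_pos.ne'))
    rw [map_ne_zero]
    exact mul_ne_zero hpos hχ1
  have hall := (inner_indFun_one_ne_zero_iff M χ).mp hne
  exact (not_le_of_gt hKM) (fun m hm => (hK m).mpr (hall m hm))

/-- Case 2: the kernel is the Fitting subgroup, with solvable nontrivial quotient. -/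
theorem exists_larger_of_fitting (χ : IrrCharacter G) (K : Subgroup G) [hKn : K.Normal]
    (hK : ∀ g, g ∈ K ↔ χ.1 g = χ.1 1) (hKF : K = fittingSubgroup G)
    (hsolv : Group.IsSolvable (G ⧸ K)) (hKtop : K ≠ ⊤) :
    ∃ ψ : IrrCharacter G, charDegree χ.1 < charDegree ψ.1 ∧ irrKer ψ < K := by
  classical
  haveI : Fintype G := Fintype.ofFinite G
  obtain ⟨q, hq, M, hMn, hKM, hMq, hMmin⟩ := exists_minimal_pgroup_over K hsolv hKtop
  haveI : Fact q.Prime := ⟨hq⟩
  haveI := hMn
  obtain Q : Sylow q ↥M := default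
  set QG : Subgroup G := (Q : Subgroup M).map M.subtype with hQG
  have hMKQ : M ≤ K ⊔ QG := by
    have hidx : ((K.subgroupOf M) ⊔ (Q : Subgroup M)).index = 1 := by
      have h1 : ((K.subgroupOf M) ⊔ (Q : Subgroup M)).index ∣ (Q : Subgroup M).index :=
        Subgroup.index_dvd_of_le le_sup_right
      have h2 : ((K.subgroupOf M) ⊔ (Q : Subgroup M)).index ∣ (K.subgroupOf M).index :=
        Subgroup.index_dvd_of_le le_sup_left
      have h4 : ¬ q ∣ (Q : Subgroup M).index := Q.not_dvd_index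
      haveI : (K.subgroupOf M).Normal := hKn.subgroupOf M
      have hpg : IsPGroup q (↥M ⧸ K.subgroupOf M) := by
        intro y
        obtain ⟨x, rfl⟩ := QuotientGroup.mk_surjective y
        obtain ⟨j, hj⟩ := hMq x x.2
        refine ⟨j, ?_⟩
        rw [← QuotientGroup.mk_pow, QuotientGroup.eq_one_iff, Subgroup.mem_subgroupOf]
        simpa using hj
      obtain ⟨n, hn⟩ := IsPGroup.iff_card.mp hpg
      have h5 : (K.subgroupOf M).index = q ^ n := by
        rw [Subgroup.index_eq_card]; exact hn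
      rw [h5] at h2
      obtain ⟨j, hj, hje⟩ := (Nat.dvd_prime_pow hq).mp h2
      rcases Nat.eq_zero_or_pos j with rfl | hjpos
      · simpa using hje
      · exact absurd ((hje ▸ dvd_pow_self q hjpos.ne').trans h1) h4
    have htop : (K.subgroupOf M) ⊔ (Q : Subgroup M) = ⊤ := Subgroup.index_eq_one.mp hidx
    intro x hx
    have h1 : (⟨x, hx⟩ : M) ∈ (K.subgroupOf M) ⊔ (Q : Subgroup M) := by rw [htop]; trivial
    have h2 : x ∈ ((K.subgroupOf M) ⊔ (Q : Subgroup M)).map M.subtype := ⟨⟨x, hx⟩, h1, rfl⟩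
    rw [Subgroup.map_sup] at h2
    have h3 : (K.subgroupOf M).map M.subtype ≤ K := by
      intro y hy
      obtain ⟨z, hz, rfl⟩ := Subgroup.mem_map.mp hy
      exact Subgroup.mem_subgroupOf.mp hz
    exact (sup_le_sup h3 le_rfl) h2
  have hQn : ¬ QG.Normal := by
    intro hn
    have hnil : Group.IsNilpotent ↥QG := (Q.isPGroup'.map M.subtype).isNilpotent
    have h1 : QG ≤ K := hKF ▸ Cfsg.Agent.Lib.helper1.le_fitting hn hnil
    have h2 : M ≤ K := hMKQ.trans (sup_le le_rfl h1)
    exact (not_le_of_gt hKM) h2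
  have hne : Subgroup.normalizer (QG : Set G) ≠ ⊤ :=
    fun h => hQn (Subgroup.normalizer_eq_top_iff.mp h)
  obtain ⟨H, hH, hNH⟩ := (eq_top_or_exists_le_coatom _).resolve_left hne
  have hQH : QG ≤ H := Subgroup.le_normalizer.trans hNH
  have hKH : K ⊔ H = ⊤ := by
    have hfr := Sylow.normalizer_sup_eq_top Q
    rw [eq_top_iff, ← hfr]
    exact sup_le (hNH.trans le_sup_right)
      (hMKQ.trans (sup_le le_sup_left (hQH.trans le_sup_right)))
  have hex : ∃ h₀ ∈ H, χ.1 h₀ ≠ 0 ∧ ∃ g₀ : G, g₀⁻¹ * h₀ * g₀ ∉ H := by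
    by_contra hcon
    push Not at hcon
    have hcore : ∀ h ∈ H, χ.1 h ≠ 0 → h ∈ H.normalCore := by
      intro h hh hχ b
      have := hcon h hh hχ b⁻¹
      simpa using this
    have hχ1 : χ.1 1 ≠ 0 := by
      rw [(irr_degree_facts3 χ).2.2]
      exact Nat.cast_ne_zero.mpr (irr_degree_facts3 χ).2.1
    set D : Subgroup G := H.normalCore ⊓ M with hD
    have hKHD : K ⊓ H ≤ D := by
      intro k hk
      exact ⟨hcore k hk.2 (by rw [(hK k).mp hk.1]; exact hχ1), hKM.le hk.1⟩
    obtain ⟨x, hxM, hxK, hχx⟩ := exists_nonvanishing_off_kernel χ K M hK hKM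
    have hx : x ∈ ((K ⊔ H : Subgroup G) : Set G) := by rw [hKH]; trivial
    rw [Subgroup.normal_mul, Set.mem_mul] at hx
    obtain ⟨k, hk, h, hh, rfl⟩ := hx
    have hhM : h ∈ M := by
      have h1 : h = k⁻¹ * (k * h) := by group
      rw [h1]
      exact M.mul_mem (M.inv_mem (hKM.le hk)) hxM
    have hhK : h ∉ K := fun hhK => hxK (K.mul_mem hk hhK)
    have hχh : χ.1 h ≠ 0 := by
      rw [← irr_mul_of_mem_ker χ.2 ((hK k).mp hk) h]
      exact hχx
    have hhD : h ∈ D := ⟨hcore h hh hχh, hhM⟩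
    have hKD : K ⊔ D = M := by
      apply hMmin (K ⊔ D) inferInstance
      · exact lt_of_le_of_ne le_sup_left
          (fun heq => hhK (heq ▸ (le_sup_right : D ≤ K ⊔ D) hhD))
      · exact sup_le hKM.le inf_le_right
    have hQD : QG ≤ D := by
      intro y hy
      have hyM : y ∈ ((K ⊔ D : Subgroup G) : Set G) := by
        rw [hKD]
        exact (Subgroup.map_subtype_le _) hy
      rw [Subgroup.normal_mul, Set.mem_mul] at hyM
      obtain ⟨k, hk, d, hd, rfl⟩ := hyM
      have hkH : k ∈ H := by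
        have h1 : k = (k * d) * d⁻¹ := by group
        rw [h1]
        exact H.mul_mem (hQH hy) (H.inv_mem (H.normalCore_le hd.1))
      exact D.mul_mem (hKHD ⟨hk, hkH⟩) hd
    have hMH := le_of_normalizer_sylow_le M q Q H hNH D hQD
      (inf_le_left.trans H.normalCore_le)
    have h2 : K ⊔ H = H := sup_eq_right.mpr (hKM.le.trans hMH)
    exact hH.1 (h2 ▸ hKH)
  obtain ⟨h₀, hh₀, hχ0, g₀, hg₀⟩ := hex
  exact exists_larger_degree_of_coatom χ K hK H hH hKH h₀ hh₀ hχ0 g₀ hg₀

/-- Isaacs 12.19 and 12.20 (S4461). -/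
theorem larger_degree_smaller_kernel (χ : IrrCharacter G) (K : Subgroup G) [K.Normal] (hK : (∀ g : G, g ∈ K ↔ (χ : G → ℂ) g = (χ : G → ℂ) 1)) (h : ¬ K ≤ fittingSubgroup G ∨ (K = fittingSubgroup G ∧ Group.IsSolvable (G ⧸ K) ∧ K ≠ ⊤)) : ∃ ψ : IrrCharacter G, charDegree (χ : G → ℂ) < charDegree (ψ : G → ℂ) ∧ ∃ L : Subgroup G, (∀ g : G, g ∈ L ↔ (ψ : G → ℂ) g = (ψ : G → ℂ) 1) ∧ L < K := by
  have key : ∃ ψ : IrrCharacter G, charDegree χ.1 < charDegree ψ.1 ∧ irrKer ψ < K := by
    rcases h with h1 | ⟨h2, hsolv, hne⟩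
    · apply exists_larger_of_not_nilpotent χ K hK
      intro hnil
      exact h1 (Cfsg.Agent.Lib.helper1.le_fitting inferInstance hnil)
    · exact exists_larger_of_fitting χ K hK h2 hsolv hne
  obtain ⟨ψ, hψ, hker⟩ := key
  exact ⟨ψ, hψ, irrKer ψ, fun g => mem_irrKer ψ g, hker⟩

end GarrisonGroup

end Cfsg.Agent.Lib.helper24
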