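import Cfsg.Agent.Lib.helper24.CharBrauer7
import Cfsg.Agent.Lib.helper24.CharGallagher
import Cfsg.Agent.Lib.helper24.CharComplete
import Cfsg.Agent.Lib.helper24.CharDet
import Cfsg.Agent.Lib.helper23.CharInt
import Cfsg.Prelude.Def_Blocks

set_option autoImplicit false

namespace Cfsg.Agent.Lib.helper24
open Cfsg
open scoped ComplexConjugate

universe u

/-- class function whose coefficients on the irreducible characters are algebraic integers -/
def IsAlgComb (G : Type u) [Group G] [Fintype G] (f : G → ℂ) : Prop :=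
  IsClassFunction G f ∧ ∀ χ : IrrCharacter G, classInner f χ.1 ∈ AlgInt

theorem isAlgComb_of_isCharacter {G : Type u} [Group G] [Fintype G] {f : G → ℂ}
    (hf : IsCharacter G f) : IsAlgComb G f :=
  ⟨isCharacter_conj_class hf, fun χ => by
    obtain ⟨n, hn⟩ := isCharacter_inner_irr_nat hf χ
    rw [hn]; exact natCast_mem _ n⟩

theorem IsAlgComb.smul {G : Type u} [Group G] [Fintype G] {f : G → ℂ} (hf : IsAlgComb G f)
    {c : ℂ} (hc : c ∈ AlgInt) : IsAlgComb G (c • f) :=
  ⟨isClassFunction_smul c hf.1, fun χ => by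
    rw [classInner_smul_left]; exact Subalgebra.mul_mem _ hc (hf.2 χ)⟩

theorem isAlgComb_list_sum {G : Type u} [Group G] [Fintype G] (l : List (G → ℂ))
    (h : ∀ f ∈ l, IsAlgComb G f) : IsAlgComb G l.sum := by
  induction l with
  | nil =>
    refine ⟨isClassFunction_zero, fun χ => ?_⟩
    rw [List.sum_nil, classInner_zero_left]; exact Subalgebra.zero_mem _
  | cons a l ih =>
    rw [List.sum_cons]
    have ha := h a (List.mem_cons_self)
    have hl := ih (fun f hf => h f (List.mem_cons_of_mem _ hf))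
    exact ⟨isClassFunction_add ha.1 hl.1, fun χ => by
      rw [classInner_add_left]; exact Subalgebra.add_mem _ (ha.2 χ) (hl.2 χ)⟩

theorem IsAlgComb.mul_character {G : Type u} [Group G] [Fintype G] {f lam : G → ℂ}
    (hf : IsAlgComb G f) (hl : IsCharacter G lam) : IsAlgComb G (f * lam) := by
  classical
  haveI : Fintype (IrrCharacter G) := Fintype.ofFinite _
  refine ⟨isClassFunction_mul hf.1 (isCharacter_conj_class hl), fun ν => ?_⟩
  have h1 : f * lam = ∑ μ : IrrCharacter G, classInner f μ.1 • (μ.1 * lam) := by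
    conv_lhs => rw [classFunction_expansion hf.1]
    rw [Finset.sum_mul]
    refine Finset.sum_congr rfl (fun μ _ => ?_)
    rw [smul_mul_assoc]
  rw [h1, classInner_sum_left]
  refine Subalgebra.sum_mem _ (fun μ _ => ?_)
  rw [classInner_smul_left]
  refine Subalgebra.mul_mem _ (hf.2 μ) ?_
  obtain ⟨n, hn⟩ := isCharacter_inner_irr_nat
    (isCharacter_mul (isCharacter_of_isIrrCharacter μ.2) hl) ν
  rw [hn]; exact natCast_mem _ n

theorem IsAlgComb.indFun {G : Type u} [Group G] [Fintype G] (E : Subgroup G) [Fintype E]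
    {f : E → ℂ}
    (hf : IsAlgComb E f) : IsAlgComb G (indFun E f) := by
  classical
  haveI : Fintype (IrrCharacter E) := Fintype.ofFinite _
  refine ⟨indFun_isClassFunction E f, fun χ => ?_⟩
  rw [frobenius_reciprocity E f (isClassFunction_irr χ)]
  have hres : IsCharacter E (fun e : E => χ.1 e) := isCharacter_restrict E (isCharacter_irr χ)
  rw [classFunction_expansion (isCharacter_conj_class hres), classInner_sum_right]
  refine Subalgebra.sum_mem _ (fun μ _ => ?_)
  rw [classInner_smul_right]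
  obtain ⟨n, hn⟩ := isCharacter_inner_irr_nat hres μ
  rw [hn]
  refine Subalgebra.mul_mem _ ?_ (hf.2 μ)
  rw [Complex.conj_natCast]; exact natCast_mem _ n

theorem IsAlgComb.comp {E B : Type u} [Group E] [Fintype E] [Group B] [Fintype B] (π : E →* B)
    {f : B → ℂ} (hf : IsAlgComb B f) : IsAlgComb E (f ∘ π) := by
  classical
  haveI : Fintype (IrrCharacter B) := Fintype.ofFinite _
  refine ⟨fun g h => ?_, fun ν => ?_⟩
  · show f (π (h * g * h⁻¹)) = f (π g)
    rw [map_mul, map_mul, map_inv]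
    exact hf.1 (π g) (π h)
  have h1 : f ∘ π = ∑ μ : IrrCharacter B, classInner f μ.1 • (μ.1 ∘ π) := by
    conv_lhs => rw [classFunction_expansion hf.1]
    funext x
    simp [Finset.sum_apply]
  rw [h1, classInner_sum_left]
  refine Subalgebra.sum_mem _ (fun μ _ => ?_)
  rw [classInner_smul_left]
  refine Subalgebra.mul_mem _ (hf.2 μ) ?_
  obtain ⟨n, hn⟩ := isCharacter_inner_irr_nat
    (isCharacter_comp π (isCharacter_of_isIrrCharacter μ.2)) ν
  rw [hn]; exact natCast_mem _ n

/-- Brauer's characterisation with algebraic-integer coefficients -/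
theorem algComb_of_elementary {G : Type u} [Group G] [Fintype G] (ϑ : G → ℂ)
    (hcl : IsClassFunction G ϑ)
    (hE : ∀ (E : Subgroup G) [Fintype E] (p : ℕ), p.Prime → IsElementary p E →
      IsAlgComb E (fun e : E => ϑ e)) : IsAlgComb G ϑ := by
  classical
  obtain ⟨l, hl, h1⟩ := brauer_induction (fun _ : G => (1 : ℂ)) isCharacter_trivial
  have h2 : ϑ = (l.map fun t => (t.2.2 : ℂ) •
      indFun t.1 ((fun e : t.1 => ϑ e) * fun e : t.1 => (t.2.1 e : ℂ))).sum := by
    have h3 : ϑ = (fun _ : G => (1 : ℂ)) * ϑ := by funext x; simp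
    conv_lhs => rw [h3, h1, ← List.sum_map_mul_right]
    congr 1
    refine List.map_congr_left (fun t _ => ?_)
    rw [smul_mul_assoc, ← indFun_mul_restrict t.1 _ hcl, mul_comm]
  rw [h2]
  apply isAlgComb_list_sum
  intro f hf
  obtain ⟨t, ht, rfl⟩ := List.mem_map.1 hf
  obtain ⟨p, hp, hel⟩ := hl t ht
  exact (IsAlgComb.indFun t.1 ((hE t.1 p hp hel).mul_character
    (isCharacter_of_hom_linear t.2.1).1)).smul (intCast_mem _ _)

/-- in a finite nilpotent group the `π'`-part power map is multiplicative -/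
theorem pow_mul_of_nilpotent {E : Type*} [Group E] [Finite E] (hnil : Group.IsNilpotent E)
    (m n k : ℕ) (hcop : Nat.Coprime m n) (hcard : Nat.card E ∣ m * n) (hkm : m ∣ k)
    (hkn : k ≡ 1 [MOD n]) (x y : E) : (x * y) ^ k = x ^ k * y ^ k := by
  obtain ⟨e⟩ := ((Group.isNilpotent_of_finite_tfae (G := E)).out 0 4).1 hnil
  have key : ∀ a b : (∀ p : (Nat.card E).primeFactors, ∀ P : Sylow p E, (↑P : Subgroup E)),
      (a * b) ^ k = a ^ k * b ^ k := by
    intro a b
    funext p P
    haveI : Fact (p : ℕ).Prime := ⟨Nat.prime_of_mem_primeFactors p.2⟩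
    show (a p P * b p P) ^ k = (a p P) ^ k * (b p P) ^ k
    have hPcard : Nat.card (P : Subgroup E) ∣ m * n :=
      (Subgroup.card_subgroup_dvd_card _).trans hcard
    obtain ⟨j, hj⟩ := IsPGroup.iff_card.1 P.isPGroup'
    rw [hj] at hPcard
    by_cases hpm : (p : ℕ) ∣ m
    · have hpn : Nat.Coprime ((p : ℕ) ^ j) n :=
        Nat.Coprime.pow_left j (Nat.Coprime.coprime_dvd_left hpm hcop)
      have hdvd : (p : ℕ) ^ j ∣ k := (hpn.dvd_of_dvd_mul_right hPcard).trans hkm
      have hpow : ∀ z : (P : Subgroup E), z ^ k = 1 := by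
        intro z
        obtain ⟨c, hc⟩ := hdvd
        rw [hc, pow_mul, ← hj, pow_card_eq_one', one_pow]
      rw [hpow, hpow, hpow, one_mul]
    · have hpm' : Nat.Coprime ((p : ℕ) ^ j) m :=
        Nat.Coprime.pow_left j ((Nat.Prime.coprime_iff_not_dvd Fact.out).2 hpm)
      have hdvd : (p : ℕ) ^ j ∣ n := hpm'.dvd_of_dvd_mul_left hPcard
      have hpow : ∀ z : (P : Subgroup E), z ^ k = z := by
        intro z
        have h1 : k ≡ 1 [MOD orderOf z] :=
          (hkn.of_dvd hdvd).of_dvd (hj ▸ orderOf_dvd_natCard z)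
        exact (pow_eq_pow_iff_modEq.2 h1).trans (pow_one z)
      rw [hpow, hpow, hpow]
  have h3 := key (e.symm x) (e.symm y)
  calc (x * y) ^ k = e ((e.symm x * e.symm y) ^ k) := by simp
    _ = e ((e.symm x) ^ k * (e.symm y) ^ k) := by rw [h3]
    _ = x ^ k * y ^ k := by simp

theorem section_iff_pow {G : Type u} [Group G] [Finite G] (m n : ℕ) (hmn : Nat.card G = m * n)
    (hcop : Nat.Coprime m n) (k : ℕ) (hkm : m ∣ k) (hkn : k ≡ 1 [MOD n]) (g : G) (x : G) :
    (∃ v : G, IsConj v g ∧ (∃ u : G, x = u * v ∧ Commute u v ∧ Nat.Coprime (orderOf u) n ∧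
      Nat.Coprime (orderOf v) m)) ↔ IsConj (x ^ k) g := by
  constructor
  · rintro ⟨v, hvg, u, rfl, huv, hu, hv⟩
    have hu1 : orderOf u ∣ m :=
      hu.dvd_of_dvd_mul_right (hmn ▸ orderOf_dvd_natCard u)
    have hv1 : orderOf v ∣ n :=
      hv.dvd_of_dvd_mul_left (hmn ▸ orderOf_dvd_natCard v)
    have h1 : u ^ k = 1 := orderOf_dvd_iff_pow_eq_one.1 (hu1.trans hkm)
    have h2 : v ^ k = v := (pow_eq_pow_iff_modEq.2 (hkn.of_dvd hv1)).trans (pow_one v)
    rw [huv.mul_pow, h1, h2, one_mul]
    exact hvg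
  · intro h
    refine ⟨x ^ k, h, x * (x ^ k)⁻¹, by group, ?_, ?_, ?_⟩
    · exact ((Commute.refl x).mul_left ((Commute.refl x).pow_left k).inv_left).pow_right k
    · have h1 : (x * (x ^ k)⁻¹) ^ m = 1 := by
        have hc : Commute x (x ^ k)⁻¹ := ((Commute.refl x).pow_right k).inv_right
        rw [hc.mul_pow, inv_pow, ← pow_mul, mul_inv_eq_one]
        apply pow_eq_pow_iff_modEq.2
        have h3 : m * 1 ≡ m * k [MOD m * n] := (hkn.symm).mul_left' m
        rw [mul_one] at h3
        rw [mul_comm k m]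
        exact h3.of_dvd (hmn ▸ orderOf_dvd_natCard x)
      exact Nat.Coprime.coprime_dvd_left (orderOf_dvd_of_pow_eq_one h1) hcop
    · have h1 : (x ^ k) ^ n = 1 := by
        rw [← pow_mul]
        apply orderOf_dvd_iff_pow_eq_one.1
        exact (hmn ▸ orderOf_dvd_natCard x).trans (Nat.mul_dvd_mul_right hkm n)
      exact Nat.Coprime.coprime_dvd_left (orderOf_dvd_of_pow_eq_one h1) hcop.symm

theorem pi_prime_section_algComb {G : Type u} [Group G] [Fintype G] (m n : ℕ)
    (hmn : Nat.card G = m * n) (hcop : Nat.Coprime m n) (g : G) (ϑ : G → ℂ) (k : ℕ)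
    (hkm : m ∣ k) (hkn : k ≡ 1 [MOD n]) [DecidablePred (fun x : G => IsConj (x ^ k) g)]
    (hϑ : ∀ x, ϑ x = if IsConj (x ^ k) g then (n : ℂ) else 0) : IsAlgComb G ϑ := by
  classical
  apply algComb_of_elementary
  · intro x h
    rw [hϑ, hϑ]
    have : IsConj ((h * x * h⁻¹) ^ k) g ↔ IsConj (x ^ k) g := by
      rw [conj_pow]
      constructor
      · intro h1
        exact (isConj_iff.2 ⟨h, rfl⟩ : IsConj (x ^ k) (h * x ^ k * h⁻¹)).trans h1
      · intro h1
        exact (isConj_iff.2 ⟨h, rfl⟩ : IsConj (x ^ k) (h * x ^ k * h⁻¹)).symm.trans h1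
    simp only [this]
  · intro E _ p hp hel
    haveI : Fact p.Prime := ⟨hp⟩
    have hnil := isNilpotent_of_isElementary hel
    have hcardE : Nat.card E ∣ m * n := hmn ▸ Subgroup.card_subgroup_dvd_card E
    let π : E →* E := MonoidHom.mk' (fun x => x ^ k)
      (pow_mul_of_nilpotent hnil m n k hcop hcardE hkm hkn)
    have hBn : ∀ b ∈ π.range, b ^ n = 1 := by
      rintro _ ⟨x, rfl⟩
      show (x ^ k) ^ n = 1
      rw [← pow_mul]
      apply orderOf_dvd_iff_pow_eq_one.1
      exact ((orderOf_dvd_natCard x).trans hcardE).trans (Nat.mul_dvd_mul_right hkm n)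
    have hBcard : Nat.card π.range ∣ n := by
      have h1 : Nat.card π.range ∣ m * n := (Subgroup.card_subgroup_dvd_card _).trans hcardE
      have h2 : Nat.Coprime (Nat.card π.range) m := by
        by_contra hnc
        obtain ⟨r, hr, hr1, hr2⟩ := Nat.Prime.not_coprime_iff_dvd.1 hnc
        haveI : Fact r.Prime := ⟨hr⟩
        obtain ⟨b, hb⟩ := exists_prime_orderOf_dvd_card' r hr1
        have h3 : b ^ n = 1 := by
          have := hBn b b.2
          exact Subtype.ext (by simpa using this)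
        have h4 : r ∣ n := hb ▸ orderOf_dvd_of_pow_eq_one h3
        have h5 : Nat.Coprime r n := Nat.Coprime.coprime_dvd_left hr2 hcop
        exact hr.one_lt.ne' (Nat.Coprime.eq_one_of_dvd h5 h4)
      exact h2.dvd_of_dvd_mul_left h1
    obtain ⟨q, hq⟩ := hBcard
    let ψ : π.range → ℂ := fun b => if IsConj (((b : E) : G)) g then (n : ℂ) else 0
    have hψ : IsAlgComb π.range ψ := by
      refine ⟨fun b h => ?_, fun β => ?_⟩
      · show (if IsConj ((((h * b * h⁻¹ : π.range) : E) : G)) g then (n : ℂ) else 0)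
          = if IsConj (((b : E) : G)) g then (n : ℂ) else 0
        have : IsConj ((((h * b * h⁻¹ : π.range) : E) : G)) g ↔ IsConj (((b : E) : G)) g := by
          have h0 : ((((h * b * h⁻¹ : π.range) : E) : G))
              = ((h : E) : G) * ((b : E) : G) * (((h : E) : G))⁻¹ := by simp
          rw [h0]
          constructor
          · intro h1
            exact (isConj_iff.2 ⟨_, rfl⟩ : IsConj (((b : E) : G)) _).trans h1
          · intro h1
            exact (isConj_iff.2 ⟨_, rfl⟩ : IsConj (((b : E) : G)) _).symm.trans h1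
        simp only [this]
      · unfold classInner
        rw [Finset.mul_sum]
        refine Subalgebra.sum_mem _ (fun b _ => ?_)
        have hcB : (Nat.card π.range : ℂ) ≠ 0 := by exact_mod_cast Nat.card_pos.ne'
        have h1 : (Nat.card π.range : ℂ)⁻¹ * (ψ b * conj (β.1 b))
            = (if IsConj (((b : E) : G)) g then (q : ℂ) else 0) * conj (β.1 b) := by
          show (Nat.card π.range : ℂ)⁻¹ * ((if IsConj (((b : E) : G)) g then (n : ℂ) else 0)
            * conj (β.1 b)) = _
          split_ifs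
          · rw [hq]; push_cast; field_simp
          · simp
        rw [h1]
        refine Subalgebra.mul_mem _ ?_ ?_
        · split_ifs
          · exact natCast_mem _ q
          · exact Subalgebra.zero_mem _
        · exact map_isIntegral_int (starRingEnd ℂ)
            (Cfsg.Agent.Lib.helper23.isCharacter_isIntegral (isCharacter_irr β) b)
    have heq : (fun e : E => ϑ e) = ψ ∘ π.rangeRestrict := by
      funext e
      show ϑ e = if IsConj ((((π.rangeRestrict e : π.range) : E) : G)) g then (n : ℂ) else 0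
      rw [hϑ]
      have : (((π.rangeRestrict e : π.range) : E) : G) = (e : G) ^ k := by
        show ((e ^ k : E) : G) = (e : G) ^ k
        simp
      rw [this]
      by_cases hc : IsConj ((e : G) ^ k) g
      · rw [if_pos hc, if_pos hc]
      · rw [if_neg hc, if_neg hc]
    rw [heq]
    exact hψ.comp π.rangeRestrict

theorem pi_prime_section_statement {G : Type u} [Group G] [Fintype G] (m n : ℕ)
    (hmn : Nat.card G = m * n) (hcop : Nat.Coprime m n) (g : G) (ϑ : G → ℂ)
    (hϑ1 : ∀ x : G, (∃ v : G, IsConj v g ∧ (∃ u : G, x = u * v ∧ Commute u v ∧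
      Nat.Coprime (orderOf u) n ∧ Nat.Coprime (orderOf v) m)) → ϑ x = n)
    (hϑ0 : ∀ x : G, (¬ ∃ v : G, IsConj v g ∧ (∃ u : G, x = u * v ∧ Commute u v ∧
      Nat.Coprime (orderOf u) n ∧ Nat.Coprime (orderOf v) m)) → ϑ x = 0) :
    ∃ c : IrrCharacter G → ℂ, (∀ χ, c χ ∈ AlgInt) ∧
      ϑ = ∑ᶠ χ : IrrCharacter G, c χ • (χ : G → ℂ) := by
  classical
  obtain ⟨k, hk0, hk1⟩ := Nat.chineseRemainder hcop 0 1
  have hkm : m ∣ k := (Nat.modEq_zero_iff_dvd).1 hk0
  have hϑ : ∀ x, ϑ x = if IsConj (x ^ k) g then (n : ℂ) else 0 := by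
    intro x
    by_cases h : IsConj (x ^ k) g
    · rw [if_pos h]; exact hϑ1 x ((section_iff_pow m n hmn hcop k hkm hk1 g x).2 h)
    · rw [if_neg h]
      exact hϑ0 x (fun h' => h ((section_iff_pow m n hmn hcop k hkm hk1 g x).1 h'))
  have hA := pi_prime_section_algComb m n hmn hcop g ϑ k hkm hk1 hϑ
  exact ⟨fun χ => classInner ϑ χ.1, hA.2, classFunction_expansion_finsum hA.1⟩

end Cfsg.Agent.Lib.helper24
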