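import Cfsg.Agent.Lib.helper24.CharBrauer9

set_option autoImplicit false
namespace Cfsg.Agent.Lib.helper24
open Cfsg
open Cfsg.Agent.Lib.helper23

universe u

theorem sum_pow_prime_pow_algInt {p : ℕ} (hp : p.Prime) (n : ℕ) {ι : Type*} (s : Finset ι)
    (f : ι → AlgInt) :
    ∃ γ : AlgInt, (∑ i ∈ s, f i) ^ (p ^ n) = ∑ i ∈ s, (f i) ^ (p ^ n) + (p : AlgInt) * γ := by
  classical
  induction s using Finset.induction_on with
  | empty =>
    refine ⟨0, ?_⟩
    rw [Finset.sum_empty, Finset.sum_empty, zero_pow (pow_pos hp.pos n).ne']; simp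
  | insert i s hi ih =>
    obtain ⟨γ, hγ⟩ := ih
    obtain ⟨r, hr⟩ := exists_add_pow_prime_pow_eq hp (f i) (∑ j ∈ s, f j) n
    refine ⟨γ + f i * (∑ j ∈ s, f j) * r, ?_⟩
    rw [Finset.sum_insert hi, Finset.sum_insert hi, hr, hγ]; ring

theorem char_pow_sub_of_ppart {G : Type u} [Group G] [Finite G] {p : ℕ} (hp : p.Prime)
    {χ : G → ℂ} (hχ : IsCharacter G χ) (a w : G) (hc : Commute a w)
    (e : ℕ) (ha : a ^ (p ^ e) = 1) :
    ∃ γ : AlgInt, χ (a * w) ^ (p ^ e) - χ w ^ (p ^ e) = (p : ℂ) * (γ : ℂ) := by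
  classical
  haveI : Fintype G := Fintype.ofFinite G
  let A : Subgroup G := Subgroup.closure ({a, w} : Set G)
  have hcommS : ∀ x ∈ ({a, w} : Set G), ∀ y ∈ ({a, w} : Set G), x * y = y * x := by
    rintro x (rfl | rfl) y (rfl | rfl)
    · rfl
    · exact hc.eq
    · exact hc.eq.symm
    · rfl
  have hcomm : ∀ u v : A, u * v = v * u := (Subgroup.closureCommGroupOfComm hcommS).mul_comm
  have haA : a ∈ A := Subgroup.subset_closure (by simp)
  have hwA : w ∈ A := Subgroup.subset_closure (by simp)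
  haveI : Fintype (IrrCharacter A) := Fintype.ofFinite _
  have hres : IsCharacter A (fun z : A => χ z) := isCharacter_restrict A hχ
  have hexp := classFunction_expansion_apply (isCharacter_conj_class hres)
  have h1 : χ (a * w) = ∑ lam : IrrCharacter A, classInner (fun z : A => χ z) lam.1 *
        lam.1 ⟨a * w, A.mul_mem haA hwA⟩ := hexp ⟨a * w, A.mul_mem haA hwA⟩
  have h2 : χ w = ∑ lam : IrrCharacter A, classInner (fun z : A => χ z) lam.1 *
        lam.1 ⟨w, hwA⟩ := hexp ⟨w, hwA⟩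
  have hm : ∀ lam : IrrCharacter A, ∃ n : ℕ, classInner (fun z : A => χ z) lam.1 = n :=
    fun lam => isCharacter_inner_irr_nat hres lam
  choose m hm using hm
  have hint : ∀ (lam : IrrCharacter A) (z : A), IsIntegral ℤ (lam.1 z) :=
    fun lam z => isCharacter_isIntegral (isCharacter_irr lam) _
  let f1 : IrrCharacter A → AlgInt := fun lam =>
    (m lam : AlgInt) * ⟨lam.1 ⟨a * w, A.mul_mem haA hwA⟩, hint _ _⟩
  let f2 : IrrCharacter A → AlgInt := fun lam =>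
    (m lam : AlgInt) * ⟨lam.1 ⟨w, hwA⟩, hint _ _⟩
  have e1 : χ (a * w) = ((∑ lam, f1 lam : AlgInt) : ℂ) := by
    rw [h1]; push_cast; apply Finset.sum_congr rfl; intro lam _; rw [hm]; simp [f1]
  have e2 : χ w = ((∑ lam, f2 lam : AlgInt) : ℂ) := by
    rw [h2]; push_cast; apply Finset.sum_congr rfl; intro lam _; rw [hm]; simp [f2]
  have hcenter : Subgroup.center A = ⊤ :=
    (Subgroup.eq_top_iff' _).2 (fun z => Subgroup.mem_center_iff.2 (fun v => hcomm v z))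
  have key : ∀ lam, f1 lam ^ (p ^ e) = f2 lam ^ (p ^ e) := by
    intro lam
    have hlin : lam.1 1 = 1 := by
      apply irr_linear_of_commutator_le_ker lam.2
      intro k hk
      rw [(commutator_eq_bot_iff_center_eq_top A).2 hcenter, Subgroup.mem_bot] at hk
      rw [hk]
    obtain ⟨μ, hμ⟩ := exists_hom_of_linear (isCharacter_of_isIrrCharacter lam.2) hlin
    have hmul : lam.1 ⟨a * w, A.mul_mem haA hwA⟩ = lam.1 ⟨a, haA⟩ * lam.1 ⟨w, hwA⟩ := by
      rw [hμ, hμ, hμ, ← Units.val_mul, ← map_mul]; rfl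
    have ha' : lam.1 ⟨a, haA⟩ ^ (p ^ e) = 1 := by
      rw [hμ, ← Units.val_pow_eq_pow_val, ← map_pow]
      have : (⟨a, haA⟩ : A) ^ (p ^ e) = 1 := Subtype.ext (by simpa using ha)
      rw [this, map_one, Units.val_one]
    apply Subtype.ext
    show (((m lam : AlgInt) * ⟨lam.1 ⟨a * w, A.mul_mem haA hwA⟩, hint _ _⟩ : AlgInt) ^ (p ^ e) : AlgInt).1
      = (((m lam : AlgInt) * ⟨lam.1 ⟨w, hwA⟩, hint _ _⟩ : AlgInt) ^ (p ^ e) : AlgInt).1
    push_cast
    rw [hmul, mul_pow, mul_pow, mul_pow, ha', one_mul]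
  obtain ⟨γ1, hγ1⟩ := sum_pow_prime_pow_algInt hp e Finset.univ f1
  obtain ⟨γ2, hγ2⟩ := sum_pow_prime_pow_algInt hp e Finset.univ f2
  refine ⟨γ1 - γ2, ?_⟩
  have hγ1' := congrArg (fun z : AlgInt => (z : ℂ)) hγ1
  have hγ2' := congrArg (fun z : AlgInt => (z : ℂ)) hγ2
  simp only [Finset.sum_congr rfl (fun lam _ => key lam)] at hγ1'
  rw [e1, e2]
  push_cast at hγ1' hγ2' ⊢
  rw [hγ1', hγ2']
  ring

theorem p_regular_conj_iff_pow {G : Type u} [Group G] [Finite G] (p : ℕ) [Fact p.Prime]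
    (x y x' y' : G)
    (hx : (∃ k : ℕ, orderOf (x * x'⁻¹) = p ^ k) ∧ Commute (x * x'⁻¹) x' ∧ ¬ p ∣ orderOf x')
    (hy : (∃ k : ℕ, orderOf (y * y'⁻¹) = p ^ k) ∧ Commute (y * y'⁻¹) y' ∧ ¬ p ∣ orderOf y') :
    IsConj x' y' ↔ ∀ χ : Cfsg.IrrCharacter G, ∃ γ : Cfsg.AlgInt,
      (χ : G → ℂ) x ^ (p ^ (Nat.card G).factorization p)
        - (χ : G → ℂ) y ^ (p ^ (Nat.card G).factorization p) = (p : ℂ) * (γ : ℂ) := by
  classical
  have hp : p.Prime := Fact.out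
  set e := (Nat.card G).factorization p with he
  have hpow : ∀ z z' : G, (∃ k : ℕ, orderOf (z * z'⁻¹) = p ^ k) → (z * z'⁻¹) ^ (p ^ e) = 1 := by
    rintro z z' ⟨k, hk⟩
    have h1 : p ^ k ∣ Nat.card G := hk ▸ orderOf_dvd_natCard _
    have h2 : k ≤ e := (hp.pow_dvd_iff_le_factorization (Nat.card_pos (α := G)).ne').1 h1
    have h3 : orderOf (z * z'⁻¹) ∣ p ^ e := hk ▸ pow_dvd_pow p h2
    exact orderOf_dvd_iff_pow_eq_one.1 h3
  have hcong : ∀ (z z' : G), (∃ k : ℕ, orderOf (z * z'⁻¹) = p ^ k) → Commute (z * z'⁻¹) z' →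
      ∀ χ : IrrCharacter G, ∃ γ : AlgInt, χ.1 z ^ (p ^ e) - χ.1 z' ^ (p ^ e) = (p : ℂ) * (γ : ℂ) := by
    intro z z' h1 h2 χ
    have := char_pow_sub_of_ppart hp (isCharacter_irr χ) (z * z'⁻¹) z' h2 e (hpow z z' h1)
    rwa [inv_mul_cancel_right] at this
  have hPx : IsPPart p x (x * x'⁻¹) := ⟨x', by group, hx.2.1, hx.1, hx.2.2⟩
  have hPy : IsPPart p y (y * y'⁻¹) := ⟨y', by group, hy.2.1, hy.1, hy.2.2⟩
  obtain ⟨M, hM⟩ := exists_isPModular p hp
  have hprime : M.IsPrime := hM.2.1.isPrime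
  have hne : M ≠ ⊤ := hM.2.1.ne_top
  have hiff := p_regular_conj_iff p M hM x y (x * x'⁻¹) (y * y'⁻¹) hPx hPy
  have e1 : (x * x'⁻¹)⁻¹ * x = x' := by group
  have e2 : (y * y'⁻¹)⁻¹ * y = y' := by group
  rw [e1, e2] at hiff
  constructor
  · intro hconj χ
    have h1 : χ.1 x' = χ.1 y' := by
      obtain ⟨c, hc⟩ := isConj_iff.1 hconj
      rw [← hc]; exact (isClassFunction_irr χ _ c).symm
    obtain ⟨γ1, hγ1⟩ := hcong x x' hx.1 hx.2.1 χ
    obtain ⟨γ2, hγ2⟩ := hcong y y' hy.1 hy.2.1 χ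
    refine ⟨γ1 - γ2, ?_⟩
    rw [h1] at hγ1
    push_cast
    rw [mul_sub, ← hγ1, ← hγ2]; ring
  · intro hall
    rw [hiff]
    intro χ
    obtain ⟨γ, hγ⟩ := hall χ
    have hix : IsIntegral ℤ (χ.1 x) := isCharacter_isIntegral (isCharacter_irr χ) _
    have hiy : IsIntegral ℤ (χ.1 y) := isCharacter_isIntegral (isCharacter_irr χ) _
    let u : AlgInt := ⟨χ.1 x, hix⟩
    let v : AlgInt := ⟨χ.1 y, hiy⟩
    obtain ⟨r, hr⟩ := exists_add_pow_prime_pow_eq hp (u - v) v e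
    have h3 : (u - v) ^ (p ^ e) = (p : AlgInt) * (γ - (u - v) * v * r) := by
      have h4 : u ^ (p ^ e) - v ^ (p ^ e) = (p : AlgInt) * γ := by
        apply Subtype.ext
        push_cast
        exact hγ
      have h5 : (u - v) ^ (p ^ e) = u ^ (p ^ e) - v ^ (p ^ e) - (p : AlgInt) * (u - v) * v * r := by
        have : u - v + v = u := by ring
        rw [this] at hr
        rw [hr]; ring
      rw [h5, h4]; ring
    have h6 : (u - v) ^ (p ^ e) ∈ M := by
      rw [h3]; exact M.mul_mem_right _ hM.2.2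
    have h7 : u - v ∈ M := hprime.mem_of_pow_mem _ h6
    have := memLocalIdeal_of_mem hne h7
    simpa [u, v] using this

end Cfsg.Agent.Lib.helper24
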