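import Cfsg.Agent.Lib.helper24.CharBrauer8
import Cfsg.Agent.Lib.helper24.CharChief
import Cfsg.Agent.Lib.helper23.CharMod

set_option autoImplicit false

namespace Cfsg.Agent.Lib.helper24
open Cfsg
open Cfsg.Agent.Lib.helper23
open scoped ComplexConjugate

universe u

theorem char_sub_mem_of_ppart {G : Type u} [Group G] [Finite G] {p : ℕ} {M : Ideal AlgInt}
    (hM : IsPModular p M) {χ : G → ℂ} (hχ : IsCharacter G χ) (a w : G) (hc : Commute a w)
    (j : ℕ) (ha : a ^ (p ^ j) = 1) : MemLocalIdeal M (χ (a * w) - χ w) := by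
  classical
  haveI : Fintype G := Fintype.ofFinite G
  have hprime : M.IsPrime := hM.2.1.isPrime
  have hne : M ≠ ⊤ := hM.2.1.ne_top
  let A : Subgroup G := Subgroup.closure ({a, w} : Set G)
  have hcommS : ∀ x ∈ ({a, w} : Set G), ∀ y ∈ ({a, w} : Set G), x * y = y * x := by
    rintro x (rfl | rfl) y (rfl | rfl)
    · rfl
    · exact hc.eq
    · exact hc.eq.symm
    · rfl
  have hcomm : ∀ u v : A, u * v = v * u := (Subgroup.closureCommGroupOfComm hcommS).mul_comm
  have haA : a ∈ A := Subgroup.subset_closure (by simp)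
  have hwA : w ∈ A := Subgroup.subset_closure (by simp)
  haveI : Fintype (IrrCharacter A) := Fintype.ofFinite _
  have hres : IsCharacter A (fun z : A => χ z) := isCharacter_restrict A hχ
  have hexp := classFunction_expansion_apply (isCharacter_conj_class hres)
  have h1 := hexp ⟨a * w, A.mul_mem haA hwA⟩
  have h2 := hexp ⟨w, hwA⟩
  have h3 : χ (a * w) - χ w = ∑ lam : IrrCharacter A, classInner (fun z : A => χ z) lam.1 *
      (lam.1 ⟨a * w, A.mul_mem haA hwA⟩ - lam.1 ⟨w, hwA⟩) := by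
    have h1' : χ (a * w) = ∑ lam : IrrCharacter A, classInner (fun z : A => χ z) lam.1 *
        lam.1 ⟨a * w, A.mul_mem haA hwA⟩ := h1
    have h2' : χ w = ∑ lam : IrrCharacter A, classInner (fun z : A => χ z) lam.1 *
        lam.1 ⟨w, hwA⟩ := h2
    rw [h1', h2', ← Finset.sum_sub_distrib]
    exact Finset.sum_congr rfl (fun lam _ => by ring)
  rw [h3]
  apply memLocalIdeal_sum hprime
  intro lam _
  have hcenter : Subgroup.center A = ⊤ :=
    (Subgroup.eq_top_iff' _).2 (fun z => Subgroup.mem_center_iff.2 (fun v => hcomm v z))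
  have hlin : lam.1 1 = 1 := by
    apply irr_linear_of_commutator_le_ker lam.2
    intro k hk
    rw [(commutator_eq_bot_iff_center_eq_top A).2 hcenter, Subgroup.mem_bot] at hk
    rw [hk]
  obtain ⟨μ, hμ⟩ := exists_hom_of_linear (isCharacter_of_isIrrCharacter lam.2) hlin
  have hmul : lam.1 ⟨a * w, A.mul_mem haA hwA⟩ = lam.1 ⟨a, haA⟩ * lam.1 ⟨w, hwA⟩ := by
    rw [hμ, hμ, hμ, ← Units.val_mul, ← map_mul]; rfl
  rw [hmul]
  have h4 : classInner (fun z : A => χ z) lam.1 * (lam.1 ⟨a, haA⟩ * lam.1 ⟨w, hwA⟩ - lam.1 ⟨w, hwA⟩)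
      = (classInner (fun z : A => χ z) lam.1 * lam.1 ⟨w, hwA⟩) * (lam.1 ⟨a, haA⟩ - 1) := by ring
  rw [h4]
  apply memLocalIdeal_mul_left hprime
  · apply memLocalRing_of_isIntegral hne
    obtain ⟨n, hn⟩ := isCharacter_inner_irr_nat hres lam
    rw [hn]
    exact (natCast_mem AlgInt n : (n : ℂ) ∈ AlgInt).mul
      (isCharacter_isIntegral (isCharacter_irr lam) _)
  · have hint : IsIntegral ℤ (lam.1 ⟨a, haA⟩) := isCharacter_isIntegral (isCharacter_irr lam) _
    let a' : AlgInt := ⟨lam.1 ⟨a, haA⟩, hint⟩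
    have ha' : a' ^ (p ^ j) = 1 := by
      apply Subtype.ext
      show lam.1 ⟨a, haA⟩ ^ (p ^ j) = 1
      rw [hμ, ← Units.val_pow_eq_pow_val, ← map_pow]
      have : (⟨a, haA⟩ : A) ^ (p ^ j) = 1 := Subtype.ext (by simpa using ha)
      rw [this, map_one, Units.val_one]
    have h5 := memLocalIdeal_of_mem hne (algInt_sub_one_mem_of_pow hM a' j ha')
    simpa [a'] using h5

theorem pow_eq_regular_part {G : Type u} [Group G] [Finite G] {p : ℕ} (hp : p.Prime)
    (e n' k : ℕ) (hcard : Nat.card G = p ^ e * n') (hpn : ¬ p ∣ n') (hk0 : p ^ e ∣ k)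
    (hk1 : k ≡ 1 [MOD n']) {y b : G} (hb : IsPPart p y b) : y ^ k = b⁻¹ * y := by
  obtain ⟨w, hbw, hc, ⟨j, hj⟩, hw⟩ := hb
  have hw' : b⁻¹ * y = w := by rw [← hbw]; group
  rw [hw', ← hbw, hc.mul_pow]
  have hcopn : Nat.Coprime (p ^ j) n' :=
    Nat.Coprime.pow_left j ((Nat.Prime.coprime_iff_not_dvd hp).2 hpn)
  have h1 : orderOf b ∣ p ^ e := by
    have h0 : orderOf b ∣ p ^ e * n' := hcard ▸ orderOf_dvd_natCard b
    rw [hj] at h0 ⊢
    exact hcopn.dvd_of_dvd_mul_right h0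
  have h2 : b ^ k = 1 := orderOf_dvd_iff_pow_eq_one.1 (h1.trans hk0)
  have h3 : Nat.Coprime (orderOf w) (p ^ e) :=
    Nat.Coprime.pow_right e (Nat.Coprime.symm ((Nat.Prime.coprime_iff_not_dvd hp).2 hw))
  have h4 : orderOf w ∣ n' := h3.dvd_of_dvd_mul_left (hcard ▸ orderOf_dvd_natCard w)
  have h5 : w ^ k = w := (pow_eq_pow_iff_modEq.2 (hk1.of_dvd h4)).trans (pow_one w)
  rw [h2, h5, one_mul]

theorem p_regular_conj_iff {G : Type u} [Group G] [Finite G] (p : ℕ) (M : Ideal AlgInt)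
    (hM : IsPModular p M) (x y a b : G) (ha : IsPPart p x a) (hb : IsPPart p y b) :
    IsConj (a⁻¹ * x) (b⁻¹ * y) ↔
      ∀ χ : IrrCharacter G, MemLocalIdeal M (χ.1 x - χ.1 y) := by
  classical
  haveI : Fintype G := Fintype.ofFinite G
  haveI : Fintype (IrrCharacter G) := Fintype.ofFinite _
  have hp := hM.1
  have hprime : M.IsPrime := hM.2.1.isPrime
  have hne : M ≠ ⊤ := hM.2.1.ne_top
  have hcong : ∀ (z c : G), IsPPart p z c → ∀ χ : IrrCharacter G,
      MemLocalIdeal M (χ.1 z - χ.1 (c⁻¹ * z)) := by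
    intro z c hc χ
    obtain ⟨w, hcw, hcomm, ⟨j, hj⟩, -⟩ := hc
    have hw' : c⁻¹ * z = w := by rw [← hcw]; group
    rw [hw', ← hcw]
    exact char_sub_mem_of_ppart hM (isCharacter_irr χ) c w hcomm j
      (by rw [← hj]; exact pow_orderOf_eq_one c)
  constructor
  · intro hconj χ
    have h1 : χ.1 (a⁻¹ * x) = χ.1 (b⁻¹ * y) := by
      obtain ⟨c, hc⟩ := isConj_iff.1 hconj
      rw [← hc]; exact (isClassFunction_irr χ _ c).symm
    have h2 := memLocalIdeal_sub hprime (hcong x a ha χ) (hcong y b hb χ)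
    rw [h1] at h2
    convert h2 using 1; ring
  · intro hall
    by_contra hnc
    obtain ⟨e, n', hpn, hcard⟩ :=
      Nat.exists_eq_pow_mul_and_not_dvd (Nat.card_pos (α := G)).ne' p hp.ne_one
    have hcop : Nat.Coprime (p ^ e) n' :=
      Nat.Coprime.pow_left e ((Nat.Prime.coprime_iff_not_dvd hp).2 hpn)
    obtain ⟨k, hk0, hk1⟩ := Nat.chineseRemainder hcop 0 1
    have hkm : p ^ e ∣ k := (Nat.modEq_zero_iff_dvd).1 hk0
    let ϑ : G → ℂ := fun z => if IsConj (z ^ k) (a⁻¹ * x) then (n' : ℂ) else 0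
    have hA := pi_prime_section_algComb (p ^ e) n' hcard hcop (a⁻¹ * x) ϑ k hkm hk1 (fun z => rfl)
    have hx : ϑ x = n' := by
      show (if IsConj (x ^ k) (a⁻¹ * x) then (n' : ℂ) else 0) = n'
      rw [pow_eq_regular_part hp e n' k hcard hpn hkm hk1 ha, if_pos (IsConj.refl _)]
    have hy : ϑ y = 0 := by
      show (if IsConj (y ^ k) (a⁻¹ * x) then (n' : ℂ) else 0) = 0
      rw [pow_eq_regular_part hp e n' k hcard hpn hkm hk1 hb, if_neg (fun h => hnc h.symm)]
    have h1 := classFunction_expansion_apply hA.1 x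
    have h2 := classFunction_expansion_apply hA.1 y
    have h3 : (n' : ℂ) = ∑ χ : IrrCharacter G, classInner ϑ χ.1 * (χ.1 x - χ.1 y) := by
      rw [← hx, ← sub_zero (ϑ x), ← hy, h1, h2, ← Finset.sum_sub_distrib]
      exact Finset.sum_congr rfl (fun χ _ => by ring)
    have h4 : MemLocalIdeal M (n' : ℂ) := by
      rw [h3]
      apply memLocalIdeal_sum hprime
      intro χ _
      exact memLocalIdeal_mul_left hprime (memLocalRing_of_isIntegral hne (hA.2 χ)) (hall χ)
    exact hpn ((memLocalIdeal_natCast_iff hM n').1 h4)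

end Cfsg.Agent.Lib.helper24
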