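import Cfsg.Agent.Lib.helper23.BrauerFeit2
import Cfsg.Agent.Lib.helper23.PrincipalP
import Cfsg.Agent.Lib.helper23.CharMod
import Cfsg.Agent.Lib.helper23.CharInt
import Cfsg.Agent.Lib.helper24.CharOdd
import Cfsg.Agent.Lib.helper24.CharReg
import Cfsg.Agent.Lib.helper24.CharComplete

/-! Groups of order `p^a q^b r^c` with `a ≤ 2` have nontrivial irreducible characters of
`q`-power and of `r`-power degree. -/

namespace Cfsg.Agent.Lib.helper24

open Cfsg
open scoped ComplexConjugate

universe u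

set_option autoImplicit false

section PQR

variable {G : Type u} [Group G] [Finite G]

/-- a weighted character sum `1 + r * (algebraic integer) = 0` is impossible -/
theorem no_unit_sum (r : ℕ) (hr : r.Prime) (T : Finset (IrrCharacter G)) (g : G)
    (htriv : trivIrr G ∈ T)
    (hsum : ∑ χ ∈ T, χ.1 1 * conj (χ.1 g) = 0)
    (hdiv : ∀ χ ∈ T, χ ≠ trivIrr G → r ∣ charDegree χ.1) : False := by
  classical
  rw [← Finset.add_sum_erase T _ htriv] at hsum
  rw [trivIrr_apply, trivIrr_apply, one_mul, map_one] at hsum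
  have key : ∑ χ ∈ T.erase (trivIrr G), χ.1 1 * conj (χ.1 g)
      = (r : ℂ) * ∑ χ ∈ T.erase (trivIrr G),
          (((charDegree χ.1 / r : ℕ) : ℂ)) * conj (χ.1 g) := by
    rw [Finset.mul_sum]
    apply Finset.sum_congr rfl
    intro χ hχ
    have h1 := hdiv χ (Finset.mem_of_mem_erase hχ) (Finset.ne_of_mem_erase hχ)
    rw [← charDegree_cast]
    obtain ⟨m, hm⟩ := h1
    rw [hm, Nat.mul_div_cancel_left m hr.pos]
    push_cast; ring
  rw [key] at hsum
  set S := ∑ χ ∈ T.erase (trivIrr G), (((charDegree χ.1 / r : ℕ) : ℂ)) * conj (χ.1 g) with hS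
  have hSint : IsIntegral ℤ S := by
    apply IsIntegral.sum
    intro χ _
    exact (isIntegral_natCast _).mul
      (map_isIntegral_int (starRingEnd ℂ)
        (Cfsg.Agent.Lib.helper23.isCharacter_isIntegral (isCharacter_irr χ) g))
  have hr0 : (r : ℂ) ≠ 0 := by exact_mod_cast hr.ne_zero
  have h2 : (((-1 / r : ℚ)) : ℂ) = S := by
    push_cast
    field_simp
    linear_combination -hsum
  rw [← h2] at hSint
  obtain ⟨z, hz⟩ := Cfsg.Agent.Lib.helper23.rat_of_isIntegral_complex hSint
  have hr0' : (r : ℚ) ≠ 0 := by exact_mod_cast hr.ne_zero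
  have h3 : (z : ℚ) * r = -1 := by rw [hz]; field_simp
  have h4 : z * (r : ℤ) = -1 := by exact_mod_cast h3
  have h5 : (r : ℤ) ∣ 1 := ⟨-z, by linarith⟩
  have h6 : r ∣ 1 := by exact_mod_cast h5
  exact hr.one_lt.ne' (Nat.dvd_one.mp h6)

/-- one half of the statement -/
theorem exists_qpower_degree (p q r a b c : ℕ) (hp : p.Prime) (hq : q.Prime) (hr : r.Prime)
    (hpq : p ≠ q) (hpr : p ≠ r) (hqr : q ≠ r) (ha : a ≤ 2) [Nontrivial G]
    (hG : Nat.card G = p ^ a * q ^ b * r ^ c) :
    ∃ χ : IrrCharacter G, (χ : G → ℂ) ≠ (fun _ => 1) ∧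
      ∃ k : ℕ, charDegree (χ : G → ℂ) = q ^ k := by
  classical
  haveI : Fintype G := Fintype.ofFinite G
  haveI : Fintype (IrrCharacter G) := Fintype.ofFinite _
  haveI : Fact p.Prime := ⟨hp⟩
  by_contra hcon
  push Not at hcon
  have htr : ∀ χ : IrrCharacter G, χ ≠ trivIrr G → χ.1 ≠ (fun _ => (1 : ℂ)) := by
    intro χ hχ h1
    apply hχ
    apply Subtype.ext
    rw [h1]
    funext g
    rw [trivIrr_apply]
  -- degrees
  have hdeg : ∀ χ : IrrCharacter G, χ ≠ trivIrr G → ¬ p ∣ charDegree χ.1 → r ∣ charDegree χ.1 := by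
    intro χ hχ hpd
    obtain ⟨d, hd1, hd2⟩ := irr_degree_dvd_card χ
    have hd3 : charDegree χ.1 = d := by
      have := charDegree_cast χ
      rw [hd1] at this
      exact_mod_cast this
    rw [hd3] at hpd ⊢
    rw [hG] at hd2
    by_contra hrd
    have hc1 : Nat.Coprime d (r ^ c) := (Nat.Coprime.pow_right c ((Nat.Prime.coprime_iff_not_dvd hr).mpr hrd).symm)
    have hd4 : d ∣ p ^ a * q ^ b := hc1.dvd_of_dvd_mul_right hd2
    have hc2 : Nat.Coprime d (p ^ a) := (Nat.Coprime.pow_right a ((Nat.Prime.coprime_iff_not_dvd hp).mpr hpd).symm)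
    have hd5 : d ∣ q ^ b := hc2.dvd_of_dvd_mul_left hd4
    obtain ⟨k, -, hk⟩ := (Nat.dvd_prime_pow hq).mp hd5
    exact hcon χ (htr χ hχ) k (hd3.trans hk)
  obtain ⟨g₁, hg₁⟩ := exists_ne (1 : G)
  by_cases hpG : p ∣ Nat.card G
  · -- principal block
    obtain ⟨M, hM⟩ := Cfsg.Agent.Lib.helper23.exists_isPModular p hp
    obtain ⟨g, hg⟩ := exists_prime_orderOf_dvd_card' p hpG
    have hsum := Cfsg.Agent.Lib.helper23.sum_block_degree_conj_eq_zero hM (trivIrr G) g
      (by rw [hg])
    rw [← Finset.sum_filter] at hsum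
    set B := blockOf M (trivIrr G).1 with hBdef
    have hB : IsPBlock M B := ⟨trivIrr G, rfl⟩
    have htB : trivIrr G ∈ B :=
      Cfsg.Agent.Lib.helper23.mem_blockOf_self (Cfsg.Agent.Lib.helper23.isPModular_ne_top hM) _
    have hdeg1 : charDegree (trivIrr G).1 = 1 := by
      have := charDegree_cast (trivIrr G)
      rw [trivIrr_apply] at this
      exact_mod_cast this
    have hinf : sInf ((fun χ : IrrCharacter G => (charDegree (χ : G → ℂ)).factorization p) '' B) = 0 := by
      have : (0 : ℕ) ∈ ((fun χ : IrrCharacter G => (charDegree (χ : G → ℂ)).factorization p) '' B) :=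
        ⟨trivIrr G, htB, by simp [hdeg1]⟩
      exact Nat.eq_zero_of_le_zero (Nat.sInf_le this)
    have hfacG : (Nat.card G).factorization p ≤ 2 := by
      rw [hG]
      have h1 : (p ^ a * q ^ b * r ^ c).factorization p = a := by
        have hpa : p ^ a ≠ 0 := pow_ne_zero _ hp.ne_zero
        have hqb : q ^ b ≠ 0 := pow_ne_zero _ hq.ne_zero
        have hrc : r ^ c ≠ 0 := pow_ne_zero _ hr.ne_zero
        rw [Nat.factorization_mul (mul_ne_zero hpa hqb) hrc,
          Nat.factorization_mul hpa hqb]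
        simp [Nat.factorization_pow, hp.factorization_self, Nat.factorization_eq_zero_of_not_dvd,
          (Nat.prime_dvd_prime_iff_eq hp hq).not.mpr hpq,
          (Nat.prime_dvd_prime_iff_eq hp hr).not.mpr hpr]
      rw [h1]; exact ha
    have hnp : ∀ χ ∈ B, ¬ p ∣ charDegree χ.1 := by
      intro χ hχ hpd
      have hh : blockHeight p B χ.1 = (charDegree χ.1).factorization p := by
        unfold blockHeight
        rw [hinf, Nat.sub_zero]
      have hpos : blockHeight p B χ.1 ≠ 0 := by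
        rw [hh]
        have := (hp.factorization_pos_of_dvd (charDegree_pos χ).ne' hpd)
        omega
      have h1 := Cfsg.Agent.Lib.helper23.height_pos_bound p hM B hB χ hχ hpos
      have h2 : blockDefect p B ≤ 2 := by
        unfold blockDefect
        rw [hinf, Nat.sub_zero]
        exact hfacG
      omega
    refine no_unit_sum r hr (Finset.univ.filter (fun χ => χ ∈ B)) g ?_ hsum ?_
    · simp [htB]
    · intro χ hχ hne
      have hχB : χ ∈ B := by simpa using hχ
      exact hdeg χ hne (hnp χ hχB)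
  · -- all characters
    have hsum : ∑ χ : IrrCharacter G, χ.1 1 * conj (χ.1 g₁) = 0 :=
      second_orth_of_not_isConj (G := G) (g := 1) (h := g₁)
        (by rw [isConj_one_right]; exact hg₁)
    refine no_unit_sum r hr Finset.univ g₁ (Finset.mem_univ _) hsum ?_
    intro χ _ hne
    apply hdeg χ hne
    intro hpd
    obtain ⟨d, hd1, hd2⟩ := irr_degree_dvd_card χ
    have hd3 : charDegree χ.1 = d := by
      have := charDegree_cast χ
      rw [hd1] at this
      exact_mod_cast this
    rw [hd3] at hpd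
    exact hpG (hpd.trans hd2)

/-- S4500 -/
theorem pqr_prime_power_degrees {G : Type u} [Group G] [Finite G] [Nontrivial G] (p q r a b c : ℕ) (hp : p.Prime) (hq : q.Prime) (hr : r.Prime) (hpq : p ≠ q) (hpr : p ≠ r) (hqr : q ≠ r) (ha : a ≤ 2) (hG : Nat.card G = p ^ a * q ^ b * r ^ c) : (∃ χ : IrrCharacter G, (χ : G → ℂ) ≠ (fun _ => 1) ∧ ∃ k : ℕ, charDegree (χ : G → ℂ) = q ^ k) ∧ ∃ χ : IrrCharacter G, (χ : G → ℂ) ≠ (fun _ => 1) ∧ ∃ k : ℕ, charDegree (χ : G → ℂ) = r ^ k := by
  refine ⟨exists_qpower_degree p q r a b c hp hq hr hpq hpr hqr ha hG, ?_⟩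
  exact exists_qpower_degree p r q a c b hp hr hq hpr hpq (Ne.symm hqr) ha (by rw [hG]; ring)

end PQR

end Cfsg.Agent.Lib.helper24
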