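import Cfsg.Agent.Lib.helper24.CharComplete
import Cfsg.Agent.Lib.helper24.CharVanish
import Cfsg.Agent.Lib.helper24.CharPPow
import Cfsg.Agent.Lib.helper24.CharKer
import Cfsg.Agent.Lib.helper23.Ito
import Cfsg.Agent.Lib.helper23.CharInt
import Cfsg.Agent.Lib.helper23.CharMod
import Cfsg.Agent.Lib.helper23.GaloisChar

set_option autoImplicit false

namespace Cfsg.Agent.Lib.helper24
open Cfsg
open scoped ComplexConjugate commutatorElement

universe u

theorem irr_ne_zero_on_abelian_normal_sylow {G : Type u} [Group G] [Finite G] (p : ℕ)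
    [hp : Fact p.Prime] (P : Sylow p G) [hPn : (P : Subgroup G).Normal]
    (hab : ∀ a ∈ P, ∀ b ∈ P, a * b = b * a) (χ : IrrCharacter G) (x : G) (hx : x ∈ P) :
    χ.1 x ≠ 0 := by
  obtain ⟨n, ρ, hρ, hχ⟩ := χ.2
  haveI := hρ
  have h1 := Cfsg.Agent.Lib.helper23.ito_degree_dvd_index ρ (P : Subgroup G) hab
  rw [Module.finrank_fin_fun] at h1
  have hpn : ¬ p ∣ n := fun h => P.not_dvd_index (h.trans h1)
  obtain ⟨M, hM⟩ := Cfsg.Agent.Lib.helper23.exists_isPModular p hp.out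
  obtain ⟨j, hj⟩ := P.isPGroup' ⟨x, hx⟩
  have hxj : x ^ (p ^ j) = 1 := by
    have := congrArg Subtype.val hj
    simpa using this
  obtain ⟨a, ha, haM⟩ := Cfsg.Agent.Lib.helper23.rep_char_modEq_degree hM n ρ x j hxj
  intro h0
  rw [← hχ] at h0
  rw [h0, zero_sub] at ha
  have h2 : a = -(n : AlgInt) := by
    apply Subtype.ext
    rw [ha]; push_cast; rfl
  rw [h2] at haM
  have h3 : (n : AlgInt) ∈ M := by simpa using M.neg_mem haM
  exact hpn ((Cfsg.Agent.Lib.helper23.natCast_mem_iff hM n).1 h3)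

theorem centralizer_pow_coprime {G : Type u} [Group G] [Finite G] (g : G) (k : ℕ)
    (hk : Nat.Coprime k (Nat.card G)) :
    Subgroup.centralizer ({g ^ k} : Set G) = Subgroup.centralizer ({g} : Set G) := by
  have hk' : Nat.Coprime k (orderOf g) :=
    Nat.Coprime.coprime_dvd_right (orderOf_dvd_natCard g) hk
  obtain ⟨m, hm⟩ := exists_pow_eq_self_of_coprime hk'
  ext x
  simp only [Subgroup.mem_centralizer_iff, Set.mem_singleton_iff, forall_eq]
  constructor
  · intro h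
    have h1 : Commute ((g ^ k) ^ m) x := Commute.pow_left (show Commute (g ^ k) x from h) m
    rw [hm] at h1
    exact h1.eq
  · intro h
    exact (Commute.pow_left (show Commute g x from h) k).eq

theorem card_le_sum_of_one_le_prod {ι : Type*} [Fintype ι] [Nonempty ι] (f : ι → ℝ)
    (h0 : ∀ i, 0 ≤ f i) (h1 : 1 ≤ ∏ i, f i) : (Fintype.card ι : ℝ) ≤ ∑ i, f i := by
  have hm : (0 : ℝ) < Fintype.card ι := by exact_mod_cast Fintype.card_pos
  have h := Real.geom_mean_le_arith_mean_weighted Finset.univ (fun _ : ι => (Fintype.card ι : ℝ)⁻¹) f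
    (fun i _ => inv_nonneg.2 hm.le) (by
      rw [Finset.sum_const, Finset.card_univ, nsmul_eq_mul, mul_inv_cancel₀ hm.ne'])
    (fun i _ => h0 i)
  rw [Real.finset_prod_rpow _ _ (fun i _ => h0 i), ← Finset.mul_sum] at h
  have h2 : (1 : ℝ) ≤ (∏ i, f i) ^ (Fintype.card ι : ℝ)⁻¹ :=
    Real.one_le_rpow h1 (inv_nonneg.2 hm.le)
  have h3 : (1 : ℝ) ≤ (Fintype.card ι : ℝ)⁻¹ * ∑ i, f i := h2.trans h
  rw [inv_mul_eq_div, le_div_iff₀ hm, one_mul] at h3
  exact h3

theorem card_irr_le_of_self_centralizing {G : Type u} [Group G] [Finite G] (p : ℕ)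
    [Fact p.Prime] (P : Sylow p G) [(P : Subgroup G).Normal]
    (hab : ∀ a ∈ P, ∀ b ∈ P, a * b = b * a) (g : G) (hg : g ∈ P)
    (hC : Subgroup.centralizer ({g} : Set G) = P) :
    Nat.card (IrrCharacter G) ≤ Nat.card P ∧
      (Nat.card (IrrCharacter G) = Nat.card P → commutator G ≤ P) := by
  classical
  haveI : Fintype G := Fintype.ofFinite G
  haveI : Fintype (IrrCharacter G) := Fintype.ofFinite _
  haveI : NeZero (Nat.card G) := ⟨Nat.card_pos.ne'⟩
  let F : IrrCharacter G → (ZMod (Nat.card G))ˣ → ℝ :=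
    fun χ u => ‖χ.1 (g ^ (u : ZMod (Nat.card G)).val)‖ ^ 2
  have hcol : ∀ u : (ZMod (Nat.card G))ˣ, ∑ χ : IrrCharacter G, F χ u = (Nat.card P : ℝ) := by
    intro u
    have h1 := second_orth_of_isConj (IsConj.refl (g ^ (u : ZMod (Nat.card G)).val))
    rw [centralizer_pow_coprime g _ (ZMod.val_coe_unit_coprime u), hC] at h1
    have h2 : ((∑ χ : IrrCharacter G, F χ u : ℝ) : ℂ) = ((Nat.card P : ℝ) : ℂ) := by
      push_cast
      rw [← h1]
      refine Finset.sum_congr rfl (fun χ _ => ?_)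
      rw [Complex.mul_conj, Complex.normSq_eq_norm_sq]
    exact_mod_cast h2
  have hrow : ∀ χ : IrrCharacter G,
      (Fintype.card (ZMod (Nat.card G))ˣ : ℝ) ≤ ∑ u : (ZMod (Nat.card G))ˣ, F χ u := by
    intro χ
    obtain ⟨n, ρ, hρ, hχ⟩ := χ.2
    obtain ⟨z, hz⟩ := Cfsg.Agent.Lib.helper23.prod_units_char_int ρ g
    have hz0 : z ≠ 0 := by
      rintro rfl
      rw [Int.cast_zero, Finset.prod_eq_zero_iff] at hz
      obtain ⟨u, -, hu⟩ := hz
      rw [hχ] at hu
      exact irr_ne_zero_on_abelian_normal_sylow p P hab χ _ (Subgroup.pow_mem _ hg _) hu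
    apply card_le_sum_of_one_le_prod
    · intro u; positivity
    · have h1 : ∏ u : (ZMod (Nat.card G))ˣ, F χ u = ‖(z : ℂ)‖ ^ 2 := by
        rw [← hz, norm_prod, ← Finset.prod_pow, hχ]
      rw [h1]
      have h2 : (1 : ℝ) ≤ ‖(z : ℂ)‖ := by
        rw [Complex.norm_intCast]
        exact_mod_cast Int.one_le_abs hz0
      nlinarith
  have hU : (0 : ℝ) < Fintype.card (ZMod (Nat.card G))ˣ := by exact_mod_cast Fintype.card_pos
  have htot : ∑ χ : IrrCharacter G, ∑ u : (ZMod (Nat.card G))ˣ, F χ u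
      = (Fintype.card (ZMod (Nat.card G))ˣ : ℝ) * (Nat.card P : ℝ) := by
    rw [Finset.sum_comm, Finset.sum_congr rfl (fun u _ => hcol u), Finset.sum_const,
      Finset.card_univ, nsmul_eq_mul]
  have hle : (Fintype.card (ZMod (Nat.card G))ˣ : ℝ) * (Fintype.card (IrrCharacter G) : ℝ)
      ≤ (Fintype.card (ZMod (Nat.card G))ˣ : ℝ) * (Nat.card P : ℝ) := by
    rw [← htot]
    calc (Fintype.card (ZMod (Nat.card G))ˣ : ℝ) * (Fintype.card (IrrCharacter G) : ℝ)
        = ∑ _χ : IrrCharacter G, (Fintype.card (ZMod (Nat.card G))ˣ : ℝ) := by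
          rw [Finset.sum_const, Finset.card_univ, nsmul_eq_mul, mul_comm]
      _ ≤ _ := Finset.sum_le_sum (fun χ _ => hrow χ)
  refine ⟨?_, ?_⟩
  · rw [Nat.card_eq_fintype_card (α := IrrCharacter G)]
    have := le_of_mul_le_mul_left hle hU
    exact_mod_cast this
  · intro heq
    rw [Nat.card_eq_fintype_card (α := IrrCharacter G)] at heq
    have hsumeq : ∑ _χ : IrrCharacter G, (Fintype.card (ZMod (Nat.card G))ˣ : ℝ)
        = ∑ χ : IrrCharacter G, ∑ u : (ZMod (Nat.card G))ˣ, F χ u := by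
      rw [htot, Finset.sum_const, Finset.card_univ, nsmul_eq_mul, heq, mul_comm]
    have hrow_eq := (Finset.sum_eq_sum_iff_of_le (fun χ _ => hrow χ)).1 hsumeq
    have hlin : ∀ ψ : IrrCharacter (G ⧸ (P : Subgroup G)), ψ.1 1 = 1 := by
      intro ψ
      have h1 := hrow_eq (irrInfl (P : Subgroup G) ψ) (Finset.mem_univ _)
      have h2 : ∀ u : (ZMod (Nat.card G))ˣ, F (irrInfl (P : Subgroup G) ψ) u = ‖ψ.1 1‖ ^ 2 := by
        intro u
        show ‖(irrInfl (P : Subgroup G) ψ).1 (g ^ (u : ZMod (Nat.card G)).val)‖ ^ 2 = _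
        rw [irrInfl_apply]
        have : ((g ^ (u : ZMod (Nat.card G)).val : G) : G ⧸ (P : Subgroup G)) = 1 :=
          (QuotientGroup.eq_one_iff _).2 (Subgroup.pow_mem _ hg _)
        rw [this]
      rw [Finset.sum_congr rfl (fun u _ => h2 u), Finset.sum_const, Finset.card_univ,
        nsmul_eq_mul] at h1
      have h3 : ‖ψ.1 1‖ ^ 2 = 1 := by
        exact mul_left_cancel₀ hU.ne' (show (Fintype.card (ZMod (Nat.card G))ˣ : ℝ) * ‖ψ.1 1‖ ^ 2
          = (Fintype.card (ZMod (Nat.card G))ˣ : ℝ) * 1 by rw [mul_one]; exact h1.symm)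
      have h4 : ‖ψ.1 1‖ = 1 := by
        have h5 : (0 : ℝ) ≤ ‖ψ.1 1‖ := norm_nonneg _
        nlinarith
      rw [← charDegree_cast ψ] at h4 ⊢
      rw [Complex.norm_natCast] at h4
      exact_mod_cast h4
    have hcomm := comm_of_all_linear hlin
    rw [commutator_eq_closure, Subgroup.closure_le]
    rintro _ ⟨a, b, rfl⟩
    show ⁅a, b⁆ ∈ (P : Subgroup G)
    rw [← QuotientGroup.eq_one_iff (N := (P : Subgroup G)), commutatorElement_def]
    have h1 := hcomm (a : G ⧸ (P : Subgroup G)) (b : G ⧸ (P : Subgroup G))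
    rw [QuotientGroup.mk_mul, QuotientGroup.mk_mul, QuotientGroup.mk_mul, QuotientGroup.mk_inv,
      QuotientGroup.mk_inv, h1]
    group

end Cfsg.Agent.Lib.helper24
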