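import Cfsg.Agent.Lib.helper23.InvolCount
import Cfsg.Agent.Lib.helper24.CharKer
import Cfsg.Prelude.Def_Local

set_option autoImplicit false

namespace Cfsg.Agent.Lib.helper24
open Cfsg Cfsg.Agent.Lib.helper23
open scoped ComplexConjugate

universe u

section defzero

variable {G : Type u} [Group G]

theorem sum_irr_norm_conj_eq_zero [Fintype G] [Fintype (IrrCharacter G)] (z x : G)
    (hx : ∀ u t : G, u * x * u⁻¹ ≠ t * z * t⁻¹ * z⁻¹) :
    ∑ χ : IrrCharacter G, χ.1 z * χ.1 z⁻¹ / χ.1 1 * conj (χ.1 x) = 0 := by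
  have h1 : ∀ t : G,
      ∑ χ : IrrCharacter G, χ.1 (t * z * t⁻¹ * z⁻¹) * conj (χ.1 x) = 0 := by
    intro t
    rw [second_orth_count]
    have : IsEmpty {u : G // u * x * u⁻¹ = t * z * t⁻¹ * z⁻¹} := ⟨fun u => hx u.1 t u.2⟩
    simp
  have h2 : ∑ t : G,
      ∑ χ : IrrCharacter G, χ.1 (t * z * t⁻¹ * z⁻¹) * conj (χ.1 x) = 0 :=
    Finset.sum_eq_zero (fun t _ => h1 t)
  rw [Finset.sum_comm] at h2
  have h3 : ∀ χ : IrrCharacter G,
      ∑ t : G, χ.1 (t * z * t⁻¹ * z⁻¹) * conj (χ.1 x)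
        = (Nat.card G : ℂ) * (χ.1 z * χ.1 z⁻¹ / χ.1 1 * conj (χ.1 x)) := by
    intro χ
    rw [← Finset.sum_mul, irr_sum_conj_mul]
    ring
  rw [Finset.sum_congr rfl (fun χ _ => h3 χ), ← Finset.mul_sum] at h2
  have hG : (Nat.card G : ℂ) ≠ 0 := by
    exact_mod_cast Nat.card_pos.ne'
  exact (mul_eq_zero.mp h2).resolve_left hG

theorem sum_subgroup_irr_norm [Fintype G] [Fintype (IrrCharacter G)] (z : G)
    (P : Subgroup G) [Fintype P]
    (hcl : ∀ g h : G, IsConj z g → IsConj z h → g * h⁻¹ ∈ P → g * h⁻¹ = 1) :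
    ∑ χ : IrrCharacter G, χ.1 z * χ.1 z⁻¹ / χ.1 1 * ∑ x : P, conj (χ.1 (x : G))
      = (Nat.card (Subgroup.centralizer ({z} : Set G)) : ℂ) := by
  rw [Finset.sum_congr rfl (fun χ _ => Finset.mul_sum _ _ _), Finset.sum_comm]
  rw [Finset.sum_eq_single (1 : P)]
  · have h := second_orth_of_isConj (G := G) (IsConj.refl z)
    rw [← h]
    apply Finset.sum_congr rfl
    intro χ _
    have h0 := irr_one_ne_zero χ
    rw [Subgroup.coe_one, irr_one_conj, irr_inv]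
    field_simp
  · intro x _ hx1
    apply sum_irr_norm_conj_eq_zero
    intro u t hux
    have hxP : (x : G) ∈ P := x.2
    have hx1' : (x : G) ≠ 1 := fun h => hx1 (Subtype.ext h)
    apply hx1'
    have e1 : (x : G) = (u⁻¹ * t * z * (u⁻¹ * t)⁻¹) * (u⁻¹ * z * u⁻¹⁻¹)⁻¹ := by
      have e2 : (u⁻¹ * t * z * (u⁻¹ * t)⁻¹) * (u⁻¹ * z * u⁻¹⁻¹)⁻¹
          = u⁻¹ * (t * z * t⁻¹ * z⁻¹) * u := by group
      rw [e2, ← hux]
      group
    have h3 := hcl (u⁻¹ * t * z * (u⁻¹ * t)⁻¹) (u⁻¹ * z * u⁻¹⁻¹)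
      (isConj_iff.mpr ⟨u⁻¹ * t, rfl⟩) (isConj_iff.mpr ⟨u⁻¹, rfl⟩) (by rw [← e1]; exact hxP)
    rw [e1]
    exact h3
  · intro h
    exact absurd (Finset.mem_univ _) h

theorem exists_irr_degree_dvd_of_class [Finite G] (p : ℕ) [hp : Fact p.Prime] (z : G)
    (P : Subgroup G) (c : ℕ) (hP : Nat.card P = p ^ c)
    (hcl : ∀ g h : G, IsConj z g → IsConj z h → g * h⁻¹ ∈ P → g * h⁻¹ = 1) (a : ℕ)
    (ha : (Nat.card (Subgroup.centralizer ({z} : Set G))).factorization p = a) :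
    ∃ χ : IrrCharacter G, p ^ (c - a) ∣ charDegree χ.1 := by
  classical
  have : Fintype G := Fintype.ofFinite G
  have : Fintype (IrrCharacter G) := Fintype.ofFinite _
  have : Fintype P := Fintype.ofFinite P
  by_contra hcon
  push Not at hcon
  have hca : a < c := by
    by_contra h
    push Not at h
    have h1 := hcon (trivIrr G)
    rw [Nat.sub_eq_zero_of_le h, pow_zero] at h1
    exact h1 (one_dvd _)
  obtain ⟨e, hce⟩ : ∃ e, c = a + 1 + e := ⟨c - a - 1, by omega⟩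
  set D : ℕ := ∏ χ : IrrCharacter G,
    (charDegree χ.1 / p ^ (charDegree χ.1).factorization p) with hD
  have hpD : ¬ p ∣ D := by
    rw [hD, Prime.dvd_finsetProd_iff hp.out.prime]
    push Not
    intro χ _
    exact Nat.not_dvd_ordCompl hp.out (irr_degree_facts χ).2
  have hk : ∀ χ : IrrCharacter G, charDegree χ.1 ∣ p ^ e * D := by
    intro χ
    have h1 : (charDegree χ.1).factorization p ≤ e := by
      by_contra h
      push Not at h
      apply hcon χ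
      have h2 : c - a = e + 1 := by omega
      rw [h2]
      exact (Nat.pow_dvd_pow p h).trans (Nat.ordProj_dvd _ _)
    have h2 := Nat.ordProj_mul_ordCompl_eq_self (charDegree χ.1) p
    have h3 : p ^ (charDegree χ.1).factorization p
        * (charDegree χ.1 / p ^ (charDegree χ.1).factorization p) ∣ p ^ e * D :=
      Nat.mul_dvd_mul (Nat.pow_dvd_pow p h1)
        (Finset.dvd_prod_of_mem
          (fun χ : IrrCharacter G => charDegree χ.1 / p ^ (charDegree χ.1).factorization p)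
          (Finset.mem_univ χ))
    rw [h2] at h3
    exact h3
  choose k hk' using hk
  choose m hm using fun χ : IrrCharacter G => irr_sum_subgroup χ P
  have hsum := sum_subgroup_irr_norm z P hcl
  have hconj : ∀ χ : IrrCharacter G,
      ∑ x : P, conj (χ.1 (x : G)) = (p : ℂ) ^ c * (m χ : ℂ) := by
    intro χ
    rw [← map_sum, hm χ, map_mul, Complex.conj_natCast, Complex.conj_natCast,
      ← Nat.card_eq_fintype_card, hP]
    push_cast
    rfl
  have key : (D : ℂ) * (Nat.card (Subgroup.centralizer ({z} : Set G)) : ℂ)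
      = (p : ℂ) ^ (a + 1) * ∑ χ : IrrCharacter G, χ.1 z * χ.1 z⁻¹ * (m χ : ℂ) * (k χ : ℂ) := by
    rw [← hsum, Finset.mul_sum, Finset.mul_sum]
    apply Finset.sum_congr rfl
    intro χ _
    rw [hconj χ, (irr_degree_facts χ).1, hce]
    have h1 : ((p ^ e * D : ℕ) : ℂ) = ((charDegree χ.1 * k χ : ℕ) : ℂ) := by rw [hk' χ]
    push_cast at h1
    have hn0 : (charDegree χ.1 : ℂ) ≠ 0 := by exact_mod_cast (irr_degree_facts χ).2
    field_simp
    rw [pow_add]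
    linear_combination (χ.1 z * χ.1 z⁻¹ * (m χ : ℂ) * (p : ℂ) ^ (a + 1)) * h1
  have hint : IsIntegral ℤ (∑ χ : IrrCharacter G, χ.1 z * χ.1 z⁻¹ * (m χ : ℂ) * (k χ : ℂ)) := by
    apply IsIntegral.sum
    intro χ _
    have h1 : IsIntegral ℤ (χ.1 z) :=
      isCharacter_isIntegral (isIrrCharacter_isCharacter χ.2) z
    have h1' : IsIntegral ℤ (χ.1 z⁻¹) :=
      isCharacter_isIntegral (isIrrCharacter_isCharacter χ.2) z⁻¹
    have hnat : ∀ j : ℕ, IsIntegral ℤ (j : ℂ) := by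
      intro j
      have := isIntegral_algebraMap (R := ℤ) (A := ℂ) (x := (j : ℤ))
      simpa using this
    exact ((h1.mul h1').mul (hnat _)).mul (hnat _)
  have hp0 : (p : ℂ) ≠ 0 := by exact_mod_cast hp.out.ne_zero
  have hSq : ∑ χ : IrrCharacter G, χ.1 z * χ.1 z⁻¹ * (m χ : ℂ) * (k χ : ℂ)
      = ((((D * Nat.card (Subgroup.centralizer ({z} : Set G)) : ℕ) : ℚ)
          / (p : ℚ) ^ (a + 1) : ℚ) : ℂ) := by
    push_cast
    rw [eq_div_iff (pow_ne_zero _ hp0), mul_comm]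
    exact key.symm
  rw [hSq] at hint
  obtain ⟨zz, hzz⟩ := rat_of_isIntegral_complex hint
  have hpq : (p : ℚ) ≠ 0 := by exact_mod_cast hp.out.ne_zero
  have h5 : (zz : ℚ) * (p : ℚ) ^ (a + 1)
      = ((D * Nat.card (Subgroup.centralizer ({z} : Set G)) : ℕ) : ℚ) := by
    rw [hzz]
    field_simp
  have h6 : zz * ((p ^ (a + 1) : ℕ) : ℤ)
      = ((D * Nat.card (Subgroup.centralizer ({z} : Set G)) : ℕ) : ℤ) := by
    exact_mod_cast h5
  have h7 : ((p ^ (a + 1) : ℕ) : ℤ)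
      ∣ ((D * Nat.card (Subgroup.centralizer ({z} : Set G)) : ℕ) : ℤ) :=
    ⟨zz, by rw [← h6]; ring⟩
  have h8 : p ^ (a + 1) ∣ D * Nat.card (Subgroup.centralizer ({z} : Set G)) :=
    Int.natCast_dvd_natCast.mp h7
  have h9 : p ^ (a + 1) ∣ Nat.card (Subgroup.centralizer ({z} : Set G)) :=
    (Nat.Coprime.pow_left _ ((Nat.Prime.coprime_iff_not_dvd hp.out).mpr hpD)).dvd_of_dvd_mul_left
      h8
  have h10 := Nat.pow_succ_factorization_not_dvd
    (n := Nat.card (Subgroup.centralizer ({z} : Set G))) Nat.card_pos.ne' hp.out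
  rw [ha] at h10
  exact h10 h9

/-- the hypothesis "no elements of order `pq`" is symmetric -/
theorem cent_hyp_symm [Finite G] (p q : ℕ) [hp : Fact p.Prime] [hq : Fact q.Prime]
    (hC : ∀ g : G, g ≠ 1 → (∃ k : ℕ, orderOf g = p ^ k) →
      ¬ q ∣ Nat.card ↥(Subgroup.centralizer ({g} : Set G))) :
    ∀ z : G, z ≠ 1 → (∃ k : ℕ, orderOf z = q ^ k) →
      ¬ p ∣ Nat.card ↥(Subgroup.centralizer ({z} : Set G)) := by
  rintro z hz1 ⟨k, hk⟩ hdvd
  obtain ⟨x, hx⟩ := exists_prime_orderOf_dvd_card' p hdvd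
  have hx1 : (x : G) ≠ 1 := by
    intro h
    have h2 : x = 1 := Subtype.ext h
    rw [h2, orderOf_one] at hx
    exact hp.out.one_lt.ne hx
  have hxo : orderOf (x : G) = p ^ 1 := by rw [Subgroup.orderOf_coe, hx, pow_one]
  have hzx : z ∈ Subgroup.centralizer ({(x : G)} : Set G) := by
    rw [Subgroup.mem_centralizer_singleton_iff]
    exact (Subgroup.mem_centralizer_singleton_iff.mp x.2).symm
  have hk0 : k ≠ 0 := by
    rintro rfl
    rw [pow_zero, orderOf_eq_one_iff] at hk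
    exact hz1 hk
  have h1 : q ∣ orderOf z := by rw [hk]; exact dvd_pow_self q hk0
  exact hC x hx1 ⟨1, hxo⟩ (h1.trans (Subgroup.orderOf_dvd_natCard _ hzx))

/-- **S4742** -/
theorem defzero_or_conj [Finite G] (p q : ℕ) [hp : Fact p.Prime] [hq : Fact q.Prime]
    (hC : ∀ g : G, g ≠ 1 → (∃ k : ℕ, orderOf g = p ^ k) →
      ¬ q ∣ Nat.card ↥(Subgroup.centralizer ({g} : Set G))) :
    (∃ χ : IrrCharacter G,
      (charDegree χ.1).factorization p = (Nat.card G).factorization p) ∨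
    ∀ z : G, z ≠ 1 → (∃ k : ℕ, orderOf z = q ^ k) →
      ∃ g h : G, IsConj z g ∧ IsConj z h ∧ g * h⁻¹ ≠ 1 ∧
        ∃ k : ℕ, orderOf (g * h⁻¹) = p ^ k := by
  by_contra hcon
  push Not at hcon
  obtain ⟨hno, z, hz1, hzq, hzc⟩ := hcon
  let P : Sylow p G := default
  have hPcard := Sylow.card_eq_multiplicity P
  have hcl : ∀ g h : G, IsConj z g → IsConj z h → g * h⁻¹ ∈ (P : Subgroup G) →
      g * h⁻¹ = 1 := by
    intro g h hg hh hmem
    by_contra hne
    obtain ⟨k, hk⟩ := (IsPGroup.iff_orderOf.mp P.isPGroup') ⟨g * h⁻¹, hmem⟩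
    rw [Subgroup.orderOf_mk] at hk
    exact hzc g h hg hh hne k hk
  have ha : (Nat.card (Subgroup.centralizer ({z} : Set G))).factorization p = 0 :=
    Nat.factorization_eq_zero_of_not_dvd (cent_hyp_symm p q hC z hz1 hzq)
  obtain ⟨χ, hχ⟩ := exists_irr_degree_dvd_of_class p z (P : Subgroup G) _ hPcard hcl 0 ha
  rw [Nat.sub_zero] at hχ
  apply hno χ
  have hd0 : charDegree χ.1 ≠ 0 := (charDegree_pos χ).ne'
  have hdvd : charDegree χ.1 ∣ Nat.card G :=
    (dvd_mul_left _ _).trans (card_irrKer_mul_degree_dvd χ)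
  apply le_antisymm
  · exact (Nat.factorization_le_iff_dvd hd0 Nat.card_pos.ne').mpr hdvd p
  · exact (hp.out.pow_dvd_iff_le_factorization hd0).mp hχ

/-- in a `p`-solvable group with `p ∣ |G|` there are normal subgroups `N ≤ M` with `p ∤ |N|`,
`p ∣ |M|` and `|M : N|` a power of `p` -/
theorem psolv_exists_step [Finite G] (p : ℕ) [hp : Fact p.Prime] (hs : IsPSolvable p G)
    (hpG : p ∣ Nat.card G) :
    ∃ N M : Subgroup G, N.Normal ∧ M.Normal ∧ N ≤ M ∧ ¬ p ∣ Nat.card N ∧ p ∣ Nat.card M ∧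
      ∃ m : ℕ, N.relIndex M = p ^ m := by
  classical
  obtain ⟨n, H, h0, hlast, hmono, hnorm, hstep⟩ := hs
  have hex : ∃ i : ℕ, ∃ hi : i < n + 1, p ∣ Nat.card (H ⟨i, hi⟩) := by
    refine ⟨n, Nat.lt_succ_self n, ?_⟩
    have h1 : H ⟨n, Nat.lt_succ_self n⟩ = ⊤ := hlast
    rw [h1, Subgroup.card_top]
    exact hpG
  obtain ⟨hi, hpi⟩ := Nat.find_spec hex
  have hi0 : Nat.find hex ≠ 0 := by
    intro h0'
    have h1 : H ⟨Nat.find hex, hi⟩ = ⊥ := by
      have h2 : (⟨Nat.find hex, hi⟩ : Fin (n + 1)) = 0 := Fin.ext h0'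
      rw [h2, h0]
    rw [h1, Subgroup.card_bot] at hpi
    exact hp.out.one_lt.ne' (Nat.dvd_one.mp hpi)
  obtain ⟨j, hj⟩ : ∃ j, Nat.find hex = j + 1 := Nat.exists_eq_succ_of_ne_zero hi0
  have hjn : j < n := by omega
  have hmin : ¬ p ∣ Nat.card (H (Fin.castSucc ⟨j, hjn⟩)) := by
    intro hd
    exact Nat.find_min hex (m := j) (by omega) ⟨by omega, hd⟩
  have hmax : p ∣ Nat.card (H (Fin.succ ⟨j, hjn⟩)) := by
    have h1 : (Fin.succ ⟨j, hjn⟩ : Fin (n + 1)) = ⟨Nat.find hex, hi⟩ := Fin.ext hj.symm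
    rw [h1]
    exact hpi
  have hle : H (Fin.castSucc ⟨j, hjn⟩) ≤ H (Fin.succ ⟨j, hjn⟩) :=
    hmono (Fin.castSucc_lt_succ (i := ⟨j, hjn⟩)).le
  have hcard : Nat.card (H (Fin.castSucc ⟨j, hjn⟩)) *
      (H (Fin.castSucc ⟨j, hjn⟩)).relIndex (H (Fin.succ ⟨j, hjn⟩)) =
      Nat.card (H (Fin.succ ⟨j, hjn⟩)) := by
    have h1 := Subgroup.relIndex_mul_relIndex (⊥ : Subgroup G) _ _ bot_le hle
    rw [Subgroup.relIndex_bot_left, Subgroup.relIndex_bot_left] at h1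
    exact h1
  refine ⟨H (Fin.castSucc ⟨j, hjn⟩), H (Fin.succ ⟨j, hjn⟩), hnorm _, hnorm _, hle, hmin, hmax, ?_⟩
  rcases hstep ⟨j, hjn⟩ with h1 | h1
  · exact h1
  · exfalso
    rw [← hcard] at hmax
    rcases (Nat.Prime.dvd_mul hp.out).mp hmax with h2 | h2
    · exact hmin h2
    · exact (Nat.Prime.coprime_iff_not_dvd hp.out).mp h1.symm h2

theorem defzero_psolv_core [Finite G] (p q : ℕ) [hp : Fact p.Prime] [hq : Fact q.Prime]
    (hpq : p ≠ q) (hpG : p ∣ Nat.card G) (hs : IsPSolvable p G)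
    (hA : ∀ z : G, z ≠ 1 → (∃ k : ℕ, orderOf z = q ^ k) →
      ∃ g h : G, IsConj z g ∧ IsConj z h ∧ g * h⁻¹ ≠ 1 ∧ ∃ k : ℕ, orderOf (g * h⁻¹) = p ^ k)
    (hB : ∀ w : G, w ≠ 1 → (∃ k : ℕ, orderOf w = p ^ k) →
      ∃ g h : G, IsConj w g ∧ IsConj w h ∧ g * h⁻¹ ≠ 1 ∧ ∃ k : ℕ, orderOf (g * h⁻¹) = q ^ k) :
    False := by
  obtain ⟨N, M, hNn, hMn, hNM, hpN, hpM, m, hm⟩ := psolv_exists_step p hs hpG
  obtain ⟨w, hw⟩ := exists_prime_orderOf_dvd_card' p hpM
  have hw1 : (w : G) ≠ 1 := by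
    intro h
    have h2 : w = 1 := Subtype.ext h
    rw [h2, orderOf_one] at hw
    exact hp.out.one_lt.ne hw
  have hwo : orderOf (w : G) = p ^ 1 := by rw [Subgroup.orderOf_coe, hw, pow_one]
  obtain ⟨g, h, hg, hh, hne, k, hk⟩ := hB w hw1 ⟨1, hwo⟩
  have hgM : g ∈ M := by
    obtain ⟨c, rfl⟩ := isConj_iff.mp hg
    exact hMn.conj_mem _ w.2 c
  have hhM : h ∈ M := by
    obtain ⟨c, rfl⟩ := isConj_iff.mp hh
    exact hMn.conj_mem _ w.2 c
  have hsM : g * h⁻¹ ∈ M := M.mul_mem hgM (M.inv_mem hhM)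
  have hsN' : (g * h⁻¹) ^ (p ^ m) ∈ N := by
    have h1 := Subgroup.pow_index_mem (N.subgroupOf M) (⟨g * h⁻¹, hsM⟩ : M)
    rw [show (N.subgroupOf M).index = p ^ m from hm] at h1
    have h2 := Subgroup.mem_subgroupOf.mp h1
    rw [Subgroup.coe_pow] at h2
    exact h2
  have hsN : g * h⁻¹ ∈ N := by
    have hcop : Nat.Coprime (p ^ m) (orderOf (g * h⁻¹)) := by
      rw [hk]
      exact Nat.Coprime.pow _ _ ((Nat.coprime_primes hp.out hq.out).mpr hpq)
    obtain ⟨j, hj⟩ := exists_pow_eq_self_of_coprime hcop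
    rw [← hj]
    exact N.pow_mem hsN' j
  obtain ⟨g', h', hg', hh', hne', k', hk'⟩ := hA (g * h⁻¹) hne ⟨k, hk⟩
  have hg'N : g' ∈ N := by
    obtain ⟨c, rfl⟩ := isConj_iff.mp hg'
    exact hNn.conj_mem _ hsN c
  have hh'N : h' ∈ N := by
    obtain ⟨c, rfl⟩ := isConj_iff.mp hh'
    exact hNn.conj_mem _ hsN c
  have hxN : g' * h'⁻¹ ∈ N := N.mul_mem hg'N (N.inv_mem hh'N)
  have hk'0 : k' ≠ 0 := by
    rintro rfl
    rw [pow_zero, orderOf_eq_one_iff] at hk'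
    exact hne' hk'
  apply hpN
  have h3 := Subgroup.orderOf_dvd_natCard N hxN
  rw [hk'] at h3
  exact (dvd_pow_self p hk'0).trans h3

/-- **S4743** -/
theorem defzero_psolv [Finite G] (p q : ℕ) [hp : Fact p.Prime] [hq : Fact q.Prime]
    (hppq : p ≠ q) (hpG : p ∣ Nat.card G) (hqG : q ∣ Nat.card G)
    (hC : ∀ g : G, g ≠ 1 → (∃ k : ℕ, orderOf g = p ^ k) →
      ¬ q ∣ Nat.card ↥(Subgroup.centralizer ({g} : Set G)))
    (hsolv : IsPSolvable p G ∨ IsPSolvable q G) :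
    (∃ χ : IrrCharacter G,
      (charDegree χ.1).factorization p = (Nat.card G).factorization p) ∨
    (∃ χ : IrrCharacter G,
      (charDegree χ.1).factorization q = (Nat.card G).factorization q) := by
  have hC' := cent_hyp_symm p q hC
  rcases defzero_or_conj p q hC with h1 | hA
  · exact Or.inl h1
  rcases defzero_or_conj q p hC' with h2 | hB
  · exact Or.inr h2
  exfalso
  rcases hsolv with hs | hs
  · exact defzero_psolv_core p q hppq hpG hs hA hB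
  · exact defzero_psolv_core q p hppq.symm hqG hs hB hA

end defzero

end Cfsg.Agent.Lib.helper24
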