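import Cfsg.Agent.Lib.helper24.FrobRam
import Cfsg.Agent.Lib.helper24.GlaubAbove

set_option autoImplicit false

namespace Cfsg.Agent.Lib.helper24

open Cfsg
open scoped ComplexConjugate

universe u

theorem frob_conj_surj {Γ : Type u} [Group Γ] [Finite Γ] (G N : Subgroup Γ) [hG : G.Normal]
    [hN : N.Normal]
    (hfrob : ∀ x : Γ, x ∉ G → ∀ g : Γ, g ∈ G → x * g * x⁻¹ * g⁻¹ ∈ N → g ∈ N)
    (t : Γ) (ht : t ∉ G) (g : Γ) (hg : g ∈ G) : ∃ k ∈ G, k * t * k⁻¹ * t⁻¹ * g⁻¹ ∈ N := by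
  let π : Γ →* Γ ⧸ N := QuotientGroup.mk' N
  let s : Set (Γ ⧸ N) := (G.map π : Subgroup (Γ ⧸ N))
  let f : Γ ⧸ N → Γ ⧸ N := fun q => q * π t * q⁻¹ * (π t)⁻¹
  have hs : s.Finite := Set.toFinite s
  have hmaps : Set.MapsTo f s s := by
    rintro q ⟨k, hk, rfl⟩
    refine ⟨k * t * k⁻¹ * t⁻¹, ?_, ?_⟩
    · have : k * t * k⁻¹ * t⁻¹ = k * (t * k⁻¹ * t⁻¹) := by group
      rw [this]
      exact G.mul_mem hk (hG.conj_mem _ (G.inv_mem hk) t)
    · simp [f, map_mul, map_inv]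
  have hinj : Set.InjOn f s := by
    rintro q ⟨k, hk, rfl⟩ q' ⟨k', hk', rfl⟩ hqq
    have h1 : π k * π t * (π k)⁻¹ = π k' * π t * (π k')⁻¹ := mul_right_cancel hqq
    have hg₁ : k'⁻¹ * k ∈ G := G.mul_mem (G.inv_mem hk') hk
    have h2 : t * (k'⁻¹ * k) * t⁻¹ * (k'⁻¹ * k)⁻¹ ∈ N := by
      rw [← QuotientGroup.eq_one_iff]
      show π (t * (k'⁻¹ * k) * t⁻¹ * (k'⁻¹ * k)⁻¹) = 1
      simp only [map_mul, map_inv]
      have h3 : π t = (π k')⁻¹ * π k * π t * (π k)⁻¹ * π k' := by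
        have := congrArg (fun z => (π k')⁻¹ * z * π k') h1
        simp only [mul_assoc] at this
        simp only [inv_mul_cancel_left, inv_mul_cancel, mul_one] at this
        simp only [mul_assoc]
        exact this.symm
      calc π t * ((π k')⁻¹ * π k) * (π t)⁻¹ * ((π k')⁻¹ * π k)⁻¹
          = π t * ((π k')⁻¹ * π k * (π t)⁻¹ * (π k)⁻¹ * π k') := by group
        _ = π t * ((π k')⁻¹ * π k * π t * (π k)⁻¹ * π k')⁻¹ := by group
        _ = π t * (π t)⁻¹ := by rw [← h3]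
        _ = 1 := mul_inv_cancel _
    have h4 := hfrob t ht _ hg₁ h2
    have h5 : π (k'⁻¹ * k) = 1 := (QuotientGroup.eq_one_iff _).mpr h4
    rw [map_mul, map_inv, inv_mul_eq_one] at h5
    exact h5.symm
  have hbij := (hs.injOn_iff_bijOn_of_mapsTo hmaps).mp hinj
  obtain ⟨q, ⟨k, hk, rfl⟩, hq⟩ := hbij.surjOn (show π g ∈ s from ⟨g, hg, rfl⟩)
  refine ⟨k, hk, ?_⟩
  rw [← QuotientGroup.eq_one_iff]
  show π (k * t * k⁻¹ * t⁻¹ * g⁻¹) = 1
  have h1 : π k * π t * (π k)⁻¹ * (π t)⁻¹ = π g := hq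
  simp only [map_mul, map_inv]
  rw [h1, mul_inv_cancel]

theorem frob_coset_norm {Γ : Type u} [Group Γ] [Fintype Γ] (G N : Subgroup Γ) [hG : G.Normal]
    [hN : N.Normal] [Fintype G] [Fintype N] (hNG : N ≤ G)
    (hfrob : ∀ x : Γ, x ∉ G → ∀ g : Γ, g ∈ G → x * g * x⁻¹ * g⁻¹ ∈ N → g ∈ N)
    (ψ : Γ → ℂ) (hψ : IsIrrCharacter Γ ψ) (hψG : IsIrrCharacter G (fun g : G => ψ g))
    (t : Γ) (ht : t ∉ G) :
    ∑ n : N, ψ ((n : Γ) * t) * conj (ψ ((n : Γ) * t)) = (Nat.card N : ℂ) := by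
  classical
  have hψc := isCharacter_of_isIrrCharacter hψ
  have hcl := isCharacter_conj_class hψc
  let F : Γ → ℂ := fun y => ψ y * conj (ψ y)
  have hF : ∀ y k : Γ, F (k * y * k⁻¹) = F y := by
    intro y k
    show ψ (k * y * k⁻¹) * conj (ψ (k * y * k⁻¹)) = ψ y * conj (ψ y)
    rw [hcl y k]
  have hG0 : (Nat.card G : ℂ) ≠ 0 := by exact_mod_cast Nat.card_pos.ne'
  have hh : ∀ g : G, ∑ n : N, F ((n : Γ) * g * t) = ∑ n : N, F ((n : Γ) * t) := by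
    intro g
    obtain ⟨k, hk, hn₀⟩ := frob_conj_surj G N hfrob t ht g g.2
    set n₀ : N := ⟨k * t * k⁻¹ * t⁻¹ * (g : Γ)⁻¹, hn₀⟩ with hn₀def
    have e1 : ∀ n : N, (n : Γ) * g * t = ((n * n₀⁻¹ : N) : Γ) * (k * t * k⁻¹) := by
      intro n
      show (n : Γ) * g * t = (n : Γ) * (k * t * k⁻¹ * t⁻¹ * (g : Γ)⁻¹)⁻¹ * (k * t * k⁻¹)
      group
    have e2 : ∑ n : N, F ((n : Γ) * g * t) = ∑ n : N, F ((n : Γ) * (k * t * k⁻¹)) := by
      rw [Finset.sum_congr rfl (fun n _ => by rw [e1 n])]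
      exact Fintype.sum_equiv (Equiv.mulRight (n₀⁻¹ : N)) _ _ (fun n => rfl)
    rw [e2]
    let c : N ≃ N := (MulAut.conjNormal (k⁻¹ : Γ) : N ≃* N).toEquiv
    have hc : ∀ n : N, ((c n : N) : Γ) = k⁻¹ * n * k := by
      intro n
      have h := MulAut.conjNormal_apply (H := N) (k⁻¹ : Γ) n
      rw [inv_inv] at h
      exact h
    have e3 : ∀ n : N, F ((n : Γ) * (k * t * k⁻¹)) = F (((c n : N) : Γ) * t) := by
      intro n
      have h' : (n : Γ) * (k * t * k⁻¹) = k * (k⁻¹ * n * k * t) * k⁻¹ := by group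
      rw [hc n, h', hF]
    rw [Finset.sum_congr rfl (fun n _ => e3 n)]
    exact Fintype.sum_equiv c _ _ (fun n => rfl)
  have hsum1 : ∑ g : G, ∑ n : N, F ((n : Γ) * g * t)
      = (Nat.card N : ℂ) * ∑ g : G, F ((g : Γ) * t) := by
    rw [Finset.sum_comm]
    have : ∀ n : N, ∑ g : G, F ((n : Γ) * g * t) = ∑ g : G, F ((g : Γ) * t) := by
      intro n
      exact Fintype.sum_equiv (Equiv.mulLeft (⟨n, hNG n.2⟩ : G)) _ _ (fun g => rfl)
    rw [Finset.sum_congr rfl (fun n _ => this n), Finset.sum_const, Finset.card_univ,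
      nsmul_eq_mul, Nat.card_eq_fintype_card]
  have hca := (coset_average_statement G ψ hψ hψG ψ hψ _ rfl).2.2 rfl
  have h1 : (Nat.card G : ℂ)⁻¹ * ∑ n : G, ψ ((n : Γ) * t) * conj (ψ ((n : Γ) * t)) = 1 :=
    congrFun hca t
  have h3 : ∑ g : G, F ((g : Γ) * t) = (Nat.card G : ℂ) := ((inv_mul_eq_one₀ hG0).mp h1).symm
  rw [Finset.sum_congr rfl (fun g _ => hh g), Finset.sum_const, Finset.card_univ, nsmul_eq_mul,
    h3, ← Nat.card_eq_fintype_card] at hsum1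
  have : (Nat.card G : ℂ) * ∑ n : N, F ((n : Γ) * t) = (Nat.card G : ℂ) * (Nat.card N : ℂ) := by
    rw [hsum1, mul_comm]
  exact mul_left_cancel₀ hG0 this

end Cfsg.Agent.Lib.helper24
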