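import Cfsg.Agent.Lib.helper24.CharArtin
import Cfsg.Agent.Lib.helper24.UniqueNL
import Cfsg.Agent.Lib.helper24.FrobRam2
import Cfsg.Agent.Lib.helper24.CharCyclicExt
import Cfsg.Agent.Lib.helper24.SameDeg2
import Cfsg.Agent.Lib.helper23.CharSchur

/-! Cyclic groups acting on extraspecial groups with `C_P(x) = Z(P)`: the order divides
`p^n ± 1`. -/

set_option autoImplicit false

namespace Cfsg.Agent.Lib.helper24.ExtraFpf

open Cfsg
open scoped ComplexConjugate
open scoped commutatorElement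

universe u

/-- A character of a finite abelian group of degree `d` with all other values of absolute value
one: the group order divides `d + 1` or `d - 1`. -/
theorem abelian_char_dvd {H : Type u} [Group H] [Finite H] [IsMulCommutative H] (ψ : H → ℂ)
    (hψ : IsCharacter H ψ) (d : ℕ) (hd : ψ 1 = d)
    (hu : ∀ x : H, x ≠ 1 → ψ x * conj (ψ x) = 1) :
    Nat.card H ∣ d + 1 ∨ Nat.card H ∣ d - 1 := by
  classical
  haveI : Fintype H := Fintype.ofFinite H
  haveI : Fintype (IrrCharacter H) := Fintype.ofFinite _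
  set h := Nat.card H with hh
  have hpos : 0 < h := Nat.card_pos
  have hC : (h : ℂ) ≠ 0 := by exact_mod_cast hpos.ne'
  have hnat : ∀ lam : IrrCharacter H, ∃ n : ℕ, classInner ψ lam.1 = n :=
    fun lam => isCharacter_inner_irr_nat hψ lam
  choose a ha using hnat
  have hone : ∀ lam : IrrCharacter H, lam.1 1 = 1 := fun lam => irr_one_of_comm lam
  -- sum of conj lam x over lam
  have hsumlam : ∀ x : H, ∑ lam : IrrCharacter H, conj (lam.1 x) = if x = 1 then (h : ℂ) else 0 := by
    intro x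
    have := second_orth_comm (1 : H) x
    simp only [hone, one_mul] at this
    rw [this]
    by_cases hx : x = 1
    · rw [if_pos hx, if_pos hx.symm]
    · rw [if_neg hx, if_neg (fun h' => hx h'.symm)]
  -- S1
  have hS1 : ∑ lam : IrrCharacter H, (a lam : ℂ) = d := by
    have : ∀ lam : IrrCharacter H, (a lam : ℂ) = (h : ℂ)⁻¹ * ∑ x : H, ψ x * conj (lam.1 x) := by
      intro lam
      rw [← ha lam]; rfl
    rw [Finset.sum_congr rfl fun lam _ => this lam, ← Finset.mul_sum, Finset.sum_comm]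
    have h2 : ∀ x : H, ∑ lam : IrrCharacter H, ψ x * conj (lam.1 x)
        = if x = 1 then ψ 1 * (h : ℂ) else 0 := by
      intro x
      rw [← Finset.mul_sum, hsumlam x]
      by_cases hx : x = 1
      · rw [if_pos hx, if_pos hx, hx]
      · rw [if_neg hx, if_neg hx, mul_zero]
    rw [Finset.sum_congr rfl fun x _ => h2 x, Finset.sum_ite_eq' Finset.univ (1 : H),
      if_pos (Finset.mem_univ _), hd]
    field_simp
  -- S2
  have hS2 : ∑ lam : IrrCharacter H, (a lam : ℂ) ^ 2 = (h : ℂ)⁻¹ * ((d : ℂ) ^ 2 + (h - 1)) := by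
    have h1 : ∀ lam : IrrCharacter H, (a lam : ℂ) ^ 2
        = (h : ℂ)⁻¹ ^ 2 * ∑ x : H, ∑ y : H, ψ x * conj (ψ y) * (lam.1 y * conj (lam.1 x)) := by
      intro lam
      have e1 : (a lam : ℂ) = (h : ℂ)⁻¹ * ∑ x : H, ψ x * conj (lam.1 x) := by
        rw [← ha lam]; rfl
      have e2 : (a lam : ℂ) = (h : ℂ)⁻¹ * ∑ y : H, conj (ψ y) * lam.1 y := by
        have : (a lam : ℂ) = conj (a lam : ℂ) := by simp
        rw [this, e1, map_mul, map_inv₀, map_natCast, map_sum]
        congr 1
        refine Finset.sum_congr rfl fun y _ => ?_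
        rw [map_mul, Complex.conj_conj]
      rw [pow_two]
      nth_rewrite 1 [e1]
      rw [e2, mul_mul_mul_comm, ← pow_two, Finset.sum_mul_sum]
      congr 1
      refine Finset.sum_congr rfl fun x _ => Finset.sum_congr rfl fun y _ => ?_
      ring
    rw [Finset.sum_congr rfl fun lam _ => h1 lam, ← Finset.mul_sum, Finset.sum_comm]
    have h2 : ∀ x : H, ∑ lam : IrrCharacter H, ∑ y : H,
        ψ x * conj (ψ y) * (lam.1 y * conj (lam.1 x)) = (h : ℂ) * (ψ x * conj (ψ x)) := by
      intro x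
      rw [Finset.sum_comm]
      have h3 : ∀ y : H, ∑ lam : IrrCharacter H, ψ x * conj (ψ y) * (lam.1 y * conj (lam.1 x))
          = if y = x then ψ x * conj (ψ y) * (h : ℂ) else 0 := by
        intro y
        rw [← Finset.mul_sum, second_orth_comm y x]
        by_cases hy : y = x
        · rw [if_pos hy, if_pos hy]
        · rw [if_neg hy, if_neg hy, mul_zero]
      rw [Finset.sum_congr rfl fun y _ => h3 y, Finset.sum_ite_eq' Finset.univ x,
        if_pos (Finset.mem_univ _)]
      ring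
    rw [Finset.sum_congr rfl fun x _ => h2 x, ← Finset.mul_sum]
    have h4 : ∑ x : H, ψ x * conj (ψ x) = (d : ℂ) ^ 2 + (h - 1) := by
      rw [← Finset.add_sum_erase Finset.univ _ (Finset.mem_univ (1 : H))]
      have h5 : ∑ x ∈ Finset.univ.erase (1 : H), ψ x * conj (ψ x)
          = ∑ x ∈ Finset.univ.erase (1 : H), (1 : ℂ) :=
        Finset.sum_congr rfl fun x hx => hu x (Finset.ne_of_mem_erase hx)
      rw [h5, Finset.sum_const, Finset.card_erase_of_mem (Finset.mem_univ _), Finset.card_univ,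
        ← Nat.card_eq_fintype_card, hd, nsmul_eq_mul, mul_one, Nat.cast_sub hpos]
      simp [pow_two]
    rw [h4]
    field_simp
  -- S0
  have hS0 : Fintype.card (IrrCharacter H) = h := by
    have := second_orth_comm (1 : H) (1 : H)
    simp only [hone, one_mul, map_one, if_true, Finset.sum_const, Finset.card_univ,
      nsmul_eq_mul, mul_one] at this
    exact_mod_cast this
  -- S3
  have hnorm : ∀ x : H, x ≠ 1 → ‖ψ x‖ = 1 := by
    intro x hx
    have h1 := hu x hx
    rw [Complex.mul_conj] at h1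
    have h2 : Complex.normSq (ψ x) = 1 := by exact_mod_cast h1
    rw [Complex.normSq_eq_norm_sq] at h2
    nlinarith [norm_nonneg (ψ x)]
  have hS3 : ∀ lam mu : IrrCharacter H, ((a lam : ℝ) - a mu) < 2 := by
    intro lam mu
    have e1 : ((a lam : ℂ) - a mu) = (h : ℂ)⁻¹ * ∑ x : H, ψ x * conj (lam.1 x - mu.1 x) := by
      rw [← ha lam, ← ha mu]
      unfold classInner
      rw [← mul_sub, ← Finset.sum_sub_distrib]
      congr 1
      refine Finset.sum_congr rfl fun x _ => ?_
      rw [map_sub]; ring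
    have e2 : ‖∑ x : H, ψ x * conj (lam.1 x - mu.1 x)‖ ≤ 2 * ((h : ℝ) - 1) := by
      refine (norm_sum_le _ _).trans ?_
      rw [← Finset.add_sum_erase Finset.univ _ (Finset.mem_univ (1 : H))]
      have h0 : ‖ψ 1 * conj (lam.1 1 - mu.1 1)‖ = 0 := by
        rw [hone, hone, sub_self, map_zero, mul_zero, norm_zero]
      rw [h0, zero_add]
      have h5 : ∑ x ∈ Finset.univ.erase (1 : H), ‖ψ x * conj (lam.1 x - mu.1 x)‖
          ≤ ∑ x ∈ Finset.univ.erase (1 : H), (2 : ℝ) := by
        refine Finset.sum_le_sum fun x hx => ?_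
        rw [norm_mul, hnorm x (Finset.ne_of_mem_erase hx), one_mul, Complex.norm_conj]
        refine (norm_sub_le _ _).trans ?_
        rw [irr_norm_of_comm lam x, irr_norm_of_comm mu x]
        norm_num
      refine h5.trans ?_
      rw [Finset.sum_const, Finset.card_erase_of_mem (Finset.mem_univ _), Finset.card_univ,
        ← Nat.card_eq_fintype_card, nsmul_eq_mul, Nat.cast_sub hpos]
      push_cast
      linarith
    have e3 : ‖((a lam : ℂ) - a mu)‖ < 2 := by
      rw [e1, norm_mul, norm_inv, Complex.norm_natCast]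
      have hR : (0 : ℝ) < h := by exact_mod_cast hpos
      rw [inv_mul_lt_iff₀ hR]
      nlinarith
    have e4 : ((a lam : ℂ) - a mu) = (((a lam : ℝ) - a mu : ℝ) : ℂ) := by push_cast; rfl
    rw [e4, Complex.norm_real] at e3
    exact lt_of_le_of_lt (le_abs_self _) e3
  -- combinatorics
  have hne : (Finset.univ : Finset (IrrCharacter H)).Nonempty := by
    rw [Finset.univ_nonempty_iff, ← Fintype.card_pos_iff, hS0]; exact hpos
  obtain ⟨lam0, -, hmin⟩ := Finset.exists_min_image Finset.univ a hne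
  set k := a lam0 with hk
  have hval : ∀ lam : IrrCharacter H, a lam = k ∨ a lam = k + 1 := by
    intro lam
    have h1 := hmin lam (Finset.mem_univ _)
    have h2 := hS3 lam lam0
    have h3 : a lam < k + 2 := by
      have : (a lam : ℝ) < (k : ℝ) + 2 := by linarith
      exact_mod_cast this
    omega
  have hquad : ∀ lam : IrrCharacter H, (a lam : ℤ) ^ 2 = (2 * k + 1) * a lam - k * (k + 1) := by
    intro lam
    rcases hval lam with h1 | h1 <;> rw [h1] <;> push_cast <;> ring
  have hZ1 : ∑ lam : IrrCharacter H, (a lam : ℤ) = d := by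
    have : ((∑ lam : IrrCharacter H, (a lam : ℤ) : ℤ) : ℂ) = ((d : ℤ) : ℂ) := by
      push_cast; exact hS1
    exact_mod_cast this
  have hZ2 : (h : ℤ) * ∑ lam : IrrCharacter H, (a lam : ℤ) ^ 2 = (d : ℤ) ^ 2 + (h - 1) := by
    have : (((h : ℤ) * ∑ lam : IrrCharacter H, (a lam : ℤ) ^ 2 : ℤ) : ℂ)
        = (((d : ℤ) ^ 2 + (h - 1) : ℤ) : ℂ) := by
      push_cast
      rw [hS2]
      field_simp
    exact_mod_cast this
  have hsum2 : ∑ lam : IrrCharacter H, (a lam : ℤ) ^ 2 = (2 * k + 1) * d - k * (k + 1) * h := by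
    rw [Finset.sum_congr rfl fun lam _ => hquad lam, Finset.sum_sub_distrib, ← Finset.mul_sum,
      hZ1, Finset.sum_const, Finset.card_univ, hS0]
    simp [mul_comm]
  rw [hsum2] at hZ2
  have hfac : ((d : ℤ) - k * h - 1) * ((d : ℤ) - (k + 1) * h + 1) = 0 := by
    linear_combination -hZ2
  rcases mul_eq_zero.mp hfac with h1 | h1
  · right
    have : d = k * h + 1 := by omega
    rw [this, Nat.add_sub_cancel]
    exact Dvd.intro_left k rfl
  · left
    have : d + 1 = (k + 1) * h := by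
      have : (d : ℤ) + 1 = (k + 1) * h := by linarith
      exact_mod_cast this
    rw [this]
    exact Dvd.intro_left (k + 1) rfl


/-- Extension of an invariant character over a cyclic quotient has absolute value one off `N`
under a Frobenius-type condition modulo a central subgroup. -/
theorem exists_ext_unit {Γ : Type u} [Group Γ] [Finite Γ] (N Z : Subgroup Γ) [hN : N.Normal]
    (hcyc : IsCyclic (Γ ⧸ N)) (hZc : Z ≤ Subgroup.center Γ) (hZN : Z ≤ N)
    (hfrob : ∀ x : Γ, x ∉ N → ∀ g : Γ, g ∈ N → x * g * x⁻¹ * g⁻¹ ∈ Z → g ∈ Z)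
    (ϑ : N → ℂ) (hϑ : IsIrrCharacter N ϑ)
    (hinv : ∀ (g : Γ) (n : N), ϑ ⟨g * n * g⁻¹, hN.conj_mem (n : Γ) n.2 g⟩ = ϑ n) :
    ∃ ψ : Γ → ℂ, IsIrrCharacter Γ ψ ∧ (∀ n : N, ψ n = ϑ n) ∧
      ∀ t : Γ, t ∉ N → ψ t * conj (ψ t) = 1 := by
  classical
  haveI : Fintype Γ := Fintype.ofFinite Γ
  haveI : Fintype N := Fintype.ofFinite N
  haveI : Fintype Z := Fintype.ofFinite Z
  obtain ⟨ψ, hψ, hext⟩ := exists_irr_extension_cyclic N hcyc ϑ hϑ hinv
  refine ⟨ψ, hψ, hext, fun t ht => ?_⟩
  haveI hZn : Z.Normal := ⟨fun z hz g => by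
    have := Subgroup.mem_center_iff.mp (hZc hz) g
    have e : g * z * g⁻¹ = z := by rw [this, mul_inv_cancel_right]
    rw [e]; exact hz⟩
  have hψN : IsIrrCharacter N (fun g : N => ψ g) := by
    have : (fun g : N => ψ g) = ϑ := funext hext
    rw [this]; exact hϑ
  have hsum := frob_coset_norm N Z hZN hfrob ψ hψ hψN t ht
  have hterm : ∀ z : Z, ψ ((z : Γ) * t) * conj (ψ ((z : Γ) * t)) = ψ t * conj (ψ t) := by
    intro z
    obtain ⟨c, hc, hck⟩ := Cfsg.Agent.Lib.helper23.isIrrCharacter_central hψ (z : Γ) (hZc z.2)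
    have hc1 : c * conj c = 1 := by
      have h1 : c ^ orderOf (z : Γ) = 1 := hck _ (pow_orderOf_eq_one _)
      have h2 : ‖c‖ = 1 := Complex.norm_eq_one_of_pow_eq_one h1 (orderOf_pos _).ne'
      rw [Complex.mul_conj, Complex.normSq_eq_norm_sq, h2]; simp
    rw [hc t, map_mul]
    calc c * ψ t * (conj c * conj (ψ t)) = (c * conj c) * (ψ t * conj (ψ t)) := by ring
      _ = ψ t * conj (ψ t) := by rw [hc1, one_mul]
  rw [Finset.sum_congr rfl fun z _ => hterm z, Finset.sum_const, Finset.card_univ,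
    ← Nat.card_eq_fintype_card, nsmul_eq_mul] at hsum
  have hZ0 : (Nat.card Z : ℂ) ≠ 0 := by exact_mod_cast Nat.card_pos.ne'
  exact mul_left_cancel₀ hZ0 (by rw [hsum, mul_one])

/-- A cyclic `p'`-group acting on an extraspecial group of order `p^(2n+1)` with
`C_P(x) = Z(P)` for all nonidentity `x` has order dividing `p^n + 1` or `p^n - 1`. -/
theorem card_dvd {G : Type u} [Group G] [Finite G] {p : ℕ} [hp : Fact p.Prime] (P H : Subgroup G)
    (hP : IsExtraspecial p ↥P) (n : ℕ) (hn : Nat.card P = p ^ (2 * n + 1)) (hH : IsCyclic H)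
    (hcop : (Nat.card H).Coprime p) (hHP : H ≤ Subgroup.normalizer (P : Set G))
    (hfix : ∀ x ∈ H, x ≠ 1 →
      P ⊓ Subgroup.centralizer {x} = (Subgroup.center ↥P).map P.subtype) :
    Nat.card H ∣ p ^ n + 1 ∨ Nat.card H ∣ p ^ n - 1 := by
  classical
  have hcz : commutator ↥P = Subgroup.center ↥P := hP.1.2.2
  have hZp : Nat.card (Subgroup.center ↥P) = p := hP.2
  have hn0 : n ≠ 0 := by
    rintro rfl
    have htop : Subgroup.center ↥P = ⊤ := by
      apply (Subgroup.card_eq_iff_eq_top _).1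
      rw [hZp, hn]; simp
    have hbot : commutator ↥P = ⊥ := by
      rw [commutator_def, Subgroup.commutator_top_right_eq_bot_iff_le_center, htop]
    rw [hcz] at hbot
    rw [hbot, Subgroup.card_bot] at hZp
    exact hp.out.one_lt.ne hZp
  obtain ⟨-, hcount⟩ := extraspecial_degrees p n hP hn
  have hex : ∃ χ : IrrCharacter ↥P, χ.1 1 = (p : ℂ) ^ n := by
    have : 0 < Nat.card {χ : IrrCharacter ↥P // χ.1 1 = (p : ℂ) ^ n} := by
      rw [hcount]; have := hp.out.two_le; omega
    obtain ⟨⟨χ, hχ⟩⟩ := (Nat.card_pos_iff.mp this).1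
    exact ⟨χ, hχ⟩
  obtain ⟨χ, hχ1⟩ := hex
  have hvan : ∀ u : ↥P, u ∉ Subgroup.center ↥P → χ.1 u = 0 := by
    intro u hu
    refine SameDeg.vanish_off_center hp.out (by rw [hcz]; exact hZp) (le_of_eq hcz) χ ?_ u hu
    intro h1
    have h2 := charDegree_cast χ
    rw [h1, hχ1] at h2
    have h3 : (1 : ℕ) = p ^ n := by exact_mod_cast h2
    have : 1 < p ^ n := Nat.one_lt_pow hn0 hp.out.one_lt
    omega
  -- the group K = H P
  set K : Subgroup G := H ⊔ P with hK
  have hPK : P ≤ K := le_sup_right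
  have hHK : H ≤ K := le_sup_left
  haveI hNn : (P.subgroupOf K).Normal := Subgroup.normal_subgroupOf_sup_of_le_normalizer hHP
  set N : Subgroup K := P.subgroupOf K with hNdef
  let e : N ≃* P := Subgroup.subgroupOfEquivOfLe hPK
  have he : ∀ m : N, ((e m : P) : G) = ((m : K) : G) := fun m => rfl
  set ZG : Subgroup G := (Subgroup.center ↥P).map P.subtype with hZG
  have hZG_mem : ∀ u : P, (u : G) ∈ ZG ↔ u ∈ Subgroup.center ↥P := by
    intro u
    constructor
    · rintro ⟨v, hv, hvu⟩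
      have : v = u := Subtype.ext hvu
      rwa [← this]
    · intro hu; exact ⟨u, hu, rfl⟩
  have hZG_P : ZG ≤ P := by rintro _ ⟨v, -, rfl⟩; exact v.2
  have hcent : ∀ z ∈ ZG, ∀ k ∈ K, k * z = z * k := by
    intro z hz
    have hle : K ≤ Subgroup.centralizer ({z} : Set G) := by
      refine sup_le ?_ ?_
      · intro y hy
        rw [Subgroup.mem_centralizer_iff]
        intro w hw
        rw [Set.mem_singleton_iff] at hw; subst hw
        by_cases hy1 : y = 1
        · rw [hy1, mul_one, one_mul]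
        · have h1 := hfix y hy hy1
          have hz' : w ∈ P ⊓ Subgroup.centralizer {y} := by rw [h1]; exact hz
          exact (Subgroup.mem_centralizer_iff.mp hz'.2 y (Set.mem_singleton y)).symm
      · intro u hu
        rw [Subgroup.mem_centralizer_iff]
        intro w hw
        rw [Set.mem_singleton_iff] at hw; subst hw
        obtain ⟨v, hv, rfl⟩ := hz
        have h1 := Subgroup.mem_center_iff.mp hv ⟨u, hu⟩
        exact (congrArg Subtype.val h1).symm
    intro k hk
    exact (Subgroup.mem_centralizer_iff.mp (hle hk) z (Set.mem_singleton z)).symm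
  set Z' : Subgroup K := ZG.subgroupOf K with hZ'
  have hZ'c : Z' ≤ Subgroup.center K := by
    intro z hz
    rw [Subgroup.mem_center_iff]
    intro k
    apply Subtype.ext
    exact hcent (z : G) (Subgroup.mem_subgroupOf.mp hz) (k : G) k.2
  have hZ'N : Z' ≤ N := by
    intro z hz
    exact Subgroup.mem_subgroupOf.mpr (hZG_P (Subgroup.mem_subgroupOf.mp hz))
  -- invariance
  have hϑ : IsIrrCharacter N (χ.1 ∘ e) := isIrrCharacter_comp_equiv e χ.2
  have hinv : ∀ (g : K) (m : N),
      (χ.1 ∘ e) ⟨g * m * g⁻¹, hNn.conj_mem (m : K) m.2 g⟩ = (χ.1 ∘ e) m := by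
    intro g m
    show χ.1 (e ⟨g * m * g⁻¹, hNn.conj_mem (m : K) m.2 g⟩) = χ.1 (e m)
    have hcoe : ((e ⟨g * m * g⁻¹, hNn.conj_mem (m : K) m.2 g⟩ : P) : G)
        = (g : G) * ((e m : P) : G) * (g : G)⁻¹ := rfl
    by_cases hu : e m ∈ Subgroup.center ↥P
    · have h1 : ((e m : P) : G) ∈ ZG := (hZG_mem _).mpr hu
      have h2 := hcent _ h1 (g : G) g.2
      have h3 : e ⟨g * m * g⁻¹, hNn.conj_mem (m : K) m.2 g⟩ = e m := by
        apply Subtype.ext
        rw [hcoe, h2, mul_inv_cancel_right]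
      rw [h3]
    · have h4 : e ⟨g * m * g⁻¹, hNn.conj_mem (m : K) m.2 g⟩ ∉ Subgroup.center ↥P := by
        intro h5
        apply hu
        have h1 : ((e ⟨g * m * g⁻¹, hNn.conj_mem (m : K) m.2 g⟩ : P) : G) ∈ ZG :=
          (hZG_mem _).mpr h5
        have h2 := hcent _ h1 (g : G) g.2
        rw [hcoe] at h2
        have h6 : ((e m : P) : G) = (g : G) * ((e m : P) : G) * (g : G)⁻¹ := by
          have h7 : (g : G) * ((g : G) * ((e m : P) : G) * (g : G)⁻¹)
              = (g : G) * ((e m : P) : G) := by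
            rw [h2]; group
          exact (mul_left_cancel h7).symm
        rw [← hZG_mem, h6, ← hcoe]
        exact h1
      rw [hvan _ hu, hvan _ h4]
  -- cyclic quotient
  have hcyc : IsCyclic (K ⧸ N) := by
    let f : H →* K ⧸ N := (QuotientGroup.mk' N).comp (Subgroup.inclusion hHK)
    have hf : Function.Surjective f := by
      intro q
      obtain ⟨k, rfl⟩ := QuotientGroup.mk_surjective q
      have hk : (k : G) ∈ ((H ⊔ P : Subgroup G) : Set G) := k.2
      rw [Subgroup.coe_mul_of_left_le_normalizer_right H P hHP] at hk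
      obtain ⟨y, hy, u, hu, hyu⟩ := hk
      refine ⟨⟨y, hy⟩, ?_⟩
      show QuotientGroup.mk (Subgroup.inclusion hHK ⟨y, hy⟩) = QuotientGroup.mk k
      rw [QuotientGroup.eq]
      show ((Subgroup.inclusion hHK ⟨y, hy⟩)⁻¹ * k : K) ∈ P.subgroupOf K
      rw [Subgroup.mem_subgroupOf]
      have : (((Subgroup.inclusion hHK ⟨y, hy⟩)⁻¹ * k : K) : G) = u := by
        show y⁻¹ * (k : G) = u
        rw [← hyu]; group
      rw [this]; exact hu
    exact isCyclic_of_surjective f hf
  -- order facts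
  have hord : ∀ y : G, y ∈ H → y ∈ P → y = 1 := by
    intro y hyH hyP
    have h1 : orderOf y ∣ Nat.card H := by
      have := orderOf_dvd_natCard (⟨y, hyH⟩ : H)
      rwa [Subgroup.orderOf_mk] at this
    have h2 : orderOf y ∣ p ^ (2 * n + 1) := by
      have := orderOf_dvd_natCard (⟨y, hyP⟩ : P)
      rwa [Subgroup.orderOf_mk, hn] at this
    have h3 : Nat.Coprime (Nat.card H) (p ^ (2 * n + 1)) := Nat.Coprime.pow_right _ hcop
    have h4 : orderOf y = 1 := Nat.eq_one_of_dvd_coprimes h3 h1 h2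
    exact orderOf_eq_one_iff.mp h4
  have hZpow : ∀ z ∈ ZG, z ^ p = 1 := by
    rintro _ ⟨v, hv, rfl⟩
    have h1 : (⟨v, hv⟩ : Subgroup.center ↥P) ^ Nat.card (Subgroup.center ↥P) = 1 :=
      pow_card_eq_one'
    rw [hZp] at h1
    have h2 := congrArg (fun t : Subgroup.center ↥P => ((t : ↥P) : G)) h1
    simpa using h2
  -- Frobenius condition
  have hfrob : ∀ x : K, x ∉ N → ∀ g : K, g ∈ N → x * g * x⁻¹ * g⁻¹ ∈ Z' → g ∈ Z' := by
    intro x hx g hg hxg
    have hk : (x : G) ∈ ((H ⊔ P : Subgroup G) : Set G) := x.2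
    rw [Subgroup.coe_mul_of_left_le_normalizer_right H P hHP] at hk
    obtain ⟨y, hy, u, hu, hyu⟩ := hk
    have hyu : y * u = (x : G) := hyu
    have hy1 : y ≠ 1 := by
      rintro rfl
      apply hx
      rw [hNdef, Subgroup.mem_subgroupOf, ← hyu, one_mul]
      exact hu
    set w : G := (g : G) with hw
    have hwP : w ∈ P := Subgroup.mem_subgroupOf.mp hg
    have hxg' : (x : G) * w * (x : G)⁻¹ * w⁻¹ ∈ ZG := Subgroup.mem_subgroupOf.mp hxg
    -- commutator in the center
    have hc : w⁻¹ * u * w * u⁻¹ ∈ ZG := by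
      have h1 : ⁅(⟨w⁻¹, P.inv_mem hwP⟩ : P), (⟨u, hu⟩ : P)⁆ ∈ commutator ↥P := by
        rw [commutator_def]
        exact Subgroup.commutator_mem_commutator (Subgroup.mem_top _) (Subgroup.mem_top _)
      rw [hcz] at h1
      have h2 := (hZG_mem _).mpr h1
      have h3 : ((⁅(⟨w⁻¹, P.inv_mem hwP⟩ : P), (⟨u, hu⟩ : P)⁆ : P) : G) = w⁻¹ * u * w * u⁻¹ := by
        rw [commutatorElement_def]
        simp
      rwa [h3] at h2
    set c : G := w⁻¹ * u * w * u⁻¹ with hcdef
    have hcy : y * c = c * y := hcent c hc y (hHK hy)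
    have hcw : w * c = c * w := hcent c hc w (hPK hwP)
    have hz : y * w * y⁻¹ * w⁻¹ ∈ ZG := by
      have e1 : y * u * w * (y * u)⁻¹ * w⁻¹ = y * w * c * y⁻¹ * w⁻¹ := by
        rw [hcdef]; group
      have e2 : c * y⁻¹ = y⁻¹ * c := by
        calc c * y⁻¹ = y⁻¹ * (y * c) * y⁻¹ := by group
          _ = y⁻¹ * (c * y) * y⁻¹ := by rw [hcy]
          _ = y⁻¹ * c := by group
      have e3 : c * w⁻¹ = w⁻¹ * c := by
        calc c * w⁻¹ = w⁻¹ * (w * c) * w⁻¹ := by group
          _ = w⁻¹ * (c * w) * w⁻¹ := by rw [hcw]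
          _ = w⁻¹ * c := by group
      have h1 : y * w * y⁻¹ * w⁻¹ = ((x : G) * w * (x : G)⁻¹ * w⁻¹) * c⁻¹ := by
        rw [← hyu]
        calc y * w * y⁻¹ * w⁻¹ = y * w * y⁻¹ * (w⁻¹ * c) * c⁻¹ := by group
          _ = y * w * y⁻¹ * (c * w⁻¹) * c⁻¹ := by rw [e3]
          _ = y * w * (y⁻¹ * c) * w⁻¹ * c⁻¹ := by group
          _ = y * w * (c * y⁻¹) * w⁻¹ * c⁻¹ := by rw [e2]
          _ = (y * w * c * y⁻¹ * w⁻¹) * c⁻¹ := by group
          _ = (y * u * w * (y * u)⁻¹ * w⁻¹) * c⁻¹ := by rw [e1]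
      rw [h1]
      exact ZG.mul_mem hxg' (ZG.inv_mem hc)
    set z : G := y * w * y⁻¹ * w⁻¹ with hzdef
    have hzy : y * z = z * y := hcent z hz y (hHK hy)
    have hpow : ∀ j : ℕ, y ^ j * w * (y ^ j)⁻¹ = z ^ j * w := by
      intro j
      induction j with
      | zero => simp
      | succ j ih =>
        have e1 : y ^ (j + 1) * w * (y ^ (j + 1))⁻¹ = y * (y ^ j * w * (y ^ j)⁻¹) * y⁻¹ := by
          rw [pow_succ']; group
        have hzjy : y * z ^ j = z ^ j * y := by
          have : Commute y z := hzy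
          exact (this.pow_right j).eq
        rw [e1, ih, ← mul_assoc, hzjy, pow_succ]
        have : z = y * w * y⁻¹ * w⁻¹ := hzdef
        nth_rewrite 3 [this]
        group
    have hz1 : z = 1 := by
      have h1 := hpow (orderOf y)
      rw [pow_orderOf_eq_one, one_mul, inv_one, mul_one] at h1
      have h2 : z ^ orderOf y = 1 := by
        have : z ^ orderOf y * w = 1 * w := by rw [one_mul]; exact h1.symm
        exact mul_right_cancel this
      have h3 : orderOf z ∣ orderOf y := orderOf_dvd_of_pow_eq_one h2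
      have h4 : orderOf z ∣ p := orderOf_dvd_of_pow_eq_one (hZpow z hz)
      have h5 : orderOf y ∣ Nat.card H := by
        have := orderOf_dvd_natCard (⟨y, hy⟩ : H)
        rwa [Subgroup.orderOf_mk] at this
      have h6 : orderOf z = 1 := Nat.eq_one_of_dvd_coprimes hcop (h3.trans h5) h4
      exact orderOf_eq_one_iff.mp h6
    have hcomm : w * y = y * w := by
      have : y * w * y⁻¹ * w⁻¹ = 1 := hz1
      have h2 : y * w = w * y := by
        have := congrArg (fun t => t * w * y) this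
        simpa [mul_assoc] using this
      exact h2.symm
    have hwZ : w ∈ ZG := by
      have h1 : w ∈ P ⊓ Subgroup.centralizer {y} := by
        refine ⟨hwP, ?_⟩
        show w ∈ Subgroup.centralizer {y}
        rw [Subgroup.mem_centralizer_iff]
        intro t ht
        rw [Set.mem_singleton_iff] at ht; subst ht
        exact hcomm.symm
      rw [hfix y hy hy1] at h1
      exact h1
    exact Subgroup.mem_subgroupOf.mpr hwZ
  obtain ⟨ψ, hψ, hext, hunit⟩ := exists_ext_unit N Z' hcyc hZ'c hZ'N hfrob (χ.1 ∘ e) hϑ hinv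
  -- restrict to H
  haveI : IsMulCommutative H := inferInstance
  have hψH : IsCharacter H (ψ ∘ (Subgroup.inclusion hHK)) :=
    isCharacter_comp (Subgroup.inclusion hHK) (isCharacter_of_isIrrCharacter hψ)
  have hd : (ψ ∘ (Subgroup.inclusion hHK)) 1 = ((p ^ n : ℕ) : ℂ) := by
    show ψ (Subgroup.inclusion hHK 1) = _
    rw [map_one]
    have h1 := hext 1
    rw [Subgroup.coe_one] at h1
    rw [h1]
    show χ.1 (e 1) = _
    rw [map_one, hχ1]
    push_cast; rfl
  have hu : ∀ y : H, y ≠ 1 → (ψ ∘ (Subgroup.inclusion hHK)) y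
      * conj ((ψ ∘ (Subgroup.inclusion hHK)) y) = 1 := by
    intro y hy
    apply hunit
    intro hmem
    apply hy
    have h1 : (y : G) ∈ P := Subgroup.mem_subgroupOf.mp hmem
    exact Subtype.ext (hord (y : G) y.2 h1)
  exact abelian_char_dvd (ψ ∘ (Subgroup.inclusion hHK)) hψH (p ^ n) hd hu

end Cfsg.Agent.Lib.helper24.ExtraFpf
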