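import Cfsg.Agent.Lib.helper24.GlaubExt
import Cfsg.Agent.Lib.helper24.CharCyclicExt
import Cfsg.Agent.Lib.helper24.CombVar

set_option autoImplicit false

namespace Cfsg.Agent.Lib.helper24

open Cfsg
open scoped ComplexConjugate

universe u

theorem commutator_le_of_cyclic_quot {T : Type u} [Group T] (N : Subgroup T) [N.Normal]
    (hcyc : IsCyclic (T ⧸ N)) : commutator T ≤ N := by
  rw [commutator_def, Subgroup.commutator_le]
  intro a _ b _
  obtain ⟨q, hq⟩ := hcyc.exists_generator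
  obtain ⟨i, hi⟩ := Subgroup.mem_zpowers_iff.mp (hq (QuotientGroup.mk a))
  obtain ⟨j, hj⟩ := Subgroup.mem_zpowers_iff.mp (hq (QuotientGroup.mk b))
  rw [← QuotientGroup.eq_one_iff, commutatorElement_def]
  simp only [QuotientGroup.mk_mul, QuotientGroup.mk_inv]
  rw [← hi, ← hj]
  group

/-- Abstract form of Isaacs' Frobenius-action congruence: if `T/N` is cyclic, `θ ∈ Irr(N)` is
invariant, `Ψ` is a character of `T` with `Ψ_N = e θ` and coset norm `1` off `N`, then
`|T:N|` divides `e - 1` or `e + 1`. -/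
theorem cyclic_frobenius_ramified {T : Type u} [Group T] [Fintype T] (N : Subgroup T)
    [hN : N.Normal] [Fintype N] (hcyc : IsCyclic (T ⧸ N)) (θ : IrrCharacter N)
    (hinv : ∀ (t : T) (n : N), θ.1 ⟨t * n * t⁻¹, hN.conj_mem n n.2 t⟩ = θ.1 n)
    (Ψ : T → ℂ) (hΨ : IsCharacter T Ψ) (e : ℕ) (h1 : ∀ n : N, Ψ n = e * θ.1 n)
    (h2 : ∀ t : T, t ∉ N →
      ∑ n : N, Ψ ((n : T) * t) * conj (Ψ ((n : T) * t)) = (Nat.card N : ℂ))
    (h3 : N ≠ ⊤) : (N.index : ℤ) ∣ (e : ℤ) - 1 ∨ (N.index : ℤ) ∣ (e : ℤ) + 1 := by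
  classical
  have := Fintype.ofFinite (IrrCharacter T)
  obtain ⟨θh, hθh, hθhN⟩ := exists_irr_extension_cyclic N hcyc θ.1 θ.2 hinv
  have hθhN' : (fun n : N => θh n) = θ.1 := funext hθhN
  have hcomm : commutator T ≤ N := commutator_le_of_cyclic_quot N hcyc
  have h5a : ∀ ξ : IrrCharacter T, classInner (fun n : N => ξ.1 n) θ.1 ≠ 0 →
      (fun n : N => ξ.1 n) = θ.1 := by
    intro ξ hξ
    have hbij := gallagher_quotient N θh hθh (by rw [hθhN']; exact θ.2)
    have hmem : ξ.1 ∈ {ψ : T → ℂ | IsIrrCharacter T ψ ∧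
        classInner (fun n : N => ψ n) (fun n : N => θh n) ≠ 0} :=
      ⟨ξ.2, by rw [hθhN']; exact hξ⟩
    obtain ⟨β, ⟨hβ, hβker⟩, hβξ⟩ := hbij.surjOn hmem
    have hβ1 : β 1 = 1 :=
      irr_linear_of_commutator_le_ker hβ (fun k hk => hβker k (hcomm hk))
    funext n
    have : ξ.1 n = β n * θh n := by rw [← hβξ]; rfl
    rw [this, hβker n n.2, hβ1, one_mul, hθhN n]
  obtain ⟨I, hI⟩ : ∃ I : IrrCharacter T → Prop,
      ∀ ξ, I ξ ↔ classInner (fun n : N => ξ.1 n) θ.1 ≠ 0 := ⟨_, fun ξ => Iff.rfl⟩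
  have hres : ∀ ξ : IrrCharacter T,
      classInner (fun n : N => ξ.1 n) θ.1 = if I ξ then 1 else 0 := by
    intro ξ
    by_cases h : I ξ
    · rw [if_pos h, h5a ξ ((hI ξ).mp h)]; exact irr_inner_self θ
    · rw [if_neg h]; exact not_not.mp (fun h' => h ((hI ξ).mpr h'))
  -- the number of characters over θ
  have hcardI : ((Finset.univ.filter I).card : ℂ) = (N.index : ℂ) := by
    have hF := indFun_isClassFunction N θ.1
    have hexp := classFunction_expansion hF
    have hc : ∀ ξ : IrrCharacter T, classInner (indFun N θ.1) ξ.1 = if I ξ then 1 else 0 := by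
      intro ξ
      rw [frobenius_reciprocity N θ.1
        (isCharacter_conj_class (isCharacter_of_isIrrCharacter ξ.2)), classInner_conj_symm,
        hres ξ]
      split_ifs <;> simp
    have hnorm := inner_indFun_invariant N θ.2 hinv
    rw [← hnorm]
    conv_rhs => rhs; rw [hexp]
    rw [classInner_sum_right]
    simp only [classInner_smul_right, hc]
    rw [Finset.card_filter]
    push_cast
    apply Finset.sum_congr rfl
    intro ξ _
    split_ifs <;> simp
  -- multiplicities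
  have hcoef : ∀ ξ : IrrCharacter T, ∃ a : ℕ, classInner Ψ ξ.1 = a :=
    fun ξ => isCharacter_inner_irr_nat hΨ ξ
  choose a ha using hcoef
  have hΨcl := isCharacter_conj_class hΨ
  have hexpΨ : ∀ t : T, Ψ t = ∑ ξ : IrrCharacter T, (a ξ : ℂ) * ξ.1 t := by
    intro t
    rw [classFunction_expansion_apply hΨcl t]
    apply Finset.sum_congr rfl
    intro ξ _
    rw [ha ξ]
  -- (i) sum over I equals e
  have hsumI : ∑ ξ ∈ Finset.univ.filter I, (a ξ : ℂ) = (e : ℂ) := by
    have e1 : classInner (fun n : N => Ψ n) θ.1 = (e : ℂ) := by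
      have : (fun n : N => Ψ n) = (e : ℂ) • θ.1 := funext h1
      rw [this, classInner_smul_left, irr_inner_self, mul_one]
    have e2 : (fun n : N => Ψ n) = ∑ ξ : IrrCharacter T, (a ξ : ℂ) • (fun n : N => ξ.1 n) := by
      funext n
      rw [hexpΨ n, Finset.sum_apply]
      rfl
    rw [e2, classInner_sum_left] at e1
    simp only [classInner_smul_left, hres] at e1
    rw [← e1, Finset.sum_filter]
    apply Finset.sum_congr rfl
    intro ξ _
    split_ifs <;> simp
  -- (ii) a vanishes off I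
  obtain ⟨d₀, hd₀pos, hd₀⟩ := isIrrCharacter_one θ.2
  have hdeg : ∀ ξ : IrrCharacter T, ∃ d : ℕ, 0 < d ∧ ξ.1 1 = (d : ℂ) :=
    fun ξ => isIrrCharacter_one ξ.2
  choose d hdpos hd using hdeg
  have hdI : ∀ ξ, I ξ → d ξ = d₀ := by
    intro ξ hξ
    have := congrFun (h5a ξ ((hI ξ).mp hξ)) 1
    have h' : ξ.1 1 = θ.1 1 := this
    rw [hd ξ, hd₀] at h'
    exact_mod_cast h'
  have hoff : ∀ ξ, ¬ I ξ → a ξ = 0 := by
    have e1 : (∑ ξ : IrrCharacter T, a ξ * d ξ : ℕ) = e * d₀ := by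
      have h' := hexpΨ 1
      have h'' := h1 1
      have h1' : Ψ 1 = (e : ℂ) * (d₀ : ℂ) := by rw [← hd₀]; exact h''
      rw [h1'] at h'
      simp only [hd] at h'
      exact_mod_cast h'.symm
    have e2 : (∑ ξ ∈ Finset.univ.filter I, a ξ : ℕ) = e := by exact_mod_cast hsumI
    have e3 : ∑ ξ : IrrCharacter T, a ξ * d ξ
        = ∑ ξ ∈ Finset.univ.filter I, a ξ * d ξ
          + ∑ ξ ∈ Finset.univ.filter (fun ξ => ¬ I ξ), a ξ * d ξ :=
      (Finset.sum_filter_add_sum_filter_not Finset.univ I _).symm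
    have e4 : ∑ ξ ∈ Finset.univ.filter I, a ξ * d ξ = e * d₀ := by
      rw [← e2, Finset.sum_mul]
      apply Finset.sum_congr rfl
      intro ξ hξ
      rw [hdI ξ (Finset.mem_filter.mp hξ).2]
    have e5 : ∑ ξ ∈ Finset.univ.filter (fun ξ => ¬ I ξ), a ξ * d ξ = 0 := by omega
    intro ξ hξ
    have := (Finset.sum_eq_zero_iff.mp e5) ξ (Finset.mem_filter.mpr ⟨Finset.mem_univ ξ, hξ⟩)
    rcases Nat.mul_eq_zero.mp this with h | h
    · exact h
    · exact absurd h (hdpos ξ).ne'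
  -- (iii) the norm of Ψ
  have hN0 : (Nat.card N : ℂ) ≠ 0 := by exact_mod_cast Nat.card_pos.ne'
  have hT0 : (Nat.card T : ℂ) ≠ 0 := by exact_mod_cast Nat.card_pos.ne'
  have hA : ∀ t : T, ∑ n : N, Ψ ((n : T) * t) * conj (Ψ ((n : T) * t))
      = if t ∈ N then (e : ℂ) ^ 2 * (Nat.card N : ℂ) else (Nat.card N : ℂ) := by
    intro t
    by_cases ht : t ∈ N
    · rw [if_pos ht]
      have hre : ∑ n : N, Ψ ((n : T) * t) * conj (Ψ ((n : T) * t))
          = ∑ n : N, Ψ (n : T) * conj (Ψ (n : T)) :=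
        Fintype.sum_equiv (Equiv.mulRight (⟨t, ht⟩ : N)) _ _ (fun n => rfl)
      rw [hre]
      have hθθ := irr_inner_self θ
      unfold classInner at hθθ
      have hθsum : ∑ n : N, θ.1 n * conj (θ.1 n) = (Nat.card N : ℂ) :=
        ((inv_mul_eq_one₀ hN0).mp hθθ).symm
      rw [← hθsum, Finset.mul_sum]
      apply Finset.sum_congr rfl
      intro n _
      rw [h1 n, map_mul, Complex.conj_natCast]
      ring
    · rw [if_neg ht]; exact h2 t ht
  have hsumΨ : (Nat.card N : ℂ) * ∑ t : T, Ψ t * conj (Ψ t)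
      = ∑ t : T, ∑ n : N, Ψ ((n : T) * t) * conj (Ψ ((n : T) * t)) := by
    rw [Finset.sum_comm]
    have : ∀ n : N, ∑ t : T, Ψ ((n : T) * t) * conj (Ψ ((n : T) * t))
        = ∑ t : T, Ψ t * conj (Ψ t) :=
      fun n => Fintype.sum_equiv (Equiv.mulLeft (n : T)) _ _ (fun t => rfl)
    rw [Finset.sum_congr rfl (fun n _ => this n), Finset.sum_const, Finset.card_univ,
      nsmul_eq_mul, Nat.card_eq_fintype_card]
  have hcardTN : Nat.card T = Nat.card N * N.index := (Subgroup.card_mul_index N).symm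
  have hfilterN : ((Finset.univ.filter (fun t : T => t ∈ N)).card : ℂ) = (Nat.card N : ℂ) := by
    congr 1
    rw [Nat.card_eq_fintype_card, Fintype.card_subtype]
  have hnormΨ : (N.index : ℂ) * ∑ ξ : IrrCharacter T, ((a ξ : ℂ)) ^ 2
      = (e : ℂ) ^ 2 + (N.index : ℂ) - 1 := by
    have hpars : classInner Ψ Ψ = ∑ ξ : IrrCharacter T, ((a ξ : ℂ)) ^ 2 := by
      have hexp := classFunction_expansion hΨcl
      conv_lhs => rhs; rw [hexp]
      rw [classInner_sum_right]
      apply Finset.sum_congr rfl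
      intro ξ _
      rw [classInner_smul_right, ha ξ, Complex.conj_natCast]
      ring
    rw [← hpars]
    unfold classInner
    have hs : ∑ t : T, ∑ n : N, Ψ ((n : T) * t) * conj (Ψ ((n : T) * t))
        = (Nat.card N : ℂ) * ((e : ℂ) ^ 2 * (Nat.card N : ℂ))
          + ((Nat.card T : ℂ) - (Nat.card N : ℂ)) * (Nat.card N : ℂ) := by
      simp only [hA]
      rw [Finset.sum_ite, Finset.sum_const, Finset.sum_const, nsmul_eq_mul, nsmul_eq_mul,
        hfilterN]
      congr 1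
      have hc : ((Finset.univ.filter (fun t : T => ¬ t ∈ N)).card : ℂ)
          = (Nat.card T : ℂ) - (Nat.card N : ℂ) := by
        have := Finset.card_filter_add_card_filter_not (s := (Finset.univ : Finset T))
          (fun t : T => t ∈ N)
        rw [Finset.card_univ, ← Nat.card_eq_fintype_card] at this
        rw [← hfilterN, ← this]
        push_cast
        ring
      rw [hc]
    rw [← hsumΨ] at hs
    have hs' : ∑ t : T, Ψ t * conj (Ψ t)
        = (e : ℂ) ^ 2 * (Nat.card N : ℂ) + ((Nat.card T : ℂ) - (Nat.card N : ℂ)) := by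
      apply mul_left_cancel₀ hN0
      rw [hs]; ring
    rw [hs']
    have hTN : (Nat.card T : ℂ) = (Nat.card N : ℂ) * (N.index : ℂ) := by
      rw [hcardTN]; push_cast; ring
    rw [hTN]
    have hidx0 : (N.index : ℂ) ≠ 0 := by
      have : N.index ≠ 0 := Subgroup.index_ne_zero_of_finite
      exact_mod_cast this
    field_simp
    ring
  -- apply the combinatorial lemma
  have hnormZ : (N.index : ℤ) * ∑ ξ : IrrCharacter T, ((a ξ : ℤ)) ^ 2
      = (e : ℤ) ^ 2 + (N.index : ℤ) - 1 := by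
    have : ((N.index : ℤ) * ∑ ξ : IrrCharacter T, ((a ξ : ℤ)) ^ 2 : ℂ)
        = (((e : ℤ) ^ 2 + (N.index : ℤ) - 1 : ℤ) : ℂ) := by
      push_cast
      exact hnormΨ
    exact_mod_cast this
  have hsumIZ : ∑ ξ ∈ Finset.univ.filter I, (a ξ : ℤ) = (e : ℤ) := by
    have : ((∑ ξ ∈ Finset.univ.filter I, (a ξ : ℤ) : ℤ) : ℂ) = ((e : ℤ) : ℂ) := by
      push_cast
      exact hsumI
    exact_mod_cast this
  have hcardIZ : (Finset.univ.filter I).card = N.index := by exact_mod_cast hcardI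
  have hsqI : ∑ ξ : IrrCharacter T, ((a ξ : ℤ)) ^ 2
      = ∑ ξ ∈ Finset.univ.filter I, ((a ξ : ℤ)) ^ 2 := by
    rw [Finset.sum_filter]
    apply Finset.sum_congr rfl
    intro ξ _
    by_cases h : I ξ
    · rw [if_pos h]
    · rw [if_neg h, hoff ξ h]; simp
  have hcardsub : Fintype.card {ξ : IrrCharacter T // I ξ} = N.index := by
    rw [Fintype.card_subtype, hcardIZ]
  have hs1 : ∑ ξ : {ξ : IrrCharacter T // I ξ}, (a ξ.1 : ℤ) = (e : ℤ) := by
    rw [← hsumIZ]
    exact (Finset.sum_subtype (Finset.univ.filter I) (by simp) (fun ξ => (a ξ : ℤ))).symm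
  have hs2 : ∑ ξ : {ξ : IrrCharacter T // I ξ}, (a ξ.1 : ℤ) ^ 2
      = ∑ ξ : IrrCharacter T, ((a ξ : ℤ)) ^ 2 := by
    rw [hsqI]
    exact (Finset.sum_subtype (Finset.univ.filter I) (by simp) (fun ξ => (a ξ : ℤ) ^ 2)).symm
  have hcomb := comb_variance (fun ξ : {ξ : IrrCharacter T // I ξ} => (a ξ.1 : ℤ)) (by
    rw [hcardsub, hs1, hs2, hnormZ]; omega)
  have hidx2 : 2 ≤ N.index := by
    have h0 : N.index ≠ 0 := Subgroup.index_ne_zero_of_finite
    have h1' : N.index ≠ 1 := fun h => h3 (Subgroup.index_eq_one.mp h)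
    omega
  obtain ⟨b, hb | ⟨ξ₀, hξ₀, hrest⟩⟩ := hcomb
  · exfalso
    have e1 : (e : ℤ) = (N.index : ℤ) * b := by
      rw [← hs1, Finset.sum_congr rfl (fun ξ _ => hb ξ), Finset.sum_const, Finset.card_univ,
        hcardsub, nsmul_eq_mul]
    have e2 : ∑ ξ : IrrCharacter T, ((a ξ : ℤ)) ^ 2 = (N.index : ℤ) * b ^ 2 := by
      rw [← hs2, Finset.sum_congr rfl (fun ξ _ => by rw [hb ξ]), Finset.sum_const,
        Finset.card_univ, hcardsub, nsmul_eq_mul]
    rw [e2, e1] at hnormZ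
    have : (N.index : ℤ) = 1 := by nlinarith
    omega
  · have hsum : (e : ℤ) = (a ξ₀.1 : ℤ) + ((N.index : ℤ) - 1) * b := by
      rw [← hs1, ← Finset.add_sum_erase Finset.univ _ (Finset.mem_univ ξ₀)]
      congr 1
      rw [Finset.sum_congr rfl (fun ξ hξ => hrest ξ (Finset.ne_of_mem_erase hξ)),
        Finset.sum_const, Finset.card_erase_of_mem (Finset.mem_univ ξ₀), Finset.card_univ,
        hcardsub, nsmul_eq_mul, Nat.cast_sub (by omega)]
      simp
    rcases hξ₀ with h | h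
    · left
      refine ⟨b, ?_⟩
      rw [hsum, h]; ring
    · right
      refine ⟨b, ?_⟩
      rw [hsum, h]; ring

end Cfsg.Agent.Lib.helper24
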