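import Cfsg.Agent.Lib.helper24.FrobRam2

set_option autoImplicit false

namespace Cfsg.Agent.Lib.helper24

open Cfsg
open scoped ComplexConjugate

universe u

/-- Isaacs: a fully ramified section under a cyclic Frobenius action has `e ≡ ±1` modulo
`|Γ:G|`. -/
theorem frob_ramified_statement {Γ : Type u} [Group Γ] [Fintype Γ] (G N : Subgroup Γ)
    [hG : G.Normal] [hN : N.Normal] [Fintype G] [Fintype N] (hNG : N ≤ G) (hGlt : G ≠ ⊤)
    (hcyc : IsCyclic (Γ ⧸ G))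
    (hfrob : ∀ x : Γ, x ∉ G → ∀ g : Γ, g ∈ G → x * g * x⁻¹ * g⁻¹ ∈ N → g ∈ N)
    (θ : IrrCharacter N)
    (hinv : ∀ (x : Γ) (n : N), θ.1 ⟨x * n * x⁻¹, hN.conj_mem n n.2 x⟩ = θ.1 n)
    (χ : IrrCharacter G) (e : ℕ)
    (hram : indFun (N.subgroupOf G) (fun n : N.subgroupOf G => θ.1 ⟨(n : G), n.2⟩)
      = fun g => (e : ℂ) * χ.1 g) :
    (G.index : ℤ) ∣ (e : ℤ) - 1 ∨ (G.index : ℤ) ∣ (e : ℤ) + 1 := by
  classical
  let NG : Subgroup G := N.subgroupOf G
  have : Fintype NG := Fintype.ofFinite NG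
  let θG : NG → ℂ := fun n => θ.1 ⟨(n : G), n.2⟩
  have hθG : IsIrrCharacter NG θG :=
    isIrrCharacter_comp_equiv (Subgroup.subgroupOfEquivOfLe hNG) θ.2
  have he0 : e ≠ 0 := by
    intro h0
    have h1 := congrFun hram 1
    rw [indFun_one, h0] at h1
    simp only [Nat.cast_zero, zero_mul, mul_eq_zero] at h1
    rcases h1 with h | h
    · have : NG.index ≠ 0 := Subgroup.index_ne_zero_of_finite
      exact this (by exact_mod_cast h)
    · obtain ⟨d, hd, hd1⟩ := isIrrCharacter_one hθG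
      have h' : θG 1 = 0 := h
      rw [hd1] at h'
      have : d = 0 := by exact_mod_cast h'
      omega
  have heC : (e : ℂ) ≠ 0 := by exact_mod_cast he0
  have hχcl := isCharacter_conj_class (isCharacter_of_isIrrCharacter χ.2)
  have hcon : classInner (fun n : NG => χ.1 n) θG = e := by
    have hfr := frobenius_reciprocity NG θG hχcl
    rw [hram] at hfr
    have h1 : classInner (fun g : G => (e : ℂ) * χ.1 g) χ.1 = e := by
      have : (fun g : G => (e : ℂ) * χ.1 g) = (e : ℂ) • χ.1 := rfl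
      rw [this, classInner_smul_left, irr_inner_self, mul_one]
    rw [classInner_conj_symm, ← hfr, h1, Complex.conj_natCast]
  have hinvG : ∀ (g : G) (n : NG),
      θG ⟨g * n * g⁻¹, (inferInstance : NG.Normal).conj_mem (n : G) n.2 g⟩ = θG n := by
    intro g n
    exact hinv (g : Γ) ⟨((n : G) : Γ), n.2⟩
  have hres := restrict_eq_smul_of_invariant NG χ.1 χ.2 θG hθG (by rw [hcon]; exact heC) hinvG
  rw [hcon] at hres
  have hχinv : ∀ (γ : Γ) (g : G), χ.1 ⟨γ * g * γ⁻¹, hG.conj_mem g g.2 γ⟩ = χ.1 g := by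
    intro γ g
    let σ : MulAut G := MulAut.conjNormal γ
    have hσ : ∀ g : G, ((σ g : G) : Γ) = γ * g * γ⁻¹ := fun g => MulAut.conjNormal_apply γ g
    have hσs : ∀ g : G, ((σ.symm g : G) : Γ) = γ⁻¹ * g * γ :=
      fun g => MulAut.conjNormal_symm_apply γ g
    have hH : ∀ h ∈ NG, σ h ∈ NG := by
      intro h hh
      show ((σ h : G) : Γ) ∈ N
      rw [hσ]; exact hN.conj_mem _ hh γ
    have hH' : ∀ h ∈ NG, σ.symm h ∈ NG := by
      intro h hh
      show ((σ.symm h : G) : Γ) ∈ N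
      rw [hσs]
      have := hN.conj_mem _ hh γ⁻¹
      rwa [inv_inv] at this
    have hθσ : ∀ h : NG, θG ⟨σ h, hH h h.2⟩ = θG h := by
      intro h
      have := hinv γ ⟨((h : G) : Γ), h.2⟩
      show θ.1 ⟨((σ h : G) : Γ), _⟩ = θ.1 ⟨((h : G) : Γ), _⟩
      rw [← this]
      exact congrArg θ.1 (Subtype.ext (hσ h))
    have h1 := indFun_comp_aut σ NG hH hH' θG hθσ g
    rw [hram] at h1
    have h2 : χ.1 (σ g) = χ.1 g := mul_left_cancel₀ heC h1
    rw [← h2]
    exact congrArg χ.1 (Subtype.ext (hσ g).symm)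
  obtain ⟨ψ, hψ, hψG⟩ := exists_irr_extension_cyclic G hcyc χ.1 χ.2 hχinv
  have hψc := isCharacter_of_isIrrCharacter hψ
  have hψGirr : IsIrrCharacter G (fun g : G => ψ g) := by
    have : (fun g : G => ψ g) = χ.1 := funext hψG
    rw [this]; exact χ.2
  have hψN : ∀ n : N, ψ n = e * θ.1 n := by
    intro n
    have h1 := congrFun hres ⟨⟨n, hNG n.2⟩, n.2⟩
    have h2 := hψG ⟨n, hNG n.2⟩
    rw [h2]
    exact h1
  obtain ⟨q, hq⟩ := hcyc.exists_generator
  obtain ⟨x, rfl⟩ := QuotientGroup.mk_surjective q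
  have hxG : x ∉ G := by
    intro hx
    apply hGlt
    rw [eq_top_iff]
    intro γ _
    obtain ⟨i, hi⟩ := Subgroup.mem_zpowers_iff.mp (hq (QuotientGroup.mk γ))
    have h1 : (QuotientGroup.mk x : Γ ⧸ G) = 1 := (QuotientGroup.eq_one_iff x).mpr hx
    rw [h1, one_zpow] at hi
    exact (QuotientGroup.eq_one_iff γ).mp hi.symm
  let T : Subgroup Γ := N ⊔ Subgroup.zpowers x
  have hNT : N ≤ T := le_sup_left
  have hxT : x ∈ T := (le_sup_right : Subgroup.zpowers x ≤ T) (Subgroup.mem_zpowers x)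
  have hTdec : ∀ t ∈ T, ∃ n ∈ N, ∃ i : ℤ, t = n * x ^ i := by
    intro t ht
    have h2 : t ∈ ((N ⊔ Subgroup.zpowers x : Subgroup Γ) : Set Γ) := ht
    rw [Subgroup.normal_mul] at h2
    obtain ⟨n, hn, z, hz, rfl⟩ := Set.mem_mul.mp h2
    obtain ⟨i, rfl⟩ := Subgroup.mem_zpowers_iff.mp hz
    exact ⟨n, hn, i, rfl⟩
  have hTG : ∀ t ∈ T, t ∈ G → t ∈ N := by
    intro t ht htG
    obtain ⟨n, hn, i, rfl⟩ := hTdec t ht
    have hxi : x ^ i ∈ G := by
      have := G.mul_mem (G.inv_mem (hNG hn)) htG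
      rwa [inv_mul_cancel_left] at this
    have hxiN : x ^ i ∈ N := hfrob x hxG (x ^ i) hxi (by
      have : x * x ^ i * x⁻¹ * (x ^ i)⁻¹ = 1 := by group
      rw [this]; exact N.one_mem)
    exact N.mul_mem hn hxiN
  let NT : Subgroup T := N.subgroupOf T
  have : Fintype T := Fintype.ofFinite T
  have : Fintype NT := Fintype.ofFinite NT
  let eN : NT ≃* N := Subgroup.subgroupOfEquivOfLe hNT
  let θT : IrrCharacter NT :=
    ⟨fun n => θ.1 ⟨(n : Γ), n.2⟩, isIrrCharacter_comp_equiv eN θ.2⟩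
  have hcycT : IsCyclic (T ⧸ NT) := by
    refine ⟨⟨QuotientGroup.mk ⟨x, hxT⟩, fun q => ?_⟩⟩
    obtain ⟨t, rfl⟩ := QuotientGroup.mk_surjective q
    obtain ⟨n, hn, i, hti⟩ := hTdec t t.2
    refine ⟨i, ?_⟩
    show (QuotientGroup.mk (⟨x, hxT⟩ : T) : T ⧸ NT) ^ i = QuotientGroup.mk t
    rw [← QuotientGroup.mk_zpow, QuotientGroup.eq]
    show ((((⟨x, hxT⟩ : T) ^ i)⁻¹ * t : T) : Γ) ∈ N
    have h1 : ((((⟨x, hxT⟩ : T) ^ i)⁻¹ * t : T) : Γ) = (x ^ i)⁻¹ * n * ((x ^ i)⁻¹)⁻¹ := by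
      push_cast
      rw [hti]
      group
    rw [h1]
    exact hN.conj_mem n hn (x ^ i)⁻¹
  have hinvT : ∀ (t : T) (n : NT),
      θT.1 ⟨t * n * t⁻¹, (inferInstance : NT.Normal).conj_mem n n.2 t⟩ = θT.1 n := by
    intro t n
    exact hinv (t : Γ) ⟨((n : T) : Γ), n.2⟩
  let Ψ : T → ℂ := fun t => ψ t
  have hΨ : IsCharacter T Ψ := Cfsg.Agent.Lib.helper24.isCharacter_restrict T hψc
  have h1 : ∀ n : NT, Ψ n = e * θT.1 n := fun n => hψN ⟨((n : T) : Γ), n.2⟩
  have hcardNT : Nat.card NT = Nat.card N := Nat.card_congr eN.toEquiv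
  have h2 : ∀ t : T, t ∉ NT →
      ∑ n : NT, Ψ ((n : T) * t) * conj (Ψ ((n : T) * t)) = (Nat.card NT : ℂ) := by
    intro t ht
    have htG : (t : Γ) ∉ G := fun h => ht (Subgroup.mem_subgroupOf.mpr (hTG t t.2 h))
    have h5 := frob_coset_norm G N hNG hfrob ψ hψ hψGirr (t : Γ) htG
    rw [hcardNT, ← h5]
    exact Fintype.sum_equiv eN.toEquiv _ _ (fun n => rfl)
  have h3 : NT ≠ ⊤ := by
    intro h
    have : (⟨x, hxT⟩ : T) ∈ NT := h ▸ Subgroup.mem_top _
    exact hxG (hNG (Subgroup.mem_subgroupOf.mp this))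
  have hmain := cyclic_frobenius_ramified NT hcycT θT hinvT Ψ hΨ e h1 h2 h3
  have hidx : NT.index = G.index := by
    show N.relIndex T = G.index
    have hinf : G ⊓ T = N := le_antisymm (fun t ht => hTG t ht.2 ht.1) (le_inf hNG hNT)
    have hsup : T ⊔ G = ⊤ := by
      rw [eq_top_iff]
      intro γ _
      obtain ⟨i, hi⟩ := Subgroup.mem_zpowers_iff.mp (hq (QuotientGroup.mk γ))
      rw [← QuotientGroup.mk_zpow, QuotientGroup.eq] at hi
      have : γ = x ^ i * ((x ^ i)⁻¹ * γ) := by group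
      rw [this]
      exact Subgroup.mul_mem _ ((le_sup_left : T ≤ T ⊔ G) (T.zpow_mem hxT i))
        ((le_sup_right : G ≤ T ⊔ G) hi)
    rw [← hinf, Subgroup.inf_relIndex_right, ← Subgroup.relIndex_sup_right, hsup,
      Subgroup.relIndex_top_right]
  rw [hidx] at hmain
  exact hmain

end Cfsg.Agent.Lib.helper24
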