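import Cfsg.Agent.Lib.helper24.Garrison1
import Cfsg.Agent.Lib.helper24.CharReg

/-! Garrison's theorem: the nilpotent length of a solvable group is at most the number of
irreducible character degrees. -/

namespace Cfsg.Agent.Lib.helper24

open Cfsg
open scoped ComplexConjugate

universe u

set_option autoImplicit false

section Garrison2

variable {G : Type u} [Group G] [Finite G]

/-- One step of the upper Fitting series. -/
noncomputable def fitStep (N : {N : Subgroup G // N.Normal}) : {N : Subgroup G // N.Normal} :=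
  haveI := N.2
  ⟨(fittingSubgroup (G ⧸ N.1)).comap (QuotientGroup.mk' N.1),
    (Cfsg.Agent.Lib.helper1.fitting_normal (G ⧸ N.1)).comap _⟩

/-- The upper Fitting series. -/
noncomputable def fitSeries : ℕ → {N : Subgroup G // N.Normal}
  | 0 => ⟨⊥, inferInstance⟩
  | i + 1 => fitStep (fitSeries i)

theorem le_fitStep (N : {N : Subgroup G // N.Normal}) : N.1 ≤ (fitStep N).1 := by
  haveI := N.2
  intro x hx
  show x ∈ (fittingSubgroup (G ⧸ N.1)).comap (QuotientGroup.mk' N.1)
  rw [Subgroup.mem_comap]
  have h1 : (QuotientGroup.mk' N.1) x = 1 := (QuotientGroup.eq_one_iff x).mpr hx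
  rw [h1]
  exact Subgroup.one_mem _

theorem fitSeries_mono : Monotone (fun i => (fitSeries (G := G) i).1) :=
  monotone_nat_of_le_succ (fun i => le_fitStep (fitSeries i))

theorem fitStep_quotient_nilpotent (N : {N : Subgroup G // N.Normal})
    (h : (N.1.subgroupOf (fitStep N).1).Normal) :
    Group.IsNilpotent (↥(fitStep N).1 ⧸ N.1.subgroupOf (fitStep N).1) := by
  haveI := N.2
  haveI hnil : Group.IsNilpotent ↥(fittingSubgroup (G ⧸ N.1)) :=
    Cfsg.Agent.Lib.helper1.fitting_isNilpotent (G ⧸ N.1)
  let φ : ↥(fitStep N).1 →* ↥(fittingSubgroup (G ⧸ N.1)) :=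
    { toFun := fun x => ⟨(QuotientGroup.mk' N.1) x, x.2⟩
      map_one' := Subtype.ext (by simp)
      map_mul' := fun a b => Subtype.ext (by simp) }
  have hker : N.1.subgroupOf (fitStep N).1 ≤ φ.ker := by
    intro x hx
    rw [MonoidHom.mem_ker]
    apply Subtype.ext
    show (QuotientGroup.mk' N.1) (x : G) = 1
    exact (QuotientGroup.eq_one_iff _).mpr (Subgroup.mem_subgroupOf.mp hx)
  let ψ : (↥(fitStep N).1 ⧸ N.1.subgroupOf (fitStep N).1) →* ↥(fittingSubgroup (G ⧸ N.1)) :=
    QuotientGroup.lift _ φ hker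
  have hinj : Function.Injective ψ := by
    rw [injective_iff_map_eq_one]
    intro y hy
    obtain ⟨x, rfl⟩ := QuotientGroup.mk_surjective y
    have h1 : φ x = 1 := hy
    rw [QuotientGroup.eq_one_iff, Subgroup.mem_subgroupOf]
    have h2 : (QuotientGroup.mk' N.1) (x : G) = 1 := congrArg Subtype.val h1
    exact (QuotientGroup.eq_one_iff _).mp h2
  exact Group.nilpotent_of_mulEquiv (MonoidHom.ofInjective hinj).symm

theorem fitSeries_card_eq_top (hsolv : Group.IsSolvable G) (n : ℕ)
    (hcd : Nat.card {d : ℕ // ∃ χ : IrrCharacter G, charDegree χ.1 = d} = n) :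
    (fitSeries (G := G) n).1 = ⊤ := by
  classical
  haveI : Fintype (IrrCharacter G) := Fintype.ofFinite _
  by_contra hne
  set S : Finset ℕ := Finset.univ.image (fun χ : IrrCharacter G => charDegree χ.1) with hS
  have hScard : S.card = n := by
    have hmem : ∀ d : ℕ, d ∈ S ↔ ∃ χ : IrrCharacter G, charDegree χ.1 = d := by
      intro d
      simp [hS]
    haveI : Fintype {d : ℕ // ∃ χ : IrrCharacter G, charDegree χ.1 = d} :=
      Fintype.subtype S hmem
    rw [← hcd, Nat.card_eq_fintype_card]
    exact (Fintype.card_of_subtype S hmem).symm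
  have key : ∀ i ≤ n, ∃ χ : IrrCharacter G, (fitSeries (n - i)).1 ≤ irrKer χ ∧
      i + 1 ≤ (S.filter (· ≤ charDegree χ.1)).card := by
    intro i
    induction i with
    | zero =>
      intro _
      refine ⟨trivIrr G, ?_, ?_⟩
      · intro g _
        rw [mem_irrKer, trivIrr_apply, trivIrr_apply]
      · apply Finset.card_pos.mpr
        exact ⟨charDegree (trivIrr G).1,
          Finset.mem_filter.mpr ⟨Finset.mem_image_of_mem _ (Finset.mem_univ _), le_rfl⟩⟩
    | succ i ih =>
      intro hi
      obtain ⟨χ, hχker, hχc⟩ := ih (by omega)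
      have hj : n - i = (n - (i + 1)) + 1 := by omega
      rw [hj] at hχker
      set Nj := fitSeries (G := G) (n - (i + 1)) with hNj
      haveI := Nj.2
      have hstep : (fitStep Nj).1 ≤ irrKer χ := hχker
      obtain ⟨χb, hχb⟩ := (irrInfl_range' Nj.1 χ).mpr ((le_fitStep Nj).trans hstep)
      have hFK : fittingSubgroup (G ⧸ Nj.1) ≤ irrKer χb := by
        intro y hy
        obtain ⟨x, rfl⟩ := QuotientGroup.mk_surjective y
        have hx : x ∈ (fitStep Nj).1 := hy
        have h1 := hstep hx
        rw [← hχb, irrKer_irrInfl] at h1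
        exact h1
      have hFtop : fittingSubgroup (G ⧸ Nj.1) ≠ ⊤ := by
        intro htop
        apply hne
        have h1 : (fitStep Nj).1 = ⊤ := by
          show (fittingSubgroup (G ⧸ Nj.1)).comap (QuotientGroup.mk' Nj.1) = ⊤
          rw [htop]
          exact Subgroup.comap_top _
        have h2 : (fitStep Nj).1 ≤ (fitSeries n).1 :=
          fitSeries_mono (G := G) (show n - (i + 1) + 1 ≤ n by omega)
        exact top_le_iff.mp (h1 ▸ h2)
      obtain ⟨ψb, hψdeg, -⟩ := larger_degree_smaller_kernel χb (irrKer χb)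
        (fun g => mem_irrKer χb g) (by
          by_cases hle : irrKer χb ≤ fittingSubgroup (G ⧸ Nj.1)
          · right
            have heq : irrKer χb = fittingSubgroup (G ⧸ Nj.1) := le_antisymm hle hFK
            refine ⟨heq, ?_, heq ▸ hFtop⟩
            haveI := hsolv
            infer_instance
          · left
            exact hle)
      refine ⟨irrInfl Nj.1 ψb, ?_, ?_⟩
      · exact (irrInfl_range' Nj.1 _).mp ⟨ψb, rfl⟩
      · rw [charDegree_irrInfl]
        have hdχ : charDegree χ.1 = charDegree χb.1 := by rw [← hχb, charDegree_irrInfl]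
        rw [hdχ] at hχc
        have hss : (S.filter (· ≤ charDegree χb.1)) ⊂ (S.filter (· ≤ charDegree ψb.1)) := by
          rw [Finset.ssubset_iff_of_subset (fun d hd => by
            rw [Finset.mem_filter] at hd ⊢
            exact ⟨hd.1, hd.2.trans hψdeg.le⟩)]
          refine ⟨charDegree ψb.1, Finset.mem_filter.mpr ⟨?_, le_rfl⟩, fun h => ?_⟩
          · rw [hS, Finset.mem_image]
            exact ⟨irrInfl Nj.1 ψb, Finset.mem_univ _, charDegree_irrInfl _ _⟩
          · have := (Finset.mem_filter.mp h).2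
            omega
        have := Finset.card_lt_card hss
        omega
  obtain ⟨χ, -, hc⟩ := key n le_rfl
  have : (S.filter (· ≤ charDegree χ.1)).card ≤ S.card := Finset.card_filter_le _ _
  omega

/-- Garrison's theorem (S4462). -/
theorem garrison (hsolv : Group.IsSolvable G) (n : ℕ) (hcd : Nat.card {d : ℕ // ∃ χ : IrrCharacter G, charDegree (χ : G → ℂ) = d} = n) : ∃ N : Fin (n + 1) → Subgroup G, N 0 = ⊥ ∧ N (Fin.last n) = ⊤ ∧ Monotone N ∧ (∀ i, (N i).Normal) ∧ ∀ i : Fin n, ∀ h : (N i.castSucc).subgroupOf (N i.succ) |>.Normal, Group.IsNilpotent (↥(N i.succ) ⧸ (N i.castSucc).subgroupOf (N i.succ)) := by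
  refine ⟨fun i => (fitSeries (G := G) i).1, rfl, fitSeries_card_eq_top hsolv n hcd,
    fun i j hij => fitSeries_mono (G := G) hij, fun i => (fitSeries (G := G) i).2, ?_⟩
  rintro ⟨i, hi⟩ h
  exact fitStep_quotient_nilpotent (fitSeries (G := G) i) h

end Garrison2

end Cfsg.Agent.Lib.helper24
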