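import Cfsg.Agent.Lib.helper24.CycFinal
import Cfsg.Agent.Lib.helper24.CharClifford
import Cfsg.Agent.Lib.helper24.CharCyclicExt
import Cfsg.Agent.Lib.helper24.CharGallagher2
import Cfsg.Agent.Lib.helper24.FrobRam
import Cfsg.Agent.Lib.helper24.CharChief

set_option autoImplicit false

namespace Cfsg.Agent.Lib.helper24

open Cfsg
open scoped ComplexConjugate

universe u

theorem card_conjClasses_of_comm {W : Type u} [Group W] (hc : ∀ a b : W, a * b = b * a) :
    Nat.card (ConjClasses W) = Nat.card W := by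
  symm
  apply Nat.card_congr
  refine Equiv.ofBijective (ConjClasses.mk) ⟨?_, ?_⟩
  · intro a b h
    rw [ConjClasses.mk_eq_mk_iff_isConj, isConj_iff] at h
    obtain ⟨c, hc'⟩ := h
    rw [← hc', hc c a, mul_inv_cancel_right]
  · exact ConjClasses.mk_surjective

/-- Number of `S`-invariant irreducible characters when `C_K(S) = W₂` is abelian. -/
theorem typeP_count {L : Type u} [Group L] [Fintype L] (K S W₂ : Subgroup L) [hK : K.Normal]
    (hcop : (Nat.card K).Coprime (Nat.card S)) (hSsolv : Group.IsSolvable S)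
    (hW₂c : ∀ a b : W₂, a * b = b * a)
    (hW₂ : W₂ = K ⊓ Subgroup.centralizer (S : Set L)) :
    Nat.card {θ : IrrCharacter K //
      ∀ s ∈ S, ∀ g g' : K, (g' : L) = s * g * s⁻¹ → θ.1 g' = θ.1 g} = Nat.card W₂ := by
  have hnorm : ∀ s ∈ S, ∀ g ∈ K, s * g * s⁻¹ ∈ K := fun s _ g hg => hK.conj_mem g hg s
  have e1 : Nat.card {θ : IrrCharacter K //
      ∀ s ∈ S, ∀ g g' : K, (g' : L) = s * g * s⁻¹ → θ.1 g' = θ.1 g}
      = Nat.card {χ : IrrCharacter K // IsInvFun (conjAct K S hnorm) χ.1} :=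
    Nat.card_congr (Equiv.subtypeEquivRight
      (fun χ => (isInvFun_conjAct_iff K S hnorm χ.1).symm))
  have e2 := count_fix hSsolv hcop (conjAct K S hnorm)
  have hCK : W₂ ≤ K := hW₂ ▸ inf_le_left
  have e3 : Nat.card (IrrCharacter W₂)
      = Nat.card (IrrCharacter (fixSub (conjAct K S hnorm))) :=
    Nat.card_congr (irrCongr (fixEquiv K S hnorm W₂ hW₂ hCK)).symm
  rw [e1, e2, ← card_irr_eq_card_conjClasses, ← e3, card_irr_eq_card_conjClasses,
    card_conjClasses_of_comm hW₂c]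

/-- The stabilizer of a function on a normal subgroup. -/
def charStab {L : Type u} [Group L] (K : Subgroup L) [hK : K.Normal] (θ : K → ℂ) : Subgroup L where
  carrier := {g | ∀ n : K, θ ⟨g * n * g⁻¹, hK.conj_mem n n.2 g⟩ = θ n}
  one_mem' := by
    intro n
    have : (⟨1 * (n : L) * 1⁻¹, hK.conj_mem n n.2 1⟩ : K) = n := Subtype.ext (by simp)
    rw [this]
  mul_mem' := by
    intro a b ha hb n
    have h1 := ha ⟨b * n * b⁻¹, hK.conj_mem n n.2 b⟩
    have : (⟨a * b * (n : L) * (a * b)⁻¹, hK.conj_mem n n.2 (a * b)⟩ : K)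
        = ⟨a * ((⟨b * n * b⁻¹, hK.conj_mem n n.2 b⟩ : K) : L) * a⁻¹,
            hK.conj_mem _ (hK.conj_mem n n.2 b) a⟩ := Subtype.ext (by simp; group)
    rw [this, h1, hb n]
  inv_mem' := by
    intro a ha n
    have h1 := ha ⟨a⁻¹ * n * a⁻¹⁻¹, hK.conj_mem n n.2 a⁻¹⟩
    have : (⟨a * ((⟨a⁻¹ * n * a⁻¹⁻¹, hK.conj_mem n n.2 a⁻¹⟩ : K) : L) * a⁻¹,
        hK.conj_mem _ (hK.conj_mem n n.2 a⁻¹) a⟩ : K) = n := Subtype.ext (by simp; group)
    rw [this] at h1
    exact h1.symm

theorem mem_charStab {L : Type u} [Group L] (K : Subgroup L) [hK : K.Normal] (θ : K → ℂ) (g : L) :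
    g ∈ charStab K θ ↔ ∀ n : K, θ ⟨g * n * g⁻¹, hK.conj_mem n n.2 g⟩ = θ n := Iff.rfl

theorem type_p_kernel_characters {L : Type u} [Group L] [Fintype L] (K W₁ W₂ : Subgroup L) [hK : K.Normal] (hKW₁ : K ⊓ W₁ = ⊥) (hKW₁' : K ⊔ W₁ = ⊤) (hW₁ : W₁ ≠ ⊥) (hW₁c : IsCyclic W₁) (hHall : Nat.Coprime (Nat.card W₁) W₁.index) (hW₂ : W₂ ≠ ⊥) (hW₂c : IsCyclic W₂) (hW₂K : W₂ ≤ K) (hC : ∀ x ∈ W₁, x ≠ 1 → K ⊓ Subgroup.centralizer ({x} : Set L) = W₂) (hodd : Odd (Nat.card ↥(W₁ ⊔ W₂))) : (∀ θ : K → ℂ, IsIrrCharacter K θ → (∃ x ∈ W₁, (fun k : K => θ ⟨x * k * x⁻¹, hK.conj_mem (k : L) k.2 x⟩) ≠ θ) → IsIrrCharacter L (indFun K θ)) ∧ Nat.card {θ : IrrCharacter K // ∀ x ∈ W₁, (fun k : K => (θ : K → ℂ) ⟨x * k * x⁻¹, hK.conj_mem (k : L) k.2 x⟩) = θ} = Nat.card W₂ ∧ (∀ θ : K → ℂ, IsIrrCharacter K θ → (∀ x ∈ W₁, (fun k : K => θ ⟨x * k * x⁻¹, hK.conj_mem (k : L) k.2 x⟩) = θ) → ∃ C : Finset (L → ℂ), C.card = Nat.card W₁ ∧ (∀ μ ∈ C, IsIrrCharacter L μ) ∧ indFun K θ = ∑ μ ∈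 C, μ) := by
  classical
  have : Fintype K := Fintype.ofFinite _
  have : Fintype (IrrCharacter K) := Fintype.ofFinite _
  have : Fintype (IrrCharacter L) := Fintype.ofFinite _
  -- decomposition
  have hmul : ∀ l : L, ∃ k ∈ K, ∃ w ∈ W₁, l = k * w := by
    intro l
    have hl : l ∈ (↑(K ⊔ W₁) : Set L) := by rw [hKW₁']; trivial
    rw [Subgroup.normal_mul] at hl
    obtain ⟨k, hk, w, hw, rfl⟩ := Set.mem_mul.1 hl
    exact ⟨k, hk, w, hw, rfl⟩
  have hcompl : Subgroup.IsComplement' K W₁ := by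
    apply Subgroup.isComplement'_of_disjoint_and_mul_eq_univ (disjoint_iff.mpr hKW₁)
    rw [← Subgroup.normal_mul, hKW₁']; rfl
  have hidx : W₁.index = Nat.card K := hcompl.index_eq_card
  have hidxK : K.index = Nat.card W₁ := hcompl.symm.index_eq_card
  have hcop : (Nat.card K).Coprime (Nat.card W₁) := by rw [← hidx]; exact hHall.symm
  have hW₁comm : ∀ a ∈ W₁, ∀ b ∈ W₁, a * b = b * a := by
    intro a ha b hb
    obtain ⟨g, hg⟩ := hW₁c.exists_generator
    obtain ⟨i, hi⟩ := Subgroup.mem_zpowers_iff.mp (hg ⟨a, ha⟩)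
    obtain ⟨j, hj⟩ := Subgroup.mem_zpowers_iff.mp (hg ⟨b, hb⟩)
    have h1 : (⟨a, ha⟩ : W₁) * ⟨b, hb⟩ = ⟨b, hb⟩ * ⟨a, ha⟩ := by
      rw [← hi, ← hj, ← zpow_add, ← zpow_add, add_comm]
    exact congrArg Subtype.val h1
  have hW₂comm : ∀ a b : W₂, a * b = b * a := by
    intro a b
    obtain ⟨g, hg⟩ := hW₂c.exists_generator
    obtain ⟨i, hi⟩ := Subgroup.mem_zpowers_iff.mp (hg a)
    obtain ⟨j, hj⟩ := Subgroup.mem_zpowers_iff.mp (hg b)
    rw [← hi, ← hj, ← zpow_add, ← zpow_add, add_comm]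
  -- centralizer of a nontrivial subgroup of W₁
  have hcent : ∀ S : Subgroup L, S ≤ W₁ → S ≠ ⊥ →
      W₂ = K ⊓ Subgroup.centralizer (S : Set L) := by
    intro S hS hS1
    obtain ⟨x, hx1⟩ := (Subgroup.ne_bot_iff_exists_ne_one).mp hS1
    have hx1' : (x : L) ≠ 1 := fun h => hx1 (Subtype.ext h)
    apply le_antisymm
    · intro w hw
      refine ⟨hW₂K hw, ?_⟩
      show w ∈ Subgroup.centralizer (S : Set L)
      rw [Subgroup.mem_centralizer_iff]
      intro s hs
      by_cases hs1 : s = 1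
      · rw [hs1]; simp
      · have := hC s (hS hs) hs1
        rw [← this] at hw
        have h2 : w ∈ Subgroup.centralizer ({s} : Set L) := hw.2
        rw [Subgroup.mem_centralizer_iff] at h2
        exact h2 s rfl
    · rw [← hC x (hS x.2) hx1']
      apply inf_le_inf_left
      apply Subgroup.centralizer_le
      intro y hy
      rw [Set.mem_singleton_iff] at hy
      rw [hy]; exact x.2
  have hsolv : ∀ S : Subgroup L, S ≤ W₁ → Group.IsSolvable S := by
    intro S hS
    apply Group.isSolvable_of_comm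
    rintro ⟨a, ha⟩ ⟨b, hb⟩
    exact Subtype.ext (hW₁comm a (hS ha) b (hS hb))
  have hcopS : ∀ S : Subgroup L, S ≤ W₁ → (Nat.card K).Coprime (Nat.card S) := by
    intro S hS
    exact Nat.Coprime.coprime_dvd_right (Subgroup.card_dvd_of_le hS) hcop
  have hcount : ∀ S : Subgroup L, S ≤ W₁ → S ≠ ⊥ → Nat.card {θ : IrrCharacter K //
      ∀ s ∈ S, ∀ g g' : K, (g' : L) = s * g * s⁻¹ → θ.1 g' = θ.1 g} = Nat.card W₂ :=
    fun S hS hS1 => typeP_count K S W₂ (hcopS S hS) (hsolv S hS) hW₂comm (hcent S hS hS1)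
  -- invariance forms
  have hform : ∀ (θ : K → ℂ) (S : Subgroup L),
      (∀ s ∈ S, ∀ g g' : K, (g' : L) = s * g * s⁻¹ → θ g' = θ g) ↔ S ≤ charStab K θ := by
    intro θ S
    constructor
    · intro h s hs n
      exact h s hs n _ rfl
    · intro h s hs g g' hg'
      have := h hs g
      have e : g' = ⟨s * g * s⁻¹, hK.conj_mem g g.2 s⟩ := Subtype.ext hg'
      rw [e]; exact this
  -- key: fixed by one nontrivial element implies fixed by all of W₁
  have hkey : ∀ θ : K → ℂ, IsIrrCharacter K θ → ∀ w ∈ W₁, w ≠ 1 → w ∈ charStab K θ →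
      W₁ ≤ charStab K θ := by
    intro θ hθ w hw hw1 hwθ
    have hS : Subgroup.zpowers w ≤ W₁ := by
      rw [Subgroup.zpowers_le]; exact hw
    have hS1 : Subgroup.zpowers w ≠ ⊥ := by
      intro h
      exact hw1 (Subgroup.zpowers_eq_bot.mp h)
    set A : Set (IrrCharacter K) := {χ | W₁ ≤ charStab K χ.1} with hA
    set B : Set (IrrCharacter K) := {χ | Subgroup.zpowers w ≤ charStab K χ.1} with hB
    have hAB : A ⊆ B := fun χ hχ => le_trans hS hχ
    have cA : A.ncard = Nat.card W₂ := by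
      rw [← Nat.card_coe_set_eq, ← hcount W₁ le_rfl hW₁]
      exact Nat.card_congr (Equiv.subtypeEquivRight (fun χ => (hform χ.1 W₁).symm))
    have cB : B.ncard = Nat.card W₂ := by
      rw [← Nat.card_coe_set_eq, ← hcount _ hS hS1]
      exact Nat.card_congr (Equiv.subtypeEquivRight (fun χ => (hform χ.1 _).symm))
    have hEq : A = B := Set.eq_of_subset_of_ncard_le hAB (by rw [cA, cB]) (Set.toFinite B)
    have hmem : (⟨θ, hθ⟩ : IrrCharacter K) ∈ B := by
      show Subgroup.zpowers w ≤ charStab K θ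
      rw [Subgroup.zpowers_le]; exact hwθ
    rw [← hEq] at hmem
    exact hmem
  have hKstab : ∀ θ : K → ℂ, IsIrrCharacter K θ → K ≤ charStab K θ := by
    intro θ hθ k hk n
    have hcl := isCharacter_conj_class (isCharacter_of_isIrrCharacter hθ)
    have := hcl n ⟨k, hk⟩
    rw [← this]
    congr 1
  refine ⟨?_, ?_, ?_⟩
  · -- part (a)
    intro θ hθ hx
    obtain ⟨x, hxW, hxθ⟩ := hx
    have hT : ∀ g : L, g ∈ K ↔ ∀ n : K, θ ⟨g * n * g⁻¹, hK.conj_mem (n : L) n.2 g⟩ = θ n := by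
      intro g
      constructor
      · intro hg
        exact hKstab θ hθ hg
      · intro hg
        obtain ⟨k, hk, w, hw, rfl⟩ := hmul g
        have hwθ : w ∈ charStab K θ := by
          have h1 : k * w ∈ charStab K θ := hg
          have h2 : k⁻¹ ∈ charStab K θ := (charStab K θ).inv_mem (hKstab θ hθ hk)
          have := (charStab K θ).mul_mem h2 h1
          rwa [inv_mul_cancel_left] at this
        by_cases hw1 : w = 1
        · rw [hw1, mul_one]; exact hk
        · exfalso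
          have := hkey θ hθ w hw hw1 hwθ hxW
          apply hxθ
          funext n
          exact this n
    obtain ⟨c, hc1, -, hc3, -⟩ := clifford_correspondence K θ hθ K hT le_rfl
    have h1 : c ⟨θ, hθ⟩ ≠ 0 := by
      intro h0
      have := hc1 ⟨θ, hθ⟩
      rw [h0] at this
      have h2 : classInner θ θ = 1 := irr_inner_self ⟨θ, hθ⟩
      have h3 : (fun n : K => θ ⟨(n : L), (le_refl K) n.2⟩) = θ := by
        funext n; rfl
      rw [h3, h2] at this
      simp at this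
    exact hc3 ⟨θ, hθ⟩ h1
  · -- part (b)
    rw [← hcount W₁ le_rfl hW₁]
    apply Nat.card_congr (Equiv.subtypeEquivRight (fun χ => ?_))
    constructor
    · intro h s hs g g' hg'
      have := congrFun (h s hs) g
      have e : g' = ⟨s * g * s⁻¹, hK.conj_mem g g.2 s⟩ := Subtype.ext hg'
      rw [e]; exact this
    · intro h s hs
      funext g
      exact h s hs g _ rfl
  · -- part (c)
    intro θ hθ hinvW
    have hW₁stab : W₁ ≤ charStab K θ := by
      intro w hw n
      exact congrFun (hinvW w hw) n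
    have hinvL : ∀ (g : L) (n : K), θ ⟨g * n * g⁻¹, hK.conj_mem (n : L) n.2 g⟩ = θ n := by
      intro g
      obtain ⟨k, hk, w, hw, rfl⟩ := hmul g
      exact (charStab K θ).mul_mem (hKstab θ hθ hk) (hW₁stab hw)
    have hcyc : IsCyclic (L ⧸ K) := by
      have hsurj : Function.Surjective ((QuotientGroup.mk' K).comp W₁.subtype) := by
        intro q
        obtain ⟨l, rfl⟩ := QuotientGroup.mk_surjective q
        obtain ⟨k, hk, w, hw, rfl⟩ := hmul l
        refine ⟨⟨w, hw⟩, ?_⟩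
        show (QuotientGroup.mk w : L ⧸ K) = QuotientGroup.mk (k * w)
        rw [QuotientGroup.eq]
        have : w⁻¹ * (k * w) = w⁻¹ * k * w⁻¹⁻¹ := by group
        rw [this]
        exact hK.conj_mem k hk w⁻¹
      exact isCyclic_of_surjective _ hsurj
    obtain ⟨χ, hχ, hχθ⟩ := exists_irr_extension_cyclic K hcyc θ hθ hinvL
    have hresχ : (fun n : K => χ n) = θ := funext hχθ
    have hχK : IsIrrCharacter K (fun n : K => χ n) := by rw [hresχ]; exact hθ
    have hG := gallagher_quotient K χ hχ hχK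
    have hover : ∀ ψ : IrrCharacter L, classInner (fun n : K => ψ.1 n) θ ≠ 0 →
        (fun n : K => ψ.1 n) = θ := by
      intro ψ hψ
      have hmem : ψ.1 ∈ {ψ : L → ℂ | IsIrrCharacter L ψ ∧
          classInner (fun n : K => ψ n) (fun n : K => χ n) ≠ 0} := by
        refine ⟨ψ.2, ?_⟩
        rw [hresχ]; exact hψ
      obtain ⟨β, ⟨hβ, hβK⟩, hβχ⟩ := hG.surjOn hmem
      have hβ1 : β 1 = 1 := irr_linear_of_commutator_le_ker hβ
        (fun k hk => hβK k (commutator_le_of_cyclic_quot K hcyc hk))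
      funext n
      have h1 : ψ.1 n = β n * χ n := by
        rw [← hβχ]; rfl
      rw [h1, hβK n n.2, hβ1, one_mul, hχθ n]
    have hcoef : ∀ ψ : IrrCharacter L, classInner (indFun K θ) ψ.1
        = if classInner (fun n : K => ψ.1 n) θ ≠ 0 then 1 else 0 := by
      intro ψ
      rw [frobenius_reciprocity K θ (isClassFunction_irr ψ)]
      by_cases h : classInner (fun n : K => ψ.1 n) θ ≠ 0
      · rw [if_pos h, hover ψ h]
        exact irr_inner_self ⟨θ, hθ⟩
      · rw [if_neg h]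
        rw [not_not] at h
        rw [classInner_conj_symm, h, map_zero]
    set F : Finset (IrrCharacter L) :=
      Finset.univ.filter (fun ψ : IrrCharacter L => classInner (fun n : K => ψ.1 n) θ ≠ 0) with hF
    have hexp : indFun K θ = ∑ ψ ∈ F, ψ.1 := by
      have h1 := classFunction_expansion (indFun_isClassFunction K θ)
      rw [h1, hF, Finset.sum_filter]
      apply Finset.sum_congr rfl
      intro ψ _
      rw [hcoef ψ]
      by_cases h : classInner (fun n : K => ψ.1 n) θ ≠ 0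
      · rw [if_pos h, if_pos h, one_smul]
      · rw [if_neg h, if_neg h, zero_smul]
    refine ⟨F.map ⟨Subtype.val, Subtype.val_injective⟩, ?_, ?_, ?_⟩
    · rw [Finset.card_map]
      have h1 : indFun K θ 1 = ∑ ψ ∈ F, ψ.1 1 := by
        rw [hexp, Finset.sum_apply]
      rw [indFun_one] at h1
      have h2 : ∀ ψ ∈ F, ψ.1 1 = θ 1 := by
        intro ψ hψ
        rw [hF, Finset.mem_filter] at hψ
        have := congrFun (hover ψ hψ.2) 1
        exact this
      rw [Finset.sum_congr rfl h2, Finset.sum_const, nsmul_eq_mul] at h1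
      have h3 : θ 1 ≠ 0 := irr_one_ne_zero ⟨θ, hθ⟩
      have h4 : (K.index : ℂ) = (F.card : ℂ) := mul_right_cancel₀ h3 h1
      rw [← hidxK]
      exact (Nat.cast_injective h4).symm
    · intro μ hμ
      rw [Finset.mem_map] at hμ
      obtain ⟨ψ, -, rfl⟩ := hμ
      exact ψ.2
    · rw [hexp, Finset.sum_map]
      rfl

end Cfsg.Agent.Lib.helper24
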