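import Cfsg.Agent.Lib.helper24.CharPerm
import Cfsg.Agent.Lib.helper24.CharTwoTrans
import Cfsg.Agent.Lib.helper24.CharComplete
import Cfsg.Agent.Lib.helper24.CharOps
import Cfsg.Agent.Lib.helper24.CharReg
import Cfsg.Agent.Lib.helper24.TypeP

set_option autoImplicit false

namespace Cfsg.Agent.Lib.helper24

open Cfsg
open scoped ComplexConjugate

universe u

theorem mem_of_sq_mem_of_odd_pow_mem {G : Type u} [Group G] (T : Subgroup G) (h : G) (m : ℕ)
    (hm : Odd m) (h2 : h ^ 2 ∈ T) (hm' : h ^ m ∈ T) : h ∈ T := by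
  obtain ⟨j, rfl⟩ := hm
  have e : h = ((h ^ 2) ^ j)⁻¹ * h ^ (2 * j + 1) := by
    rw [← pow_mul, pow_succ, ← mul_assoc, inv_mul_cancel, one_mul]
  rw [e]
  exact T.mul_mem (T.inv_mem (T.pow_mem h2 j)) hm'

section

variable {G : Type u} [Group G] (K : Subgroup G) [hK : K.Normal]

theorem isConj_conjNormal (g : G) {y z : K} (h : IsConj y z) :
    IsConj (MulAut.conjNormal g y) (MulAut.conjNormal g z) := by
  rw [isConj_iff] at h ⊢
  obtain ⟨c, hc⟩ := h
  exact ⟨MulAut.conjNormal g c, by rw [← hc, map_mul, map_mul, map_inv]⟩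

/-- The stabilizer in `G` of the `K`-class of `x`. -/
def classStab (x : K) : Subgroup G where
  carrier := {h | IsConj (MulAut.conjNormal h x) x}
  one_mem' := by
    show IsConj (MulAut.conjNormal (1 : G) x) x
    rw [map_one]; exact IsConj.refl x
  mul_mem' := by
    intro a b ha hb
    show IsConj (MulAut.conjNormal (a * b) x) x
    rw [map_mul]
    have h1 : IsConj (MulAut.conjNormal a (MulAut.conjNormal b x)) (MulAut.conjNormal a x) :=
      isConj_conjNormal K a hb
    exact h1.trans ha
  inv_mem' := by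
    intro a ha
    show IsConj (MulAut.conjNormal a⁻¹ x) x
    have h1 : IsConj (MulAut.conjNormal a⁻¹ (MulAut.conjNormal a x)) (MulAut.conjNormal a⁻¹ x) :=
      isConj_conjNormal K a⁻¹ ha
    have h2 : MulAut.conjNormal a⁻¹ (MulAut.conjNormal a x) = x := by
      apply Subtype.ext
      simp only [MulAut.conjNormal_apply]; group
    rw [h2] at h1
    exact h1.symm

theorem mem_classStab (x : K) (h : G) : h ∈ classStab K x ↔ IsConj (MulAut.conjNormal h x) x :=
  Iff.rfl

theorem le_classStab (x : K) : K ≤ classStab K x := by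
  intro k hk
  rw [mem_classStab]
  apply IsConj.symm
  rw [isConj_iff]
  exact ⟨⟨k, hk⟩, Subtype.ext (by simp only [MulAut.conjNormal_apply]; rfl)⟩

theorem isConj_inv_of_isConj {M : Type u} [Group M] {a b : M} (h : IsConj a b) : IsConj a⁻¹ b⁻¹ := by
  rw [isConj_iff] at h ⊢
  obtain ⟨c, hc⟩ := h
  exact ⟨c, by rw [← hc]; group⟩

theorem twisted_class_iff (hodd : Odd K.index) (g : G) (x : K) :
    IsConj ((MulAut.conjNormal g x)⁻¹) x ↔ (IsConj x x⁻¹ ∧ g ∈ classStab K x) := by
  constructor
  · intro h
    have ha : ∀ y z : K, IsConj y z →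
        IsConj ((MulAut.conjNormal g y)⁻¹) ((MulAut.conjNormal g z)⁻¹) := fun y z hyz =>
      isConj_inv_of_isConj (isConj_conjNormal K g hyz)
    have h2 : IsConj ((MulAut.conjNormal g ((MulAut.conjNormal g x)⁻¹))⁻¹) x :=
      (ha _ _ h).trans h
    have e : (MulAut.conjNormal g ((MulAut.conjNormal g x)⁻¹))⁻¹ = MulAut.conjNormal (g ^ 2) x := by
      rw [map_inv, inv_inv, pow_two, map_mul]; rfl
    rw [e] at h2
    have hg2 : g ^ 2 ∈ classStab K x := h2
    have hgm : g ^ K.index ∈ classStab K x := le_classStab K x (K.pow_index_mem g)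
    have hg : g ∈ classStab K x := mem_of_sq_mem_of_odd_pow_mem _ g _ hodd hg2 hgm
    refine ⟨?_, hg⟩
    have h3 : IsConj ((MulAut.conjNormal g x)⁻¹) x⁻¹ := isConj_inv_of_isConj hg
    exact h.symm.trans h3
  · rintro ⟨hx, hg⟩
    have h3 : IsConj ((MulAut.conjNormal g x)⁻¹) x⁻¹ := isConj_inv_of_isConj hg
    exact h3.trans hx.symm

theorem twisted_char_iff [Finite G] (hodd : Odd K.index) (g : G) (θ : IrrCharacter K) :
    θ.1 ∘ (fun x : K => (MulAut.conjNormal g x)⁻¹) = θ.1 ↔
      ((∀ k : K, (θ.1 k).im = 0) ∧ ∀ k : K, θ.1 (MulAut.conjNormal g k) = θ.1 k) := by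
  classical
  have : Fintype K := Fintype.ofFinite _
  constructor
  · intro h
    have h1 : ∀ x : K, conj (θ.1 (MulAut.conjNormal g x)) = θ.1 x := by
      intro x
      rw [← irr_inv θ]
      exact congrFun h x
    have h2 : ∀ x : K, θ.1 (MulAut.conjNormal g (MulAut.conjNormal g x)) = θ.1 x := by
      intro x
      have e1 := h1 (MulAut.conjNormal g x)
      have e2 := h1 x
      rw [← e2, ← e1, Complex.conj_conj]
    have hg2 : g ^ 2 ∈ charStab K θ.1 := by
      intro n
      have := h2 n
      have e : (⟨g ^ 2 * (n : G) * (g ^ 2)⁻¹, hK.conj_mem n n.2 (g ^ 2)⟩ : K)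
          = MulAut.conjNormal g (MulAut.conjNormal g n) := by
        apply Subtype.ext
        show g ^ 2 * (n : G) * (g ^ 2)⁻¹ = g * (g * (n : G) * g⁻¹) * g⁻¹
        rw [pow_two]; group
      rw [e]; exact this
    have hKs : K ≤ charStab K θ.1 := by
      intro k hk n
      have hcl := isClassFunction_irr θ
      have := hcl n ⟨k, hk⟩
      rw [← this]
      congr 1
    have hgm : g ^ K.index ∈ charStab K θ.1 := hKs (K.pow_index_mem g)
    have hg : g ∈ charStab K θ.1 := mem_of_sq_mem_of_odd_pow_mem _ g _ hodd hg2 hgm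
    have hinv : ∀ k : K, θ.1 (MulAut.conjNormal g k) = θ.1 k := by
      intro k
      exact hg k
    refine ⟨?_, hinv⟩
    intro k
    rw [← Complex.conj_eq_iff_im]
    have := h1 k
    rw [hinv k] at this
    exact this
  · rintro ⟨hre, hinv⟩
    funext x
    show θ.1 ((MulAut.conjNormal g x)⁻¹) = θ.1 x
    rw [irr_inv θ, hinv x]
    exact Complex.conj_eq_iff_im.mpr (hre x)

theorem real_fixed_count [Finite G] (hodd : Odd K.index) (g : G) :
    Nat.card {θ : IrrCharacter K // (∀ k : K, (θ.1 k).im = 0) ∧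
        ∀ k : K, θ.1 (MulAut.conjNormal g k) = θ.1 k}
      = Nat.card {C : ConjClasses K // ∀ x : K, ConjClasses.mk x = C →
          IsConj ((MulAut.conjNormal g x)⁻¹) x} := by
  classical
  have : Fintype K := Fintype.ofFinite _
  rw [← brauer_perm_count (fun x : K => (MulAut.conjNormal g x)⁻¹)]
  · exact Nat.card_congr (Equiv.subtypeEquivRight (fun θ => (twisted_char_iff K hodd g θ).symm))
  · intro χ
    have h1 := isIrrCharacter_comp_equiv (MulAut.conjNormal g : K ≃* K) (isIrrCharacter_conj χ.2)
    have e : χ.1 ∘ (fun x : K => (MulAut.conjNormal g x)⁻¹)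
        = (fun k => conj (χ.1 k)) ∘ (MulAut.conjNormal g : K ≃* K) := by
      funext x
      show χ.1 ((MulAut.conjNormal g x)⁻¹) = conj (χ.1 (MulAut.conjNormal g x))
      rw [irr_inv χ]
    rw [e]; exact h1
  · intro y z hyz
    exact isConj_inv_of_isConj (isConj_conjNormal K g hyz)

/-- Pair counting: the stabilizer of the `K`-class of `x`. -/
theorem sum_classStab [Fintype G] (x : K) [DecidablePred (· ∈ classStab K x)] :
    ∑ g : G, (if g ∈ classStab K x then
        (Nat.card (Subgroup.centralizer ({x} : Set K)) : ℂ) else 0)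
      = (Nat.card K : ℂ) * (Nat.card (Subgroup.centralizer ({(x : G)} : Set G)) : ℂ) := by
  classical
  have : Fintype K := Fintype.ofFinite _
  have : Fintype (IrrCharacter K) := Fintype.ofFinite _
  have h1 : ∀ g : G, (if g ∈ classStab K x then
        (Nat.card (Subgroup.centralizer ({x} : Set K)) : ℂ) else 0)
      = ∑ k : K, (if k * (MulAut.conjNormal g x) * k⁻¹ = x then (1 : ℂ) else 0) := by
    intro g
    rw [Finset.sum_boole, ← Fintype.card_subtype, ← Nat.card_eq_fintype_card,
      ← second_orth_count (MulAut.conjNormal g x) x]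
    by_cases hg : g ∈ classStab K x
    · rw [if_pos hg]
      exact (second_orth_of_isConj (IsConj.symm hg)).symm
    · rw [if_neg hg]
      exact (second_orth_of_not_isConj (fun h => hg (IsConj.symm h))).symm
  rw [Finset.sum_congr rfl (fun g _ => h1 g), Finset.sum_comm]
  have h2 : ∀ k : K, ∑ g : G, (if k * (MulAut.conjNormal g x) * k⁻¹ = x then (1 : ℂ) else 0)
      = (Nat.card (Subgroup.centralizer ({(x : G)} : Set G)) : ℂ) := by
    intro k
    rw [Finset.sum_boole, ← Fintype.card_subtype, ← Nat.card_eq_fintype_card]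
    congr 1
    apply Nat.card_congr
    exact
      { toFun := fun g => ⟨(k : G) * g.1, by
          rw [Subgroup.mem_centralizer_iff]
          intro y hy
          rw [Set.mem_singleton_iff] at hy
          rw [hy]
          have h3 : (k : G) * (g.1 * (x : G) * g.1⁻¹) * (k : G)⁻¹ = (x : G) := by
            have := congrArg Subtype.val g.2
            simpa only [Subgroup.coe_mul, Subgroup.coe_inv, MulAut.conjNormal_apply] using this
          calc (x : G) * ((k : G) * g.1)
              = ((k : G) * (g.1 * (x : G) * g.1⁻¹) * (k : G)⁻¹) * ((k : G) * g.1) := by rw [h3]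
            _ = (k : G) * g.1 * (x : G) := by group⟩
        invFun := fun c => ⟨(k : G)⁻¹ * c.1, by
          apply Subtype.ext
          simp only [Subgroup.coe_mul, Subgroup.coe_inv, MulAut.conjNormal_apply]
          have hc := c.2
          rw [Subgroup.mem_centralizer_iff] at hc
          have h3 := hc (x : G) rfl
          calc (k : G) * ((k : G)⁻¹ * c.1 * (x : G) * ((k : G)⁻¹ * c.1)⁻¹) * (k : G)⁻¹
              = (c.1 * (x : G)) * c.1⁻¹ := by group
            _ = ((x : G) * c.1) * c.1⁻¹ := by rw [h3]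
            _ = (x : G) := by group⟩
        left_inv := fun g => Subtype.ext (by simp)
        right_inv := fun c => Subtype.ext (by simp) }
  rw [Finset.sum_congr rfl (fun k _ => h2 k), Finset.sum_const, Finset.card_univ, nsmul_eq_mul,
    ← Nat.card_eq_fintype_card]

end

end Cfsg.Agent.Lib.helper24
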