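import Cfsg.Agent.Lib.helper24.GlaubP2
import Cfsg.Agent.Lib.helper24.GlaubCount
import Cfsg.Agent.Lib.helper24.CharPerm
import Cfsg.Agent.Lib.helper24.CharReg
import Cfsg.Agent.Lib.helper24.OddOrb

set_option autoImplicit false

namespace Cfsg.Agent.Lib.helper24
open Cfsg
open Cfsg.Agent.Lib.helper23 Cfsg.Agent.Lib.helper5
open scoped ComplexConjugate

universe u v

/-- automorphisms preserve conjugacy -/
theorem isConj_mulAut {G : Type u} [Group G] (σ : MulAut G) {x y : G} (h : IsConj x y) :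
    IsConj (σ x) (σ y) := by
  rw [isConj_iff] at h ⊢
  obtain ⟨c, hc⟩ := h
  exact ⟨σ c, by rw [← hc, map_mul, map_mul, map_inv]⟩

/-- number of real irreducible characters = number of real classes -/
theorem card_real_irr {G : Type u} [Group G] [Finite G] :
    Nat.card {χ : IrrCharacter G // ∀ g, conj (χ.1 g) = χ.1 g} =
      Nat.card {C : ConjClasses G // ∀ g : G, ConjClasses.mk g = C → IsConj g⁻¹ g} := by
  classical
  have : Fintype G := Fintype.ofFinite G
  have hb := brauer_perm_count (G := G) (fun g => g⁻¹)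
    (fun χ => by
      have h1 : χ.1 ∘ (fun g : G => g⁻¹) = fun g => conj (χ.1 g) := by
        funext g
        exact irr_inv χ g
      rw [h1]
      exact isIrrCharacter_conj χ.2)
    (fun g h hgh => isConj_inv_of_isConj hgh)
  rw [← hb]
  refine Nat.card_congr (Equiv.subtypeEquivRight fun χ => ?_)
  constructor
  · intro h
    funext g
    show χ.1 g⁻¹ = χ.1 g
    rw [irr_inv, h g]
  · intro h g
    have := congrFun h g
    simp only [Function.comp] at this
    rw [← irr_inv, this]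

/-- E1: real invariant irreducibles of `G` correspond to real irreducibles of the fixed subgroup -/
theorem card_real_inv_irr {G : Type u} [Group G] [Finite G] {A : Type v} [Group A] [Finite A]
    (p : ℕ) [Fact p.Prime] (hA : IsPGroup p A) (hpG : ¬ p ∣ Nat.card G) (φ : A →* MulAut G) :
    Nat.card {θ : IrrCharacter G // (∀ g, conj (θ.1 g) = θ.1 g) ∧ IsInvFun φ θ.1} =
      Nat.card {β : IrrCharacter (fixSub φ) // ∀ c, conj (β.1 c) = β.1 c} := by
  classical
  have : Fintype G := Fintype.ofFinite G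
  have : Fintype (fixSub φ) := Fintype.ofFinite _
  obtain ⟨a1, -, a3, a4⟩ := glauberman_p p hA hpG φ
  -- conjugation on inner products
  have hcj : ∀ (χ : G → ℂ) (β : fixSub φ → ℂ) (m : ℕ),
      classInner (fun c : fixSub φ => χ c) β = m →
      classInner (fun c : fixSub φ => conj (χ c)) (fun c => conj (β c)) = m := by
    intro χ β m h
    rw [classInner_conj_conj (fun c : fixSub φ => χ c) β, h]
    simp
  let f : {θ : IrrCharacter G // (∀ g, conj (θ.1 g) = θ.1 g) ∧ IsInvFun φ θ.1} →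
      {β : IrrCharacter (fixSub φ) // ∀ c, conj (β.1 c) = β.1 c} := fun θ =>
    ⟨Classical.choose (a1 θ.1 θ.2.2).exists, by
      have hspec := Classical.choose_spec (a1 θ.1 θ.2.2).exists
      set β := Classical.choose (a1 θ.1 θ.2.2).exists with hβ
      obtain ⟨m, hm, hpm⟩ := hspec
      have h2 := hcj θ.1.1 β.1 m hm
      have h3 : (fun c : fixSub φ => conj (θ.1.1 c)) = fun c : fixSub φ => θ.1.1 c := by
        funext c
        exact θ.2.1 c
      rw [h3] at h2
      have huniq := (a1 θ.1 θ.2.2).unique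
        (y₁ := ⟨fun c => conj (β.1 c), isIrrCharacter_conj β.2⟩) (y₂ := β)
        ⟨m, h2, hpm⟩ ⟨m, hm, hpm⟩
      intro c
      have := congrArg (fun b : IrrCharacter (fixSub φ) => b.1 c) huniq
      exact this⟩
  have hf : ∀ θ, ∃ m : ℕ, classInner (fun c : fixSub φ => θ.1.1 c) (f θ).1.1 = m ∧ ¬ p ∣ m :=
    fun θ => Classical.choose_spec (a1 θ.1 θ.2.2).exists
  have hinj : Function.Injective f := by
    intro θ θ' h
    obtain ⟨m, hm, hpm⟩ := hf θ
    obtain ⟨m', hm', hpm'⟩ := hf θ'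
    rw [← h] at hm'
    exact Subtype.ext (a3 θ.1 θ'.1 θ.2.2 θ'.2.2 (f θ).1 m m' hm hpm hm' hpm')
  have hsurj : Function.Surjective f := by
    intro β
    obtain ⟨χ, hχinv, m, hm, hpm⟩ := a4 β.1
    have hχbar : IsInvFun φ (fun g => conj (χ.1 g)) := by
      intro a g
      show conj (χ.1 (φ a g)) = conj (χ.1 g)
      rw [hχinv a g]
    have h2 := hcj χ.1 β.1.1 m hm
    have h3 : (fun c : fixSub φ => conj (β.1.1 c)) = β.1.1 := by
      funext c
      exact β.2 c
    rw [h3] at h2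
    have hreal := a3 χ ⟨fun g => conj (χ.1 g), isIrrCharacter_conj χ.2⟩ hχinv hχbar β.1 m m
      hm hpm h2 hpm
    have hχreal : ∀ g, conj (χ.1 g) = χ.1 g := by
      intro g
      have := congrArg (fun b : IrrCharacter G => b.1 g) hreal
      exact this.symm
    refine ⟨⟨χ, hχreal, hχinv⟩, ?_⟩
    obtain ⟨m₂, hm₂, hpm₂⟩ := hf ⟨χ, hχreal, hχinv⟩
    apply Subtype.ext
    exact (a1 χ hχinv).unique ⟨m₂, hm₂, hpm₂⟩ ⟨m, hm, hpm⟩
  exact Nat.card_congr (Equiv.ofBijective f ⟨hinj, hsurj⟩)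

/-- E3: real classes of the fixed subgroup correspond to real invariant classes of `G` -/
theorem card_real_inv_classes {G : Type u} [Group G] [Finite G] {A : Type v} [Group A] [Finite A]
    (p : ℕ) [Fact p.Prime] (hA : IsPGroup p A) (hpG : ¬ p ∣ Nat.card G) (φ : A →* MulAut G) :
    Nat.card {d : ConjClasses (fixSub φ) // ∀ g, ConjClasses.mk g = d → IsConj g⁻¹ g} =
      Nat.card {c : ConjClasses G // (∀ k, ConjClasses.mk k = c → IsConj k k⁻¹) ∧
        ∀ k, ConjClasses.mk k = c → ∀ a, ConjClasses.mk (φ a k) = c} := by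
  classical
  let f : {d : ConjClasses (fixSub φ) // ∀ g, ConjClasses.mk g = d → IsConj g⁻¹ g} →
      {c : ConjClasses G // (∀ k, ConjClasses.mk k = c → IsConj k k⁻¹) ∧
        ∀ k, ConjClasses.mk k = c → ∀ a, ConjClasses.mk (φ a k) = c} := fun d =>
    ⟨ConjClasses.map (fixSub φ).subtype d.1, by
      obtain ⟨d, hd⟩ := d
      obtain ⟨b, rfl⟩ := ConjClasses.mk_surjective d
      have hb := hd b rfl
      have hbG : IsConj ((b : G))⁻¹ (b : G) := by
        have := (fixSub φ).subtype.map_isConj hb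
        simpa using this
      refine ⟨?_, ?_⟩
      · intro k hk
        have hkb : IsConj k (b : G) := ConjClasses.mk_eq_mk_iff_isConj.mp hk
        exact hkb.trans (hbG.symm.trans (isConj_inv_of_isConj hkb).symm)
      · intro k hk a
        have hkb : IsConj k (b : G) := ConjClasses.mk_eq_mk_iff_isConj.mp hk
        have h1 := isConj_mulAut (φ a) hkb
        rw [(mem_fixSub φ _).mp b.2 a] at h1
        exact ConjClasses.mk_eq_mk_iff_isConj.mpr h1⟩
  have hinj : Function.Injective f := by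
    rintro ⟨d, hd⟩ ⟨d', hd'⟩ h
    obtain ⟨b, rfl⟩ := ConjClasses.mk_surjective d
    obtain ⟨b', rfl⟩ := ConjClasses.mk_surjective d'
    have h1 : ConjClasses.mk (b : G) = ConjClasses.mk (b' : G) := congrArg Subtype.val h
    have h2 := isConj_fix_of_isConj hA hpG φ b b' (ConjClasses.mk_eq_mk_iff_isConj.mp h1)
    exact Subtype.ext (ConjClasses.mk_eq_mk_iff_isConj.mpr h2)
  have hsurj : Function.Surjective f := by
    rintro ⟨c, hc1, hc2⟩
    obtain ⟨b, hb⟩ := exists_fix_in_class hA hpG φ c (fun a g hg => hc2 g hg a)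
    have hbb : IsConj (b : G) ((b : G))⁻¹ := hc1 _ hb
    have hbC : IsConj b b⁻¹ := isConj_fix_of_isConj hA hpG φ b b⁻¹ (by simpa using hbb)
    refine ⟨⟨ConjClasses.mk b, ?_⟩, ?_⟩
    · intro g hg
      have hgb : IsConj g b := ConjClasses.mk_eq_mk_iff_isConj.mp hg
      exact (isConj_inv_of_isConj hgb).trans (hbC.symm.trans hgb.symm)
    · exact Subtype.ext hb
  exact Nat.card_congr (Equiv.ofBijective f ⟨hinj, hsurj⟩)

/-- abstract form of the statement on real invariant characters and classes -/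
theorem real_inv_count {G : Type u} [Group G] [Finite G] {A : Type v} [Group A] [Finite A]
    (p : ℕ) [Fact p.Prime] (hA : IsPGroup p A) (hpG : ¬ p ∣ Nat.card G) (φ : A →* MulAut G) :
    Nat.card {θ : IrrCharacter G // (∀ g, conj (θ.1 g) = θ.1 g) ∧ IsInvFun φ θ.1} =
      Nat.card {c : ConjClasses G // (∀ k, ConjClasses.mk k = c → IsConj k k⁻¹) ∧
        ∀ k, ConjClasses.mk k = c → ∀ a, ConjClasses.mk (φ a k) = c} ∧
    ((∀ θ : IrrCharacter G, (∀ g, conj (θ.1 g) = θ.1 g) → IsInvFun φ θ.1) →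
      ∀ k : G, IsConj k k⁻¹ → ∃ b : fixSub φ, IsConj k (b : G)) := by
  classical
  have hE : Nat.card {θ : IrrCharacter G // (∀ g, conj (θ.1 g) = θ.1 g) ∧ IsInvFun φ θ.1} =
      Nat.card {c : ConjClasses G // (∀ k, ConjClasses.mk k = c → IsConj k k⁻¹) ∧
        ∀ k, ConjClasses.mk k = c → ∀ a, ConjClasses.mk (φ a k) = c} := by
    rw [card_real_inv_irr p hA hpG φ, card_real_irr, card_real_inv_classes p hA hpG φ]
  refine ⟨hE, ?_⟩
  intro hall k hk
  -- all real classes are invariant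
  have h1 : Nat.card {θ : IrrCharacter G // (∀ g, conj (θ.1 g) = θ.1 g) ∧ IsInvFun φ θ.1} =
      Nat.card {χ : IrrCharacter G // ∀ g, conj (χ.1 g) = χ.1 g} :=
    Nat.card_congr (Equiv.subtypeEquivRight fun θ => ⟨fun h => h.1, fun h => ⟨h, hall θ h⟩⟩)
  have h2 : Nat.card {C : ConjClasses G // ∀ g : G, ConjClasses.mk g = C → IsConj g⁻¹ g} =
      Nat.card {c : ConjClasses G // (∀ k, ConjClasses.mk k = c → IsConj k k⁻¹) ∧
        ∀ k, ConjClasses.mk k = c → ∀ a, ConjClasses.mk (φ a k) = c} := by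
    rw [← card_real_irr, ← h1, hE]
  let j : {c : ConjClasses G // (∀ k, ConjClasses.mk k = c → IsConj k k⁻¹) ∧
        ∀ k, ConjClasses.mk k = c → ∀ a, ConjClasses.mk (φ a k) = c} →
      {C : ConjClasses G // ∀ g : G, ConjClasses.mk g = C → IsConj g⁻¹ g} := fun c =>
    ⟨c.1, fun g hg => (c.2.1 g hg).symm⟩
  have hjinj : Function.Injective j := by
    intro c c' h
    have h' : (j c).1 = (j c').1 := congrArg Subtype.val h
    exact Subtype.ext h'
  have hjsurj : Function.Surjective j :=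
    (Function.Injective.bijective_of_nat_card_le hjinj h2.le).2
  have hkreal : ∀ g : G, ConjClasses.mk g = ConjClasses.mk k → IsConj g⁻¹ g := by
    intro g hg
    have hgk : IsConj g k := ConjClasses.mk_eq_mk_iff_isConj.mp hg
    exact (isConj_inv_of_isConj hgk).trans (hk.symm.trans hgk.symm)
  obtain ⟨c, hc⟩ := hjsurj ⟨ConjClasses.mk k, hkreal⟩
  have hc' : c.1 = ConjClasses.mk k := congrArg Subtype.val hc
  obtain ⟨b, hb⟩ := exists_fix_in_class hA hpG φ c.1 (fun a g hg => c.2.2 g hg a)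
  refine ⟨b, ?_⟩
  rw [hc'] at hb
  exact (ConjClasses.mk_eq_mk_iff_isConj.mp hb).symm

/-- the statement on `P`-invariant real characters and classes of a `p'`-group `K` -/
theorem p_group_real_statement {Γ : Type u} [Group Γ] [Finite Γ] (p : ℕ) [Fact p.Prime] (P K : Subgroup Γ) (hP : IsPGroup p ↥P) (hK : ¬ p ∣ Nat.card ↥K) (hPK : P ≤ Subgroup.normalizer (K : Set Γ)) : Nat.card {θ : IrrCharacter ↥K // (∀ k : ↥K, ((θ : ↥K → ℂ) k).im = 0) ∧ (∀ x ∈ P, ∀ k k' : ↥K, (k' : Γ) = x * (k : Γ) * x⁻¹ → (θ : ↥K → ℂ) k' = (θ : ↥K → ℂ) k)} = Nat.card {c : ConjClasses ↥K // (∀ k : ↥K, ConjClasses.mk k = c → IsConj k k⁻¹) ∧ ∀ k : ↥K, ConjClasses.mk k = c → ∀ x ∈ P, ∀ k' : ↥K, (k' : Γ) = x * (k : Γ) * x⁻¹ → ConjClasses.mk k' = c} ∧ ((∀ θ : IrrCharacter ↥K, (∀ k : ↥K, ((θ : ↥K → ℂ) k).im = 0) → (∀ x ∈ P, ∀ k k' : ↥K, (k' : Γ) = x * (k : Γ) * x⁻¹ → (θ : ↥K → ℂ) k' = (θ : ↥K → ℂ) k)) → ∀ k : ↥K, IsConj k k⁻¹ → ∃ k' : ↥K, IsConj k k' ∧ ∀ x ∈ P, x * (k' : Γ)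 * x⁻¹ = (k' : Γ)) := by
  classical
  have hnorm : ∀ s ∈ P, ∀ g ∈ K, s * g * s⁻¹ ∈ K := fun s hs g hg =>
    ((Subgroup.mem_normalizer_iff).mp (hPK hs) g).mp hg
  obtain ⟨h1, h2⟩ := real_inv_count p hP hK (conjAct K P hnorm)
  refine ⟨?_, ?_⟩
  · have e1 : Nat.card {θ : IrrCharacter ↥K // (∀ k : ↥K, ((θ : ↥K → ℂ) k).im = 0) ∧ (∀ x ∈ P, ∀ k k' : ↥K, (k' : Γ) = x * (k : Γ) * x⁻¹ → (θ : ↥K → ℂ) k' = (θ : ↥K → ℂ) k)} =
        Nat.card {θ : IrrCharacter ↥K // (∀ g, conj (θ.1 g) = θ.1 g) ∧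
          IsInvFun (conjAct K P hnorm) θ.1} := by
      refine Nat.card_congr (Equiv.subtypeEquivRight fun θ => ?_)
      rw [isInvFun_conjAct_iff]
      constructor
      · rintro ⟨ha, hb⟩
        exact ⟨fun g => Complex.conj_eq_iff_im.mpr (ha g), hb⟩
      · rintro ⟨ha, hb⟩
        exact ⟨fun g => Complex.conj_eq_iff_im.mp (ha g), hb⟩
    have e2 : Nat.card {c : ConjClasses ↥K // (∀ k : ↥K, ConjClasses.mk k = c → IsConj k k⁻¹) ∧ ∀ k : ↥K, ConjClasses.mk k = c → ∀ x ∈ P, ∀ k' : ↥K, (k' : Γ) = x * (k : Γ) * x⁻¹ → ConjClasses.mk k' = c} =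
        Nat.card {c : ConjClasses ↥K // (∀ k, ConjClasses.mk k = c → IsConj k k⁻¹) ∧
          ∀ k, ConjClasses.mk k = c → ∀ a, ConjClasses.mk (conjAct K P hnorm a k) = c} := by
      refine Nat.card_congr (Equiv.subtypeEquivRight fun c => ?_)
      constructor
      · rintro ⟨ha, hb⟩
        refine ⟨ha, fun k hk a => ?_⟩
        exact hb k hk a.1 a.2 _ (conjAct_apply K P hnorm a k)
      · rintro ⟨ha, hb⟩
        refine ⟨ha, fun k hk x hx k' hk' => ?_⟩
        have : k' = conjAct K P hnorm ⟨x, hx⟩ k :=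
          Subtype.ext (hk'.trans (conjAct_apply K P hnorm ⟨x, hx⟩ k).symm)
        rw [this]
        exact hb k hk ⟨x, hx⟩
    rw [e1, e2]
    exact h1
  · intro hall k hk
    obtain ⟨b, hb⟩ := h2 (fun θ hθ => (isInvFun_conjAct_iff K P hnorm θ.1).mpr
      (hall θ (fun k => Complex.conj_eq_iff_im.mp (hθ k)))) k hk
    refine ⟨b.1, hb, fun x hx => ?_⟩
    have h3 := (mem_fixSub (conjAct K P hnorm) b.1).mp b.2 ⟨x, hx⟩
    have h4 := congrArg Subtype.val h3
    rw [conjAct_apply] at h4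
    exact h4

end Cfsg.Agent.Lib.helper24
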