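import Mathlib
import Cfsg.Prelude.Def_HallClasses

set_option autoImplicit false

/-!
The Hall properties `E_π` and `D_π` hold in every finite group exactly when `π` contains at
most one prime or all primes.  The counterexamples are symmetric groups, handled with
Jordan's theorems on primitive permutation groups.
-/

namespace Cfsg.Agent.Lib.helper24.HallUniv

open Cfsg Equiv MulAction

universe u

theorem hall_dvd {G : Type u} [Group G] [Finite G] {π : Set ℕ} {H : Subgroup G}
    (hH : IsPiHall π H) {t : ℕ} (ht : t.Prime) (htπ : t ∈ π) (hd : t ∣ Nat.card G) :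
    t ∣ Nat.card H := by
  rw [← H.card_mul_index] at hd
  rcases (Nat.Prime.dvd_mul ht).1 hd with h | h
  · exact h
  · exact absurd h (hH.2 t ht htπ)

theorem hall_conj_mem {G : Type u} [Group G] [Finite G] {π : Set ℕ} {H : Subgroup G}
    (hH : IsPiHall π H) {t : ℕ} (ht : t.Prime) (htπ : t ∈ π) (x : G) (hx : orderOf x = t) :
    ∃ g : G, g * x * g⁻¹ ∈ H := by
  haveI : Fact t.Prime := ⟨ht⟩
  have hK : IsPGroup t (Subgroup.zpowers x) := by
    apply IsPGroup.of_card (n := 1)
    rw [Nat.card_zpowers, hx, pow_one]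
  have hnd : ¬ t ∣ Nat.card (G ⧸ H) := hH.2 t ht htπ
  obtain ⟨y, hy⟩ := hK.nonempty_fixed_point_of_prime_not_dvd_card (G ⧸ H) hnd
  induction y using QuotientGroup.induction_on with
  | H g =>
    refine ⟨g⁻¹, ?_⟩
    have h1 : ((x * g : G) : G ⧸ H) = (g : G ⧸ H) := hy ⟨x, Subgroup.mem_zpowers x⟩
    rw [QuotientGroup.eq] at h1
    have h2 := H.inv_mem h1
    simpa [mul_assoc] using h2

theorem hall_prim {π : Set ℕ} {l : ℕ} (hl : l.Prime) (hlπ : l ∈ π)
    {H : Subgroup (Perm (Fin l))} (hH : IsPiHall π H) : IsPreprimitive H (Fin l) := by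
  haveI : Fact l.Prime := ⟨hl⟩
  have hcard : Nat.card (Perm (Fin l)) = l.factorial := by
    rw [Nat.card_perm, Nat.card_eq_fintype_card, Fintype.card_fin]
  have hd : l ∣ Nat.card H :=
    hall_dvd hH hl hlπ (by rw [hcard]; exact Nat.dvd_factorial hl.pos le_rfl)
  obtain ⟨x, hx⟩ := exists_prime_orderOf_dvd_card' l hd
  have hσ : orderOf (x : Perm (Fin l)) = l := by rw [Subgroup.orderOf_coe]; exact hx
  have hcyc : (x : Perm (Fin l)).IsCycle :=
    Equiv.Perm.isCycle_of_prime_order'' (by simpa using hl) (by simpa using hσ)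
  have hsupp : (x : Perm (Fin l)).support = Finset.univ := by
    apply Finset.eq_univ_of_card
    rw [← hcyc.orderOf, hσ, Fintype.card_fin]
  haveI : IsPretransitive H (Fin l) := by
    refine ⟨fun a b => ?_⟩
    have ha : (x : Perm (Fin l)) a ≠ a := by
      rw [← Equiv.Perm.mem_support, hsupp]; exact Finset.mem_univ _
    have hb : (x : Perm (Fin l)) b ≠ b := by
      rw [← Equiv.Perm.mem_support, hsupp]; exact Finset.mem_univ _
    obtain ⟨i, hi⟩ := hcyc.exists_zpow_eq ha hb
    exact ⟨x ^ i, by simpa [Subgroup.smul_def] using hi⟩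
  exact IsPreprimitive.of_prime_card
    (by rw [Nat.card_eq_fintype_card, Fintype.card_fin]; exact hl)

theorem caseA {π : Set ℕ} {p q : ℕ} (hp : p.Prime) (hq : q.Prime) (hpπ : p ∈ π) (hqπ : q ∈ π)
    (hpq : p < q) (h2 : 2 ∉ π) : ¬ IsEPiGroup π (Perm (Fin q)) := by
  rintro ⟨H, hH⟩
  haveI : NeZero q := ⟨hq.ne_zero⟩
  have hprim := hall_prim hq hqπ hH
  have hp2 := hp.two_le
  have hp1 : p - 1 < q := by omega
  have hi0 : (⟨p - 1, hp1⟩ : Fin q) ≠ 0 := by
    intro h
    have := congrArg Fin.val h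
    simp at this
    omega
  have hc : (Fin.cycleRange (⟨p - 1, hp1⟩ : Fin q)).IsCycle := Fin.isCycle_cycleRange hi0
  have hord : orderOf (Fin.cycleRange (⟨p - 1, hp1⟩ : Fin q)) = p := by
    rw [hc.orderOf, ← Equiv.Perm.sum_cycleType, Fin.cycleType_cycleRange hi0]
    simp
    omega
  obtain ⟨g, hg⟩ := hall_conj_mem hH hp hpπ _ hord
  have hcc : (g * Fin.cycleRange (⟨p - 1, hp1⟩ : Fin q) * g⁻¹).IsCycle := hc.conj
  have hcs : (g * Fin.cycleRange (⟨p - 1, hp1⟩ : Fin q) * g⁻¹).support.card = p := by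
    rw [Equiv.Perm.card_support_conj, ← hc.orderOf, hord]
  have htr := Equiv.Perm.isPretransitive_of_isCycle_mem hcc hg
  have hn : (((g * Fin.cycleRange (⟨p - 1, hp1⟩ : Fin q) * g⁻¹).support : Set (Fin q))ᶜ).ncard
      = (q - p - 1) + 1 := by
    have := Set.ncard_add_ncard_compl
      ((g * Fin.cycleRange (⟨p - 1, hp1⟩ : Fin q) * g⁻¹).support : Set (Fin q))
    rw [Set.ncard_coe_finset, hcs, Nat.card_eq_fintype_card, Fintype.card_fin] at this
    omega
  have h2t : IsMultiplyPretransitive H (Fin q) 2 :=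
    hprim.is_two_pretransitive hn
      (by rw [Nat.card_eq_fintype_card, Fintype.card_fin]; omega) htr
  rw [MulAction.is_two_pretransitive_iff] at h2t
  have h01 : (⟨0, by omega⟩ : Fin q) ≠ ⟨1, by omega⟩ := by simp [Fin.ext_iff]
  obtain ⟨h, h_a, h_b⟩ := h2t h01 h01.symm
  have heven : 2 ∣ orderOf h := by
    by_contra hodd
    have key : ∀ k : ℕ, (h ^ (2 * k)) • (⟨0, by omega⟩ : Fin q) = ⟨0, by omega⟩ := by
      intro k
      induction k with
      | zero => simp
      | succ k ih =>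
        rw [show 2 * (k + 1) = 2 * k + 1 + 1 by ring, pow_succ, pow_succ, mul_smul, mul_smul,
          h_a, h_b, ih]
    obtain ⟨k, hk⟩ : ∃ k, orderOf h = 2 * k + 1 := by
      have : Odd (orderOf h) := Nat.odd_iff.2 (by omega)
      exact this
    have h3 : (h ^ (2 * k + 1)) • (⟨0, by omega⟩ : Fin q) = ⟨1, by omega⟩ := by
      rw [pow_succ', mul_smul, key k, h_a]
    rw [← hk, pow_orderOf_eq_one, one_smul] at h3
    exact h01 h3
  exact h2 (hH.1 2 Nat.prime_two (heven.trans (orderOf_dvd_natCard h)))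

theorem caseB {π : Set ℕ} {l r : ℕ} (hl : l.Prime) (hr : r.Prime) (hlπ : l ∈ π) (hrπ : r ∉ π)
    (hrl : r < l) (h2 : 2 ∈ π) : ¬ IsEPiGroup π (Perm (Fin l)) := by
  rintro ⟨H, hH⟩
  have hprim := hall_prim hl hlπ hH
  have hl3 : 3 ≤ l := by have := hr.two_le; omega
  have hab : (⟨0, by omega⟩ : Fin l) ≠ ⟨1, by omega⟩ := by simp [Fin.ext_iff]
  have hord : orderOf (Equiv.swap (⟨0, by omega⟩ : Fin l) ⟨1, by omega⟩) = 2 :=
    Equiv.Perm.IsSwap.orderOf ⟨_, _, hab, rfl⟩
  obtain ⟨g, hg⟩ := hall_conj_mem hH Nat.prime_two h2 _ hord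
  have hsw : Equiv.Perm.IsSwap (g * Equiv.swap (⟨0, by omega⟩ : Fin l) ⟨1, by omega⟩ * g⁻¹) := by
    rw [← Equiv.Perm.card_support_eq_two, Equiv.Perm.card_support_conj,
      Equiv.Perm.card_support_eq_two]
    exact ⟨_, _, hab, rfl⟩
  have htop := Equiv.Perm.subgroup_eq_top_of_isPreprimitive_of_isSwap_mem hprim _ hsw hg
  have hd : r ∣ Nat.card H := by
    rw [htop, Subgroup.card_top, Nat.card_perm, Nat.card_eq_fintype_card, Fintype.card_fin]
    exact Nat.dvd_factorial hr.pos hrl.le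
  exact hrπ (hH.1 r hr hd)

theorem caseC {π : Set ℕ} {r : ℕ} (hr : r.Prime) (hrπ : r ∉ π) (hr5 : 5 ≤ r)
    (hlow : ∀ t : ℕ, t.Prime → t < r → t ∈ π) : ¬ IsEPiGroup π (Perm (Fin (r + 1))) := by
  rintro ⟨H, hH⟩
  have hcard : Nat.card (Perm (Fin (r + 1))) = (r + 1).factorial := by
    rw [Nat.card_perm, Nat.card_eq_fintype_card, Fintype.card_fin]
  have hidx_dvd : H.index ∣ (r + 1).factorial := hcard ▸ H.index_dvd_card
  have hidx_pos : H.index ≠ 0 := Subgroup.index_ne_zero_of_finite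
  have hprime : ∀ t : ℕ, t.Prime → t ∣ H.index → t = r := by
    intro t ht htd
    have htπ : t ∉ π := fun h => hH.2 t ht h htd
    have hle : t ≤ r + 1 := (Nat.Prime.dvd_factorial ht).1 (htd.trans hidx_dvd)
    have hge : r ≤ t := by
      by_contra h
      exact htπ (hlow t ht (by omega))
    rcases Nat.lt_or_ge r t with h | h
    · have hodd : ¬ 2 ∣ r := fun h2 => by
        have := (Nat.prime_dvd_prime_iff_eq Nat.prime_two hr).1 h2
        omega
      have h2t : 2 ∣ t := by omega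
      have := (Nat.prime_dvd_prime_iff_eq Nat.prime_two ht).1 h2t
      omega
    · omega
  have hidx_le : H.index ≤ r := by
    have hpow := Nat.eq_prime_pow_of_unique_prime_dvd hidx_pos (fun {d} hd hdd => hprime d hd hdd)
    by_contra hgt
    have hk2 : 2 ≤ H.index.primeFactorsList.length := by
      by_contra hk
      have h01 : H.index.primeFactorsList.length = 0 ∨ H.index.primeFactorsList.length = 1 := by
        omega
      rcases h01 with h | h
      · rw [h, pow_zero] at hpow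
        omega
      · rw [h, pow_one] at hpow
        omega
    have hr2 : r ^ 2 ∣ (r + 1).factorial := by
      refine (pow_dvd_pow r hk2).trans ?_
      rw [← hpow]
      exact hidx_dvd
    have hfac : (r + 1).factorial = r * ((r + 1) * (r - 1).factorial) := by
      obtain ⟨m, rfl⟩ : ∃ m, r = m + 1 := ⟨r - 1, by omega⟩
      simp [Nat.factorial_succ]
      ring
    rw [hfac, pow_two] at hr2
    have h3 : r ∣ (r + 1) * (r - 1).factorial := Nat.dvd_of_mul_dvd_mul_left hr.pos hr2
    rcases (Nat.Prime.dvd_mul hr).1 h3 with h | h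
    · have h1 : r ∣ 1 := (Nat.dvd_add_right (dvd_refl r)).1 h
      have := Nat.le_of_dvd one_pos h1
      omega
    · have := (Nat.Prime.dvd_factorial hr).1 h
      omega
  have hcore : Nontrivial H.normalCore := by
    by_contra hnt
    have hbot : H.normalCore = ⊥ := by
      by_contra hne
      exact hnt ((Subgroup.nontrivial_iff_ne_bot _).2 hne)
    have hinj : Function.Injective
        (MulAction.toPermHom (Perm (Fin (r + 1))) (Perm (Fin (r + 1)) ⧸ H)) := by
      rw [← MonoidHom.ker_eq_bot_iff, ← Subgroup.normalCore_eq_ker]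
      exact hbot
    have hle := Nat.card_le_card_of_injective _ hinj
    rw [hcard, Nat.card_perm] at hle
    have h4 : (Nat.card (Perm (Fin (r + 1)) ⧸ H)).factorial ≤ r.factorial :=
      Nat.factorial_le hidx_le
    have h5 : (r + 1).factorial ≤ r.factorial := hle.trans h4
    rw [Nat.factorial_succ] at h5
    have hpos := Nat.factorial_pos r
    nlinarith
  have hA : alternatingGroup (Fin (r + 1)) ≤ H :=
    (Equiv.Perm.alternatingGroup_le_of_normal
      (by rw [Nat.card_eq_fintype_card, Fintype.card_fin]; omega) hcore).trans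
      (Subgroup.normalCore_le H)
  have hidx2 : H.index ∣ 2 := by
    haveI : Nontrivial (Fin (r + 1)) := Fin.nontrivial_iff_two_le.2 (by omega)
    have := Subgroup.index_dvd_of_le hA
    rwa [alternatingGroup.index_eq_two] at this
  have hd : r ∣ Nat.card H := by
    have h1 : r ∣ Nat.card H * H.index := by
      rw [H.card_mul_index, hcard]
      exact Nat.dvd_factorial hr.pos (by omega)
    have hcop : Nat.Coprime r H.index := by
      apply Nat.Coprime.coprime_dvd_right hidx2
      exact (Nat.coprime_primes hr Nat.prime_two).2 (by omega)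
    exact hcop.dvd_of_dvd_mul_right h1
  exact hrπ (hH.1 r hr hd)

theorem exists_not_E {π : Set ℕ} {p q r : ℕ} (hp : p.Prime) (hq : q.Prime) (hr : r.Prime)
    (hpπ : p ∈ π) (hqπ : q ∈ π) (hpq : p ≠ q) (hrπ : r ∉ π) :
    ∃ n : ℕ, ¬ IsEPiGroup π (Perm (Fin n)) := by
  classical
  by_cases h2 : 2 ∈ π
  · by_cases hB : ∃ l r' : ℕ, l.Prime ∧ r'.Prime ∧ l ∈ π ∧ r' ∉ π ∧ r' < l
    · obtain ⟨l, r', hl, hr', hlπ, hr'π, hlt⟩ := hB
      exact ⟨l, caseB hl hr' hlπ hr'π hlt h2⟩
    · have hex : ∃ n, n.Prime ∧ n ∉ π := ⟨r, hr, hrπ⟩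
      obtain ⟨hr0, hr0π⟩ := Nat.find_spec hex
      have hlow : ∀ t, t.Prime → t < Nat.find hex → t ∈ π := by
        intro t ht hlt
        by_contra h
        exact Nat.find_min hex hlt ⟨ht, h⟩
      have hlt : ∀ t, t.Prime → t ∈ π → t < Nat.find hex := by
        intro t ht htπ
        by_contra h
        rcases lt_or_eq_of_le (not_lt.1 h) with h' | h'
        · exact hB ⟨t, Nat.find hex, ht, hr0, htπ, hr0π, h'⟩
        · exact hr0π (h' ▸ htπ)
      have hp_lt := hlt p hp hpπ
      have hq_lt := hlt q hq hqπ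
      have hr5 : 5 ≤ Nat.find hex := by
        have h3 : 4 ≤ Nat.find hex := by
          have := hp.two_le
          have := hq.two_le
          omega
        rcases Nat.lt_or_ge 4 (Nat.find hex) with h | h
        · exact h
        · have h4 : Nat.find hex = 4 := by omega
          rw [h4] at hr0
          exact absurd hr0 (by decide)
      exact ⟨Nat.find hex + 1, caseC hr0 hr0π hr5 hlow⟩
  · rcases lt_or_gt_of_ne hpq with h | h
    · exact ⟨q, caseA hp hq hpπ hqπ h h2⟩
    · exact ⟨p, caseA hq hp hqπ hpπ h h2⟩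

theorem dpi_imp_epi {G : Type u} [Group G] [Finite G] {π : Set ℕ} (hD : IsDPiGroup π G) :
    IsEPiGroup π G := by
  have hbot : IsPiSubgroup π (⊥ : Subgroup G) := by
    intro p hp hd
    rw [Subgroup.card_bot] at hd
    exact absurd (Nat.dvd_one.1 hd) hp.ne_one
  obtain ⟨M, -, hM⟩ := Finite.exists_le_maximal hbot
  refine ⟨M, hM.prop, ?_⟩
  intro t ht htπ hd
  haveI : Fact t.Prime := ⟨ht⟩
  obtain ⟨P⟩ : Nonempty (Sylow t G) := inferInstance
  have hP : IsPiSubgroup π (P : Subgroup G) := by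
    intro p hp hpd
    obtain ⟨n, hn⟩ := IsPGroup.iff_card.1 P.isPGroup'
    rw [hn] at hpd
    have := (Nat.prime_dvd_prime_iff_eq hp ht).1 (hp.dvd_of_dvd_pow hpd)
    rw [this]
    exact htπ
  obtain ⟨M', hPM', hM'⟩ := Finite.exists_le_maximal hP
  obtain ⟨g, hg⟩ := hD M M' hM hM'
  have hidx : M'.index = M.index := by
    rw [hg]
    exact Subgroup.index_map_equiv M (MulAut.conj g)
  have h1 : M'.index ∣ (P : Subgroup G).index := Subgroup.index_dvd_of_le hPM'
  have h2 : ¬ t ∣ (P : Subgroup G).index := P.not_dvd_index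
  exact h2 ((hidx ▸ hd).trans h1)

theorem epi_of_trivial {G : Type u} [Group G] [Finite G] {π : Set ℕ}
    (h : (∀ p q : ℕ, p.Prime → q.Prime → p ∈ π → q ∈ π → p = q) ∨ ∀ p : ℕ, p.Prime → p ∈ π) :
    IsEPiGroup π G := by
  rcases h with h | h
  · by_cases hex : ∃ p, p.Prime ∧ p ∈ π
    · obtain ⟨p, hp, hpπ⟩ := hex
      haveI : Fact p.Prime := ⟨hp⟩
      obtain ⟨P⟩ : Nonempty (Sylow p G) := inferInstance
      refine ⟨P, ?_, ?_⟩
      · intro q hq hqd
        obtain ⟨n, hn⟩ := IsPGroup.iff_card.1 P.isPGroup'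
        rw [hn] at hqd
        have := (Nat.prime_dvd_prime_iff_eq hq hp).1 (hq.dvd_of_dvd_pow hqd)
        rw [this]
        exact hpπ
      · intro q hq hqπ hqd
        have := h q p hq hp hqπ hpπ
        subst this
        exact P.not_dvd_index hqd
    · refine ⟨⊥, ?_, ?_⟩
      · intro q hq hqd
        rw [Subgroup.card_bot] at hqd
        exact absurd (Nat.dvd_one.1 hqd) hq.ne_one
      · intro q hq hqπ
        exact absurd ⟨q, hq, hqπ⟩ hex
  · refine ⟨⊤, fun p hp _ => h p hp, ?_⟩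
    intro q hq _ hqd
    rw [Subgroup.index_top] at hqd
    exact hq.ne_one (Nat.dvd_one.1 hqd)

theorem dpi_of_trivial {G : Type u} [Group G] [Finite G] {π : Set ℕ}
    (h : (∀ p q : ℕ, p.Prime → q.Prime → p ∈ π → q ∈ π → p = q) ∨ ∀ p : ℕ, p.Prime → p ∈ π) :
    IsDPiGroup π G := by
  intro H K hH hK
  rcases h with h | h
  · by_cases hex : ∃ p, p.Prime ∧ p ∈ π
    · obtain ⟨p, hp, hpπ⟩ := hex
      haveI : Fact p.Prime := ⟨hp⟩
      have hiff : ∀ L : Subgroup G, IsPiSubgroup π L ↔ IsPGroup p L := by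
        intro L
        constructor
        · intro hL
          have hne : Nat.card L ≠ 0 := Nat.card_pos.ne'
          have := Nat.eq_prime_pow_of_unique_prime_dvd hne
            (fun {d} hd hdd => h d p hd hp (hL d hd hdd) hpπ)
          exact IsPGroup.of_card this
        · intro hL q hq hqd
          obtain ⟨n, hn⟩ := IsPGroup.iff_card.1 hL
          rw [hn] at hqd
          have := (Nat.prime_dvd_prime_iff_eq hq hp).1 (hq.dvd_of_dvd_pow hqd)
          rw [this]
          exact hpπ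
      have mk : ∀ L : Subgroup G, Maximal (IsPiSubgroup π) L →
          ∃ P : Sylow p G, (P : Subgroup G) = L := by
        intro L hL
        exact ⟨⟨L, (hiff L).1 hL.prop, fun {Q} hQ hLQ =>
          le_antisymm (hL.le_of_ge ((hiff Q).2 hQ) hLQ) hLQ⟩, rfl⟩
      obtain ⟨PH, rfl⟩ := mk H hH
      obtain ⟨PK, rfl⟩ := mk K hK
      obtain ⟨g, hg⟩ := MulAction.exists_smul_eq G PH PK
      refine ⟨g, ?_⟩
      rw [← hg]
      rfl
    · have hbot : ∀ L : Subgroup G, IsPiSubgroup π L → L = ⊥ := by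
        intro L hL
        rw [← Subgroup.card_eq_one]
        by_contra hne
        obtain ⟨q, hq, hqd⟩ := Nat.exists_prime_and_dvd hne
        exact hex ⟨q, hq, hL q hq hqd⟩
      rw [hbot H hH.prop, hbot K hK.prop]
      exact ⟨1, by simp⟩
  · have htop : ∀ L : Subgroup G, Maximal (IsPiSubgroup π) L → L = ⊤ := by
      intro L hL
      exact top_le_iff.1 (hL.le_of_ge (fun p hp _ => h p hp) le_top)
    rw [htop H hH, htop K hK]
    refine ⟨1, ?_⟩
    simp

theorem main (π : Set ℕ) :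
    ((∀ (G : Type) [Group G] [Finite G], Cfsg.IsEPiGroup π G) ↔
      ((∀ p q : ℕ, p.Prime → q.Prime → p ∈ π → q ∈ π → p = q) ∨ ∀ p : ℕ, p.Prime → p ∈ π)) ∧
    ((∀ (G : Type) [Group G] [Finite G], Cfsg.IsDPiGroup π G) ↔
      ((∀ p q : ℕ, p.Prime → q.Prime → p ∈ π → q ∈ π → p = q) ∨
        ∀ p : ℕ, p.Prime → p ∈ π)) := by
  have key : (∀ (G : Type) [Group G] [Finite G], Cfsg.IsEPiGroup π G) →
      ((∀ p q : ℕ, p.Prime → q.Prime → p ∈ π → q ∈ π → p = q) ∨
        ∀ p : ℕ, p.Prime → p ∈ π) := by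
    intro hE
    by_contra hcon
    push_neg at hcon
    obtain ⟨⟨p, q, hp, hq, hpπ, hqπ, hpq⟩, ⟨r, hr, hrπ⟩⟩ := hcon
    obtain ⟨n, hn⟩ := exists_not_E hp hq hr hpπ hqπ hpq hrπ
    exact hn (hE (Perm (Fin n)))
  exact ⟨⟨key, fun h G _ _ => epi_of_trivial h⟩,
    ⟨fun hD => key (fun G _ _ => dpi_imp_epi (hD G)), fun h G _ _ => dpi_of_trivial h⟩⟩

end Cfsg.Agent.Lib.helper24.HallUniv
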