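import Cfsg.Agent.Lib.helper24.CharClifford
import Cfsg.Agent.Lib.helper24.CharGallagher2
import Cfsg.Agent.Lib.helper24.CharChief
import Cfsg.Agent.Lib.helper24.CharLin
import Cfsg.Agent.Lib.helper24.CharKer
import Cfsg.Agent.Lib.helper24.CharReg
import Cfsg.Agent.Lib.helper24.CharMisc

set_option autoImplicit false

namespace Cfsg.Agent.Lib.helper24

open Cfsg
open scoped ComplexConjugate

universe u

/-- The number of irreducible characters trivial on a subgroup is at most its index. -/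
theorem card_irr_trivial_on_le_index {G : Type u} [Group G] [Fintype G] (I : Subgroup G)
    [Fintype (IrrCharacter G)] [DecidablePred (fun μ : IrrCharacter G => ∀ i : I, μ.1 i = 1)] :
    (Finset.univ.filter (fun μ : IrrCharacter G => ∀ i : I, μ.1 i = 1)).card ≤ I.index := by
  classical
  have : Fintype I := Fintype.ofFinite _
  have hπ := classFunction_expansion_apply (indFun_isClassFunction I (fun _ => (1:ℂ))) 1
  rw [indFun_one, mul_one] at hπ
  have hnat : ∀ χ : IrrCharacter G, ∃ n : ℕ,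
      classInner (indFun I (fun _ => (1:ℂ))) χ.1 = n := by
    intro χ
    rw [frobenius_reciprocity I _ (isClassFunction_irr χ)]
    obtain ⟨n, hn⟩ := isCharacter_inner_irr_nat
      (Cfsg.Agent.Lib.helper24.isCharacter_restrict I (isCharacter_irr χ))
      ⟨fun _ => 1, isIrrCharacter_trivial⟩
    refine ⟨n, ?_⟩
    rw [classInner_conj_symm, hn, Complex.conj_natCast]
  choose n hn using hnat
  have h1 : (I.index : ℂ) = ((∑ χ : IrrCharacter G, n χ * charDegree χ.1 : ℕ) : ℂ) := by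
    rw [hπ, Nat.cast_sum]
    apply Finset.sum_congr rfl
    intro χ _
    rw [hn χ, Nat.cast_mul, charDegree_cast]
  have h2 : I.index = ∑ χ : IrrCharacter G, n χ * charDegree χ.1 := Nat.cast_injective h1
  rw [h2, Finset.card_eq_sum_ones]
  refine le_trans (Finset.sum_le_sum (fun χ hχ => ?_))
    (Finset.sum_le_sum_of_subset (Finset.filter_subset _ _))
  rw [Finset.mem_filter] at hχ
  have hres : (fun i : I => χ.1 i) = fun _ => (1:ℂ) := funext hχ.2
  have hn1 : n χ = 1 := by
    have := hn χ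
    rw [frobenius_reciprocity I _ (isClassFunction_irr χ), hres] at this
    have h3 : classInner (fun _ : I => (1:ℂ)) (fun _ : I => (1:ℂ)) = 1 :=
      irr_inner_self ⟨fun _ => 1, isIrrCharacter_trivial⟩
    rw [h3] at this
    exact_mod_cast this.symm
  have hd1 : charDegree χ.1 = 1 := by
    have h3 : (charDegree χ.1 : ℂ) = 1 := by
      rw [charDegree_cast]
      exact hχ.2 1
    exact_mod_cast h3
  rw [hn1, hd1]

theorem minimal_normal_linear_bound {G : Type u} [Group G] [Finite G] (N : Subgroup G) (hN : N.Normal) (hN1 : N ≠ ⊥) (hmin : ∀ M : Subgroup G, M.Normal → M ≤ N → M = ⊥ ∨ M = N) (hna : ¬ IsMulCommutative ↥N) (φ : IrrCharacter ↥N) (I : Subgroup G) (hI : ∀ g : G, g ∈ I ↔ ∀ n n' : ↥N, (n' : G) = g * (n : G) * g⁻¹ → (φ : ↥N → ℂ) n' = (φ : ↥N → ℂ) n) (hNI : N ≤ I) (hext : ∃ ψ : IrrCharacter ↥I, ∀ n : ↥N, (ψ : ↥I → ℂ) (Subgroup.inclusion hNI n) = (φ : ↥N → ℂ) n) : Nat.card {χ : IrrCharacter G // charDegree (χ : G → ℂ) = 1} ≤ I.index * Nat.card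 {χ : IrrCharacter G // charDegree (χ : G → ℂ) = charDegree (φ : ↥N → ℂ) * I.index} := by
  classical
  haveI := hN
  have : Fintype G := Fintype.ofFinite _
  have : Fintype N := Fintype.ofFinite _
  have : Fintype I := Fintype.ofFinite _
  have : Fintype (IrrCharacter G) := Fintype.ofFinite _
  have : Fintype (IrrCharacter I) := Fintype.ofFinite _
  obtain ⟨ψ, hψ⟩ := hext
  -- (A) N ≤ commutator G
  have hNcomm : N ≤ commutator G := by
    have hn : (⁅N, N⁆ : Subgroup G).Normal := inferInstance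
    have hle : ⁅N, N⁆ ≤ N := Subgroup.commutator_le_right N N
    rcases hmin ⁅N, N⁆ hn hle with h | h
    · exfalso
      apply hna
      rw [Subgroup.commutator_eq_bot_iff_le_centralizer] at h
      refine ⟨⟨fun a b => Subtype.ext ?_⟩⟩
      have := h a.2
      rw [Subgroup.mem_centralizer_iff] at this
      exact (this b b.2).symm
    · rw [← h, commutator_def]
      exact Subgroup.commutator_mono le_top le_top
  have hT : ∀ g : G, g ∈ I ↔
      ∀ n : N, φ.1 ⟨g * n * g⁻¹, hN.conj_mem (n : G) n.2 g⟩ = φ.1 n := by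
    intro g
    rw [hI g]
    constructor
    · intro h n; exact h n _ rfl
    · intro h n n' hn'
      have e : n' = ⟨g * n * g⁻¹, hN.conj_mem n n.2 g⟩ := Subtype.ext hn'
      rw [e]; exact h n
  obtain ⟨c, hc1, -, hc3, hc4⟩ := clifford_correspondence N φ.1 φ.2 I hT hNI
  have hresψ : (fun n : N => ψ.1 ⟨(n : G), hNI n.2⟩) = φ.1 := funext hψ
  have hcψ : c ψ = 1 := by
    have := hc1 ψ
    rw [hresψ, irr_inner_self φ] at this
    exact_mod_cast this.symm
  have hχ₀irr : IsIrrCharacter G (indFun I ψ.1) := hc3 ψ (by rw [hcψ]; exact one_ne_zero)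
  have hχ₀1 : indFun I ψ.1 1 = (I.index : ℂ) * φ.1 1 := by
    rw [indFun_one]
    congr 1
    have := hψ 1
    rw [map_one] at this
    exact this
  -- (G) main lemma
  have hG : ∀ μ : G →* ℂˣ, (∀ g, (μ g : ℂ) * indFun I ψ.1 g = indFun I ψ.1 g) →
      ∀ i : I, μ i = 1 := by
    intro μ hμ
    have hμN : ∀ n ∈ N, μ n = 1 := fun n hn =>
      MonoidHom.mem_ker.mp (Abelianization.commutator_subset_ker μ (hNcomm hn))
    have hηirr : IsIrrCharacter I (fun i : I => (μ i : ℂ) * ψ.1 i) :=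
      isIrrCharacter_hom_mul (μ.comp I.subtype) ψ.2
    have hηres : (fun n : N => (fun i : I => (μ i : ℂ) * ψ.1 i) ⟨(n : G), hNI n.2⟩) = φ.1 := by
      funext n
      show (μ (n : G) : ℂ) * ψ.1 ⟨(n : G), hNI n.2⟩ = φ.1 n
      rw [hμN n n.2, Units.val_one, one_mul]; exact hψ n
    have hcη : c ⟨_, hηirr⟩ ≠ 0 := by
      have := hc1 ⟨_, hηirr⟩
      rw [hηres, irr_inner_self φ] at this
      intro h0; rw [h0] at this; simp at this
    have hind : indFun I (fun i : I => (μ i : ℂ) * ψ.1 i) = indFun I ψ.1 := by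
      have h1 : (fun i : I => (μ i : ℂ) * ψ.1 i)
          = ψ.1 * (fun i : I => (fun g : G => (μ g : ℂ)) i) := by
        funext i; show (μ i : ℂ) * ψ.1 i = ψ.1 i * (μ i : ℂ); ring
      rw [h1, indFun_mul_restrict I ψ.1 (isCharacter_conj_class (isCharacter_of_hom_linear μ).1)]
      funext g
      show indFun I ψ.1 g * (μ g : ℂ) = indFun I ψ.1 g
      rw [mul_comm]; exact hμ g
    have hηψ : (⟨_, hηirr⟩ : IrrCharacter I) = ψ := by
      by_contra hne
      have := hc4 ⟨_, hηirr⟩ ψ hcη (by rw [hcψ]; exact one_ne_zero) hne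
      rw [hind] at this
      have h2 : classInner (indFun I ψ.1) (indFun I ψ.1) = 1 := irr_inner_self ⟨_, hχ₀irr⟩
      rw [h2] at this; exact one_ne_zero this
    have hηψ' : ∀ i : I, (μ i : ℂ) * ψ.1 i = ψ.1 i :=
      fun i => congrFun (congrArg Subtype.val hηψ) i
    haveI hN' : (N.subgroupOf I).Normal := hN.subgroupOf I
    have : Fintype (N.subgroupOf I) := Fintype.ofFinite _
    have hψN' : IsIrrCharacter (N.subgroupOf I) (fun n : N.subgroupOf I => ψ.1 n) := by
      have h := isIrrCharacter_comp_equiv (Subgroup.subgroupOfEquivOfLe hNI) φ.2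
      have e : (fun n : N.subgroupOf I => ψ.1 n) = φ.1 ∘ (Subgroup.subgroupOfEquivOfLe hNI) := by
        funext n
        show ψ.1 n = φ.1 (Subgroup.subgroupOfEquivOfLe hNI n)
        rw [← hψ]
        congr 1
      rw [e]; exact h
    have hgal := gallagher_quotient (N.subgroupOf I) ψ.1 ψ.2 hψN'
    have hβ1 : (fun i : I => (μ i : ℂ)) ∈ {β : I → ℂ | IsIrrCharacter I β ∧
        ∀ n ∈ N.subgroupOf I, β n = β 1} := by
      refine ⟨isIrrCharacter_of_hom (μ.comp I.subtype), ?_⟩
      intro n hn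
      show (μ (n : G) : ℂ) = (μ ((1 : I) : G) : ℂ)
      rw [hμN n (Subgroup.mem_subgroupOf.mp hn)]; simp
    have hβ2 : (fun _ : I => (1:ℂ)) ∈ {β : I → ℂ | IsIrrCharacter I β ∧
        ∀ n ∈ N.subgroupOf I, β n = β 1} := ⟨isIrrCharacter_trivial, fun _ _ => rfl⟩
    have := hgal.injOn hβ1 hβ2 (by
      funext i; show (μ i : ℂ) * ψ.1 i = 1 * ψ.1 i; rw [one_mul]; exact hηψ' i)
    intro i
    have h3 := congrFun this i
    exact Units.ext h3
  -- final counting
  have : Fintype {χ : IrrCharacter G // charDegree (χ : G → ℂ) = 1} := Fintype.ofFinite _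
  have : Fintype {χ : IrrCharacter G // charDegree (χ : G → ℂ) = charDegree (φ : ↥N → ℂ) * I.index} :=
    Fintype.ofFinite _
  have hlin1 : ∀ χ : {χ : IrrCharacter G // charDegree (χ : G → ℂ) = 1}, χ.1.1 1 = 1 := by
    intro χ
    rw [← charDegree_cast, χ.2]; simp
  obtain ⟨lam, hlam⟩ : ∃ lam : {χ : IrrCharacter G // charDegree (χ : G → ℂ) = 1} → (G →* ℂˣ),
      ∀ χ g, (lam χ g : ℂ) = χ.1.1 g :=
    ⟨fun χ => irrLinHom χ.1 (hlin1 χ), fun χ g => irrLinHom_apply χ.1 (hlin1 χ) g⟩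
  have hfirr : ∀ χ, IsIrrCharacter G (fun g => (lam χ g : ℂ) * indFun I ψ.1 g) :=
    fun χ => isIrrCharacter_hom_mul (lam χ) hχ₀irr
  have hfdeg : ∀ χ, charDegree (fun g => (lam χ g : ℂ) * indFun I ψ.1 g)
      = charDegree φ.1 * I.index := by
    intro χ
    have h1 : (charDegree (fun g => (lam χ g : ℂ) * indFun I ψ.1 g) : ℂ)
        = ((charDegree φ.1 * I.index : ℕ) : ℂ) := by
      rw [charDegree_cast ⟨_, hfirr χ⟩]
      show (lam χ 1 : ℂ) * indFun I ψ.1 1 = _
      rw [map_one, Units.val_one, one_mul, hχ₀1, Nat.cast_mul, charDegree_cast φ, mul_comm]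
    exact Nat.cast_injective h1
  obtain ⟨f, hf⟩ : ∃ f : {χ : IrrCharacter G // charDegree (χ : G → ℂ) = 1} →
      {χ : IrrCharacter G // charDegree (χ : G → ℂ) = charDegree (φ : ↥N → ℂ) * I.index},
      ∀ χ g, (f χ).1.1 g = (lam χ g : ℂ) * indFun I ψ.1 g :=
    ⟨fun χ => ⟨⟨fun g => (lam χ g : ℂ) * indFun I ψ.1 g, hfirr χ⟩, hfdeg χ⟩, fun _ _ => rfl⟩
  have hfib : ∀ a ∈ (Finset.univ : Finset {χ : IrrCharacter G // charDegree (χ : G → ℂ) = 1}).image f,
      ((Finset.univ : Finset {χ : IrrCharacter G // charDegree (χ : G → ℂ) = 1}).filter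
        (fun x => f x = a)).card ≤ I.index := by
    intro a ha
    obtain ⟨χ₁, -, rfl⟩ := Finset.mem_image.mp ha
    refine le_trans ?_ (card_irr_trivial_on_le_index I)
    apply Finset.card_le_card_of_injOn
      (fun χ => (⟨fun g => ((lam χ * (lam χ₁)⁻¹) g : ℂ), isIrrCharacter_of_hom _⟩ : IrrCharacter G))
    · intro χ hχ
      rw [Finset.mem_coe, Finset.mem_filter] at hχ
      rw [Finset.mem_coe, Finset.mem_filter]
      refine ⟨Finset.mem_univ _, ?_⟩
      have heq : ∀ g, (lam χ g : ℂ) * indFun I ψ.1 g = (lam χ₁ g : ℂ) * indFun I ψ.1 g := by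
        intro g
        rw [← hf χ g, ← hf χ₁ g, hχ.2]
      have key := hG (lam χ * (lam χ₁)⁻¹) (fun g => by
        have hb : (lam χ₁ g : ℂ) ≠ 0 := Units.ne_zero _
        show (((lam χ g) * (lam χ₁ g)⁻¹ : ℂˣ) : ℂ) * indFun I ψ.1 g = indFun I ψ.1 g
        rw [Units.val_mul, Units.val_inv_eq_inv_val]
        calc (lam χ g : ℂ) * (lam χ₁ g : ℂ)⁻¹ * indFun I ψ.1 g
            = (lam χ₁ g : ℂ)⁻¹ * ((lam χ g : ℂ) * indFun I ψ.1 g) := by ring
          _ = (lam χ₁ g : ℂ)⁻¹ * ((lam χ₁ g : ℂ) * indFun I ψ.1 g) := by rw [heq g]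
          _ = indFun I ψ.1 g := by rw [← mul_assoc, inv_mul_cancel₀ hb, one_mul])
      intro i
      show ((lam χ * (lam χ₁)⁻¹) (i : G) : ℂ) = 1
      rw [key i]; rfl
    · intro χ hχ χ' hχ' h
      have h2 : ∀ g, ((lam χ * (lam χ₁)⁻¹) g : ℂ) = ((lam χ' * (lam χ₁)⁻¹) g : ℂ) :=
        fun g => congrFun (congrArg Subtype.val h) g
      apply Subtype.ext; apply Subtype.ext; funext g
      rw [← hlam χ g, ← hlam χ' g]
      have h3 : (lam χ g) * (lam χ₁ g)⁻¹ = (lam χ' g) * (lam χ₁ g)⁻¹ := Units.ext (h2 g)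
      exact congrArg Units.val (mul_right_cancel h3)
  have hmain := Finset.card_le_mul_card_image
    (Finset.univ : Finset {χ : IrrCharacter G // charDegree (χ : G → ℂ) = 1}) I.index hfib
  rw [Nat.card_eq_fintype_card, Nat.card_eq_fintype_card]
  calc Fintype.card {χ : IrrCharacter G // charDegree (χ : G → ℂ) = 1}
      = (Finset.univ : Finset {χ : IrrCharacter G // charDegree (χ : G → ℂ) = 1}).card :=
        Finset.card_univ.symm
    _ ≤ I.index * ((Finset.univ : Finset {χ : IrrCharacter G //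
          charDegree (χ : G → ℂ) = 1}).image f).card := hmain
    _ ≤ I.index * Fintype.card {χ : IrrCharacter G //
          charDegree (χ : G → ℂ) = charDegree (φ : ↥N → ℂ) * I.index} :=
        Nat.mul_le_mul_left _ (Finset.card_le_univ _)

end Cfsg.Agent.Lib.helper24
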