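import Cfsg.Agent.Lib.helper24.CharPPow
import Cfsg.Agent.Lib.helper24.CharMisc
import Cfsg.Agent.Lib.helper24.CharComplete
import Cfsg.Agent.Lib.helper23.TISmall
import Cfsg.Agent.Lib.helper23.RealPerm
import Cfsg.Agent.Lib.helper23.InvolDefect

set_option autoImplicit false

namespace Cfsg.Agent.Lib.helper24.NormSyl

open Cfsg
open scoped ComplexConjugate Pointwise

universe u

/-- The degree bound passes to subgroups. -/
theorem degree_lt_subgroup {G : Type u} [Group G] [Finite G] (p : ℕ)
    (hb : ∀ χ : IrrCharacter G, charDegree χ.1 < p) (H : Subgroup G) (ψ : IrrCharacter H) :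
    charDegree ψ.1 < p := by
  haveI : Fintype G := Fintype.ofFinite _
  haveI : Fintype H := Fintype.ofFinite _
  have hψc : IsCharacter H ψ.1 := helper24.isCharacter_irr ψ
  have hind := helper24.isCharacter_indFun H hψc
  have h1 : indFun H ψ.1 1 ≠ 0 := by
    rw [helper24.indFun_one]
    have hidx : (H.index : ℂ) ≠ 0 := by
      exact_mod_cast (Subgroup.index_ne_zero_of_finite (H := H))
    exact mul_ne_zero hidx (helper24.irr_one_ne_zero ψ)
  obtain ⟨χ, hχ⟩ := helper24.exists_constituent hind h1
  rw [helper24.frobenius_reciprocity H ψ.1 (helper24.isClassFunction_irr χ)] at hχ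
  have hχ' : classInner (fun h : H => χ.1 h) ψ.1 ≠ 0 := by
    rw [helper24.classInner_conj_symm]
    intro h0
    apply hχ
    have := congrArg (starRingEnd ℂ) h0
    simpa using this
  have hle := helper24.irr_degree_le_of_inner_ne_zero
    (helper24.isCharacter_restrict H (helper24.isCharacter_irr χ)) ψ hχ'
  exact lt_of_le_of_lt (Nat.floor_le_floor hle) (hb χ)

/-- The degree bound passes to quotients. -/
theorem degree_lt_quotient {G : Type u} [Group G] [Finite G] (p : ℕ)
    (hb : ∀ χ : IrrCharacter G, charDegree χ.1 < p) (N : Subgroup G) [N.Normal]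
    (ψ : IrrCharacter (G ⧸ N)) : charDegree ψ.1 < p := by
  rw [← helper24.charDegree_irrInfl N ψ]
  exact hb _

/-- A `p`-group all of whose irreducible degrees are `< p` is abelian. -/
theorem pgroup_comm {G : Type u} [Group G] [Finite G] (p : ℕ) (hp : p.Prime) (hG : IsPGroup p G)
    (hb : ∀ χ : IrrCharacter G, charDegree χ.1 < p) : ∀ a b : G, a * b = b * a := by
  apply helper24.comm_of_all_linear
  intro χ
  obtain ⟨d, hd, hdvd⟩ := helper24.irr_degree_dvd_card χ
  haveI : Fact p.Prime := ⟨hp⟩
  obtain ⟨k, hk⟩ := hG.exists_card_eq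
  rw [hk] at hdvd
  obtain ⟨j, hj, rfl⟩ := (Nat.dvd_prime_pow hp).1 hdvd
  have hlt := hb χ
  have hcd : charDegree χ.1 = p ^ j := by
    have h := helper24.charDegree_cast χ
    rw [hd] at h
    exact_mod_cast h
  rw [hcd] at hlt
  have hj0 : j = 0 := by
    by_contra h
    have : p ≤ p ^ j := Nat.le_self_pow h p
    omega
  subst hj0
  simpa using hd

/-- A normal `p`-subgroup of index prime to `p` contains every `p`-subgroup. -/
theorem le_normal_sylow {G : Type u} [Group G] [Finite G] (p : ℕ) [Fact p.Prime]
    (Q : Subgroup G) (hQn : Q.Normal) (hQp : IsPGroup p Q) (hQi : ¬ p ∣ Q.index)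
    (H : Subgroup G) (hH : IsPGroup p H) : H ≤ Q := by
  obtain ⟨S, hS⟩ := hH.exists_le_sylow
  haveI := hQn
  have h1 : Q ≤ (S : Subgroup G) := hQp.le_sylow_of_normal S
  have h2 : (S : Subgroup G) = Q := (hQp.toSylow hQi).is_maximal' S.isPGroup' h1
  rw [← h2]; exact hS

theorem exists_normal_sylow_aux (p : ℕ) (hp : p.Prime) :
    ∀ (n : ℕ) (G : Type u) [Group G] [Finite G], Nat.card G = n →
      (∀ χ : IrrCharacter G, charDegree χ.1 < p) →
      ∃ Q : Subgroup G, Q.Normal ∧ IsPGroup p Q ∧ ¬ p ∣ Q.index := by
  intro n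
  induction n using Nat.strong_induction_on with
  | _ n ih =>
  intro G _ _ hn hb
  haveI : Fact p.Prime := ⟨hp⟩
  haveI : Fintype G := Fintype.ofFinite _
  obtain ⟨P⟩ : Nonempty (Sylow p G) := inferInstance
  by_cases hPn : (P : Subgroup G).Normal
  · exact ⟨P, hPn, P.isPGroup', P.not_dvd_index⟩
  exfalso
  -- `P` is abelian
  have hPab : ∀ a b : (P : Subgroup G), a * b = b * a :=
    pgroup_comm p hp P.isPGroup' (degree_lt_subgroup p hb P)
  -- no nontrivial normal `p`-subgroup
  have hOp : ∀ K : Subgroup G, K.Normal → IsPGroup p K → K = ⊥ := by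
    intro K hK hKp
    by_contra hne
    haveI := hK
    have hcard : Nat.card (G ⧸ K) < n := by
      rw [← hn, ← Subgroup.index_eq_card, ← Subgroup.card_mul_index K]
      have h1 : 1 < Nat.card K := by
        rcases Nat.lt_or_ge 1 (Nat.card K) with h | h
        · exact h
        · exfalso
          apply hne
          have : Nat.card K = 1 := le_antisymm h Nat.card_pos
          exact Subgroup.card_eq_one.mp this
      have h2 : 0 < K.index := Nat.pos_of_ne_zero Subgroup.index_ne_zero_of_finite
      nlinarith
    obtain ⟨Q', hQn, hQp, hQi⟩ := ih _ hcard (G ⧸ K) rfl (degree_lt_quotient p hb K)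
    have hQnorm : (Q'.comap (QuotientGroup.mk' K)).Normal := hQn.comap _
    have hQidx : (Q'.comap (QuotientGroup.mk' K)).index = Q'.index :=
      Subgroup.index_comap_of_surjective _ (QuotientGroup.mk'_surjective K)
    have hQp' : IsPGroup p (Q'.comap (QuotientGroup.mk' K)) := by
      apply hQp.comap_of_ker_isPGroup
      rw [QuotientGroup.ker_mk']
      exact hKp
    have hle := le_normal_sylow p _ hQnorm hQp' (by rw [hQidx]; exact hQi) P P.isPGroup'
    have heq : (Q'.comap (QuotientGroup.mk' K)) = (P : Subgroup G) := P.is_maximal' hQp' hle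
    apply hPn
    rw [← heq]
    exact hQnorm
  -- `P` is a T.I. set
  have hTI : ∀ g : G, g ∉ Subgroup.normalizer ((P : Subgroup G) : Set G) →
      (P : Subgroup G) ⊓ (MulAut.conj g • (P : Subgroup G)) = ⊥ := by
    intro g hg
    by_contra hR
    have hPC : (P : Subgroup G) ≤
        Subgroup.centralizer (((P : Subgroup G) ⊓ (MulAut.conj g • (P : Subgroup G)) : Subgroup G) : Set G) := by
      intro x hx
      rw [Subgroup.mem_centralizer_iff]
      intro r hr
      have := hPab ⟨r, hr.1⟩ ⟨x, hx⟩
      exact congrArg Subtype.val this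
    have hPgC : MulAut.conj g • (P : Subgroup G) ≤
        Subgroup.centralizer (((P : Subgroup G) ⊓ (MulAut.conj g • (P : Subgroup G)) : Subgroup G) : Set G) := by
      intro x hx
      rw [Subgroup.mem_centralizer_iff]
      intro r hr
      obtain ⟨a, ha, rfl⟩ := Subgroup.mem_smul_pointwise_iff_exists _ _ _ |>.1 hx
      obtain ⟨b, hb', rfl⟩ := Subgroup.mem_smul_pointwise_iff_exists _ _ _ |>.1 hr.2
      have h := congrArg Subtype.val (hPab ⟨b, hb'⟩ ⟨a, ha⟩)
      simp only [Subgroup.coe_mul] at h
      simp only [MulAut.smul_def, MulAut.conj_apply]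
      calc g * b * g⁻¹ * (g * a * g⁻¹) = g * (b * a) * g⁻¹ := by group
        _ = g * (a * b) * g⁻¹ := by rw [h]
        _ = g * a * g⁻¹ * (g * b * g⁻¹) := by group
    by_cases hC : Subgroup.centralizer (((P : Subgroup G) ⊓ (MulAut.conj g • (P : Subgroup G)) : Subgroup G) : Set G) = ⊤
    · -- the intersection is central, hence normal
      apply hR
      apply hOp
      · refine ⟨fun r hr x => ?_⟩
        have hx : x ∈ Subgroup.centralizer (((P : Subgroup G) ⊓ (MulAut.conj g • (P : Subgroup G)) : Subgroup G) : Set G) := by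
          rw [hC]; trivial
        have := Subgroup.mem_centralizer_iff.1 hx r hr
        rw [← this]
        simpa using hr
      · exact P.isPGroup'.to_le inf_le_left
    · -- induction in the centralizer
      have hcard : Nat.card (Subgroup.centralizer (((P : Subgroup G) ⊓ (MulAut.conj g • (P : Subgroup G)) : Subgroup G) : Set G)) < n := by
        rw [← hn]
        refine lt_of_le_of_ne (Subgroup.card_le_card_group (H := _)) ?_
        intro h
        exact hC ((Subgroup.card_eq_iff_eq_top _).1 h)
      obtain ⟨Q, hQn, hQp, hQi⟩ := ih _ hcard _ rfl (degree_lt_subgroup p hb _)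
      have hPg : IsPGroup p (MulAut.conj g • (P : Subgroup G) : Subgroup G) := by
        rw [Subgroup.pointwise_smul_def]
        exact P.isPGroup'.map _
      have h1 := le_normal_sylow p Q hQn hQp hQi ((P : Subgroup G).subgroupOf _)
        (P.isPGroup'.comap_subtype)
      have h2 := le_normal_sylow p Q hQn hQp hQi ((MulAut.conj g • (P : Subgroup G)).subgroupOf _)
        (hPg.comap_subtype)
      have hQ'p : IsPGroup p (Q.map (Subgroup.subtype _)) := hQp.map _
      have hPQ' : (P : Subgroup G) ≤ Q.map (Subgroup.subtype _) := by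
        intro x hx
        rw [Subgroup.mem_map]
        exact ⟨⟨x, hPC hx⟩, h1 (Subgroup.mem_subgroupOf.2 hx), rfl⟩
      have hPgQ' : MulAut.conj g • (P : Subgroup G) ≤ Q.map (Subgroup.subtype _) := by
        intro x hx
        rw [Subgroup.mem_map]
        exact ⟨⟨x, hPgC hx⟩, h2 (Subgroup.mem_subgroupOf.2 hx), rfl⟩
      have hQ'eq : Q.map (Subgroup.subtype _) = (P : Subgroup G) := P.is_maximal' hQ'p hPQ'
      rw [hQ'eq] at hPgQ'
      apply hg
      apply Subgroup.mem_normalizer_fintype
      intro x hx
      have hx' : MulAut.conj g • x ∈ MulAut.conj g • (P : Subgroup G) :=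
        Subgroup.smul_mem_pointwise_smul _ _ _ hx
      have := hPgQ' hx'
      simp only [MulAut.smul_def, MulAut.conj_apply] at this
      exact this
  -- the T.I. principle for small degrees
  haveI : Fintype (Subgroup.normalizer ((P : Subgroup G) : Set G)) := Fintype.ofFinite _
  have hPcard : p ≤ Nat.card (P : Subgroup G) := by
    obtain ⟨k, hk⟩ := P.isPGroup'.exists_card_eq
    rw [hk]
    have hk0 : k ≠ 0 := by
      rintro rfl
      apply hPn
      have : (P : Subgroup G) = ⊥ := Subgroup.card_eq_one.mp (by simpa using hk)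
      rw [this]
      infer_instance
    exact Nat.le_self_pow hk0 p
  have hzero : ∀ χ : IrrCharacter G,
      classInner (indFun (Subgroup.normalizer ((P : Subgroup G) : Set G)) (fun _ => (1 : ℂ))
        - (helper24.trivIrr G).1) χ.1 = 0 := by
    intro χ
    rw [helper24.classInner_sub_left]
    by_cases hχ : χ = helper24.trivIrr G
    · rw [hχ, helper23.trivIrr_inner_indFun_one, helper24.irr_orthonormal, if_pos rfl]
      ring
    · rw [helper24.irr_orthonormal, if_neg (Ne.symm hχ), helper23.classInner_indFun_one]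
      obtain ⟨m, ρ, hirr, hρ⟩ := χ.2
      have hm : m < Nat.card (P : Subgroup G) := by
        have h1 := hb χ
        rw [← hρ, helper23.charDegree_rep] at h1
        omega
      have hsum : ∑ g : G, ρ.character g = 0 := by
        rw [hρ]
        exact helper23.sum_irr_eq_zero χ hχ
      haveI := hirr
      have h := helper23.ti_small_restrict_sum p P hTI
        (Subgroup.normalizer ((P : Subgroup G) : Set G)) le_rfl m ρ hm hsum
      rw [hρ] at h
      rw [h]
      simp
  have hcf : IsClassFunction G
      (indFun (Subgroup.normalizer ((P : Subgroup G) : Set G)) (fun _ => (1 : ℂ))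
        - (helper24.trivIrr G).1) := by
    intro a b
    simp only [Pi.sub_apply]
    rw [helper24.indFun_isClassFunction _ _ a b, helper24.isClassFunction_irr _ a b]
  have hEq := helper24.classFunction_eq_zero_of_inner hcf hzero
  have h1 := congrFun hEq 1
  simp only [Pi.sub_apply, Pi.zero_apply] at h1
  rw [helper24.indFun_one, helper24.trivIrr_apply] at h1
  have hidx : (Subgroup.normalizer ((P : Subgroup G) : Set G)).index = 1 := by
    have : (((Subgroup.normalizer ((P : Subgroup G) : Set G)).index : ℕ) : ℂ) = 1 := by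
      linear_combination h1
    exact_mod_cast this
  apply hPn
  rw [← Subgroup.normalizer_eq_top_iff]
  exact Subgroup.index_eq_one.1 hidx

/-- All irreducible degrees `< p` forces a normal abelian Sylow `p`-subgroup. -/
theorem normal_abelian_sylow {G : Type u} [Group G] [Finite G] (p : ℕ) (hp : p.Prime)
    (hb : ∀ χ : IrrCharacter G, charDegree (χ : G → ℂ) < p) :
    ∃ P : Subgroup G, P.Normal ∧ (∀ x ∈ P, ∀ y ∈ P, x * y = y * x) ∧ IsPGroup p P ∧
      ¬ p ∣ P.index := by
  obtain ⟨Q, hQn, hQp, hQi⟩ := exists_normal_sylow_aux p hp _ G rfl hb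
  refine ⟨Q, hQn, ?_, hQp, hQi⟩
  intro x hx y hy
  have := pgroup_comm p hp hQp (degree_lt_subgroup p hb Q) ⟨x, hx⟩ ⟨y, hy⟩
  exact congrArg Subtype.val this

end Cfsg.Agent.Lib.helper24.NormSyl
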