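import Cfsg.Agent.Lib.helper24.OddOrb

set_option autoImplicit false

namespace Cfsg.Agent.Lib.helper24

open Cfsg
open scoped ComplexConjugate

universe u

section

variable {G : Type u} [Group G] (K : Subgroup G) [hK : K.Normal]

/-- Real-valued irreducible characters. -/
abbrev RealIrr : Type u := {θ : IrrCharacter K // ∀ k : K, (θ.1 k).im = 0}

/-- Real elements. -/
abbrev RealElt : Type u := {x : K // IsConj x x⁻¹}

/-- The conjugation action on real irreducible characters of a normal subgroup. -/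
def realIrrAction : MulAction G (RealIrr K) where
  smul g θ := ⟨⟨θ.1.1 ∘ (MulAut.conjNormal g⁻¹ : K ≃* K),
    isIrrCharacter_comp_equiv (MulAut.conjNormal g⁻¹ : K ≃* K) θ.1.2⟩, fun k => θ.2 _⟩
  one_smul θ := by
    apply Subtype.ext; apply Subtype.ext; funext k
    show θ.1.1 (MulAut.conjNormal (1 : G)⁻¹ k) = θ.1.1 k
    rw [inv_one, map_one]; rfl
  mul_smul g h θ := by
    apply Subtype.ext; apply Subtype.ext; funext k
    show θ.1.1 (MulAut.conjNormal (g * h)⁻¹ k)
      = θ.1.1 (MulAut.conjNormal h⁻¹ (MulAut.conjNormal g⁻¹ k))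
    rw [mul_inv_rev, map_mul]; rfl

/-- The conjugation action on real elements of a normal subgroup. -/
def realEltAction : MulAction G (RealElt K) where
  smul g x := ⟨MulAut.conjNormal g x.1, by
    have := isConj_conjNormal K g x.2
    rwa [map_inv] at this⟩
  one_smul x := by
    apply Subtype.ext
    show MulAut.conjNormal (1 : G) x.1 = x.1
    rw [map_one]; rfl
  mul_smul g h x := by
    apply Subtype.ext
    show MulAut.conjNormal (g * h) x.1 = MulAut.conjNormal g (MulAut.conjNormal h x.1)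
    rw [map_mul]; rfl

theorem card_fix_realIrr [Finite G] (hodd : Odd K.index) (g : G) :
    letI := realIrrAction K
    Nat.card (MulAction.fixedBy (RealIrr K) g)
      = Nat.card {C : ConjClasses K // ∀ x : K, ConjClasses.mk x = C →
          IsConj ((MulAut.conjNormal g⁻¹ x)⁻¹) x} := by
  letI := realIrrAction K
  rw [← real_fixed_count K hodd g⁻¹]
  apply Nat.card_congr
  refine Equiv.trans (Equiv.subtypeEquivRight (q := fun θ : RealIrr K =>
      ∀ k : K, θ.1.1 (MulAut.conjNormal g⁻¹ k) = θ.1.1 k) (fun θ => ?_))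
    (Equiv.subtypeSubtypeEquivSubtypeInter (fun θ : IrrCharacter K => ∀ k : K, (θ.1 k).im = 0)
      (fun θ : IrrCharacter K => ∀ k : K, θ.1 (MulAut.conjNormal g⁻¹ k) = θ.1 k))
  rw [MulAction.mem_fixedBy]
  constructor
  · intro h k
    have := congrArg (fun η : RealIrr K => η.1.1 k) h
    exact this
  · intro h
    apply Subtype.ext; apply Subtype.ext; funext k
    exact h k

theorem card_fix_realElt (g : G) :
    letI := realEltAction K
    Nat.card (MulAction.fixedBy (RealElt K) g)
      = Nat.card {x : K // IsConj x x⁻¹ ∧ g * (x : G) * g⁻¹ = (x : G)} := by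
  letI := realEltAction K
  apply Nat.card_congr
  refine Equiv.trans (Equiv.subtypeEquivRight (q := fun x : RealElt K =>
      g * (x.1 : G) * g⁻¹ = (x.1 : G)) (fun x => ?_))
    (Equiv.subtypeSubtypeEquivSubtypeInter (fun x : K => IsConj x x⁻¹)
      (fun x : K => g * (x : G) * g⁻¹ = (x : G)))
  rw [MulAction.mem_fixedBy]
  constructor
  · intro h
    have := congrArg (fun y : RealElt K => (y.1 : G)) h
    exact this
  · intro h
    apply Subtype.ext; apply Subtype.ext
    exact h

theorem sum_fix_realElt [Fintype G] [DecidablePred (fun x : K => IsConj x x⁻¹)] [Fintype K] :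
    letI := realEltAction K
    ∑ g : G, (Nat.card (MulAction.fixedBy (RealElt K) g) : ℂ)
      = ∑ x : K, (if IsConj x x⁻¹ then
          (Nat.card (Subgroup.centralizer ({(x : G)} : Set G)) : ℂ) else 0) := by
  classical
  letI := realEltAction K
  have h1 : ∀ g : G, (Nat.card (MulAction.fixedBy (RealElt K) g) : ℂ)
      = ∑ x : K, (if IsConj x x⁻¹ then (if g * (x : G) * g⁻¹ = (x : G) then (1 : ℂ) else 0)
          else 0) := by
    intro g
    rw [card_fix_realElt K g, Nat.card_eq_fintype_card, Fintype.card_subtype, ← Finset.sum_boole]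
    apply Finset.sum_congr rfl
    intro x _
    by_cases h : IsConj x x⁻¹
    · by_cases h' : g * (x : G) * g⁻¹ = (x : G)
      · rw [if_pos ⟨h, h'⟩, if_pos h, if_pos h']
      · rw [if_neg (fun hh => h' hh.2), if_pos h, if_neg h']
    · rw [if_neg (fun hh => h hh.1), if_neg h]
  rw [Finset.sum_congr rfl (fun g _ => h1 g), Finset.sum_comm]
  apply Finset.sum_congr rfl
  intro x _
  by_cases h : IsConj x x⁻¹
  · simp only [if_pos h]
    rw [Finset.sum_boole, ← Fintype.card_subtype, ← Nat.card_eq_fintype_card]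
    congr 1
    apply Nat.card_congr
    apply Equiv.subtypeEquivRight
    intro g
    rw [Subgroup.mem_centralizer_iff]
    constructor
    · intro hg y hy
      rw [Set.mem_singleton_iff] at hy
      rw [hy]
      calc (x : G) * g = (g * (x : G) * g⁻¹) * g := by rw [hg]
        _ = g * (x : G) := by group
    · intro hg
      have := hg (x : G) rfl
      calc g * (x : G) * g⁻¹ = ((x : G) * g) * g⁻¹ := by rw [this]
        _ = (x : G) := by group
  · simp only [if_neg h, Finset.sum_const_zero]

theorem sum_fix_realIrr [Fintype G] (hodd : Odd K.index)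
    [DecidablePred (fun x : K => IsConj x x⁻¹)] [Fintype K] :
    letI := realIrrAction K
    ∑ g : G, (Nat.card (MulAction.fixedBy (RealIrr K) g) : ℂ)
      = ∑ x : K, (if IsConj x x⁻¹ then
          (Nat.card (Subgroup.centralizer ({(x : G)} : Set G)) : ℂ) else 0) := by
  classical
  letI := realIrrAction K
  have hKne : (Nat.card K : ℂ) ≠ 0 := Nat.cast_ne_zero.mpr Nat.card_pos.ne'
  apply mul_left_cancel₀ hKne
  rw [Finset.mul_sum, Finset.mul_sum]
  have h1 : ∀ g : G, (Nat.card K : ℂ) * (Nat.card (MulAction.fixedBy (RealIrr K) g) : ℂ)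
      = ∑ x : K, (if IsConj x x⁻¹ then (if g⁻¹ ∈ classStab K x then
          (Nat.card (Subgroup.centralizer ({x} : Set K)) : ℂ) else 0) else 0) := by
    intro g
    rw [card_fix_realIrr K hodd g, ← sum_centralizer_eq
      (fun x : K => IsConj ((MulAut.conjNormal g⁻¹ x)⁻¹) x)]
    · apply Finset.sum_congr rfl
      intro x _
      by_cases h : IsConj ((MulAut.conjNormal g⁻¹ x)⁻¹) x
      · have h' := (twisted_class_iff K hodd g⁻¹ x).mp h
        rw [if_pos h, if_pos h'.1, if_pos h'.2]
      · rw [if_neg h]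
        by_cases hx : IsConj x x⁻¹
        · rw [if_pos hx, if_neg (fun hg => h ((twisted_class_iff K hodd g⁻¹ x).mpr ⟨hx, hg⟩))]
        · rw [if_neg hx]
    · intro y z hyz
      have h1 : IsConj ((MulAut.conjNormal g⁻¹ y)⁻¹) ((MulAut.conjNormal g⁻¹ z)⁻¹) :=
        isConj_inv_of_isConj (isConj_conjNormal K g⁻¹ hyz)
      constructor
      · intro hy
        exact (h1.symm.trans hy).trans hyz
      · intro hz
        exact (h1.trans hz).trans hyz.symm
  rw [Finset.sum_congr rfl (fun g _ => h1 g), Finset.sum_comm]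
  apply Finset.sum_congr rfl
  intro x _
  by_cases hx : IsConj x x⁻¹
  · simp only [if_pos hx]
    rw [← sum_classStab K x]
    exact Fintype.sum_equiv (Equiv.inv G) _ _ (fun g => rfl)
  · simp only [if_neg hx, Finset.sum_const_zero, mul_zero]

theorem odd_index_real_orbits {G : Type u} [Group G] [Finite G] (K : Subgroup G) [K.Normal] (hodd : Odd K.index) : Nat.card (Quot (fun θ η : {θ : IrrCharacter ↥K // (∀ k : ↥K, ((θ : ↥K → ℂ) k).im = 0)} => ∃ g : G, ∀ k k' : ↥K, (k' : G) = g * (k : G) * g⁻¹ → (η.1 : ↥K → ℂ) k' = (θ.1 : ↥K → ℂ) k)) = Nat.card (Quot (fun x y : {x : ↥K // IsConj x x⁻¹} => ∃ g : G, (y.1 : G) = g * x.1 * g⁻¹)) := by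
  classical
  have : Fintype G := Fintype.ofFinite _
  have : Fintype K := Fintype.ofFinite _
  have e1 : Nat.card (Quot (fun θ η : {θ : IrrCharacter ↥K // (∀ k : ↥K, ((θ : ↥K → ℂ) k).im = 0)} => ∃ g : G, ∀ k k' : ↥K, (k' : G) = g * (k : G) * g⁻¹ → (η.1 : ↥K → ℂ) k' = (θ.1 : ↥K → ℂ) k))
      = Nat.card (@MulAction.orbitRel.Quotient G (RealIrr K) _ (realIrrAction K)) := by
    letI := realIrrAction K
    apply Nat.card_congr
    apply Quot.congrRight
    intro θ η
    rw [MulAction.orbitRel_apply, MulAction.mem_orbit_iff]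
    constructor
    · rintro ⟨g, hg⟩
      refine ⟨g⁻¹, ?_⟩
      apply Subtype.ext; apply Subtype.ext; funext k
      show η.1.1 (MulAut.conjNormal g⁻¹⁻¹ k) = θ.1.1 k
      exact hg k _ (by rw [inv_inv]; rfl)
    · rintro ⟨g, hg⟩
      refine ⟨g⁻¹, ?_⟩
      intro k k' hk'
      have h1 : θ.1.1 k = η.1.1 (MulAut.conjNormal g⁻¹ k) := by
        rw [← hg]; rfl
      have e : k' = MulAut.conjNormal g⁻¹ k := Subtype.ext (by rw [hk']; rfl)
      rw [h1, e]
  have e2 : Nat.card (Quot (fun x y : {x : ↥K // IsConj x x⁻¹} => ∃ g : G, (y.1 : G) = g * x.1 * g⁻¹))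
      = Nat.card (@MulAction.orbitRel.Quotient G (RealElt K) _ (realEltAction K)) := by
    letI := realEltAction K
    apply Nat.card_congr
    apply Quot.congrRight
    intro x y
    rw [MulAction.orbitRel_apply, MulAction.mem_orbit_iff]
    constructor
    · rintro ⟨g, hg⟩
      refine ⟨g⁻¹, ?_⟩
      apply Subtype.ext; apply Subtype.ext
      show g⁻¹ * (y.1 : G) * g⁻¹⁻¹ = (x.1 : G)
      rw [hg]; group
    · rintro ⟨g, hg⟩
      refine ⟨g⁻¹, ?_⟩
      have h1 : (x.1 : G) = g * (y.1 : G) * g⁻¹ := by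
        rw [← hg]; rfl
      rw [h1]; group
  rw [e1, e2]
  have b1 := @sum_card_fixedBy G _ _ (RealIrr K) (realIrrAction K) _
  have b2 := @sum_card_fixedBy G _ _ (RealElt K) (realEltAction K) _
  have s1 := sum_fix_realIrr K hodd
  have s2 := sum_fix_realElt K
  have hG : (Nat.card G : ℂ) ≠ 0 := Nat.cast_ne_zero.mpr Nat.card_pos.ne'
  have hfin : (Nat.card (@MulAction.orbitRel.Quotient G (RealIrr K) _ (realIrrAction K)) : ℂ)
      * (Nat.card G : ℂ)
      = (Nat.card (@MulAction.orbitRel.Quotient G (RealElt K) _ (realEltAction K)) : ℂ)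
      * (Nat.card G : ℂ) := by
    rw [← b1, ← b2]
    exact s1.trans s2.symm
  exact Nat.cast_injective (mul_right_cancel₀ hG hfin)

end

end Cfsg.Agent.Lib.helper24
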