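import Cfsg.Agent.Lib.helper24.PExt
import Cfsg.Agent.Lib.helper24.UniqueNL
import Cfsg.Agent.Lib.helper24.CharRamified
import Cfsg.Agent.Lib.helper24.CyclicExtHom
import Cfsg.Agent.Lib.helper24.CharChief
import Cfsg.Agent.Lib.helper24.CharDet

/-! Extension of invariant characters across a `p`-power index when a Sylow intersection
is central (Dade). -/

namespace Cfsg.Agent.Lib.helper24

open Cfsg
open scoped ComplexConjugate
open scoped Pointwise
open scoped commutatorElement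

universe u

set_option autoImplicit false

/-- Extension of a linear character along a homomorphism, when it is trivial on the
preimage of the commutator subgroup. -/
theorem exists_hom_extend_of_commutator {D E : Type*} [Group D] [Group E] [Finite E]
    (ι : D →* E) (f : D →* ℂˣ) (h : ∀ d : D, ι d ∈ commutator E → f d = 1) :
    ∃ F : E →* ℂˣ, ∀ d : D, F (ι d) = f d := by
  classical
  let π : E →* Abelianization E := Abelianization.of
  let r : D →* (π.comp ι).range := (π.comp ι).rangeRestrict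
  have hr : Function.Surjective r := MonoidHom.rangeRestrict_surjective _
  have hker : r.ker ≤ f.ker := by
    intro d hd
    rw [MonoidHom.mem_ker] at hd ⊢
    apply h
    have h1 : π (ι d) = 1 := congrArg Subtype.val hd
    rw [← Abelianization.ker_of]
    exact h1
  let f' : (π.comp ι).range →* ℂˣ :=
    r.liftOfRightInverse (Function.surjInv hr) (Function.rightInverse_surjInv hr) ⟨f, hker⟩
  have hf' : ∀ d, f' (r d) = f d := fun d =>
    MonoidHom.liftOfRightInverse_comp_apply _ _ _ ⟨f, hker⟩ d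
  haveI : NeZero (Monoid.exponent (Abelianization E)) := ⟨Monoid.exponent_ne_zero_of_finite⟩
  obtain ⟨F', hF'⟩ := MonoidHom.domRestrict_surjective (M := ℂ) (π.comp ι).range f'
  refine ⟨F'.comp π, fun d => ?_⟩
  rw [← hf' d, ← hF']
  rfl

theorem exists_hom_ne_one_of_comm {A : Type u} [Group A] [Finite A]
    (hA : ∀ a b : A, a * b = b * a) (a : A) (ha : a ≠ 1) : ∃ ω : A →* ℂˣ, ω a ≠ 1 := by
  letI : CommGroup A := { ‹Group A› with mul_comm := hA }
  exact exists_hom_ne_one a ha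

theorem exists_conj_le_sylow_sub {G : Type*} [Group G] [Finite G] {p : ℕ} [Fact p.Prime]
    (P : Sylow p G) (A : Subgroup G) (hA : IsPGroup p A) :
    ∃ g : G, ∀ a ∈ A, g⁻¹ * a * g ∈ (P : Subgroup G) := by
  obtain ⟨P', hP'⟩ := hA.exists_le_sylow
  obtain ⟨g, hg⟩ := MulAction.exists_smul_eq G P P'
  refine ⟨g, fun a ha => ?_⟩
  have h1 : a ∈ ((g • P : Sylow p G) : Subgroup G) := by rw [hg]; exact hP' ha
  rw [Sylow.coe_subgroup_smul, Subgroup.mem_pointwise_smul_iff_inv_smul_mem] at h1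
  simpa [MulAut.smul_def] using h1

theorem zpow_eq_one_of_mem_pgroup {E : Type*} [Group E] (p : ℕ) {Q : Subgroup E}
    (hQ : IsPGroup p Q) (x : E) (hcop : (orderOf x).Coprime p) (z : ℤ) (h : x ^ z ∈ Q) :
    x ^ z = 1 := by
  obtain ⟨k, hk⟩ := hQ ⟨x ^ z, h⟩
  have hk' : (x ^ z) ^ (p ^ k) = 1 := by
    have := congrArg Subtype.val hk
    simpa using this
  have h1 : orderOf (x ^ z) ∣ p ^ k := orderOf_dvd_of_pow_eq_one hk'
  have h2 : orderOf (x ^ z) ∣ orderOf x := by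
    apply orderOf_dvd_of_pow_eq_one
    rw [← zpow_natCast, ← zpow_mul, mul_comm, zpow_mul, zpow_natCast, pow_orderOf_eq_one,
      one_zpow]
  have h3 : (orderOf x).Coprime (p ^ k) := hcop.pow_right k
  have h4 : orderOf (x ^ z) = 1 := Nat.dvd_one.mp (h3 ▸ Nat.dvd_gcd h2 h1)
  exact orderOf_eq_one_iff.mp h4

section Elem

variable {E : Type u} [Group E] [Finite E]

theorem central_zpow {x : E} (hx : ∀ g : E, g * x = x * g) (z : ℤ) (g : E) :
    g * x ^ z = x ^ z * g :=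
  (Commute.zpow_right (hx g) z)

theorem elementary_structure (p : ℕ) [Fact p.Prime] (hE : IsElementary p E) (Q : Sylow p E) :
    ∃ x : E, (∀ g : E, g * x = x * g) ∧ (orderOf x).Coprime p ∧
      ∀ e : E, ∃ z : ℤ, e * (x ^ z)⁻¹ ∈ (Q : Subgroup E) := by
  obtain ⟨x, hxc, hcop, k, hk⟩ := hE
  have hx : ∀ g : E, g * x = x * g := fun g => (Subgroup.mem_center_iff.mp hxc g)
  have hxz := central_zpow hx
  refine ⟨x, hx, hcop, ?_⟩
  haveI : (Subgroup.zpowers x).Normal := ⟨fun n hn g => by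
    obtain ⟨z, rfl⟩ := Subgroup.mem_zpowers_iff.mp hn
    rw [hxz z g, mul_inv_cancel_right]
    exact Subgroup.zpow_mem_zpowers x z⟩
  have htop : Subgroup.zpowers x ⊔ (Q : Subgroup E) = ⊤ := by
    apply Subgroup.index_eq_one.mp
    have h1 : (Subgroup.zpowers x ⊔ (Q : Subgroup E)).index ∣ p ^ k :=
      hk ▸ Subgroup.index_dvd_of_le le_sup_left
    have h2 : (Subgroup.zpowers x ⊔ (Q : Subgroup E)).index ∣ (Q : Subgroup E).index :=
      Subgroup.index_dvd_of_le le_sup_right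
    have h4 : ¬ p ∣ (Q : Subgroup E).index := Q.not_dvd_index
    obtain ⟨j, hj, hje⟩ := (Nat.dvd_prime_pow (Fact.out (p := p.Prime))).mp h1
    rcases Nat.eq_zero_or_pos j with rfl | hjpos
    · simpa using hje
    · exact absurd ((hje ▸ dvd_pow_self p hjpos.ne').trans h2) h4
  intro e
  have he : e ∈ ((Subgroup.zpowers x ⊔ (Q : Subgroup E) : Subgroup E) : Set E) := by
    rw [htop]; trivial
  rw [Subgroup.normal_mul, Set.mem_mul] at he
  obtain ⟨c, hc, q, hq, rfl⟩ := he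
  obtain ⟨z, rfl⟩ := Subgroup.mem_zpowers_iff.mp hc
  refine ⟨z, ?_⟩
  rw [← hxz z q, mul_inv_cancel_right]
  exact hq

theorem elementary_sylow_normal {Q : Subgroup E} (x : E) (hx : ∀ g : E, g * x = x * g)
    (hgen : ∀ e : E, ∃ z : ℤ, e * (x ^ z)⁻¹ ∈ Q) : Q.Normal := by
  have hxz := central_zpow hx
  refine ⟨fun n hn e => ?_⟩
  obtain ⟨z, hz⟩ := hgen e
  have h1 : (x ^ z)⁻¹ * n * x ^ z = n := by
    rw [mul_assoc, hxz z n, ← mul_assoc, inv_mul_cancel, one_mul]
  have h2 : e * n * e⁻¹ = (e * (x ^ z)⁻¹) * n * (e * (x ^ z)⁻¹)⁻¹ := by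
    calc e * n * e⁻¹ = e * ((x ^ z)⁻¹ * n * x ^ z) * e⁻¹ := by rw [h1]
      _ = (e * (x ^ z)⁻¹) * n * (e * (x ^ z)⁻¹)⁻¹ := by group
  rw [h2]
  exact Q.mul_mem (Q.mul_mem hz hn) (Q.inv_mem hz)

theorem elementary_commutator_le {Q : Subgroup E} (x : E) (hx : ∀ g : E, g * x = x * g)
    (hgen : ∀ e : E, ∃ z : ℤ, e * (x ^ z)⁻¹ ∈ Q) : commutator E ≤ Q := by
  have hxz := central_zpow hx
  rw [commutator_def, Subgroup.commutator_le]
  intro g₁ _ g₂ _
  obtain ⟨z₁, h₁⟩ := hgen g₁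
  obtain ⟨z₂, h₂⟩ := hgen g₂
  have key : ⁅g₁, g₂⁆ = ⁅g₁ * (x ^ z₁)⁻¹, g₂ * (x ^ z₂)⁻¹⁆ := by
    rw [← commutatorElement_mul_central_left (g₁ * (x ^ z₁)⁻¹) _ (x ^ z₁) (hxz z₁),
      ← commutatorElement_mul_central_right _ (g₂ * (x ^ z₂)⁻¹) (x ^ z₂) (hxz z₂)]
    simp
  rw [key, commutatorElement_def]
  exact Q.mul_mem (Q.mul_mem (Q.mul_mem h₁ h₂) (Q.inv_mem h₁)) (Q.inv_mem h₂)

end Elem

/-- In a `p`-elementary subgroup `E`, the commutator subgroup meets `N` trivially, under the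
hypotheses on the Sylow subgroup `P`. -/
theorem elementary_commutator_inf_trivial {G : Type u} [Group G] [Finite G] (p : ℕ)
    [Fact p.Prime] (N : Subgroup G) [hN : N.Normal] (P : Sylow p G)
    (hcent : ∀ x ∈ (P : Subgroup G) ⊓ N, ∀ y ∈ (P : Subgroup G), x * y = y * x)
    (hlin : ∀ lam : ↥((P : Subgroup G) ⊓ N) → ℂ, IsCharacter ↥((P : Subgroup G) ⊓ N) lam →
      lam 1 = 1 → ∃ μ : ↥(P : Subgroup G) → ℂ, IsCharacter ↥(P : Subgroup G) μ ∧ μ 1 = 1 ∧
        ∀ x : ↥((P : Subgroup G) ⊓ N), μ ⟨(x : G), x.2.1⟩ = lam x)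
    (E : Subgroup G) (hE : IsElementary p E) (z : ↥E) (hz : z ∈ commutator ↥E)
    (hzN : (z : G) ∈ N) : z = 1 := by
  classical
  by_contra hz1
  obtain Q : Sylow p ↥E := default
  obtain ⟨x, hxc, hxcop, hgen⟩ := elementary_structure p hE Q
  haveI hQn : (Q : Subgroup ↥E).Normal := elementary_sylow_normal x hxc hgen
  have hzQ : z ∈ (Q : Subgroup ↥E) := elementary_commutator_le x hxc hgen hz
  obtain ⟨g, hg⟩ := exists_conj_le_sylow_sub P ((Q : Subgroup ↥E).map E.subtype)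
    (Q.isPGroup'.map E.subtype)
  have hgQ : ∀ q : ↥(Q : Subgroup ↥E), g⁻¹ * ((q : ↥E) : G) * g ∈ (P : Subgroup G) :=
    fun q => hg _ (Subgroup.mem_map_of_mem _ q.2)
  let κ : ↥(Q : Subgroup ↥E) →* ↥(P : Subgroup G) :=
    { toFun := fun q => ⟨g⁻¹ * ((q : ↥E) : G) * g, hgQ q⟩
      map_one' := Subtype.ext (by simp)
      map_mul' := fun a b => Subtype.ext (by simp [mul_assoc]) }
  have hz'N : g⁻¹ * (z : G) * g ∈ N := by
    have := hN.conj_mem (z : G) hzN g⁻¹
    simpa using this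
  set z' : ↥((P : Subgroup G) ⊓ N) := ⟨g⁻¹ * (z : G) * g, ⟨hgQ ⟨z, hzQ⟩, hz'N⟩⟩ with hz'
  have hz'1 : z' ≠ 1 := by
    intro h
    have h1 : g⁻¹ * (z : G) * g = 1 := congrArg Subtype.val h
    apply hz1
    apply Subtype.ext
    have h2 : (z : G) = g * (g⁻¹ * (z : G) * g) * g⁻¹ := by group
    rw [h2, h1]; simp
  obtain ⟨ω, hω⟩ := exists_hom_ne_one_of_comm
    (fun a b : ↥((P : Subgroup G) ⊓ N) => Subtype.ext (hcent a a.2 b b.2.1)) z' hz'1
  obtain ⟨μ, hμ, hμ1, hμext⟩ := hlin (fun x => (ω x : ℂ)) (isCharacter_of_hom_linear ω).1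
    (isCharacter_of_hom_linear ω).2
  obtain ⟨μ', hμ'⟩ := exists_hom_of_linear hμ hμ1
  let f : ↥(Q : Subgroup ↥E) →* ℂˣ := μ'.comp κ
  have hfz : f ⟨z, hzQ⟩ ≠ 1 := by
    intro h
    apply hω
    have h1 : μ ⟨(z' : G), z'.2.1⟩ = (ω z' : ℂ) := hμext z'
    rw [hμ'] at h1
    have h2 : μ' ⟨(z' : G), z'.2.1⟩ = f ⟨z, hzQ⟩ := rfl
    rw [h2, h] at h1
    exact Units.ext (by simpa using h1.symm)
  obtain ⟨F, hF⟩ := exists_hom_extension_cyclic (Q : Subgroup ↥E) x hgen f 1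
    (fun n => by
      have h1 : (⟨x * n * x⁻¹, hQn.conj_mem n n.2 x⟩ : ↥(Q : Subgroup ↥E)) = n := by
        apply Subtype.ext
        show x * (n : ↥E) * x⁻¹ = n
        rw [← hxc (n : ↥E), mul_inv_cancel_right]
      rw [h1]; simp)
    (fun w h => by
      have h1 := zpow_eq_one_of_mem_pgroup p Q.isPGroup' x hxcop w h
      have h2 : (⟨x ^ w, h⟩ : ↥(Q : Subgroup ↥E)) = 1 := Subtype.ext h1
      rw [h2]; simp)
  have hFz : F z = 1 := MonoidHom.mem_ker.mp (Abelianization.commutator_subset_ker F hz)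
  exact hfz ((hF ⟨z, hzQ⟩).symm.trans hFz)

/-- Dade: extension of invariant characters (S0897). -/
theorem dade_extend {G : Type u} [Group G] [Fintype G] (p : ℕ) [Fact p.Prime] (N : Subgroup G) [hN : N.Normal] (hind : ∃ k : ℕ, N.index = p ^ k) (P : Sylow p G) (hcent : ∀ x ∈ (P : Subgroup G) ⊓ N, ∀ y ∈ (P : Subgroup G), x * y = y * x) (hlin : ∀ lam : ↥((P : Subgroup G) ⊓ N) → ℂ, IsCharacter ↥((P : Subgroup G) ⊓ N) lam → lam 1 = 1 → ∃ μ : ↥(P : Subgroup G) → ℂ, IsCharacter ↥(P : Subgroup G) μ ∧ μ 1 = 1 ∧ ∀ x : ↥((P : Subgroup G) ⊓ N), μ ⟨(x : G), x.2.1⟩ = lam x) (ϑ : N → ℂ) (hϑ : IsIrrCharacter N ϑ) (hinv : ∀ (g : G) (n : N), ϑ ⟨g * n * g⁻¹, hN.conj_mem (n : G) n.2 g⟩ = ϑ n) : ∃ χ : G → ℂ, IsIrrCharacter G χ ∧ ∀ n : N, χ n = ϑ n := by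
  classical
  have hp := Fact.out (p := p.Prime)
  haveI : Fintype N := Fintype.ofFinite _
  obtain ⟨E, φ, hE, htop, hφ, -, m, hm, hmeq⟩ := dade_detect p hp N hind ϑ hϑ hinv
  haveI : Fintype ↥E := Fintype.ofFinite _
  haveI : Fintype ↥(E ⊓ N) := Fintype.ofFinite _
  have hkey : ∀ z : ↥E, z ∈ commutator ↥E → (z : G) ∈ N → z = 1 :=
    elementary_commutator_inf_trivial p N P hcent hlin E hE
  -- `φ` is linear
  have hφ1 : φ 1 = 1 := by
    apply irr_linear_of_commutator_le_ker hφ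
    intro k hk
    have h1 : (Subgroup.inclusion (inf_le_left : E ⊓ N ≤ E) k : ↥E) ∈ commutator ↥E := by
      have h0 := Abelianization.commutator_subset_ker ((Abelianization.of (G := ↥E)).comp
        (Subgroup.inclusion (inf_le_left : E ⊓ N ≤ E))) hk
      rw [MonoidHom.mem_ker] at h0
      rw [← Abelianization.ker_of]
      exact h0
    have h2 := hkey _ h1 k.2.2
    have h3 : k = 1 := Subtype.ext
      (show (k : G) = ((1 : ↥(E ⊓ N)) : G) from congrArg (fun w : ↥E => (w : G)) h2)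
    rw [h3]
  obtain ⟨f, hf⟩ := exists_hom_of_linear (isCharacter_of_isIrrCharacter hφ) hφ1
  obtain ⟨F, hF⟩ := exists_hom_extend_of_commutator
    (Subgroup.inclusion (inf_le_left : E ⊓ N ≤ E)) f (fun d hd => by
      have h2 := hkey _ hd d.2.2
      have hd1 : d = 1 := Subtype.ext
        (show (d : G) = ((1 : ↥(E ⊓ N)) : G) from congrArg (fun w : ↥E => (w : G)) h2)
      rw [hd1, map_one])
  set Fc : ↥E → ℂ := fun e => (F e : ℂ) with hFc
  have hFchar : IsCharacter ↥E Fc := (isCharacter_of_hom_linear F).1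
  set Θ : G → ℂ := indFun N ϑ with hΘ
  have hΘchar : IsCharacter G Θ := isCharacter_indFun N (isCharacter_of_isIrrCharacter hϑ)
  have hΘN : ∀ (g : G) (hg : g ∈ N), Θ g = (N.index : ℂ) * ϑ ⟨g, hg⟩ := by
    intro g hg
    show (Nat.card N : ℂ)⁻¹ * ∑ x : G, extendByZero N ϑ (x⁻¹ * g * x) = _
    have h1 : ∀ x : G, extendByZero N ϑ (x⁻¹ * g * x) = ϑ ⟨g, hg⟩ := by
      intro x
      have hmem : x⁻¹ * g * x ∈ N := by
        have := hN.conj_mem g hg x⁻¹
        simpa using this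
      rw [extendByZero_apply_mem N ϑ hmem]
      have h2 := hinv x⁻¹ ⟨g, hg⟩
      rw [← h2]
      exact congrArg ϑ (Subtype.ext (by simp))
    rw [Finset.sum_congr rfl (fun x _ => h1 x), Finset.sum_const, Finset.card_univ,
      nsmul_eq_mul, ← Nat.card_eq_fintype_card, ← N.card_mul_index]
    have hN0 : (Nat.card N : ℂ) ≠ 0 := Nat.cast_ne_zero.mpr Nat.card_pos.ne'
    push_cast
    field_simp
  have hΘout : ∀ g : G, g ∉ N → Θ g = 0 := by
    intro g hg
    show (Nat.card N : ℂ)⁻¹ * ∑ x : G, extendByZero N ϑ (x⁻¹ * g * x) = 0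
    rw [Finset.sum_eq_zero, mul_zero]
    intro x _
    apply extendByZero_apply_not_mem
    intro hmem
    apply hg
    have := hN.conj_mem _ hmem x
    simpa [mul_assoc] using this
  -- the inner product over `E`
  have hinner : classInner (fun e : ↥E => Θ e) Fc = m := by
    have hsumE : ∑ e : ↥E, Θ e * conj (Fc e)
        = (N.index : ℂ) * ∑ x : ↥(E ⊓ N), ϑ ⟨x, x.2.2⟩ * conj (φ x) := by
      rw [← sum_extendByZero E (fun e : ↥E => Θ e * conj (Fc e)),
        ← sum_extendByZero (E ⊓ N) (fun x : ↥(E ⊓ N) => ϑ ⟨x, x.2.2⟩ * conj (φ x)),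
        Finset.mul_sum]
      apply Finset.sum_congr rfl
      intro g _
      by_cases hgE : g ∈ E
      · by_cases hgN : g ∈ N
        · rw [extendByZero_apply_mem E _ hgE, extendByZero_apply_mem (E ⊓ N) _ ⟨hgE, hgN⟩]
          have h1 : φ ⟨g, ⟨hgE, hgN⟩⟩ = Fc ⟨g, hgE⟩ := by
            rw [hf]
            show _ = ((F ⟨g, hgE⟩ : ℂˣ) : ℂ)
            rw [← hF ⟨g, ⟨hgE, hgN⟩⟩]
            rfl
          show Θ g * conj (Fc ⟨g, hgE⟩) = _
          rw [hΘN g hgN, h1]
          ring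
        · rw [extendByZero_apply_mem E _ hgE,
            extendByZero_apply_not_mem (E ⊓ N) _ (fun h => hgN h.2)]
          show Θ g * conj (Fc ⟨g, hgE⟩) = _
          rw [hΘout g hgN]
          simp
      · rw [extendByZero_apply_not_mem E _ hgE,
          extendByZero_apply_not_mem (E ⊓ N) _ (fun h => hgE h.1)]
        simp
    have hcard : Nat.card ↥E = Nat.card ↥(E ⊓ N) * N.index := by
      have h2 : Nat.card ↥(E ⊓ N) * N.relIndex E = Nat.card E := by
        have := Subgroup.relIndex_mul_relIndex (⊥ : Subgroup G) (E ⊓ N) E bot_le inf_le_left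
        rwa [Subgroup.relIndex_bot_left, Subgroup.relIndex_bot_left,
          Subgroup.inf_relIndex_left] at this
      have h3 : N.relIndex E = N.index := by
        rw [← Subgroup.relIndex_sup_right, htop, Subgroup.relIndex_top_right]
      rw [← h2, h3]
    rw [finsum_eq_sum_of_fintype] at hmeq
    unfold classInner
    rw [hsumE, hcard]
    have hD0 : (Nat.card ↥(E ⊓ N) : ℂ) ≠ 0 := Nat.cast_ne_zero.mpr Nat.card_pos.ne'
    have hi0 : (N.index : ℂ) ≠ 0 := by
      obtain ⟨k, hk⟩ := hind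
      rw [hk]
      exact_mod_cast (pow_pos hp.pos k).ne'
    rw [← hmeq]
    push_cast
    field_simp
  -- expansion of `Θ`
  haveI : Fintype (IrrCharacter G) := Fintype.ofFinite _
  have hexp := classFunction_expansion (isCharacter_conj_class hΘchar)
  choose a ha using fun χ : IrrCharacter G => isCharacter_inner_irr_nat hΘchar χ
  choose b hb using fun χ : IrrCharacter G =>
    isCharacter_inner_nat (isCharacter_restrict E (isCharacter_of_isIrrCharacter χ.2)) hFchar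
  have hsum : (m : ℂ) = ∑ χ : IrrCharacter G, ((a χ * b χ : ℕ) : ℂ) := by
    rw [← hinner]
    have h1 : (fun e : ↥E => Θ e)
        = ∑ χ : IrrCharacter G, classInner Θ χ.1 • (fun e : ↥E => χ.1 e) := by
      funext e
      have h2 := congrFun hexp e
      rw [Finset.sum_apply] at h2 ⊢
      exact h2
    rw [h1, classInner_sum_left]
    apply Finset.sum_congr rfl
    intro χ _
    rw [classInner_smul_left, ha χ, hb χ]
    push_cast
    ring
  have hsumN : m = ∑ χ : IrrCharacter G, a χ * b χ := by exact_mod_cast hsum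
  obtain ⟨χ, hχ⟩ : ∃ χ : IrrCharacter G, ¬ p ∣ a χ * b χ := by
    by_contra hcon
    push Not at hcon
    exact hm (hsumN ▸ Finset.dvd_sum (fun χ _ => hcon χ))
  have hpa : ¬ p ∣ a χ := fun h => hχ (h.mul_right _)
  have ha0 : a χ ≠ 0 := fun h => hpa (h ▸ dvd_zero p)
  have hres : classInner (fun n : N => χ.1 n) ϑ = a χ := by
    have h1 := frobenius_reciprocity N ϑ (isClassFunction_irr χ)
    rw [classInner_conj_symm, ← h1]
    show conj (classInner Θ χ.1) = _
    rw [ha χ]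
    simp
  have hne : classInner (fun n : N => χ.1 n) ϑ ≠ 0 := by
    rw [hres]; exact_mod_cast ha0
  have hsmul := restrict_eq_smul_of_invariant N χ.1 χ.2 ϑ hϑ hne hinv
  rw [hres] at hsmul
  obtain ⟨-, hc0, hc⟩ := irr_degree_facts3 χ
  obtain ⟨-, hd0, hd⟩ := irr_degree_facts3 (⟨ϑ, hϑ⟩ : IrrCharacter N)
  obtain ⟨e, he, hediv⟩ := degree_ratio_invariant N χ.1 χ.2 ϑ hϑ hinv hne _ _ hc hd
  have hae : a χ = e := by
    have h1 := congrFun hsmul 1
    have h2 : χ.1 ((1 : N) : G) = (a χ : ℂ) * ϑ 1 := h1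
    have hd' : ϑ 1 = (charDegree ϑ : ℂ) := hd
    rw [Subgroup.coe_one, hc, hd'] at h2
    have h3 : charDegree χ.1 = a χ * charDegree ϑ := by exact_mod_cast h2
    rw [he] at h3
    exact (Nat.eq_of_mul_eq_mul_right (Nat.pos_of_ne_zero hd0) h3).symm
  have ha1 : a χ = 1 := by
    obtain ⟨k, hk⟩ := hind
    rw [← hae, hk] at hediv
    obtain ⟨j, hj, hje⟩ := (Nat.dvd_prime_pow hp).mp hediv
    rcases Nat.eq_zero_or_pos j with rfl | hjpos
    · simpa using hje
    · exact absurd (hje ▸ dvd_pow_self p hjpos.ne') hpa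
  refine ⟨χ.1, χ.2, fun n => ?_⟩
  have h1 := congrFun hsmul n
  rw [ha1] at h1
  simpa using h1

end Cfsg.Agent.Lib.helper24
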