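import Mathlib
import Cfsg.Agent.Lib.helper10.PSolv2
import Cfsg.Agent.Lib.helper14.SolvPSolv

set_option autoImplicit false

/-!
Schur–Zassenhaus conjugacy for an abelian normal Hall subgroup and the resulting
Frattini argument, used for the `p`-length bound of groups whose maximal subgroups are
`p`-nilpotent or of prime index.
-/

namespace Cfsg.Agent.Lib.helper24.PLen

open Cfsg

universe u

theorem sz_conj {X : Type u} [Group X] [Finite X] (H : Subgroup X) [H.Normal] [IsMulCommutative H]
    (hco : (Nat.card H).Coprime H.index) (K K' : Subgroup X)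
    (hK : Subgroup.IsComplement' K H) (hK' : Subgroup.IsComplement' K' H) :
    ∃ h : H, K' = K.map (MulAut.conj (h : X)).toMonoidHom := by
  classical
  let q : H.LeftTransversal → H.QuotientDiff := fun T => Quotient.mk'' T
  have hstab : ∀ (L : Subgroup X) (hL : Subgroup.IsComplement' L H),
      MulAction.stabilizer X (q ⟨(L : Set X), hL⟩) = L := by
    intro L hL
    symm
    apply Subgroup.eq_of_le_of_card_ge
    · intro k hk
      rw [MulAction.mem_stabilizer_iff]
      show q (MulOpposite.op k⁻¹ • (⟨(L : Set X), hL⟩ : H.LeftTransversal)) = _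
      congr 1
      exact Subtype.ext (op_smul_coe_set (inv_mem hk))
    · have h1 := (Subgroup.isComplement'_stabilizer_of_coprime
        (α := q ⟨(L : Set X), hL⟩) hco).card_mul_card
      have h2 := hL.card_mul_card
      have hpos : 0 < Nat.card H := Nat.card_pos
      have : Nat.card H * Nat.card (MulAction.stabilizer X (q ⟨(L : Set X), hL⟩)) =
          Nat.card H * Nat.card L := by rw [h1, mul_comm, h2]
      exact le_of_eq (Nat.eq_of_mul_eq_mul_left hpos this)
  obtain ⟨h, hh⟩ := Subgroup.exists_smul_eq hco (q ⟨(K : Set X), hK⟩) (q ⟨(K' : Set X), hK'⟩)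
  refine ⟨h, ?_⟩
  have h3 := MulAction.stabilizer_smul_eq_stabilizer_map_conj (h : X) (q ⟨(K : Set X), hK⟩)
  rw [hstab K hK] at h3
  rw [← h3, ← hstab K' hK', ← hh]
  rfl

theorem sz_frattini {G : Type u} [Group G] [Finite G] (N X : Subgroup G) [hN : N.Normal]
    [hX : X.Normal] (hNX : N ≤ X) (hab : ∀ a ∈ N, ∀ b ∈ N, a * b = b * a)
    (hco : (Nat.card N).Coprime (N.relIndex X)) :
    ∃ K₀ : Subgroup G, K₀ ≤ X ∧ Nat.card K₀ = N.relIndex X ∧ (K₀ = ⊥ → X = N) ∧
      ∀ g : G, ∃ n ∈ N, n⁻¹ * g ∈ Subgroup.normalizer (K₀ : Set G) := by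
  classical
  set H : Subgroup X := N.subgroupOf X with hH
  have : H.Normal := hN.subgroupOf X
  have : IsMulCommutative H := ⟨⟨fun a b => by
    apply Subtype.ext; apply Subtype.ext
    exact hab _ (Subgroup.mem_subgroupOf.1 a.2) _ (Subgroup.mem_subgroupOf.1 b.2)⟩⟩
  have hcard : Nat.card H = Nat.card N :=
    Nat.card_congr (Subgroup.subgroupOfEquivOfLe hNX).toEquiv
  have hidx : H.index = N.relIndex X := rfl
  have hco' : (Nat.card H).Coprime H.index := by rw [hcard, hidx]; exact hco
  obtain ⟨K, hK⟩ := Subgroup.exists_right_complement'_of_coprime hco'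
  have hKs : Subgroup.IsComplement' K H := hK.symm
  refine ⟨K.map X.subtype, ?_, ?_, ?_, ?_⟩
  · rintro _ ⟨k, -, rfl⟩; exact k.2
  · rw [Subgroup.card_map_of_injective X.subtype_injective, ← hidx]
    exact (hKs.index_eq_card).symm
  · intro hbot
    have hKbot : K = ⊥ := by
      rw [eq_bot_iff]; intro k hk
      have : (k : G) ∈ K.map X.subtype := ⟨k, hk, rfl⟩
      rw [hbot, Subgroup.mem_bot] at this
      rw [Subgroup.mem_bot]; exact Subtype.ext this
    have h1 := hK.card_mul_card
    rw [hKbot, Subgroup.card_bot, mul_one, hcard] at h1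
    exact (Subgroup.eq_of_le_of_card_ge hNX (le_of_eq h1.symm)).symm
  · intro g
    let φ : X ≃* X := MulAut.conjNormal g
    have hφ : ∀ x : X, ((φ x : X) : G) = g * x * g⁻¹ := fun x => rfl
    have hK' : Subgroup.IsComplement' (K.map φ.toMonoidHom) H := by
      apply Subgroup.isComplement'_of_card_mul_and_disjoint
      · rw [Subgroup.card_map_of_injective (show Function.Injective φ.toMonoidHom from φ.injective)]; exact hKs.card_mul_card
      · rw [disjoint_iff, eq_bot_iff]
        rintro x ⟨⟨k, hk, rfl⟩, hxH⟩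
        have hkH : k ∈ H := by
          have hxH' : φ k ∈ N.subgroupOf X := hxH
          rw [Subgroup.mem_subgroupOf] at hxH'
          rw [hH, Subgroup.mem_subgroupOf]
          have h5 : ((φ k : X) : G) ∈ N := hxH'
          rw [hφ] at h5
          have := hN.conj_mem _ h5 g⁻¹
          simpa [mul_assoc] using this
        have h6 : k ∈ K ⊓ H := ⟨hk, hkH⟩
        rw [hKs.disjoint.eq_bot, Subgroup.mem_bot] at h6
        rw [Subgroup.mem_bot, h6]; exact map_one _
    obtain ⟨h, hh⟩ := sz_conj H hco' K (K.map φ.toMonoidHom) hKs hK'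
    refine ⟨((h : X) : G), Subgroup.mem_subgroupOf.1 h.2, ?_⟩
    apply Subgroup.mem_normalizer_fintype
    rintro _ ⟨k, hk, rfl⟩
    have h1 : φ k ∈ K.map φ.toMonoidHom := ⟨k, hk, rfl⟩
    rw [hh] at h1
    obtain ⟨k', hk', hk'e⟩ := h1
    refine ⟨k', hk', ?_⟩
    have h2 : ((h : X) : G) * k' * ((h : X) : G)⁻¹ = g * k * g⁻¹ := by
      have := congrArg (Subtype.val) hk'e
      rw [hφ] at this
      rw [← this]; rfl
    have h3 : (k' : G) = ((h : X) : G)⁻¹ * (g * k * g⁻¹) * ((h : X) : G) := by
      rw [← h2]; group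
    show (k' : G) = ((h : X) : G)⁻¹ * g * (k : G) * (((h : X) : G)⁻¹ * g)⁻¹
    rw [h3]; group

end Cfsg.Agent.Lib.helper24.PLen
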