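import Mathlib
import Cfsg.Agent.Lib.helper24.PLen1

set_option autoImplicit false

/-!
Groups all of whose maximal subgroups are `p`-nilpotent or of prime index have `p`-length at
most two (for `p = 2` with a `2`-group on top).
-/

namespace Cfsg.Agent.Lib.helper24.PLen

open Cfsg

universe u

/-- every maximal subgroup is `p`-nilpotent or of prime index -/
def MaxHyp (p : ℕ) (G : Type u) [Group G] : Prop :=
  ∀ M : Subgroup G, IsCoatom M →
    (∃ K : Subgroup ↥M, K.Normal ∧ ¬ p ∣ Nat.card K ∧ ∃ k : ℕ, K.index = p ^ k) ∨ (M.index).Prime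

theorem maxHyp_quot {p : ℕ} [hp : Fact p.Prime] {G : Type u} [Group G] [Finite G]
    (R : Subgroup G) [R.Normal] (h : MaxHyp p G) : MaxHyp p (G ⧸ R) := by
  intro Mb hMb
  have hsurj := QuotientGroup.mk'_surjective R
  have hco : IsCoatom (Mb.comap (QuotientGroup.mk' R)) := by
    refine ⟨?_, ?_⟩
    · intro htop
      apply hMb.1
      rw [← Subgroup.map_comap_eq_self_of_surjective hsurj Mb, htop]
      exact Subgroup.map_top_of_surjective _ hsurj
    · intro L hL
      have hker : (QuotientGroup.mk' R).ker ≤ L := le_trans (by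
        rw [← MonoidHom.comap_bot]; exact Subgroup.comap_mono bot_le) hL.le
      have h1 : Mb ≤ L.map (QuotientGroup.mk' R) := by
        rw [← Subgroup.map_comap_eq_self_of_surjective hsurj Mb]
        exact Subgroup.map_mono hL.le
      rcases (hMb.le_iff).1 h1 with h2 | h2
      · rw [← Subgroup.comap_map_eq_self hker, h2, Subgroup.comap_top]
      · exfalso
        apply hL.ne'
        rw [← Subgroup.comap_map_eq_self hker, h2]
  rcases h _ hco with ⟨K, hKn, hKc, k, hk⟩ | hpr
  · left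
    let ψ := (QuotientGroup.mk' R).subgroupComap Mb
    have hψ : Function.Surjective ψ :=
      MonoidHom.subgroupComap_surjective_of_surjective _ _ hsurj
    refine ⟨K.map ψ, hKn.map ψ hψ, ?_, ?_⟩
    · intro hdvd; exact hKc (hdvd.trans (Subgroup.card_map_dvd K ψ))
    · have := Subgroup.index_map_dvd K hψ
      rw [hk] at this
      obtain ⟨j, -, hj⟩ := (Nat.dvd_prime_pow hp.out).1 this
      exact ⟨j, hj⟩
  · right
    rwa [Subgroup.index_comap_of_surjective Mb hsurj] at hpr

theorem relIndex_comap_mk {G : Type u} [Group G] (R : Subgroup G) [R.Normal]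
    (A B : Subgroup (G ⧸ R)) :
    (A.comap (QuotientGroup.mk' R)).relIndex (B.comap (QuotientGroup.mk' R)) = A.relIndex B := by
  rw [Subgroup.relIndex_comap,
    Subgroup.map_comap_eq_self_of_surjective (QuotientGroup.mk'_surjective R)]

theorem le_comap_mk {G : Type u} [Group G] (R : Subgroup G) [R.Normal] (A : Subgroup (G ⧸ R)) :
    R ≤ A.comap (QuotientGroup.mk' R) := by
  intro x hx
  rw [Subgroup.mem_comap]
  have : QuotientGroup.mk' R x = 1 := (QuotientGroup.eq_one_iff x).2 hx
  rw [this]; exact one_mem _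

theorem relIndex_ker_comap_mk {G : Type u} [Group G] (R : Subgroup G) [R.Normal]
    (A : Subgroup (G ⧸ R)) : R.relIndex (A.comap (QuotientGroup.mk' R)) = Nat.card A := by
  have h := relIndex_comap_mk R ⊥ A
  rw [MonoidHom.comap_bot, QuotientGroup.ker_mk', Subgroup.relIndex_bot_left] at h
  exact h

theorem card_comap_mk {G : Type u} [Group G] (R : Subgroup G) [R.Normal]
    (A : Subgroup (G ⧸ R)) :
    Nat.card (A.comap (QuotientGroup.mk' R)) = Nat.card R * Nat.card A := by
  have h2 := Subgroup.relIndex_mul_relIndex ⊥ R (A.comap (QuotientGroup.mk' R)) bot_le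
    (le_comap_mk R A)
  rw [Subgroup.relIndex_bot_left, Subgroup.relIndex_bot_left, relIndex_ker_comap_mk] at h2
  exact h2.symm

theorem relIndex_le_right_dvd {G : Type u} [Group G] (H L' L : Subgroup G) (h1 : H ≤ L')
    (h2 : L' ≤ L) : H.relIndex L' ∣ H.relIndex L :=
  ⟨_, (Subgroup.relIndex_mul_relIndex H L' L h1 h2).symm⟩

theorem relIndex_inf_dvd {G : Type u} [Group G] (H L K : Subgroup G) [H.Normal] (hHL : H ≤ L) :
    (H ⊓ K).relIndex (L ⊓ K) ∣ H.relIndex L := by
  have h1 : (H ⊓ K).relIndex (L ⊓ K) = H.relIndex (L ⊓ K) := by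
    have : H ⊓ K = H ⊓ (L ⊓ K) := by
      rw [← inf_assoc, inf_eq_left.2 hHL]
    rw [this, Subgroup.inf_relIndex_right]
  rw [h1, ← Subgroup.relIndex_sup_right (H := L ⊓ K) (K := H)]
  exact relIndex_le_right_dvd H ((L ⊓ K) ⊔ H) L le_sup_right (sup_le inf_le_left hHL)

theorem eq_of_frattini {p : ℕ} [hp : Fact p.Prime] {G : Type u} [Group G] [Finite G]
    (N X : Subgroup G) [N.Normal] [X.Normal]
    (hNX : N ≤ X) (hab : ∀ a ∈ N, ∀ b ∈ N, a * b = b * a) (hNp : IsPGroup p N)
    (hco : ¬ p ∣ N.relIndex X)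
    (hno : ∀ R : Subgroup G, R.Normal → (Nat.card R).Coprime p → R = ⊥)
    (hc : (∀ x ∈ X, ∀ n ∈ N, n * x = x * n) ∨ (∀ M : Subgroup G, IsCoatom M → N ≤ M)) :
    X = N := by
  have hpp := hp.out
  obtain ⟨j, hj⟩ := (IsPGroup.iff_card).1 hNp
  have hco' : (Nat.card N).Coprime (N.relIndex X) := by
    rw [hj]; exact Nat.Coprime.pow_left _ ((Nat.Prime.coprime_iff_not_dvd hpp).2 hco)
  obtain ⟨K₀, hK₀X, hK₀c, hK₀b, hK₀f⟩ := sz_frattini N X hNX hab hco'
  apply hK₀b
  have hcop : (Nat.card K₀).Coprime p := by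
    rw [hK₀c]; exact (Nat.Coprime.symm ((Nat.Prime.coprime_iff_not_dvd hpp).2 hco))
  by_contra hne
  have hnn : ¬ K₀.Normal := fun h => hne (hno K₀ h hcop)
  rcases hc with hc | hc
  · apply hnn
    rw [← Subgroup.normalizer_eq_top_iff, Subgroup.eq_top_iff']
    intro g
    obtain ⟨n, hn, hg⟩ := hK₀f g
    have hnN : n ∈ Subgroup.normalizer (K₀ : Set G) := by
      apply Subgroup.mem_normalizer_fintype
      intro k hk
      have : n * k = k * n := hc k (hK₀X hk) n hn
      rw [this, mul_inv_cancel_right]; exact hk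
    have := mul_mem hnN hg
    rwa [mul_inv_cancel_left] at this
  · have hnt : Subgroup.normalizer (K₀ : Set G) ≠ ⊤ :=
      fun h => hnn (Subgroup.normalizer_eq_top_iff.1 h)
    obtain ⟨M, hM, hle⟩ := (eq_top_or_exists_le_coatom _).resolve_left hnt
    apply hM.1
    rw [Subgroup.eq_top_iff']
    intro g
    obtain ⟨n, hn, hg⟩ := hK₀f g
    have := mul_mem (hc M hM hn) (hle hg)
    rwa [mul_inv_cancel_left] at this

theorem centralizer_index_dvd {p : ℕ} [hp : Fact p.Prime] {G : Type u} [Group G] [Finite G]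
    (N : Subgroup G) [N.Normal] (hN : Nat.card N = p) :
    (Subgroup.centralizer (N : Set G)).index ∣ p - 1 := by
  let ψ : G →* MulAut N := MulAut.conjNormal
  have hker : ψ.ker = Subgroup.centralizer (N : Set G) := by
    ext g
    rw [MonoidHom.mem_ker, Subgroup.mem_centralizer_iff]
    constructor
    · intro h n hn
      have h1 : ((ψ g ⟨n, hn⟩ : N) : G) = n := by rw [h]; rfl
      have h2 : g * n * g⁻¹ = n := h1
      calc n * g = (g * n * g⁻¹) * g := by rw [h2]
        _ = g * n := by group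
    · intro h
      ext n
      show g * (n : G) * g⁻¹ = n
      rw [← h n n.2]; group
  rw [← hker, Subgroup.index_ker]
  have : IsCyclic N := isCyclic_of_prime_card hN
  have h1 := IsCyclic.card_mulAut N
  rw [hN, Nat.totient_prime hp.out] at h1
  rw [← h1]
  exact Subgroup.card_subgroup_dvd_card ψ.range

theorem main_aux (p : ℕ) [hp : Fact p.Prime] : ∀ (n : ℕ) (G : Type u) [Group G] [Finite G],
    Nat.card G = n → IsPSolvable p G → MaxHyp p G →
    ∃ A B C D : Subgroup G, A.Normal ∧ B.Normal ∧ C.Normal ∧ D.Normal ∧ A ≤ B ∧ B ≤ C ∧ C ≤ D ∧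
      ¬ p ∣ Nat.card A ∧ (∃ k : ℕ, A.relIndex B = p ^ k) ∧ ¬ p ∣ B.relIndex C ∧
      (∃ k : ℕ, C.relIndex D = p ^ k) ∧ ¬ p ∣ D.index ∧ (p = 2 → D = ⊤) := by
  intro n
  induction n using Nat.strong_induction_on with
  | _ n ih =>
  intro G _ _ hn hsol hmax
  have hpp := hp.out
  classical
  by_cases hR : ∃ R : Subgroup G, R.Normal ∧ R ≠ ⊥ ∧ (Nat.card R).Coprime p
  · obtain ⟨R, hRn, hRne, hRc⟩ := hR
    have hlt : Nat.card (G ⧸ R) < n := by
      rw [← hn, Subgroup.card_eq_card_quotient_mul_card_subgroup R]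
      have h1 : 1 < Nat.card R := (Subgroup.one_lt_card_iff_ne_bot R).2 hRne
      have h2 : 0 < Nat.card (G ⧸ R) := Nat.card_pos
      nlinarith
    obtain ⟨A, B, C, D, hA, hB, hC, hD, hAB, hBC, hCD, hAc, hABi, hBCi, hCDi, hDi, h2⟩ :=
      ih _ hlt (G ⧸ R) rfl (Cfsg.Agent.Lib.helper10.pSolvable_quotient hsol R)
        (maxHyp_quot R hmax)
    refine ⟨A.comap (QuotientGroup.mk' R), B.comap (QuotientGroup.mk' R),
      C.comap (QuotientGroup.mk' R), D.comap (QuotientGroup.mk' R),
      hA.comap _, hB.comap _, hC.comap _, hD.comap _, Subgroup.comap_mono hAB,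
      Subgroup.comap_mono hBC, Subgroup.comap_mono hCD, ?_, ?_, ?_, ?_, ?_, ?_⟩
    · rw [card_comap_mk]
      intro hdvd
      rcases (Nat.Prime.dvd_mul hpp).1 hdvd with h | h
      · exact (Nat.Prime.coprime_iff_not_dvd hpp).1 hRc.symm h
      · exact hAc h
    · rw [relIndex_comap_mk]; exact hABi
    · rw [relIndex_comap_mk]; exact hBCi
    · rw [relIndex_comap_mk]; exact hCDi
    · rw [Subgroup.index_comap_of_surjective _ (QuotientGroup.mk'_surjective R)]; exact hDi
    · intro h; rw [h2 h, Subgroup.comap_top]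
  · have hno : ∀ R : Subgroup G, R.Normal → (Nat.card R).Coprime p → R = ⊥ := by
      intro R hRn hRc; by_contra hne; exact hR ⟨R, hRn, hne, hRc⟩
    rcases subsingleton_or_nontrivial G with htriv | htriv
    · refine ⟨⊤, ⊤, ⊤, ⊤, inferInstance, inferInstance, inferInstance, inferInstance, le_rfl,
        le_rfl, le_rfl, ?_, ⟨0, ?_⟩, ?_, ⟨0, ?_⟩, ?_, fun _ => rfl⟩
      · rw [Subgroup.card_top, Nat.card_of_subsingleton (1 : G)]
        exact Nat.Prime.not_dvd_one hpp
      · rw [Subgroup.relIndex_self, pow_zero]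
      · rw [Subgroup.relIndex_self]; exact Nat.Prime.not_dvd_one hpp
      · rw [Subgroup.relIndex_self, pow_zero]
      · rw [Subgroup.index_top]; exact Nat.Prime.not_dvd_one hpp
    · obtain ⟨M₀, hM₀n, hM₀ne, hM₀⟩ := Cfsg.Agent.Lib.helper10.exists_normal_of_pSolvable hsol
      have hM₀p : IsPGroup p M₀ := by
        rcases hM₀ with h | h
        · exact h
        · exact absurd (hno M₀ hM₀n h) hM₀ne
      have hex : ∃ k, ∃ L : Subgroup G, L.Normal ∧ L ≠ ⊥ ∧ L ≤ M₀ ∧ Nat.card L = k :=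
        ⟨_, M₀, hM₀n, hM₀ne, le_rfl, rfl⟩
      obtain ⟨N, hNn, hNne, hNM, hNk⟩ := Nat.find_spec hex
      have hNmin : ∀ L : Subgroup G, L.Normal → L ≤ N → L = ⊥ ∨ L = N := by
        intro L hLn hLN
        by_cases hL : L = ⊥
        · left; exact hL
        · right
          have := Nat.find_min' hex ⟨L, hLn, hL, hLN.trans hNM, rfl⟩
          exact Subgroup.eq_of_le_of_card_ge hLN (by rw [hNk]; exact this)
      have hNp : IsPGroup p N := hM₀p.to_le hNM
      have hab : ∀ a ∈ N, ∀ b ∈ N, a * b = b * a := by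
        have hnt : Nontrivial N := (Subgroup.nontrivial_iff_ne_bot N).2 hNne
        have hZ := hNp.center_nontrivial
        have hZn : ((Subgroup.center N).map N.subtype).Normal := inferInstance
        have hZne : (Subgroup.center N).map N.subtype ≠ ⊥ := by
          intro h
          rw [Subgroup.map_eq_bot_iff_of_injective _ N.subtype_injective] at h
          exact (Subgroup.nontrivial_iff_ne_bot _).1 hZ h
        have hZle : (Subgroup.center N).map N.subtype ≤ N := by
          rintro _ ⟨z, -, rfl⟩; exact z.2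
        have hZeq := (hNmin _ hZn hZle).resolve_left hZne
        intro a ha b hb
        have h1 : a ∈ (Subgroup.center N).map N.subtype := by rw [hZeq]; exact ha
        obtain ⟨z, hz, rfl⟩ := h1
        have h2 := Subgroup.mem_center_iff.1 hz ⟨b, hb⟩
        exact (congrArg Subtype.val h2).symm
      have hlt : Nat.card (G ⧸ N) < n := by
        rw [← hn, Subgroup.card_eq_card_quotient_mul_card_subgroup N]
        have h1 : 1 < Nat.card N := (Subgroup.one_lt_card_iff_ne_bot N).2 hNne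
        have h2 : 0 < Nat.card (G ⧸ N) := Nat.card_pos
        nlinarith
      obtain ⟨A, B, C, D, hA, hB, hC, hD, hAB, hBC, hCD, hAc, ⟨kAB, hABi⟩, hBCi, ⟨kCD, hCDi⟩,
          hDi, h2⟩ :=
        ih _ hlt (G ⧸ N) rfl (Cfsg.Agent.Lib.helper10.pSolvable_quotient hsol N)
          (maxHyp_quot N hmax)
      obtain ⟨A₁, hA₁⟩ : ∃ A₁, A₁ = A.comap (QuotientGroup.mk' N) := ⟨_, rfl⟩
      obtain ⟨B₁, hB₁⟩ : ∃ B₁, B₁ = B.comap (QuotientGroup.mk' N) := ⟨_, rfl⟩
      obtain ⟨C₁, hC₁⟩ : ∃ C₁, C₁ = C.comap (QuotientGroup.mk' N) := ⟨_, rfl⟩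
      obtain ⟨D₁, hD₁⟩ : ∃ D₁, D₁ = D.comap (QuotientGroup.mk' N) := ⟨_, rfl⟩
      have hA₁n : A₁.Normal := hA₁ ▸ hA.comap _
      have hB₁n : B₁.Normal := hB₁ ▸ hB.comap _
      have hC₁n : C₁.Normal := hC₁ ▸ hC.comap _
      have hD₁n : D₁.Normal := hD₁ ▸ hD.comap _
      have hNA : N ≤ A₁ := hA₁ ▸ le_comap_mk N A
      have hA₁B₁ : A₁ ≤ B₁ := by rw [hA₁, hB₁]; exact Subgroup.comap_mono hAB
      have hB₁C₁ : B₁ ≤ C₁ := by rw [hB₁, hC₁]; exact Subgroup.comap_mono hBC
      have hC₁D₁ : C₁ ≤ D₁ := by rw [hC₁, hD₁]; exact Subgroup.comap_mono hCD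
      have hNB : N ≤ B₁ := hNA.trans hA₁B₁
      have hNA_i : ¬ p ∣ N.relIndex A₁ := by
        rw [hA₁, relIndex_ker_comap_mk]; exact hAc
      have hAB_i : A₁.relIndex B₁ = p ^ kAB := by rw [hA₁, hB₁, relIndex_comap_mk]; exact hABi
      have hBC_i : ¬ p ∣ B₁.relIndex C₁ := by rw [hB₁, hC₁, relIndex_comap_mk]; exact hBCi
      have hCD_i : C₁.relIndex D₁ = p ^ kCD := by rw [hC₁, hD₁, relIndex_comap_mk]; exact hCDi
      have hD_i : ¬ p ∣ D₁.index := by
        rw [hD₁, Subgroup.index_comap_of_surjective _ (QuotientGroup.mk'_surjective N)]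
        exact hDi
      have hD₁top : p = 2 → D₁ = ⊤ := by
        intro h; rw [hD₁, h2 h, Subgroup.comap_top]
      obtain ⟨j, hj⟩ := (IsPGroup.iff_card).1 hNp
      have hj1 : 1 ≤ j := by
        by_contra hj0
        have : j = 0 := by omega
        rw [this, pow_zero] at hj
        have h1 : 1 < Nat.card N := (Subgroup.one_lt_card_iff_ne_bot N).2 hNne
        omega
      have hbot : ¬ p ∣ Nat.card (⊥ : Subgroup G) := by
        rw [Subgroup.card_bot]; exact Nat.Prime.not_dvd_one hpp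
      by_cases hNcard : Nat.card N = p
      · obtain ⟨C₀, hC₀⟩ : ∃ C₀, C₀ = Subgroup.centralizer (N : Set G) := ⟨_, rfl⟩
        have hC₀n : C₀.Normal := hC₀ ▸ Subgroup.normal_centralizer
        have hNC : N ≤ C₀ := by
          intro a ha
          rw [hC₀, Subgroup.mem_centralizer_iff]
          intro b hb
          exact hab b hb a ha
        have hidx : C₀.index ∣ p - 1 := hC₀ ▸ centralizer_index_dvd N hNcard
        have hXn : (A₁ ⊓ C₀).Normal := inferInstance
        have hX : A₁ ⊓ C₀ = N := by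
          apply eq_of_frattini (p := p) N (A₁ ⊓ C₀) (le_inf hNA hNC) hab hNp ?_ hno (Or.inl ?_)
          · intro hdvd
            exact hNA_i (hdvd.trans
              (relIndex_le_right_dvd N (A₁ ⊓ C₀) A₁ (le_inf hNA hNC) inf_le_left))
          · intro x hx n hn
            have hx2 : x ∈ Subgroup.centralizer (N : Set G) := hC₀ ▸ hx.2
            exact Subgroup.mem_centralizer_iff.1 hx2 n hn
        have hp1 : ¬ p ∣ p - 1 := by
          have := hpp.two_le
          exact Nat.not_dvd_of_pos_of_lt (by omega) (by omega)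
        refine ⟨⊥, B₁ ⊓ C₀, C₁ ⊓ C₀, D₁ ⊓ C₀, inferInstance, inferInstance, inferInstance,
          inferInstance, bot_le, inf_le_inf_right _ hB₁C₁, inf_le_inf_right _ hC₁D₁, hbot, ?_, ?_,
          ?_, ?_, ?_⟩
        · rw [Subgroup.relIndex_bot_left]
          have h1 := Subgroup.relIndex_mul_relIndex ⊥ N (B₁ ⊓ C₀) bot_le (le_inf hNB hNC)
          rw [Subgroup.relIndex_bot_left, Subgroup.relIndex_bot_left] at h1
          have h3 : N.relIndex (B₁ ⊓ C₀) ∣ p ^ kAB := by
            have := relIndex_inf_dvd A₁ B₁ C₀ hA₁B₁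
            rw [hX, hAB_i] at this; exact this
          obtain ⟨i, -, hi⟩ := (Nat.dvd_prime_pow hpp).1 h3
          exact ⟨1 + i, by rw [← h1, hNcard, hi, pow_add, pow_one]⟩
        · intro hdvd; exact hBC_i (hdvd.trans (relIndex_inf_dvd B₁ C₁ C₀ hB₁C₁))
        · have := relIndex_inf_dvd C₁ D₁ C₀ hC₁D₁
          rw [hCD_i] at this
          obtain ⟨i, -, hi⟩ := (Nat.dvd_prime_pow hpp).1 this
          exact ⟨i, hi⟩
        · intro hdvd
          have h1 := Subgroup.relIndex_mul_index (inf_le_left : D₁ ⊓ C₀ ≤ D₁)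
          rw [Subgroup.inf_relIndex_left] at h1
          rw [← h1] at hdvd
          rcases (Nat.Prime.dvd_mul hpp).1 hdvd with h | h
          · exact hp1 (h.trans ((Subgroup.relIndex_dvd_index_of_normal C₀ D₁).trans hidx))
          · exact hD_i h
        · intro h2'
          have hC₀top : C₀ = ⊤ := by
            have h3 : C₀.index ∣ 1 := by rw [h2'] at hidx; simpa using hidx
            exact Subgroup.index_eq_one.1 (Nat.dvd_one.1 h3)
          rw [hD₁top h2', hC₀top, inf_top_eq]
      · by_cases hM : ∃ M : Subgroup G, IsCoatom M ∧ ¬ N ≤ M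
        · obtain ⟨M, hMc, hNM'⟩ := hM
          have hsup : N ⊔ M = ⊤ := by
            rcases (hMc.le_iff).1 (le_sup_right : M ≤ N ⊔ M) with h | h
            · exact h
            · exact absurd (h ▸ (le_sup_left : N ≤ N ⊔ M)) hNM'
          have hinfN : (N ⊓ M).Normal := by
            refine ⟨fun x hx g => ?_⟩
            have hg : g ∈ N ⊔ M := by rw [hsup]; trivial
            obtain ⟨n, hn, m, hm, rfl⟩ := Subgroup.mem_sup_of_normal_left.1 hg
            have hy : m * x * m⁻¹ ∈ N ⊓ M :=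
              ⟨hNn.conj_mem x hx.1 m, M.mul_mem (M.mul_mem hm hx.2) (M.inv_mem hm)⟩
            have hc := hab n hn (m * x * m⁻¹) hy.1
            have : n * m * x * (n * m)⁻¹ = m * x * m⁻¹ := by
              calc n * m * x * (n * m)⁻¹ = n * (m * x * m⁻¹) * n⁻¹ := by group
                _ = (m * x * m⁻¹) * n * n⁻¹ := by rw [hc]
                _ = m * x * m⁻¹ := by group
            rw [this]; exact hy
          have hinf : N ⊓ M = ⊥ := by
            rcases hNmin _ hinfN inf_le_left with h | h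
            · exact h
            · exact absurd (h ▸ (inf_le_right : N ⊓ M ≤ M)) hNM'
          have hcompl : Subgroup.IsComplement' N M := by
            apply Subgroup.isComplement'_of_disjoint_and_mul_eq_univ (disjoint_iff.2 hinf)
            rw [← Subgroup.normal_mul, hsup]; rfl
          have hMidx : M.index = Nat.card N := hcompl.index_eq_card
          have hnotprime : ¬ M.index.Prime := by
            rw [hMidx, hj]
            intro hpr
            have h1 : p ∣ p ^ j := dvd_pow_self p (by omega)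
            rcases (Nat.dvd_prime hpr).1 h1 with h | h
            · exact hpp.ne_one h
            · exact hNcard (by rw [hj, ← h])
          obtain ⟨K, hKn, hKc, k, hk⟩ := (hmax M hMc).resolve_right hnotprime
          let ψ : ↥M →* G ⧸ N := (QuotientGroup.mk' N).comp M.subtype
          have hψs : Function.Surjective ψ := by
            intro q
            obtain ⟨g, rfl⟩ := QuotientGroup.mk'_surjective N q
            have hg : g ∈ N ⊔ M := by rw [hsup]; trivial
            obtain ⟨n, hn, m, hm, rfl⟩ := Subgroup.mem_sup_of_normal_left.1 hg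
            refine ⟨⟨m, hm⟩, ?_⟩
            show QuotientGroup.mk' N m = QuotientGroup.mk' N (n * m)
            have h1 : QuotientGroup.mk' N n = 1 := (QuotientGroup.eq_one_iff n).2 hn
            rw [map_mul, h1, one_mul]
          have hψi : Function.Injective ψ := by
            rw [injective_iff_map_eq_one]
            intro x hx
            have h1 : (x : G) ∈ N := (QuotientGroup.eq_one_iff (x : G)).1 hx
            have h3 : (x : G) ∈ N ⊓ M := ⟨h1, x.2⟩
            rw [hinf, Subgroup.mem_bot] at h3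
            exact Subtype.ext h3
          have hCn : ((K.map ψ).comap (QuotientGroup.mk' N)).Normal := (hKn.map ψ hψs).comap _
          refine ⟨⊥, N, (K.map ψ).comap (QuotientGroup.mk' N), ⊤, inferInstance, hNn, hCn,
            inferInstance, bot_le, le_comap_mk N _, le_top, hbot, ⟨j, ?_⟩, ?_, ⟨k, ?_⟩, ?_,
            fun _ => rfl⟩
          · rw [Subgroup.relIndex_bot_left, hj]
          · rw [relIndex_ker_comap_mk, Subgroup.card_map_of_injective hψi]; exact hKc
          · rw [Subgroup.relIndex_top_right,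
              Subgroup.index_comap_of_surjective _ (QuotientGroup.mk'_surjective N),
              Subgroup.index_map, (MonoidHom.ker_eq_bot_iff ψ).2 hψi, sup_bot_eq,
              MonoidHom.range_eq_top.2 hψs, Subgroup.index_top, mul_one, hk]
          · rw [Subgroup.index_top]; exact Nat.Prime.not_dvd_one hpp
        · push Not at hM
          have hX : A₁ = N := eq_of_frattini (p := p) N A₁ hNA hab hNp hNA_i hno (Or.inr hM)
          refine ⟨⊥, B₁, C₁, D₁, inferInstance, hB₁n, hC₁n, hD₁n, bot_le, hB₁C₁, hC₁D₁, hbot,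
            ?_, hBC_i, ⟨_, hCD_i⟩, hD_i, hD₁top⟩
          rw [Subgroup.relIndex_bot_left]
          have h1 := Subgroup.relIndex_mul_relIndex ⊥ N B₁ bot_le hNB
          rw [Subgroup.relIndex_bot_left, Subgroup.relIndex_bot_left] at h1
          have h3 : N.relIndex B₁ = p ^ kAB := by rw [← hX]; exact hAB_i
          exact ⟨j + kAB, by rw [← h1, hj, h3, pow_add]⟩

theorem main2 {G : Type u} [Group G] [Finite G] (hG : Group.IsSolvable G)
    (hmax : ∀ M : Subgroup G, IsCoatom M → (∃ K : Subgroup ↥M, K.Normal ∧ ¬ 2 ∣ Nat.card K ∧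
      ∃ k : ℕ, K.index = 2 ^ k) ∨ (M.index).Prime) :
    ∃ A B C : Subgroup G, A.Normal ∧ B.Normal ∧ C.Normal ∧ A ≤ B ∧ B ≤ C ∧ Odd (Nat.card A) ∧
      (∃ k : ℕ, A.relIndex B = 2 ^ k) ∧ Odd (B.relIndex C) ∧ ∃ k : ℕ, C.index = 2 ^ k := by
  have : Fact (Nat.Prime 2) := ⟨Nat.prime_two⟩
  obtain ⟨A, B, C, D, hA, hB, hC, -, hAB, hBC, -, hAc, hABi, hBCi, ⟨k, hCDi⟩, -, h2⟩ :=
    main_aux 2 _ G rfl (Cfsg.Agent.Lib.helper14.isPSolvable_of_solvable 2 hG) hmax
  refine ⟨A, B, C, hA, hB, hC, hAB, hBC, Nat.odd_iff.2 (by omega), hABi,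
    Nat.odd_iff.2 (by omega), ⟨k, ?_⟩⟩
  rw [h2 rfl, Subgroup.relIndex_top_right] at hCDi
  exact hCDi

theorem mainp {G : Type u} [Group G] [Finite G] (p : ℕ) [Fact p.Prime]
    (hG : Cfsg.IsPSolvable p G)
    (hmax : ∀ M : Subgroup G, IsCoatom M → (∃ K : Subgroup ↥M, K.Normal ∧ ¬ p ∣ Nat.card K ∧
      ∃ k : ℕ, K.index = p ^ k) ∨ (M.index).Prime) :
    ∃ A B C D : Subgroup G, A.Normal ∧ B.Normal ∧ C.Normal ∧ D.Normal ∧ A ≤ B ∧ B ≤ C ∧ C ≤ D ∧
      ¬ p ∣ Nat.card A ∧ (∃ k : ℕ, A.relIndex B = p ^ k) ∧ ¬ p ∣ B.relIndex C ∧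
      (∃ k : ℕ, C.relIndex D = p ^ k) ∧ ¬ p ∣ D.index := by
  obtain ⟨A, B, C, D, hA, hB, hC, hD, hAB, hBC, hCD, hAc, hABi, hBCi, hCDi, hDi, -⟩ :=
    main_aux p _ G rfl hG hmax
  exact ⟨A, B, C, D, hA, hB, hC, hD, hAB, hBC, hCD, hAc, hABi, hBCi, hCDi, hDi⟩

end Cfsg.Agent.Lib.helper24.PLen
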