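import Cfsg.Agent.Lib.helper24.CharPerm
import Cfsg.Agent.Lib.helper24.CharComplete
import Cfsg.Agent.Lib.helper24.CharLin
import Cfsg.Agent.Lib.helper24.CharChief
import Cfsg.Agent.Lib.helper23.CharSchur

set_option autoImplicit false

namespace Cfsg.Agent.Lib.helper24

open Cfsg
open scoped ComplexConjugate

universe u

theorem sum_comp_quot_mk {G : Type u} [Group G] [Fintype G] (N : Subgroup G) [N.Normal]
    [Fintype (G ⧸ N)] (F : G ⧸ N → ℂ) :
    ∑ x : G, F (x : G ⧸ N) = (Nat.card N : ℂ) * ∑ q : G ⧸ N, F q := by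
  classical
  have : Fintype N := Fintype.ofFinite _
  rw [← Finset.sum_fiberwise (s := Finset.univ) (g := fun x : G => (x : G ⧸ N))
    (f := fun x => F (x : G ⧸ N)), Finset.mul_sum]
  apply Finset.sum_congr rfl
  intro q _
  have h1 : ∀ x ∈ Finset.univ.filter (fun x : G => (x : G ⧸ N) = q), F (x : G ⧸ N) = F q := by
    intro x hx; rw [(Finset.mem_filter.mp hx).2]
  rw [Finset.sum_congr rfl h1, Finset.sum_const, nsmul_eq_mul]
  congr 1
  rw [Nat.card_eq_fintype_card, ← Finset.card_univ]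
  congr 1
  symm
  apply Finset.card_bij (fun (n : N) _ => q.out * (n : G))
  · intro n _
    rw [Finset.mem_filter]
    refine ⟨Finset.mem_univ _, ?_⟩
    rw [QuotientGroup.mk_mul_of_mem _ n.2]
    exact QuotientGroup.out_eq' q
  · intro a _ b _ h
    exact Subtype.ext (mul_left_cancel h)
  · intro g hg
    rw [Finset.mem_filter] at hg
    have h2 : ((q.out : G) : G ⧸ N) = (g : G ⧸ N) := by rw [hg.2]; exact QuotientGroup.out_eq' q
    rw [QuotientGroup.eq] at h2
    exact ⟨⟨q.out⁻¹ * g, h2⟩, Finset.mem_univ _, by simp⟩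

/-- `g` is special relative to the central subgroup `N`. -/
def IsSpecialElt {G : Type u} [Group G] (N : Subgroup G) (g : G) : Prop :=
  ∀ x : G, x⁻¹ * g⁻¹ * x * g ∈ N → x * g = g * x

theorem isSpecialElt_mul {G : Type u} [Group G] (N : Subgroup G) (hN : N ≤ Subgroup.center G)
    {g : G} (h : IsSpecialElt N g) {n : G} (hn : n ∈ N) : IsSpecialElt N (g * n) := by
  intro x hx
  have hc : ∀ y : G, y * n = n * y := fun y => (Subgroup.mem_center_iff.mp (hN hn)) y
  have e : x⁻¹ * (g * n)⁻¹ * x * (g * n) = x⁻¹ * g⁻¹ * x * g := by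
    calc x⁻¹ * (g * n)⁻¹ * x * (g * n) = x⁻¹ * n⁻¹ * ((g⁻¹ * x * g) * n) := by group
      _ = x⁻¹ * n⁻¹ * (n * (g⁻¹ * x * g)) := by rw [hc (g⁻¹ * x * g)]
      _ = x⁻¹ * g⁻¹ * x * g := by group
  rw [e] at hx
  have := h x hx
  calc x * (g * n) = (x * g) * n := by group
    _ = (g * x) * n := by rw [this]
    _ = g * (x * n) := by group
    _ = g * (n * x) := by rw [hc x]
    _ = g * n * x := by group

theorem isSpecialElt_conj {G : Type u} [Group G] (N : Subgroup G) [hNn : N.Normal]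
    {g : G} (h : IsSpecialElt N g) (y : G) : IsSpecialElt N (y * g * y⁻¹) := by
  intro x hx
  have e : (y⁻¹ * x * y)⁻¹ * g⁻¹ * (y⁻¹ * x * y) * g
      = y⁻¹ * (x⁻¹ * (y * g * y⁻¹)⁻¹ * x * (y * g * y⁻¹)) * y⁻¹⁻¹ := by group
  have h1 : (y⁻¹ * x * y)⁻¹ * g⁻¹ * (y⁻¹ * x * y) * g ∈ N := by
    rw [e]; exact hNn.conj_mem _ hx y⁻¹
  have h2 := h _ h1
  calc x * (y * g * y⁻¹) = y * ((y⁻¹ * x * y) * g) * y⁻¹ := by group
    _ = y * (g * (y⁻¹ * x * y)) * y⁻¹ := by rw [h2]
    _ = y * g * y⁻¹ * x := by group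

theorem central_faithful_count {G : Type u} [Group G] [Fintype G] (N : Subgroup G) [hNn : N.Normal] [Fintype N] (hN : N ≤ Subgroup.center G) (ψ : IrrCharacter ↥N) (hfaith : ∀ n : ↥N, (ψ : ↥N → ℂ) n = (ψ : ↥N → ℂ) 1 → n = 1) : Nat.card {χ : IrrCharacter G // classInner (fun n : ↥N => (χ : G → ℂ) n) (ψ : ↥N → ℂ) ≠ 0} = Nat.card {C : ConjClasses (G ⧸ N) // ∃ g : G, ConjClasses.mk (g : G ⧸ N) = C ∧ ∀ x : G, x⁻¹ * g⁻¹ * x * g ∈ N → x * g = g * x} := by
  classical
  have : Fintype (IrrCharacter G) := Fintype.ofFinite _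
  have : Fintype (G ⧸ N) := Fintype.ofFinite _
  have hcen : ∀ (n : N) (y : G), y * (n : G) = (n : G) * y :=
    fun n y => (Subgroup.mem_center_iff.mp (hN n.2)) y
  have hψ1 : ψ.1 1 = 1 := by
    apply irr_linear_of_commutator_le_ker ψ.2
    intro k hk
    have hb : commutator N ≤ ⊥ := by
      rw [commutator_def, Subgroup.commutator_le]
      intro a _ b _
      rw [Subgroup.mem_bot, commutatorElement_def]
      have hab : a * b = b * a := Subtype.ext (hcen b a)
      rw [hab]; group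
    rw [Subgroup.mem_bot.mp (hb hk)]
  have hψmul : ∀ a b : N, ψ.1 (a * b) = ψ.1 a * ψ.1 b := irr_linear_mul' ψ hψ1
  have hχ1 : ∀ χ : IrrCharacter G, χ.1 1 ≠ 0 := fun χ => irr_one_ne_zero χ
  -- central twisting
  have hω : ∀ (χ : IrrCharacter G) (n : N) (g : G),
      χ.1 ((n : G) * g) = χ.1 n / χ.1 1 * χ.1 g := by
    intro χ n g
    obtain ⟨c, hc, -⟩ := Cfsg.Agent.Lib.helper23.isIrrCharacter_central χ.2 (n : G) (hN n.2)
    have h1 := hc 1
    rw [mul_one] at h1
    rw [hc g, h1, mul_div_assoc, div_self (hχ1 χ), mul_one]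
  have hωmul : ∀ (χ : IrrCharacter G) (n m : N),
      χ.1 ((n * m : N) : G) / χ.1 1 = (χ.1 n / χ.1 1) * (χ.1 m / χ.1 1) := by
    intro χ n m
    have h1 : χ.1 ((n * m : N) : G) = χ.1 n / χ.1 1 * χ.1 m := hω χ n m
    rw [h1]; ring
  obtain ⟨a, ha⟩ : ∃ a : IrrCharacter G → ℂ, ∀ χ, a χ = (Nat.card N : ℂ)⁻¹ *
      ∑ n : N, (χ.1 n / χ.1 1) * conj (ψ.1 n) := ⟨_, fun _ => rfl⟩
  have hNne : (Nat.card N : ℂ) ≠ 0 := Nat.cast_ne_zero.mpr Nat.card_pos.ne'
  have ha_inner : ∀ χ : IrrCharacter G,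
      classInner (fun n : N => χ.1 n) ψ.1 = χ.1 1 * a χ := by
    intro χ
    rw [ha χ, classInner, mul_left_comm (χ.1 1)]
    congr 1
    rw [Finset.mul_sum]
    apply Finset.sum_congr rfl
    intro n _
    have := hχ1 χ
    field_simp
  have ha_idem : ∀ χ : IrrCharacter G, a χ * a χ = a χ := by
    intro χ
    have h1 : (∑ n : N, (χ.1 n / χ.1 1) * conj (ψ.1 n)) * (∑ m : N, (χ.1 m / χ.1 1) * conj (ψ.1 m))
        = (Nat.card N : ℂ) * ∑ k : N, (χ.1 k / χ.1 1) * conj (ψ.1 k) := by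
      rw [Finset.sum_mul]
      have h2 : ∀ n : N, (χ.1 n / χ.1 1) * conj (ψ.1 n) * (∑ m : N, (χ.1 m / χ.1 1) * conj (ψ.1 m))
          = ∑ k : N, (χ.1 k / χ.1 1) * conj (ψ.1 k) := by
        intro n
        rw [Finset.mul_sum]
        rw [← Fintype.sum_equiv (Equiv.mulLeft n)
          (fun m => (χ.1 n / χ.1 1) * conj (ψ.1 n) * ((χ.1 m / χ.1 1) * conj (ψ.1 m)))
          (fun k => (χ.1 k / χ.1 1) * conj (ψ.1 k))]
        intro m
        show _ = (χ.1 ((n * m : N) : G) / χ.1 1) * conj (ψ.1 (n * m))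
        rw [hωmul χ n m, hψmul n m, map_mul]; ring
      rw [Finset.sum_congr rfl (fun n _ => h2 n), Finset.sum_const, Finset.card_univ,
        nsmul_eq_mul, Nat.card_eq_fintype_card]
    rw [ha χ]
    calc (Nat.card N : ℂ)⁻¹ * (∑ n : N, (χ.1 n / χ.1 1) * conj (ψ.1 n)) *
          ((Nat.card N : ℂ)⁻¹ * ∑ n : N, (χ.1 n / χ.1 1) * conj (ψ.1 n))
        = (Nat.card N : ℂ)⁻¹ * (Nat.card N : ℂ)⁻¹ * ((∑ n : N, (χ.1 n / χ.1 1) * conj (ψ.1 n)) *
          (∑ m : N, (χ.1 m / χ.1 1) * conj (ψ.1 m))) := by ring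
      _ = (Nat.card N : ℂ)⁻¹ * ∑ n : N, (χ.1 n / χ.1 1) * conj (ψ.1 n) := by
          rw [h1]; field_simp
  have ha01 : ∀ χ : IrrCharacter G, a χ = 0 ∨ a χ = 1 := by
    intro χ
    have h := ha_idem χ
    have h2 : a χ * (a χ - 1) = 0 := by rw [mul_sub, h, mul_one, sub_self]
    rcases mul_eq_zero.mp h2 with h3 | h3
    · left; exact h3
    · right; exact sub_eq_zero.mp h3
  have hover : ∀ χ : IrrCharacter G,
      classInner (fun n : N => χ.1 n) ψ.1 ≠ 0 ↔ a χ = 1 := by
    intro χ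
    rw [ha_inner χ]
    constructor
    · intro h
      rcases ha01 χ with h0 | h1
      · rw [h0, mul_zero] at h; exact absurd rfl h
      · exact h1
    · intro h
      rw [h, mul_one]; exact hχ1 χ
  -- if a χ = 1 then ω = ψ
  have hωψ : ∀ χ : IrrCharacter G, a χ = 1 → ∀ n : N, χ.1 n / χ.1 1 = ψ.1 n := by
    intro χ h1 n
    let f0 : N →* ℂ :=
      { toFun := fun n => χ.1 n / χ.1 1
        map_one' := by
          show χ.1 ((1 : N) : G) / χ.1 1 = 1
          rw [Subgroup.coe_one, div_self (hχ1 χ)]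
        map_mul' := fun n m => hωmul χ n m }
    have hirr : IsIrrCharacter N (fun n : N => χ.1 n / χ.1 1) := by
      have := isIrrCharacter_of_hom f0.toHomUnits
      exact this
    have hin : classInner (fun n : N => χ.1 n / χ.1 1) ψ.1 ≠ 0 := by
      have : classInner (fun n : N => χ.1 n / χ.1 1) ψ.1 = a χ := by rw [ha χ]; rfl
      rw [this, h1]; exact one_ne_zero
    have := irr_eq_of_inner_ne_zero (χ := ⟨_, hirr⟩) (ψ := ψ) hin
    exact congrFun (congrArg Subtype.val this) n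
  -- vanishing at non-special elements
  have hvan : ∀ (χ : IrrCharacter G) (g : G), a χ = 1 → ¬ IsSpecialElt N g → χ.1 g = 0 := by
    intro χ g h1 hg
    unfold IsSpecialElt at hg
    push_neg at hg
    obtain ⟨x, hxN, hxg⟩ := hg
    have hm1 : (⟨x⁻¹ * g⁻¹ * x * g, hxN⟩ : N) ≠ 1 := by
      intro h
      have h2 : x⁻¹ * g⁻¹ * x * g = 1 := congrArg Subtype.val h
      apply hxg
      calc x * g = g * x * (x⁻¹ * g⁻¹ * x * g) := by group
        _ = g * x := by rw [h2, mul_one]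
    have hcl := isClassFunction_irr χ
    have h3 : x * g * x⁻¹ = (x⁻¹ * g⁻¹ * x * g) * g := by
      have hc := hcen ⟨x⁻¹ * g⁻¹ * x * g, hxN⟩ g
      have hc' : g * (x⁻¹ * g⁻¹ * x * g) = (x⁻¹ * g⁻¹ * x * g) * g := hc
      rw [← hc']
      have hc2 := hcen ⟨x⁻¹ * g⁻¹ * x * g, hxN⟩ x
      have hc2' : x * (x⁻¹ * g⁻¹ * x * g) = (x⁻¹ * g⁻¹ * x * g) * x := hc2
      calc x * g * x⁻¹ = g * (x * (x⁻¹ * g⁻¹ * x * g)) * x⁻¹ := by group
        _ = g * ((x⁻¹ * g⁻¹ * x * g) * x) * x⁻¹ := by rw [hc2']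
        _ = g * (x⁻¹ * g⁻¹ * x * g) := by group
    have h4 : χ.1 g = ψ.1 ⟨x⁻¹ * g⁻¹ * x * g, hxN⟩ * χ.1 g := by
      have h5 := hcl g x
      rw [h3] at h5
      have h6 := hω χ ⟨x⁻¹ * g⁻¹ * x * g, hxN⟩ g
      rw [hωψ χ h1] at h6
      rw [← h6]
      exact h5.symm
    have h7 : ψ.1 ⟨x⁻¹ * g⁻¹ * x * g, hxN⟩ ≠ 1 := by
      intro h
      apply hm1
      apply hfaith
      rw [h, hψ1]
    have h8 : (1 - ψ.1 ⟨x⁻¹ * g⁻¹ * x * g, hxN⟩) * χ.1 g = 0 := by
      rw [sub_mul, one_mul, ← h4, sub_self]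
    rcases mul_eq_zero.mp h8 with h9 | h9
    · exact absurd (sub_eq_zero.mp h9).symm h7
    · exact h9
  -- relative orthogonality at special elements
  have hrel : ∀ g : G, IsSpecialElt N g → ∑ χ : IrrCharacter G, a χ * (χ.1 g * conj (χ.1 g))
      = (Nat.card (Subgroup.centralizer ({g} : Set G)) : ℂ) / (Nat.card N : ℂ) := by
    intro g hg
    have h1 : ∀ χ : IrrCharacter G, a χ * (χ.1 g * conj (χ.1 g))
        = (Nat.card N : ℂ)⁻¹ * ∑ n : N, conj (ψ.1 n) * (χ.1 ((n : G) * g) * conj (χ.1 g)) := by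
      intro χ
      rw [ha χ, mul_assoc, Finset.sum_mul]
      congr 1
      apply Finset.sum_congr rfl
      intro n _
      rw [hω χ n g]; ring
    rw [Finset.sum_congr rfl (fun χ _ => h1 χ), ← Finset.mul_sum, Finset.sum_comm]
    have h2 : ∀ n : N, ∑ χ : IrrCharacter G, conj (ψ.1 n) * (χ.1 ((n : G) * g) * conj (χ.1 g))
        = conj (ψ.1 n) * (Nat.card {t : G // t * g * t⁻¹ = (n : G) * g} : ℂ) := by
      intro n
      rw [← Finset.mul_sum, second_orth_count g ((n : G) * g)]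
    rw [Finset.sum_congr rfl (fun n _ => h2 n)]
    rw [Finset.sum_eq_single (1 : N)]
    · rw [hψ1, map_one, one_mul]
      have h3 : Nat.card {t : G // t * g * t⁻¹ = ((1 : N) : G) * g}
          = Nat.card (Subgroup.centralizer ({g} : Set G)) := by
        apply Nat.card_congr
        apply Equiv.subtypeEquivRight
        intro t
        rw [Subgroup.coe_one, one_mul, Subgroup.mem_centralizer_iff]
        constructor
        · intro h y hy
          rw [Set.mem_singleton_iff] at hy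
          rw [hy]
          calc g * t = (t * g * t⁻¹) * t := by rw [h]
            _ = t * g := by group
        · intro h
          have := h g rfl
          calc t * g * t⁻¹ = (g * t) * t⁻¹ := by rw [this]
            _ = g := by group
      rw [h3]; field_simp
    · intro n _ hn1
      have hempty : IsEmpty {t : G // t * g * t⁻¹ = (n : G) * g} := by
        constructor
        rintro ⟨t, ht⟩
        apply hn1
        have hc := hcen n
        have h4 : t⁻¹ * g⁻¹ * t * g = (n : G) := by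
          have h5 : t * g = (n : G) * g * t := by
            calc t * g = (t * g * t⁻¹) * t := by group
              _ = (n : G) * g * t := by rw [ht]
          calc t⁻¹ * g⁻¹ * t * g = t⁻¹ * g⁻¹ * (t * g) := by group
            _ = t⁻¹ * g⁻¹ * ((n : G) * g * t) := by rw [h5]
            _ = t⁻¹ * g⁻¹ * ((n : G) * (g * t)) := by group
            _ = t⁻¹ * g⁻¹ * ((g * t) * (n : G)) := by rw [hc (g * t)]
            _ = (n : G) := by group
        have h6 : t * g = g * t := hg t (by rw [h4]; exact n.2)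
        have h7 : (n : G) * g = g := by
          rw [← ht, h6]; group
        apply Subtype.ext
        rw [Subgroup.coe_one]
        exact mul_eq_right.mp h7
      rw [Nat.card_of_isEmpty, Nat.cast_zero, mul_zero]
    · intro h; exact absurd (Finset.mem_univ _) h
  -- double counting
  have hnorm : ∀ χ : IrrCharacter G, ∑ g : G, χ.1 g * conj (χ.1 g) = (Nat.card G : ℂ) := by
    intro χ
    have h := irr_inner_self χ
    unfold classInner at h
    have hG : (Nat.card G : ℂ) ≠ 0 := Nat.cast_ne_zero.mpr Nat.card_pos.ne'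
    field_simp at h
    exact h
  have hI : (Nat.card G : ℂ) * (Nat.card {χ : IrrCharacter G //
      classInner (fun n : N => χ.1 n) ψ.1 ≠ 0} : ℂ)
      = ∑ g : G, (if IsSpecialElt N g then
          (Nat.card (Subgroup.centralizer ({g} : Set G)) : ℂ) / (Nat.card N : ℂ) else 0) := by
    have h1 : ∀ g : G, (if IsSpecialElt N g then
          (Nat.card (Subgroup.centralizer ({g} : Set G)) : ℂ) / (Nat.card N : ℂ) else 0)
        = ∑ χ : IrrCharacter G, a χ * (χ.1 g * conj (χ.1 g)) := by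
      intro g
      by_cases hg : IsSpecialElt N g
      · rw [if_pos hg, hrel g hg]
      · rw [if_neg hg]
        symm
        apply Finset.sum_eq_zero
        intro χ _
        rcases ha01 χ with h0 | h1
        · rw [h0, zero_mul]
        · rw [hvan χ g h1 hg, zero_mul, mul_zero]
    rw [Finset.sum_congr rfl (fun g _ => h1 g), Finset.sum_comm]
    have h2 : ∀ χ : IrrCharacter G, ∑ g : G, a χ * (χ.1 g * conj (χ.1 g))
        = (Nat.card G : ℂ) * (if classInner (fun n : N => χ.1 n) ψ.1 ≠ 0 then 1 else 0) := by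
      intro χ
      rw [← Finset.mul_sum, hnorm χ]
      by_cases h : classInner (fun n : N => χ.1 n) ψ.1 ≠ 0
      · rw [if_pos h, (hover χ).mp h]; ring
      · rw [if_neg h]
        rcases ha01 χ with h0 | h1
        · rw [h0]; ring
        · exact absurd ((hover χ).mpr h1) h
    rw [Finset.sum_congr rfl (fun χ _ => h2 χ), ← Finset.mul_sum]
    congr 1
    rw [Finset.sum_boole, Nat.card_eq_fintype_card, Fintype.card_subtype]
  -- quotient side
  obtain ⟨SpQ, hSpQ⟩ : ∃ SpQ : G ⧸ N → Prop, ∀ q, SpQ q ↔ ∃ g : G, (g : G ⧸ N) = q ∧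
      IsSpecialElt N g := ⟨_, fun _ => Iff.rfl⟩
  have hSpQmk : ∀ g : G, SpQ (g : G ⧸ N) ↔ IsSpecialElt N g := by
    intro g
    rw [hSpQ]
    constructor
    · rintro ⟨g', hg', hs⟩
      rw [QuotientGroup.eq] at hg'
      have := isSpecialElt_mul N hN hs hg'
      rwa [mul_inv_cancel_left] at this
    · intro h; exact ⟨g, rfl, h⟩
  have hSpQconj : ∀ q q' : G ⧸ N, IsConj q q' → (SpQ q ↔ SpQ q') := by
    have key : ∀ q q' : G ⧸ N, IsConj q q' → SpQ q → SpQ q' := by
      intro q q' hc hq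
      rw [isConj_iff] at hc
      obtain ⟨c, hc⟩ := hc
      obtain ⟨y, rfl⟩ := QuotientGroup.mk_surjective c
      obtain ⟨g, rfl⟩ := QuotientGroup.mk_surjective q
      rw [hSpQmk] at hq
      rw [← hc]
      have : ((y : G ⧸ N) * (g : G ⧸ N) * (y : G ⧸ N)⁻¹) = ((y * g * y⁻¹ : G) : G ⧸ N) := rfl
      rw [this, hSpQmk]
      exact isSpecialElt_conj N hq y
    intro q q' hc
    exact ⟨key q q' hc, key q' q hc.symm⟩
  have hcent : ∀ g : G, IsSpecialElt N g →
      (Nat.card (Subgroup.centralizer ({g} : Set G)) : ℂ) / (Nat.card N : ℂ)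
        = (Nat.card (Subgroup.centralizer ({(g : G ⧸ N)} : Set (G ⧸ N))) : ℂ) := by
    intro g hg
    have hcomap : (Subgroup.centralizer ({(g : G ⧸ N)} : Set (G ⧸ N))).comap (QuotientGroup.mk' N)
        = Subgroup.centralizer ({g} : Set G) := by
      ext x
      rw [Subgroup.mem_comap, Subgroup.mem_centralizer_iff, Subgroup.mem_centralizer_iff]
      constructor
      · intro h y hy
        rw [Set.mem_singleton_iff] at hy
        rw [hy]
        have h1 := h (g : G ⧸ N) rfl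
        have h2 : ((g * x : G) : G ⧸ N) = ((x * g : G) : G ⧸ N) := h1
        rw [QuotientGroup.eq] at h2
        have h3 : x⁻¹ * g⁻¹ * x * g ∈ N := by
          have : (g * x)⁻¹ * (x * g) = x⁻¹ * g⁻¹ * x * g := by group
          rwa [this] at h2
        exact (hg x h3).symm
      · intro h y hy
        rw [Set.mem_singleton_iff] at hy
        rw [hy]
        have := h g rfl
        show ((g : G ⧸ N) * (x : G ⧸ N)) = (x : G ⧸ N) * (g : G ⧸ N)
        have h2 : ((g * x : G) : G ⧸ N) = ((x * g : G) : G ⧸ N) := by rw [this]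
        exact h2
    have hidx := Subgroup.index_comap_of_surjective
      (Subgroup.centralizer ({(g : G ⧸ N)} : Set (G ⧸ N))) (QuotientGroup.mk'_surjective N)
    rw [hcomap] at hidx
    have e1 := Subgroup.card_mul_index (Subgroup.centralizer ({g} : Set G))
    have e2 := Subgroup.card_mul_index (Subgroup.centralizer ({(g : G ⧸ N)} : Set (G ⧸ N)))
    have e3 : Nat.card G = Nat.card (G ⧸ N) * Nat.card N :=
      Subgroup.card_eq_card_quotient_mul_card_subgroup N
    rw [hidx] at e1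
    have hidx0 : (Subgroup.centralizer ({(g : G ⧸ N)} : Set (G ⧸ N))).index ≠ 0 :=
      Subgroup.index_ne_zero_of_finite
    have e4 : Nat.card (Subgroup.centralizer ({g} : Set G))
        = Nat.card (Subgroup.centralizer ({(g : G ⧸ N)} : Set (G ⧸ N))) * Nat.card N := by
      apply Nat.eq_of_mul_eq_mul_right (Nat.pos_of_ne_zero hidx0)
      rw [e1, e3, ← e2]; ring
    rw [e4, Nat.cast_mul]
    field_simp
  have hII : ∑ g : G, (if IsSpecialElt N g then
          (Nat.card (Subgroup.centralizer ({g} : Set G)) : ℂ) / (Nat.card N : ℂ) else 0)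
      = (Nat.card N : ℂ) * ((Nat.card (G ⧸ N) : ℂ) *
          (Nat.card {C : ConjClasses (G ⧸ N) // ∀ q : G ⧸ N, ConjClasses.mk q = C → SpQ q} : ℂ)) := by
    rw [← sum_centralizer_eq SpQ hSpQconj, ← sum_comp_quot_mk N
      (fun q => if SpQ q then (Nat.card (Subgroup.centralizer ({q} : Set (G ⧸ N))) : ℂ) else 0)]
    apply Finset.sum_congr rfl
    intro g _
    by_cases hg : IsSpecialElt N g
    · rw [if_pos hg, if_pos ((hSpQmk g).mpr hg), hcent g hg]
    · rw [if_neg hg, if_neg (fun h => hg ((hSpQmk g).mp h))]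
  have hcongr : Nat.card {C : ConjClasses (G ⧸ N) // ∀ q : G ⧸ N, ConjClasses.mk q = C → SpQ q}
      = Nat.card {C : ConjClasses (G ⧸ N) // ∃ g : G, ConjClasses.mk (g : G ⧸ N) = C ∧
          ∀ x : G, x⁻¹ * g⁻¹ * x * g ∈ N → x * g = g * x} := by
    apply Nat.card_congr
    apply Equiv.subtypeEquivRight
    intro C
    constructor
    · intro h
      obtain ⟨q, rfl⟩ := ConjClasses.mk_surjective C
      obtain ⟨g, rfl⟩ := QuotientGroup.mk_surjective q
      exact ⟨g, rfl, (hSpQmk g).mp (h _ rfl)⟩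
    · rintro ⟨g, rfl, hg⟩ q hq
      have hc : IsConj (g : G ⧸ N) q := (ConjClasses.mk_eq_mk_iff_isConj.mp hq).symm
      exact (hSpQconj _ _ hc).mp ((hSpQmk g).mpr hg)
  rw [← hcongr]
  have e3 : (Nat.card G : ℂ) = (Nat.card (G ⧸ N) : ℂ) * (Nat.card N : ℂ) := by
    rw [← Nat.cast_mul, ← Subgroup.card_eq_card_quotient_mul_card_subgroup N]
  have hG : (Nat.card G : ℂ) ≠ 0 := Nat.cast_ne_zero.mpr Nat.card_pos.ne'
  have hfin : (Nat.card G : ℂ) * (Nat.card {χ : IrrCharacter G //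
      classInner (fun n : N => χ.1 n) ψ.1 ≠ 0} : ℂ)
      = (Nat.card G : ℂ) * (Nat.card {C : ConjClasses (G ⧸ N) //
          ∀ q : G ⧸ N, ConjClasses.mk q = C → SpQ q} : ℂ) := by
    rw [hI, hII, e3]; ring
  exact Nat.cast_injective (mul_left_cancel₀ hG hfin)

end Cfsg.Agent.Lib.helper24
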